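import Cfsg.Agent.Lib.H6.SmallIsoA
import Cfsg.Agent.Lib.H60.Ord60

set_option autoImplicit false

/-! `PSL₂(4)`: involutions commuting with a given one versus all involutions. -/

namespace H66.BB4P2

open Matrix

theorem a5_count : ∀ t : alternatingGroup (Fin 5), t ≠ 1 → t * t = 1 →
    3 * (Finset.univ.filter (fun s : alternatingGroup (Fin 5) => s ≠ 1 ∧ s * s = 1 ∧ s ≠ t ∧ s * t = t * s)).card ^ 2 ≤
      4 * (Finset.univ.filter (fun s : alternatingGroup (Fin 5) => s ≠ 1 ∧ s * s = 1)).card := by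
  decide +kernel

theorem iso_A5 {F : Type*} [Field F] [Fintype F] (h4 : Fintype.card F = 4) :
    Nonempty (Matrix.ProjectiveSpecialLinearGroup (Fin 2) F ≃* alternatingGroup (Fin 5)) := by
  have hs : IsSimpleGroup (ProjectiveSpecialLinearGroup (Fin 2) F) :=
    ProjectiveSpecialLinearGroup.rank_two_simple (by rw [Nat.card_eq_fintype_card, h4])
  have : Finite (ProjectiveSpecialLinearGroup (Fin 2) F) := inferInstanceAs (Finite (_ ⧸ _))
  have hc := H6.SmallIsoA.card_psl2 (F := F)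
  rw [h4] at hc
  have hc' : Nat.card (ProjectiveSpecialLinearGroup (Fin 2) F) = 60 := by
    norm_num at hc
    omega
  exact H60.Ord60.iso_alt5 hc'

theorem psl_le4 {F : Type} [Field F] [Fintype F] (h4 : Fintype.card F = 4)
    (t : Matrix.ProjectiveSpecialLinearGroup (Fin 2) F) (h1 : t ≠ 1) (h2 : t * t = 1) :
    3 * Nat.card {s : Matrix.ProjectiveSpecialLinearGroup (Fin 2) F // s ≠ 1 ∧ s * s = 1 ∧ s ≠ t ∧ s * t = t * s} ^ 2 ≤
      4 * Nat.card {s : Matrix.ProjectiveSpecialLinearGroup (Fin 2) F // s ≠ 1 ∧ s * s = 1} := by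
  classical
  obtain ⟨e⟩ := iso_A5 h4
  have ht1 : e t ≠ 1 := by
    intro h
    exact h1 (e.injective (by rw [h, map_one]))
  have ht2 : e t * e t = 1 := by rw [← map_mul, h2, map_one]
  have key := a5_count (e t) ht1 ht2
  have hne : ∀ s : Matrix.ProjectiveSpecialLinearGroup (Fin 2) F, s ≠ 1 ↔ e s ≠ 1 := by
    intro s
    rw [not_iff_not]
    exact (map_eq_one_iff e e.injective).symm
  have hsq : ∀ s : Matrix.ProjectiveSpecialLinearGroup (Fin 2) F, s * s = 1 ↔ e s * e s = 1 := by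
    intro s
    rw [← map_mul]
    exact (map_eq_one_iff e e.injective).symm
  have hnt : ∀ s : Matrix.ProjectiveSpecialLinearGroup (Fin 2) F, s ≠ t ↔ e s ≠ e t := by
    intro s
    rw [not_iff_not]
    exact e.injective.eq_iff.symm
  have hcm : ∀ s : Matrix.ProjectiveSpecialLinearGroup (Fin 2) F, s * t = t * s ↔ e s * e t = e t * e s := by
    intro s
    rw [← map_mul, ← map_mul]
    exact e.injective.eq_iff.symm
  have hA : Nat.card {s : Matrix.ProjectiveSpecialLinearGroup (Fin 2) F // s ≠ 1 ∧ s * s = 1 ∧ s ≠ t ∧ s * t = t * s} =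
      (Finset.univ.filter (fun s : alternatingGroup (Fin 5) => s ≠ 1 ∧ s * s = 1 ∧ s ≠ e t ∧ s * e t = e t * s)).card := by
    rw [Nat.card_congr (e.toEquiv.subtypeEquiv (q := fun s : alternatingGroup (Fin 5) =>
      s ≠ 1 ∧ s * s = 1 ∧ s ≠ e t ∧ s * e t = e t * s) (fun s => by
        show _ ↔ (e s ≠ 1 ∧ e s * e s = 1 ∧ e s ≠ e t ∧ e s * e t = e t * e s)
        rw [hne s, hsq s, hnt s, hcm s])), Nat.card_eq_fintype_card, Fintype.card_subtype]
  have hB : Nat.card {s : Matrix.ProjectiveSpecialLinearGroup (Fin 2) F // s ≠ 1 ∧ s * s = 1} =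
      (Finset.univ.filter (fun s : alternatingGroup (Fin 5) => s ≠ 1 ∧ s * s = 1)).card := by
    rw [Nat.card_congr (e.toEquiv.subtypeEquiv (q := fun s : alternatingGroup (Fin 5) =>
      s ≠ 1 ∧ s * s = 1) (fun s => by
        show _ ↔ (e s ≠ 1 ∧ e s * e s = 1)
        rw [hne s, hsq s])), Nat.card_eq_fintype_card, Fintype.card_subtype]
  rw [hA, hB]
  convert key using 4

end H66.BB4P2
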