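import Mathlib
import Cfsg.Agent.Lib.H1.SZ

/-!
Complements of a normal Hall subgroup inside a normal subgroup and the Frattini argument.
-/

set_option autoImplicit false

open Subgroup
open scoped Pointwise

namespace H66.CopFrattini

variable {G : Type*} [Group G] [Finite G]

/-- `R ≤ K` normal in `G`, `|R|` prime to `|K : R|`, `R` solvable: there is a complement `L` of `R` in `K`, and
`G = R N_G(L)`. -/
theorem exists_compl (R K : Subgroup G) [R.Normal] [K.Normal] (hRK : R ≤ K)
    (hcop : (Nat.card R).Coprime (R.relIndex K)) (hs : Group.IsSolvable R) :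
    ∃ L : Subgroup G, L ≤ K ∧ R ⊓ L = ⊥ ∧ R ⊔ L = K ∧ Nat.card L = R.relIndex K ∧
      R ⊔ normalizer (L : Set G) = ⊤ := by
  have hcard : Nat.card (R.subgroupOf K) = Nat.card R :=
    Nat.card_congr (Subgroup.subgroupOfEquivOfLe hRK).toEquiv
  obtain ⟨H, hH⟩ := Subgroup.exists_right_complement'_of_coprime (N := R.subgroupOf K)
    (by rw [hcard]; exact hcop)
  set L := H.map K.subtype with hL
  have hLK : L ≤ K := Subgroup.map_subtype_le _
  have hLc : Nat.card L = R.relIndex K := by
    rw [hL, Subgroup.card_map_of_injective K.subtype_injective]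
    have h1 := hH.card_mul_card
    rw [← Subgroup.card_mul_index (R.subgroupOf K)] at h1
    exact Nat.eq_of_mul_eq_mul_left Nat.card_pos h1
  refine ⟨L, hLK, ?_, ?_, hLc, ?_⟩
  · have h1 := hH.disjoint
    rw [disjoint_iff] at h1
    rw [eq_bot_iff]
    rintro x ⟨hx1, y, hy, rfl⟩
    have h2 : y ∈ R.subgroupOf K ⊓ H := ⟨hx1, hy⟩
    rw [h1, Subgroup.mem_bot] at h2
    rw [h2]; simp
  · have h1 := hH.sup_eq_top
    have h2 := congrArg (Subgroup.map K.subtype) h1
    rw [Subgroup.map_sup, Subgroup.map_subgroupOf_eq_of_le hRK, ← MonoidHom.range_eq_map,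
      Subgroup.range_subtype] at h2
    exact h2
  · rw [eq_top_iff]
    rintro g -
    have hL'K : MulAut.conj g • L ≤ K := by
      intro x hx
      rw [H1.SZ.mem_conj_smul] at hx
      have := (inferInstance : K.Normal).conj_mem _ (hLK hx) g
      simpa [mul_assoc] using this
    obtain ⟨r, hr, h⟩ := H1.SZ.conj_of_card_rel K R hRK
      (by rw [Subgroup.normalizer_eq_top]; exact le_top) hcop (Or.inl hs)
      (MulAut.conj g • L) L hL'K hLK (by rw [H1.SZ.card_conj_smul, hLc]) hLc
    rw [← H1.SZ.conj_mul_smul] at h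
    have h1 := H1.SZ.mem_normalizer_of_conj_smul_eq h
    have h2 : g = r⁻¹ * (r * g) := by group
    rw [h2]
    exact Subgroup.mul_mem_sup (inv_mem hr) h1

/-- `|R ⊔ N| = |R| |N|` for `R` normal meeting `N` trivially. -/
theorem card_normal_sup (R N : Subgroup G) [R.Normal] (h : R ⊓ N = ⊥) :
    Nat.card (R ⊔ N : Subgroup G) = Nat.card R * Nat.card N := by
  have h1 : Nat.card R * R.relIndex (R ⊔ N) = Nat.card ↥(R ⊔ N) := by
    have := Subgroup.relIndex_mul_relIndex (⊥ : Subgroup G) R (R ⊔ N) bot_le le_sup_left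
    rwa [Subgroup.relIndex_bot_left, Subgroup.relIndex_bot_left] at this
  rw [Subgroup.relIndex_sup_left, ← Subgroup.inf_relIndex_right, h, Subgroup.relIndex_bot_left] at h1
  exact h1.symm

end H66.CopFrattini
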