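import Mathlib

/-!
The graded Lie ring associated with a strongly central filtration of a group.
-/

set_option autoImplicit false

open scoped commutatorElement DirectSum

namespace H66.GrLie

variable {G : Type*} [Group G]

/-- a strongly central filtration, indexed by `ℕ` with `F 0 = F 1 = ⊤`. -/
structure Filt (F : ℕ → Subgroup G) : Prop where
  zero : F 0 = ⊤
  one : F 1 = ⊤
  anti : ∀ i, F (i + 1) ≤ F i
  comm : ∀ i j, ∀ x ∈ F i, ∀ y ∈ F j, ⁅x, y⁆ ∈ F (i + j)

variable {F : ℕ → Subgroup G} (hF : Filt F)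

include hF in
theorem Filt.comm_any (m : ℕ) (g : G) {x : G} (hx : x ∈ F m) : ⁅g, x⁆ ∈ F (m + 1) := by
  have := hF.comm 1 m g (by rw [hF.one]; trivial) x hx
  rwa [add_comm] at this

include hF in
theorem Filt.comm_any' (m : ℕ) (g : G) {x : G} (hx : x ∈ F m) : ⁅x, g⁆ ∈ F (m + 1) := by
  rw [← commutatorElement_inv]
  exact inv_mem (hF.comm_any m g hx)

include hF in
theorem Filt.normal (i : ℕ) : (F i).Normal := by
  constructor
  intro n hn g
  have h1 := hF.anti i (hF.comm_any i g hn)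
  have h2 := mul_mem h1 hn
  rwa [commutatorElement_def, inv_mul_cancel_right] at h2

/-- the factors of the filtration -/
def Q (_ : Filt F) (i : ℕ) : Type _ := ↥(F i) ⧸ ((F (i + 1)).subgroupOf (F i))

noncomputable instance instGroup (i : ℕ) : Group (Q hF i) :=
  haveI := hF.normal (i + 1)
  inferInstanceAs (Group (↥(F i) ⧸ ((F (i + 1)).subgroupOf (F i))))

/-- class of an element -/
def cl (i : ℕ) (x : F i) : Q hF i := QuotientGroup.mk x

theorem cl_surjective (i : ℕ) (a : Q hF i) : ∃ x : F i, cl hF i x = a := by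
  obtain ⟨x, hx⟩ := QuotientGroup.mk_surjective a
  exact ⟨x, hx⟩

theorem cl_mul (i : ℕ) (x y : F i) : cl hF i (x * y) = cl hF i x * cl hF i y := rfl

theorem cl_one (i : ℕ) : cl hF i 1 = 1 := rfl

theorem cl_inv (i : ℕ) (x : F i) : cl hF i x⁻¹ = (cl hF i x)⁻¹ := rfl

theorem cl_eq_iff (i : ℕ) (x y : F i) : cl hF i x = cl hF i y ↔ (x : G)⁻¹ * y ∈ F (i + 1) := by
  have : cl hF i x = cl hF i y ↔ x⁻¹ * y ∈ (F (i + 1)).subgroupOf (F i) := by
    unfold cl
    exact QuotientGroup.eq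
  rw [this]; rfl

theorem cl_eq_one_iff (i : ℕ) (x : F i) : cl hF i x = 1 ↔ (x : G) ∈ F (i + 1) := by
  rw [← cl_one, eq_comm, cl_eq_iff]
  simp

noncomputable instance instCommGroup (i : ℕ) : CommGroup (Q hF i) :=
  { instGroup hF i with
    mul_comm := by
      intro a b
      obtain ⟨x, rfl⟩ := cl_surjective hF i a
      obtain ⟨y, rfl⟩ := cl_surjective hF i b
      rw [← cl_mul, ← cl_mul, cl_eq_iff]
      have h1 := hF.comm_any' i ((y : G)⁻¹) (inv_mem x.2)
      have h2 : ((x * y : F i) : G)⁻¹ * ((y * x : F i) : G) = ⁅(y : G)⁻¹, (x : G)⁻¹⁆ := by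
        rw [commutatorElement_def]; push_cast; group
      rw [h2]
      exact hF.comm_any i _ (inv_mem x.2) }

/-- the bracket on the factors, as a function -/
noncomputable def b (i j : ℕ) (a : Q hF i) (c : Q hF j) : Q hF (i + j) :=
  Quotient.liftOn₂' a c (fun x y => cl hF (i + j) ⟨⁅(x : G), (y : G)⁆, hF.comm i j x x.2 y y.2⟩) (by
    intro x y x' y' hx hy
    have hx0 : x⁻¹ * x' ∈ (F (i + 1)).subgroupOf (F i) := QuotientGroup.leftRel_apply.mp hx
    have hy0 : y⁻¹ * y' ∈ (F (j + 1)).subgroupOf (F j) := QuotientGroup.leftRel_apply.mp hy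
    have hx' : (x : G)⁻¹ * x' ∈ F (i + 1) := hx0
    have hy' : (y : G)⁻¹ * y' ∈ F (j + 1) := hy0
    rw [cl_eq_iff]
    set u := (x : G)⁻¹ * x' with hu
    set v := (y : G)⁻¹ * y' with hv
    have ex : (x' : G) = x * u := by rw [hu]; group
    have ey : (y' : G) = y * v := by rw [hv]; group
    change ⁅(x : G), (y : G)⁆⁻¹ * ⁅(x' : G), (y' : G)⁆ ∈ F (i + j + 1)
    rw [ex, ey]
    have hn := hF.normal (i + j + 1)
    -- [xu, yv] = x [u, yv] x⁻¹ [x, yv] ; [x, yv] = [x,y] y [x,v] y⁻¹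
    have e : ⁅(x : G), (y : G)⁆⁻¹ * ⁅(x : G) * u, (y : G) * v⁆ =
        (⁅(x : G), (y : G)⁆⁻¹ * (x * ⁅u, (y : G) * v⁆ * (x : G)⁻¹) * (⁅(x : G), (y : G)⁆⁻¹)⁻¹) *
          (y * ⁅(x : G), v⁆ * (y : G)⁻¹) := by
      simp only [commutatorElement_def]; group
    rw [e]
    apply mul_mem
    · apply hn.conj_mem
      apply hn.conj_mem
      have hyv : (y : G) * v ∈ F j := by rw [← ey]; exact y'.2
      have := hF.comm (i + 1) j u hx' _ hyv
      rwa [show i + 1 + j = i + j + 1 by ring] at this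
    · apply hn.conj_mem
      have := hF.comm i (j + 1) x x.2 v hy'
      rwa [show i + (j + 1) = i + j + 1 by ring] at this)

theorem b_cl (i j : ℕ) (x : F i) (y : F j) :
    b hF i j (cl hF i x) (cl hF j y) = cl hF (i + j) ⟨⁅(x : G), (y : G)⁆, hF.comm i j x x.2 y y.2⟩ := rfl

theorem b_mul_left (i j : ℕ) (a a' : Q hF i) (c : Q hF j) :
    b hF i j (a * a') c = b hF i j a c * b hF i j a' c := by
  obtain ⟨x, rfl⟩ := cl_surjective hF i a
  obtain ⟨x', rfl⟩ := cl_surjective hF i a'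
  obtain ⟨y, rfl⟩ := cl_surjective hF j c
  rw [← cl_mul, b_cl, b_cl, b_cl, mul_comm (cl hF (i + j) _), ← cl_mul, cl_eq_iff]
  change ⁅(x : G) * x', (y : G)⁆⁻¹ * (⁅(x' : G), (y : G)⁆ * ⁅(x : G), (y : G)⁆) ∈ F (i + j + 1)
  have hn := hF.normal (i + j + 1)
  -- [x x', y] = x [x', y] x⁻¹ [x, y]
  have e : ⁅(x : G) * x', (y : G)⁆⁻¹ * (⁅(x' : G), (y : G)⁆ * ⁅(x : G), (y : G)⁆) =
      ⁅(x : G), (y : G)⁆⁻¹ * (⁅(x : G), ⁅(x' : G), (y : G)⁆⁻¹⁆) * (⁅(x : G), (y : G)⁆⁻¹)⁻¹ := by
    simp only [commutatorElement_def]; group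
  rw [e]
  apply hn.conj_mem
  exact hF.comm_any (i + j) _ (inv_mem (hF.comm i j x' x'.2 y y.2))

theorem b_mul_right (i j : ℕ) (a : Q hF i) (c c' : Q hF j) :
    b hF i j a (c * c') = b hF i j a c * b hF i j a c' := by
  obtain ⟨x, rfl⟩ := cl_surjective hF i a
  obtain ⟨y, rfl⟩ := cl_surjective hF j c
  obtain ⟨y', rfl⟩ := cl_surjective hF j c'
  rw [← cl_mul, b_cl, b_cl, b_cl, ← cl_mul, cl_eq_iff]
  change ⁅(x : G), (y : G) * y'⁆⁻¹ * (⁅(x : G), (y : G)⁆ * ⁅(x : G), (y' : G)⁆) ∈ F (i + j + 1)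
  have hn := hF.normal (i + j + 1)
  -- [x, y y'] = [x, y] y [x, y'] y⁻¹
  have e : ⁅(x : G), (y : G) * y'⁆⁻¹ * (⁅(x : G), (y : G)⁆ * ⁅(x : G), (y' : G)⁆) =
      ⁅(y : G), ⁅(x : G), (y' : G)⁆⁻¹⁆ := by
    simp only [commutatorElement_def]; group
  rw [e]
  exact hF.comm_any (i + j) _ (inv_mem (hF.comm i j x x.2 y' y'.2))

/-- additive version of the factors -/
abbrev A (i : ℕ) : Type _ := Additive (Q hF i)

/-- the bracket on the additive factors -/
noncomputable def br (i j : ℕ) : A hF i →+ A hF j →+ A hF (i + j) :=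
  AddMonoidHom.mk' (fun a => AddMonoidHom.mk' (fun c => Additive.ofMul (b hF i j (Additive.toMul a) (Additive.toMul c)))
    (fun c c' => by
      change Additive.ofMul (b hF i j (Additive.toMul a) (Additive.toMul c * Additive.toMul c')) = _
      rw [b_mul_right]; rfl))
    (fun a a' => by
      ext c
      change Additive.ofMul (b hF i j (Additive.toMul a * Additive.toMul a') (Additive.toMul c)) = _
      rw [b_mul_left]; rfl)

/-- the underlying additive group of the associated Lie ring -/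
abbrev L : Type _ := ⨁ i, A hF i

/-- inclusion of a factor -/
noncomputable def ι (i : ℕ) : A hF i →+ L hF := DirectSum.of (fun i => A hF i) i

/-- the bracket as a bi-additive map -/
noncomputable def Br : L hF →+ L hF →+ L hF :=
  DirectSum.toAddMonoid (fun i => AddMonoidHom.flip (DirectSum.toAddMonoid (fun j =>
    AddMonoidHom.flip (AddMonoidHom.mk' (fun a => (ι hF (i + j)).comp (br hF i j a)) (fun a a' => by
      ext c; simp)))))

theorem Br_ι (i j : ℕ) (a : A hF i) (c : A hF j) :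
    Br hF (ι hF i a) (ι hF j c) = ι hF (i + j) (br hF i j a c) := by
  unfold Br ι
  rw [DirectSum.toAddMonoid_of, AddMonoidHom.flip_apply, DirectSum.toAddMonoid_of]
  rfl

open Classical in
/-- homogeneous elements -/
noncomputable def e (i : ℕ) (x : G) : L hF :=
  if h : x ∈ F i then ι hF i (Additive.ofMul (cl hF i ⟨x, h⟩)) else 0

theorem e_of_mem (i : ℕ) {x : G} (h : x ∈ F i) : e hF i x = ι hF i (Additive.ofMul (cl hF i ⟨x, h⟩)) := by
  rw [e, dif_pos h]

theorem e_mul (i : ℕ) {x y : G} (hx : x ∈ F i) (hy : y ∈ F i) : e hF i (x * y) = e hF i x + e hF i y := by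
  rw [e_of_mem hF i hx, e_of_mem hF i hy, e_of_mem hF i (mul_mem hx hy), ← map_add]
  rfl

theorem e_one (i : ℕ) : e hF i 1 = 0 := by
  rw [e_of_mem hF i (one_mem _)]
  have : cl hF i ⟨1, one_mem _⟩ = 1 := rfl
  rw [this]
  exact map_zero _

theorem e_inv (i : ℕ) {x : G} (hx : x ∈ F i) : e hF i x⁻¹ = -e hF i x := by
  have h := e_mul hF i hx (inv_mem hx)
  rw [mul_inv_cancel, e_one] at h
  exact (neg_eq_of_add_eq_zero_right h.symm).symm

theorem e_eq_zero_iff (i : ℕ) {x : G} (hx : x ∈ F i) : e hF i x = 0 ↔ x ∈ F (i + 1) := by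
  rw [e_of_mem hF i hx]
  constructor
  · intro h
    have h1 : (Additive.ofMul (cl hF i ⟨x, hx⟩)) = 0 := by
      apply DirectSum.of_injective i (β := fun i => A hF i)
      rw [map_zero]; exact h
    have h2 : cl hF i ⟨x, hx⟩ = 1 := h1
    rwa [cl_eq_one_iff] at h2
  · intro h
    have h2 : cl hF i ⟨x, hx⟩ = 1 := by rw [cl_eq_one_iff]; exact h
    rw [h2]; exact map_zero _

theorem e_Br (i j : ℕ) {x y : G} (hx : x ∈ F i) (hy : y ∈ F j) :
    Br hF (e hF i x) (e hF j y) = e hF (i + j) ⁅x, y⁆ := by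
  rw [e_of_mem hF i hx, e_of_mem hF j hy, Br_ι, e_of_mem hF (i + j) (hF.comm i j x hx y hy)]
  rfl

/-- induction principle -/
@[elab_as_elim]
theorem L_induction {P : L hF → Prop} (z : L hF) (h0 : P 0) (he : ∀ i, ∀ x ∈ F i, P (e hF i x))
    (hadd : ∀ z w, P z → P w → P (z + w)) : P z := by
  refine DirectSum.induction_on z h0 ?_ (fun z w => hadd z w)
  intro i a
  obtain ⟨x, hx⟩ := cl_surjective hF i a.toMul
  have := he i x x.2
  rw [e_of_mem hF i x.2] at this
  have e1 : (Additive.ofMul (cl hF i ⟨x, x.2⟩)) = a := by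
    rw [Subtype.coe_eta, hx]; rfl
  rw [e1] at this
  exact this

theorem e_conj (i : ℕ) (g : G) {x : G} (hx : x ∈ F i) : e hF i (g * x * g⁻¹) = e hF i x := by
  have hn := hF.normal i
  have h1 : g * x * g⁻¹ = ⁅g, x⁆ * x := by rw [commutatorElement_def]; group
  have h2 := hF.comm_any i g hx
  rw [h1, e_mul hF i (hF.anti i h2) hx, (e_eq_zero_iff hF i (hF.anti i h2)).mpr h2, zero_add]

theorem Br_skew (z w : L hF) : Br hF z w = - Br hF w z := by
  refine L_induction hF z ?_ ?_ ?_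
  · simp
  · intro i x hx
    refine L_induction hF w ?_ ?_ ?_
    · simp
    · intro j y hy
      rw [e_Br hF i j hx hy, e_Br hF j i hy hx, add_comm j i, ← commutatorElement_inv y x,
        e_inv hF (i + j)]
      rw [add_comm]; exact hF.comm j i y hy x hx
    · intro w1 w2 h1 h2
      rw [map_add, map_add, AddMonoidHom.add_apply, h1, h2, neg_add]
  · intro z1 z2 h1 h2
    rw [map_add, map_add, AddMonoidHom.add_apply, h1, h2, neg_add]

theorem Br_self (z : L hF) : Br hF z z = 0 := by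
  refine L_induction hF z ?_ ?_ ?_
  · simp
  · intro i x hx
    rw [e_Br hF i i hx hx, commutatorElement_self, e_one]
  · intro z1 z2 h1 h2
    rw [map_add, map_add, AddMonoidHom.add_apply, AddMonoidHom.add_apply, h1, h2, Br_skew hF z2 z1]
    abel

theorem e_inv_left (i j : ℕ) {x y : G} (hx : x ∈ F i) (hy : y ∈ F j) :
    e hF (i + j) ⁅x⁻¹, y⁆ = - e hF (i + j) ⁅x, y⁆ := by
  rw [← e_Br hF i j (inv_mem hx) hy, ← e_Br hF i j hx hy, e_inv hF i hx, map_neg, AddMonoidHom.neg_apply]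

theorem Br_jacobi (z x y : L hF) : Br hF z (Br hF x y) = - Br hF y (Br hF z x) - Br hF x (Br hF y z) := by
  refine L_induction hF z ?_ ?_ ?_
  · simp
  · intro k z hz
    refine L_induction hF x ?_ ?_ ?_
    · simp
    · intro i x hx
      refine L_induction hF y ?_ ?_ ?_
      · simp
      · intro j y hy
        have hxy := hF.comm i j x hx y hy
        have hzx := hF.comm k i z⁻¹ (inv_mem hz) x⁻¹ (inv_mem hx)
        have hyz := hF.comm j k y⁻¹ (inv_mem hy) z hz
        have h1 : Br hF (e hF i x) (Br hF (e hF j y) (e hF k z)) = e hF (i + (j + k)) ⁅x⁻¹, ⁅y⁻¹, z⁆⁆ := by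
          rw [← e_Br hF i (j + k) (inv_mem hx) hyz, ← e_Br hF j k (inv_mem hy) hz, e_inv hF i hx,
            e_inv hF j hy]
          simp
        have h2 : Br hF (e hF j y) (Br hF (e hF k z) (e hF i x)) = e hF (j + (k + i)) ⁅y, ⁅z⁻¹, x⁻¹⁆⁆ := by
          rw [← e_Br hF j (k + i) hy hzx, ← e_Br hF k i (inv_mem hz) (inv_mem hx), e_inv hF i hx,
            e_inv hF k hz]
          simp
        rw [h1, h2, e_Br hF i j hx hy, e_Br hF k (i + j) hz hxy]
        have e0 : ⁅z, ⁅x, y⁆⁆ = ((x * z) * ⁅y, ⁅z⁻¹, x⁻¹⁆⁆⁻¹ * (x * z)⁻¹) *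
            ((x * y) * ⁅x⁻¹, ⁅y⁻¹, z⁆⁆⁻¹ * (x * y)⁻¹) := by
          simp only [commutatorElement_def]; group
        have hn := hF.normal (k + (i + j))
        have m1 : ⁅y, ⁅z⁻¹, x⁻¹⁆⁆ ∈ F (k + (i + j)) := by
          have := hF.comm j (k + i) y hy _ hzx
          rwa [show j + (k + i) = k + (i + j) by ring] at this
        have m2 : ⁅x⁻¹, ⁅y⁻¹, z⁆⁆ ∈ F (k + (i + j)) := by
          have := hF.comm i (j + k) _ (inv_mem hx) _ hyz
          rwa [show i + (j + k) = k + (i + j) by ring] at this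
        rw [e0, e_mul hF _ (hn.conj_mem _ (inv_mem m1) _) (hn.conj_mem _ (inv_mem m2) _),
          e_conj hF _ _ (inv_mem m1), e_conj hF _ _ (inv_mem m2), e_inv hF _ m1, e_inv hF _ m2,
          show j + (k + i) = k + (i + j) by ring, show i + (j + k) = k + (i + j) by ring]
        abel
      · intro y1 y2 h1 h2
        simp only [map_add, AddMonoidHom.add_apply, h1, h2]
        abel
    · intro x1 x2 h1 h2
      simp only [map_add, AddMonoidHom.add_apply, h1, h2]
      abel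
  · intro z1 z2 h1 h2
    simp only [map_add, AddMonoidHom.add_apply, h1, h2]
    abel

noncomputable instance : LieRing (L hF) where
  bracket := fun x y => Br hF x y
  add_lie := by intro x y z; change Br hF _ _ = Br hF _ _ + Br hF _ _; simp
  lie_add := by intro x y z; change Br hF _ _ = Br hF _ _ + Br hF _ _; simp
  lie_self := Br_self hF
  leibniz_lie := by
    intro x y z
    change Br hF x (Br hF y z) = Br hF (Br hF x y) z + Br hF y (Br hF x z)
    rw [Br_jacobi hF x y z, Br_skew hF (Br hF x y) z, Br_skew hF z x, map_neg]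
    abel

theorem e_lie (i j : ℕ) {x y : G} (hx : x ∈ F i) (hy : y ∈ F j) :
    ⁅e hF i x, e hF j y⁆ = e hF (i + j) ⁅x, y⁆ := e_Br hF i j hx hy

section map

variable (φ : G →* G) (hφ : ∀ i, ∀ x ∈ F i, φ x ∈ F i)

/-- induced map on a factor -/
noncomputable def mapA (i : ℕ) : A hF i →+ A hF i :=
  haveI := hF.normal (i + 1)
  MonoidHom.toAdditive (QuotientGroup.map ((F (i + 1)).subgroupOf (F i)) ((F (i + 1)).subgroupOf (F i))
    ((φ.comp (F i).subtype).codRestrict (F i) (fun x => hφ i x x.2)) (fun x hx => hφ (i + 1) x hx) :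
      Q hF i →* Q hF i)

/-- induced additive map of the Lie ring -/
noncomputable def mapL : L hF →+ L hF :=
  DirectSum.toAddMonoid (fun i => (ι hF i).comp (mapA hF φ hφ i))

theorem mapL_e (i : ℕ) {x : G} (hx : x ∈ F i) : mapL hF φ hφ (e hF i x) = e hF i (φ x) := by
  rw [e_of_mem hF i hx, e_of_mem hF i (hφ i x hx)]
  unfold mapL ι
  rw [DirectSum.toAddMonoid_of]
  rfl

theorem mapL_lie (z w : L hF) : mapL hF φ hφ ⁅z, w⁆ = ⁅mapL hF φ hφ z, mapL hF φ hφ w⁆ := by
  refine L_induction hF z ?_ ?_ ?_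
  · simp
  · intro i x hx
    refine L_induction hF w ?_ ?_ ?_
    · simp
    · intro j y hy
      rw [e_lie hF i j hx hy, mapL_e hF φ hφ _ (hF.comm i j x hx y hy), mapL_e hF φ hφ _ hx,
        mapL_e hF φ hφ _ hy, e_lie hF i j (hφ i x hx) (hφ j y hy), map_commutatorElement]
    · intro w1 w2 h1 h2
      rw [lie_add, map_add, map_add, lie_add, h1, h2]
  · intro z1 z2 h1 h2
    rw [add_lie, map_add, map_add, add_lie, h1, h2]

end map

end H66.GrLie
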