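import Cfsg.Agent.Lib.H66.KrekEig
import Cfsg.Agent.Lib.H66.GrLie
import Cfsg.Agent.Lib.H66.Fpf
import Cfsg.Agent.Lib.H66.Commutators
import Cfsg.Agent.Lib.H1.FpfNilp

/-!
Nilpotency class of finite groups with a fixed-point-free automorphism of prime order
(Higman, Kreknin–Kostrikin).
-/

set_option autoImplicit false

open scoped commutatorElement
open H66.Kreknin H66.GrLie

namespace H66.HKK

section lcs

variable {G : Type*} [Group G]

/-- `[γ_m, γ_n] ≤ γ_{m+n+1}` (Mathlib indexing) -/
theorem commutator_lcs_le (m n : ℕ) :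
    ⁅(⊤ : Subgroup G).lowerCentralSeries m, (⊤ : Subgroup G).lowerCentralSeries n⁆ ≤
      (⊤ : Subgroup G).lowerCentralSeries (m + n + 1) := by
  induction n generalizing m with
  | zero => exact le_rfl
  | succ n ih =>
    rw [Subgroup.commutator_comm, Subgroup.lowerCentralSeries_succ]
    apply H66.Commutators.three_subgroups
    · rw [Subgroup.commutator_comm ⊤]
      have h1 := ih (m + 1)
      rw [Subgroup.lowerCentralSeries_succ] at h1
      rwa [show m + 1 + n + 1 = m + (n + 1) + 1 by ring] at h1
    · exact Subgroup.commutator_mono (ih m) le_rfl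

theorem filt_lcs : Filt (fun i => (⊤ : Subgroup G).lowerCentralSeries (i - 1)) where
  zero := rfl
  one := rfl
  anti := fun i => Subgroup.lowerCentralSeries_antitone ⊤ (by omega)
  comm := by
    intro i j x hx y hy
    rcases Nat.eq_zero_or_pos i with hi | hi
    · subst hi
      have h1 := Subgroup.commutator_mem_commutator hx hy
      have h2 := commutator_lcs_le _ _ h1
      exact Subgroup.lowerCentralSeries_antitone ⊤ (by omega) h2
    · rcases Nat.eq_zero_or_pos j with hj | hj
      · subst hj
        have h1 := Subgroup.commutator_mem_commutator hx hy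
        have h2 := commutator_lcs_le _ _ h1
        exact Subgroup.lowerCentralSeries_antitone ⊤ (by omega) h2
      · have h1 := Subgroup.commutator_mem_commutator hx hy
        have h2 := commutator_lcs_le _ _ h1
        exact Subgroup.lowerCentralSeries_antitone ⊤ (by omega) h2

end lcs

universe u

/-- a fixed-point-free automorphism of `p`-power order forces `p ∤ |G|`. -/
theorem card_modEq {G : Type*} [Group G] [Finite G] {p : ℕ} [Fact p.Prime] {σ : MulAut G}
    (h : ∀ g, σ g = g → g = 1) {k : ℕ} (hn : σ ^ p ^ k = 1) : Nat.card G ≡ 1 [MOD p] := by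
  have hP : IsPGroup p (Subgroup.zpowers σ) := by
    obtain ⟨m, _, hm⟩ := (Nat.dvd_prime_pow Fact.out).1 (orderOf_dvd_of_pow_eq_one hn)
    apply IsPGroup.of_card (n := m)
    rw [Nat.card_zpowers, hm]
  have h1 := hP.card_modEq_card_fixedPoints G
  have h2 : MulAction.fixedPoints (Subgroup.zpowers σ) G = {1} := by
    ext g
    rw [MulAction.mem_fixedPoints, Set.mem_singleton_iff]
    constructor
    · intro hg
      exact h g (hg ⟨σ, Subgroup.mem_zpowers σ⟩)
    · rintro rfl x
      exact map_one (x : MulAut G)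
  rw [h2] at h1
  have h3 : Nat.card ({1} : Set G) = 1 := by simp
  rwa [h3] at h1

theorem coprime_card {G : Type*} [Group G] [Finite G] {p : ℕ} [Fact p.Prime] {σ : MulAut G}
    (h : ∀ g, σ g = g → g = 1) {k : ℕ} (hn : σ ^ p ^ k = 1) : p.Coprime (Nat.card G) := by
  have h1 := card_modEq h hn
  rw [Nat.Prime.coprime_iff_not_dvd Fact.out]
  intro hd
  have h2 := (Nat.modEq_zero_iff_dvd.mpr hd).symm.trans h1
  have hp : p.Prime := Fact.out
  have h3 : (1 : ℕ) ≡ 0 [MOD p] := h2.symm
  exact hp.one_lt.ne' (Nat.dvd_one.mp (Nat.modEq_zero_iff_dvd.mp h3))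

theorem lcs_le {G : Type u} [Group G] [Finite G] {p : ℕ} [Fact p.Prime] (α : MulAut G)
    (hα : α ^ p = 1) (hfpf : ∀ g, α g = g → g = 1) (r : ℕ)
    (hr : ∀ (L : Type u) [LieRing L] (M : ZMod p → AddSubgroup L), GR M → ∀ i, LC M M r i = ⊥) :
    (⊤ : Subgroup G).lowerCentralSeries r ≤ (⊤ : Subgroup G).lowerCentralSeries (r + 1) := by
  classical
  have hp : p.Prime := Fact.out
  set F : ℕ → Subgroup G := fun i => (⊤ : Subgroup G).lowerCentralSeries (i - 1) with hFdef
  have hF : Filt F := filt_lcs
  have hFmem : ∀ i, ∀ x, x ∈ F i ↔ x ∈ (⊤ : Subgroup G).lowerCentralSeries (i - 1) := fun _ _ => Iff.rfl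
  have hφ : ∀ i, ∀ x ∈ F i, α.toMonoidHom x ∈ F i := by
    intro i x hx
    exact H66.Fpf.apply_mem α (H66.Fpf.map_char α _) hx
  -- the automorphism of L
  set σ := mapL hF α.toMonoidHom hφ with hσ
  have hσe : ∀ j i, ∀ x ∈ F i, (σ^[j]) (e hF i x) = e hF i ((α ^ j) x) ∧ (α ^ j) x ∈ F i := by
    intro j
    induction j with
    | zero => intro i x hx; exact ⟨rfl, hx⟩
    | succ j ih =>
      intro i x hx
      obtain ⟨h1, h2⟩ := ih i x hx
      rw [Function.iterate_succ_apply', h1]
      have h3 : (α ^ (j + 1)) x = α ((α ^ j) x) := by rw [pow_succ']; rfl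
      rw [h3]
      exact ⟨mapL_e hF α.toMonoidHom hφ i h2, hφ i _ h2⟩
  have hsum : ∀ z, ∑ j ∈ Finset.range p, (σ^[j]) z = 0 := by
    intro z
    refine L_induction hF z ?_ ?_ ?_
    · apply Finset.sum_eq_zero
      intro j _
      exact iterate_map_zero σ j
    · intro i x hx
      rw [Finset.sum_congr rfl (fun j _ => (hσe j i x hx).1)]
      have h1 := H66.Fpf.prod_eq_one hfpf hα x
      -- additive map of a list product
      have h2 : ∀ l : List ℕ, e hF i ((l.map (fun k => (α ^ k) x)).prod) =
          (l.map (fun k => e hF i ((α ^ k) x))).sum ∧ (l.map (fun k => (α ^ k) x)).prod ∈ F i := by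
        intro l
        induction l with
        | nil => exact ⟨e_one hF i, one_mem _⟩
        | cons k l ih =>
          simp only [List.map_cons, List.prod_cons, List.sum_cons]
          rw [e_mul hF i (hσe k i x hx).2 ih.2, ih.1]
          exact ⟨rfl, mul_mem (hσe k i x hx).2 ih.2⟩
      have h3 := (h2 (List.range p)).1
      rw [h1, e_one] at h3
      rw [← List.sum_toFinset _ List.nodup_range, List.toFinset_range] at h3
      exact h3.symm
    · intro z w h1 h2
      have h3 : ∀ j, (σ^[j]) (z + w) = (σ^[j]) z + (σ^[j]) w := fun j => iterate_map_add σ j z w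
      rw [Finset.sum_congr rfl (fun j _ => h3 j), Finset.sum_add_distrib, h1, h2, add_zero]
  -- inverse of p
  have hcop : p.Coprime (Nat.card G) := coprime_card hfpf (k := 1) (by rw [pow_one]; exact hα)
  have htot := Nat.ModEq.pow_totient hcop
  have hcard : ∀ z : L hF, Nat.card G • z = 0 := by
    intro z
    refine L_induction hF z ?_ ?_ ?_
    · exact smul_zero _
    · intro i x hx
      have h1 : ∀ n : ℕ, e hF i (x ^ n) = n • e hF i x := by
        intro n
        induction n with
        | zero => rw [pow_zero, e_one, zero_smul]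
        | succ n ih => rw [pow_succ, e_mul hF i (pow_mem hx n) hx, ih, succ_nsmul]
      rw [← h1, pow_card_eq_one', e_one]
    · intro z w h1 h2
      rw [smul_add, h1, h2, add_zero]
  have hm : ∀ z : L hF, p • (p ^ ((Nat.card G).totient - 1) • z) = z := by
    intro z
    have htp : 0 < (Nat.card G).totient := Nat.totient_pos.mpr Nat.card_pos
    rw [smul_smul, ← pow_succ', Nat.sub_add_cancel htp]
    have h1 : 1 ≤ p ^ (Nat.card G).totient := Nat.one_le_pow _ _ hp.pos
    obtain ⟨k, hk⟩ := (Nat.modEq_iff_dvd' h1).mp htot.symm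
    have h2 : p ^ (Nat.card G).totient = Nat.card G * k + 1 := by omega
    rw [h2, add_smul, one_smul, mul_comm, mul_smul, hcard, smul_zero, zero_add]
  have htrans := H66.KrekEig.transfer r hr σ (mapL_lie hF α.toMonoidHom hφ) hsum _ hm
  -- elements of the lower central series
  have hspan : ∀ s, ∀ x ∈ (⊤ : Subgroup G).lowerCentralSeries s,
      e hF (s + 1) x ∈ AddSubgroup.closure {z : L hF | ∃ (a : L hF) (l : List (L hF)), l.length = s ∧
        z = l.foldl (fun a b => ⁅a, b⁆) a} := by
    intro s
    induction s with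
    | zero =>
      intro x _
      exact AddSubgroup.subset_closure ⟨e hF 1 x, [], rfl, rfl⟩
    | succ s ih =>
      intro x hx
      rw [Subgroup.mem_lowerCentralSeries_succ_iff] at hx
      have hsub : ∀ y ∈ {x | ∃ p ∈ (⊤ : Subgroup G).lowerCentralSeries s, ∃ q ∈ (⊤ : Subgroup G), ⁅p, q⁆ = x},
          y ∈ (⊤ : Subgroup G).lowerCentralSeries (s + 1) := by
        rintro y ⟨a, ha, b, hb, rfl⟩
        exact Subgroup.commutator_mem_commutator ha hb
      have hmem : ∀ y, y ∈ Subgroup.closure {x | ∃ p ∈ (⊤ : Subgroup G).lowerCentralSeries s,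
          ∃ q ∈ (⊤ : Subgroup G), ⁅p, q⁆ = x} → y ∈ F (s + 1 + 1) := by
        intro y hy
        exact hy
      induction hx using Subgroup.closure_induction with
      | mem y hy =>
        obtain ⟨a, ha, b, _, rfl⟩ := hy
        have h1 : e hF (s + 1 + 1) ⁅a, b⁆ = ⁅e hF (s + 1) a, e hF 1 b⁆ := by
          rw [e_lie hF (s + 1) 1 (show a ∈ F (s + 1) from ha) (by rw [hF.one]; trivial)]
        rw [h1]
        have h2 := ih a ha
        generalize e hF (s + 1) a = w0 at h2 ⊢
        induction h2 using AddSubgroup.closure_induction with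
        | mem z hz =>
          obtain ⟨c, l, hl, rfl⟩ := hz
          apply AddSubgroup.subset_closure
          refine ⟨c, l ++ [e hF 1 b], by simp [hl], ?_⟩
          rw [List.foldl_append]; rfl
        | zero => rw [zero_lie]; exact zero_mem _
        | add z w _ _ h3 h4 => rw [add_lie]; exact add_mem h3 h4
        | neg z _ h3 => rw [neg_lie]; exact neg_mem h3
      | one => rw [e_one]; exact zero_mem _
      | mul y z hy hz h1 h2 =>
        rw [e_mul hF _ (hmem y hy) (hmem z hz)]; exact add_mem h1 h2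
      | inv y hy h1 =>
        rw [e_inv hF _ (hmem y hy)]; exact neg_mem h1
  intro x hx
  have h1 := hspan r x hx
  have h2 : AddSubgroup.closure {z : L hF | ∃ (a : L hF) (l : List (L hF)), l.length = r ∧
        z = l.foldl (fun a b => ⁅a, b⁆) a} ≤ ⊥ := by
    rw [AddSubgroup.closure_le]
    rintro z ⟨a, l, hl, rfl⟩
    exact htrans a l hl
  have h3 : e hF (r + 1) x = 0 := h2 h1
  rw [e_eq_zero_iff hF (r + 1) (show x ∈ F (r + 1) from hx)] at h3
  exact h3

theorem lcs_eq_bot {G : Type u} [Group G] [Finite G] {p : ℕ} [Fact p.Prime] (α : MulAut G)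
    (hα : α ^ p = 1) (hfpf : ∀ g, α g = g → g = 1) (r : ℕ)
    (hr : ∀ (L : Type u) [LieRing L] (M : ZMod p → AddSubgroup L), GR M → ∀ i, LC M M r i = ⊥) :
    (⊤ : Subgroup G).lowerCentralSeries r = ⊥ := by
  have hnil := H1.FpfNilp.isNilpotent_of_fpf α hfpf (Fact.out : p.Prime) hα
  have h1 := lcs_le α hα hfpf r hr
  have h2 : ∀ n, (⊤ : Subgroup G).lowerCentralSeries r ≤ (⊤ : Subgroup G).lowerCentralSeries (r + n) := by
    intro n
    induction n with
    | zero => exact le_rfl
    | succ n ih =>
      refine h1.trans ?_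
      rw [Subgroup.lowerCentralSeries_succ, ← add_assoc, Subgroup.lowerCentralSeries_succ]
      exact Subgroup.commutator_mono ih le_rfl
  obtain ⟨n, hn⟩ := Subgroup.nilpotent_iff_lowerCentralSeries.mp hnil
  rw [eq_bot_iff, ← hn]
  exact (h2 n).trans (Subgroup.lowerCentralSeries_antitone ⊤ (by omega))

end H66.HKK
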