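import Cfsg.Agent.Lib.H66.Kreknin

/-!
Reduction of Lie rings with a fixed-point-free automorphism of prime order to graded Lie rings, by extension
of the ground ring with a `p`-th root of unity.
-/

set_option autoImplicit false

open scoped TensorProduct
open Polynomial

namespace H66.KrekEig

open H66.Kreknin

/-- there is a commutative ring, free over `ℤ`, with a primitive `p`-th root of unity -/
theorem exists_ring (p : ℕ) [Fact p.Prime] : ∃ (A : Type) (_ : CommRing A) (_ : Module.FaithfullyFlat ℤ A)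
    (w : A), w ^ p = 1 ∧ ∑ i ∈ Finset.range p, w ^ i = 0 := by
  have hp : p.Prime := Fact.out
  set f : ℤ[X] := cyclotomic p ℤ with hf
  have hm : f.Monic := cyclotomic.monic p ℤ
  have hdeg : f.degree ≠ 0 := by
    rw [hf, degree_cyclotomic]
    have : 0 < p.totient := Nat.totient_pos.mpr hp.pos
    exact_mod_cast this.ne'
  have : Nontrivial (AdjoinRoot f) := AdjoinRoot.nontrivial f hdeg
  have : Module.Free ℤ (AdjoinRoot f) := Module.Free.of_basis (AdjoinRoot.powerBasis' hm).basis
  have hs : ∑ i ∈ Finset.range p, (AdjoinRoot.root f) ^ i = 0 := by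
    have h1 : AdjoinRoot.mk f f = 0 := AdjoinRoot.mk_self
    have h2 : f = ∑ i ∈ Finset.range p, X ^ i := by rw [hf, cyclotomic_prime]
    have h3 : AdjoinRoot.mk f (∑ i ∈ Finset.range p, X ^ i) = ∑ i ∈ Finset.range p, (AdjoinRoot.root f) ^ i := by
      rw [map_sum]
      apply Finset.sum_congr rfl
      intro i _
      rw [map_pow]; rfl
    rw [← h3, ← h2]; exact h1
  refine ⟨AdjoinRoot f, inferInstance, inferInstance, AdjoinRoot.root f, ?_, hs⟩
  have h4 := mul_geom_sum (AdjoinRoot.root f) p
  rw [hs, mul_zero] at h4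
  exact (sub_eq_zero.mp h4.symm)

section zmod

variable {p : ℕ} [Fact p.Prime]

/-- powers indexed by `ZMod p` -/
theorem pow_val_add {R : Type*} [Monoid R] {w : R} (hw : w ^ p = 1) (i j : ZMod p) :
    w ^ (i + j).val = w ^ i.val * w ^ j.val := by
  rw [← pow_add, ZMod.val_add]
  conv_rhs => rw [← Nat.mod_add_div (i.val + j.val) p]
  rw [pow_add, pow_mul, hw, one_pow, mul_one]

theorem sum_val {R : Type*} [AddCommMonoid R] (f : ℕ → R) :
    ∑ i : ZMod p, f i.val = ∑ i ∈ Finset.range p, f i := by
  have hp : p.Prime := Fact.out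
  symm
  refine Finset.sum_bij' (fun i _ => (i : ZMod p)) (fun i _ => i.val) ?_ ?_ ?_ ?_ ?_
  · intro i _; exact Finset.mem_univ _
  · intro i _; exact Finset.mem_range.mpr (ZMod.val_lt i)
  · intro i hi; exact ZMod.val_cast_of_lt (Finset.mem_range.mp hi)
  · intro i _; exact ZMod.natCast_zmod_val i
  · intro i hi; rw [ZMod.val_cast_of_lt (Finset.mem_range.mp hi)]

end zmod

section span

variable {L : Type*} [LieRing L] {n : ℕ}

theorem lie_mem_iSup {X M : ZMod n → AddSubgroup L} {x y : L} (hx : x ∈ ⨆ i, X i) (hy : y ∈ ⨆ i, M i) :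
    ⁅x, y⁆ ∈ ⨆ i, BF X M i := by
  refine AddSubgroup.iSup_induction X (C := fun x => ⁅x, y⁆ ∈ ⨆ i, BF X M i) hx ?_ ?_ ?_
  · intro i x hx
    refine AddSubgroup.iSup_induction M (C := fun y => ⁅x, y⁆ ∈ ⨆ i, BF X M i) hy ?_ ?_ ?_
    · intro j y hy
      exact AddSubgroup.mem_iSup_of_mem (i + j) (mem_BF hx hy)
    · rw [lie_zero]; exact zero_mem _
    · intro y z h1 h2
      rw [lie_add]; exact add_mem h1 h2
  · rw [zero_lie]; exact zero_mem _
  · intro x z h1 h2
    rw [add_lie]; exact add_mem h1 h2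

theorem foldl_mem {M : ZMod n → AddSubgroup L} (htop : ⨆ i, M i = ⊤) (l : List L) :
    ∀ (X : ZMod n → AddSubgroup L) (x : L), x ∈ ⨆ i, X i →
      l.foldl (fun a b => ⁅a, b⁆) x ∈ ⨆ i, LC M X l.length i := by
  induction l with
  | nil => intro X x hx; exact hx
  | cons a l ih =>
    intro X x hx
    rw [List.foldl_cons, List.length_cons, LC_succ]
    apply ih
    apply lie_mem_iSup hx
    rw [htop]; trivial

end span

universe u

attribute [-instance] LieAlgebra.ExtendScalars.instBracketTensorProduct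

/-- Lie rings with an automorphism `σ` of prime order `p` with `1 + σ + … + σ ^ (p-1) = 0`, `p`
invertible, inherit identities from graded Lie rings. -/
theorem transfer {p : ℕ} [Fact p.Prime] (r : ℕ)
    (hr : ∀ (L : Type u) [LieRing L] (M : ZMod p → AddSubgroup L), GR M → ∀ i, LC M M r i = ⊥)
    {L : Type u} [LieRing L] (σ : L →+ L) (hlie : ∀ x y, σ ⁅x, y⁆ = ⁅σ x, σ y⁆)
    (hsum : ∀ x, ∑ j ∈ Finset.range p, (σ^[j]) x = 0) (m : ℕ) (hm : ∀ x : L, p • (m • x) = x)
    (x : L) (l : List L) (hl : l.length = r) : l.foldl (fun a b => ⁅a, b⁆) x = 0 := by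
  have hp : p.Prime := Fact.out
  obtain ⟨A, _, _, w, hw, hws⟩ := exists_ring p
  set Tℤ : L →ₗ[ℤ] L := σ.toIntLinearMap with hTℤ
  set T : A ⊗[ℤ] L →ₗ[A] A ⊗[ℤ] L := Tℤ.baseChange A with hT
  have hTt : ∀ (a : A) (x : L), T (a ⊗ₜ x) = a ⊗ₜ σ x := fun a x => rfl
  have hTpt : ∀ (j : ℕ) (a : A) (x : L), (T ^ j) (a ⊗ₜ x) = a ⊗ₜ ((σ^[j]) x) := by
    intro j
    induction j with
    | zero => intro a x; rfl
    | succ j ih =>
      intro a x
      rw [pow_succ, Module.End.mul_apply, hTt, ih, Function.iterate_succ_apply]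
  have hbr : ∀ (a b : A) (x y : L), (⁅a ⊗ₜ[ℤ] x, b ⊗ₜ[ℤ] y⁆ : A ⊗[ℤ] L) = (a * b) ⊗ₜ[ℤ] ⁅x, y⁆ :=
    fun _ _ _ _ => rfl
  have hls : ∀ (a : A) (z v : A ⊗[ℤ] L), ⁅z, a • v⁆ = a • ⁅z, v⁆ := fun a z v => LieAlgebra.lie_smul a z v
  have hsl : ∀ (a : A) (z v : A ⊗[ℤ] L), ⁅a • z, v⁆ = a • ⁅z, v⁆ := by
    intro a z v
    rw [← lie_skew, hls, ← lie_skew v z, smul_neg, neg_neg]
  -- sum of powers of T
  have hTs : ∑ j ∈ Finset.range p, T ^ j = 0 := by
    ext x
    have : (∑ j ∈ Finset.range p, T ^ j) ((1 : A) ⊗ₜ x) = 0 := by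
      rw [LinearMap.sum_apply]
      simp only [hTpt]
      rw [← TensorProduct.tmul_sum, hsum, TensorProduct.tmul_zero]
    simpa using this
  have hTp : T ^ p = 1 := by
    have h4 := mul_geom_sum T p
    rw [hTs, mul_zero] at h4
    exact (sub_eq_zero.mp h4.symm)
  -- bracket
  have hTl : ∀ z v : A ⊗[ℤ] L, T ⁅z, v⁆ = ⁅T z, T v⁆ := by
    intro z v
    induction z using TensorProduct.induction_on with
    | zero => rw [zero_lie, map_zero, zero_lie]
    | add z1 z2 h1 h2 => rw [add_lie, map_add, map_add, add_lie, h1, h2]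
    | tmul a x =>
      induction v using TensorProduct.induction_on with
      | zero => rw [lie_zero, map_zero, lie_zero]
      | add z1 z2 h1 h2 => rw [lie_add, map_add, map_add, lie_add, h1, h2]
      | tmul b y =>
        rw [hTt, hTt, hbr, hbr, hTt, hlie]
  -- invertibility of p
  have hinv : ∀ z : A ⊗[ℤ] L, p • (m • z) = z := by
    intro z
    induction z using TensorProduct.induction_on with
    | zero => simp
    | add z1 z2 h1 h2 => rw [smul_add, smul_add, h1, h2]
    | tmul a x =>
      rw [← TensorProduct.tmul_smul, ← TensorProduct.tmul_smul, hm]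
  -- graded pieces
  let M : ZMod p → AddSubgroup (A ⊗[ℤ] L) := fun i =>
    { carrier := {z | T z = w ^ i.val • z}
      zero_mem' := by simp
      add_mem' := by
        intro a b ha hb
        change T (a + b) = _
        rw [map_add, smul_add]
        exact congrArg₂ _ ha hb
      neg_mem' := by
        intro a ha
        change T (-a) = _
        rw [map_neg, smul_neg]
        exact congrArg _ ha }
  have hMmem : ∀ i z, z ∈ M i ↔ T z = w ^ i.val • z := fun i z => Iff.rfl
  have hM : GR M := by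
    constructor
    · rw [eq_bot_iff]
      intro z hz
      rw [hMmem, ZMod.val_zero, pow_zero, one_smul] at hz
      have h1 : ∀ j : ℕ, (T ^ j) z = z := by
        intro j
        induction j with
        | zero => rfl
        | succ j ih => rw [pow_succ, Module.End.mul_apply, hz, ih]
      have h2 := LinearMap.congr_fun hTs z
      rw [LinearMap.sum_apply, Finset.sum_congr rfl (fun j _ => h1 j), Finset.sum_const,
        Finset.card_range, LinearMap.zero_apply] at h2
      rw [AddSubgroup.mem_bot, ← hinv z, smul_comm, h2, smul_zero]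
    · intro i j z v hz hv
      rw [hMmem] at hz hv ⊢
      rw [hTl, hz, hv, pow_val_add hw, hsl, hls, smul_smul]
  -- decomposition
  have htop : ⨆ i, M i = ⊤ := by
    rw [eq_top_iff]
    intro z _
    have hwT : ∀ i : ZMod p, ∀ z, m • ∑ j : ZMod p, w ^ (-i * j).val • (T ^ j.val) z ∈ M i := by
      intro i z
      rw [hMmem]
      have hT1 : T = T ^ (1 : ZMod p).val := by
        rw [ZMod.val_one'' hp.one_lt.ne', pow_one]
      rw [map_nsmul, map_sum]
      have h1 : ∀ j : ZMod p, T (w ^ (-i * j).val • (T ^ j.val) z) =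
          w ^ i.val • (w ^ (-i * (1 + j)).val • (T ^ (1 + j).val) z) := by
        intro j
        rw [map_smul, smul_smul]
        congr 1
        · rw [← pow_val_add hw]
          congr 2; ring
        · rw [pow_val_add hTp, ← hT1]; rfl
      have h2 := Equiv.sum_comp (Equiv.addLeft (1 : ZMod p)) (fun j => w ^ (-i * j).val • (T ^ j.val) z)
      simp only [Equiv.coe_addLeft] at h2
      rw [Finset.sum_congr rfl (fun j _ => h1 j), ← Finset.smul_sum, h2, smul_comm]
    have hz : z = ∑ i : ZMod p, m • ∑ j : ZMod p, w ^ (-i * j).val • (T ^ j.val) z := by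
      rw [← Finset.smul_sum, Finset.sum_comm]
      have h1 : ∀ j : ZMod p, (∑ i : ZMod p, w ^ (-i * j).val • (T ^ j.val) z) =
          if j = 0 then p • z else 0 := by
        intro j
        rw [← Finset.sum_smul]
        split_ifs with hj
        · rw [hj]
          simp [ZMod.card, Nat.cast_smul_eq_nsmul]
        · have h2 : ∑ i : ZMod p, w ^ (-i * j).val = ∑ i : ZMod p, w ^ i.val := by
            have hbij : Function.Bijective (fun i : ZMod p => -i * j) := by
              rw [← Finite.injective_iff_bijective]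
              intro a b hab
              have := mul_right_cancel₀ hj hab
              exact neg_injective this
            exact Fintype.sum_bijective _ hbij _ _ (fun i => rfl)
          rw [h2, sum_val (fun i => w ^ i), hws, zero_smul]
      rw [Finset.sum_congr rfl (fun j _ => h1 j), Finset.sum_ite_eq' Finset.univ (0 : ZMod p)]
      simp only [Finset.mem_univ, if_true]
      rw [smul_comm]; exact (hinv z).symm
    rw [hz]
    apply sum_mem
    intro i _
    exact AddSubgroup.mem_iSup_of_mem i (hwT i z)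
  have h1 := hr (A ⊗[ℤ] L) M hM
  have hinj : Function.Injective (TensorProduct.mk ℤ A L 1) :=
    Module.FaithfullyFlat.tensorProduct_mk_injective L
  have hfold : ∀ (l : List L) (x : L), (1 : A) ⊗ₜ[ℤ] (l.foldl (fun a b => ⁅a, b⁆) x) =
      (l.map (fun y => (1 : A) ⊗ₜ[ℤ] y)).foldl (fun a b => ⁅a, b⁆) ((1 : A) ⊗ₜ[ℤ] x) := by
    intro l
    induction l with
    | nil => intro x; rfl
    | cons a l ih =>
      intro x
      rw [List.foldl_cons, ih, List.map_cons, List.foldl_cons, hbr, mul_one]
  apply hinj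
  rw [map_zero, TensorProduct.mk_apply, hfold]
  have h2 := foldl_mem htop (l.map (fun y => (1 : A) ⊗ₜ[ℤ] y)) M ((1 : A) ⊗ₜ[ℤ] x)
    (by rw [htop]; trivial)
  rw [List.length_map, hl] at h2
  simp only [h1, iSup_const, AddSubgroup.mem_bot] at h2
  exact h2

end H66.KrekEig
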