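import Mathlib

/-!
Kreknin's theorem and the Higman–Kreknin–Kostrikin nilpotency bound for `ZMod n`-graded families of
additive subgroups of a Lie ring with trivial zero component.
-/

set_option autoImplicit false

namespace H66.Kreknin

variable {L : Type*} [LieRing L] {n : ℕ}

/-- a graded family with trivial zero component -/
structure GR (M : ZMod n → AddSubgroup L) : Prop where
  zero : M 0 = ⊥
  lie : ∀ i j x y, x ∈ M i → y ∈ M j → ⁅x, y⁆ ∈ M (i + j)

/-- product of graded families -/
def BF (X Y : ZMod n → AddSubgroup L) : ZMod n → AddSubgroup L := fun k =>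
  AddSubgroup.closure {z | ∃ i j x y, x ∈ X i ∧ y ∈ Y j ∧ i + j = k ∧ ⁅x, y⁆ = z}

theorem mem_BF {X Y : ZMod n → AddSubgroup L} {i j : ZMod n} {x y : L} (hx : x ∈ X i) (hy : y ∈ Y j) :
    ⁅x, y⁆ ∈ BF X Y (i + j) :=
  AddSubgroup.subset_closure ⟨i, j, x, y, hx, hy, rfl, rfl⟩

theorem BF_le {X Y : ZMod n → AddSubgroup L} {k : ZMod n} {H : AddSubgroup L}
    (h : ∀ i j x y, x ∈ X i → y ∈ Y j → i + j = k → ⁅x, y⁆ ∈ H) : BF X Y k ≤ H := by
  rw [BF, AddSubgroup.closure_le]
  rintro z ⟨i, j, x, y, hx, hy, hk, rfl⟩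
  exact h i j x y hx hy hk

theorem GR.BF_le {M : ZMod n → AddSubgroup L} (hM : GR M) (k : ZMod n) : BF M M k ≤ M k := by
  apply Kreknin.BF_le
  intro i j x y hx hy hk
  rw [← hk]; exact hM.lie i j x y hx hy

theorem GR.BF {M : ZMod n → AddSubgroup L} (hM : GR M) : GR (BF M M) where
  zero := by
    rw [eq_bot_iff, ← hM.zero]; exact hM.BF_le 0
  lie := by
    intro i j x y hx hy
    exact mem_BF (hM.BF_le i hx) (hM.BF_le j hy)

/-- iterated derived family -/
def DD (s : ℕ) (M : ZMod n → AddSubgroup L) : ZMod n → AddSubgroup L := (fun X => BF X X)^[s] M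

theorem DD_zero (M : ZMod n → AddSubgroup L) : DD 0 M = M := rfl

theorem DD_succ (s : ℕ) (M : ZMod n → AddSubgroup L) : DD (s + 1) M = DD s (BF M M) := rfl

theorem DD_succ' (s : ℕ) (M : ZMod n → AddSubgroup L) : DD (s + 1) M = BF (DD s M) (DD s M) := by
  rw [DD, Function.iterate_succ_apply']; rfl

theorem DD_add (s t : ℕ) (M : ZMod n → AddSubgroup L) : DD (s + t) M = DD s (DD t M) := by
  rw [DD, Function.iterate_add_apply]; rfl

theorem GR.DD {M : ZMod n → AddSubgroup L} (hM : GR M) (s : ℕ) : GR (DD s M) := by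
  induction s with
  | zero => exact hM
  | succ s ih => rw [DD_succ']; exact ih.BF

theorem GR.DD_le {M : ZMod n → AddSubgroup L} (hM : GR M) (s : ℕ) (i : ZMod n) : Kreknin.DD s M i ≤ M i := by
  induction s with
  | zero => exact le_rfl
  | succ s ih => rw [DD_succ']; exact ((hM.DD s).BF_le i).trans ih

/-- the graded subring generated by the components of index `> k`. -/
inductive Gen (M : ZMod n → AddSubgroup L) (k : ℕ) : ZMod n → L → Prop
  | base (i : ZMod n) (x : L) (hi : k < i.val) (hx : x ∈ M i) : Gen M k i x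
  | zero (i : ZMod n) : Gen M k i 0
  | add (i : ZMod n) (x y : L) (hx : Gen M k i x) (hy : Gen M k i y) : Gen M k i (x + y)
  | neg (i : ZMod n) (x : L) (hx : Gen M k i x) : Gen M k i (-x)
  | lie (i j : ZMod n) (x y : L) (hx : Gen M k i x) (hy : Gen M k j y) : Gen M k (i + j) ⁅x, y⁆

theorem Gen.mem {M : ZMod n → AddSubgroup L} (hM : GR M) {k : ℕ} {i : ZMod n} {x : L}
    (h : Gen M k i x) : x ∈ M i := by
  induction h with
  | base i x hi hx => exact hx
  | zero i => exact zero_mem _
  | add i x y _ _ h1 h2 => exact add_mem h1 h2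
  | neg i x _ h1 => exact neg_mem h1
  | lie i j x y _ _ h1 h2 => exact hM.lie i j x y h1 h2

def GenS (M : ZMod n → AddSubgroup L) (k : ℕ) (i : ZMod n) : AddSubgroup L where
  carrier := {x | Gen M k i x}
  zero_mem' := Gen.zero i
  add_mem' := fun h1 h2 => Gen.add _ _ _ h1 h2
  neg_mem' := fun h1 => Gen.neg _ _ h1

theorem mem_GenS {M : ZMod n → AddSubgroup L} {k : ℕ} {i : ZMod n} {x : L} :
    x ∈ GenS M k i ↔ Gen M k i x := Iff.rfl

/-- the key step: in weight `k + 1`, products with an element generated by the components of index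
`≥ k + 1` lie in the subring generated by the components of index `> k + 1`. -/
theorem key [NeZero n] {M : ZMod n → AddSubgroup L} (hM : GR M) {k : ℕ} (hk : k + 1 < n) {j : ZMod n} {y : L}
    (hy : Gen M k j y) : ∀ (i : ZMod n) (x : L), x ∈ M i → i + j = ((k + 1 : ℕ) : ZMod n) →
      Gen M (k + 1) ((k + 1 : ℕ) : ZMod n) ⁅x, y⁆ := by
  have hkv : (((k + 1 : ℕ) : ZMod n)).val = k + 1 := ZMod.val_cast_of_lt hk
  induction hy with
  | base j y hj hy =>
    intro i x hx hij
    rcases Nat.lt_or_ge (k + 1) j.val with h | h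
    · -- both indices are > k + 1
      have h1 : k + 1 < i.val := by
        by_contra hcon
        push Not at hcon
        have h2 : i = ((k + 1 : ℕ) : ZMod n) - j := by rw [← hij]; ring
        have h3 : (i + j).val = k + 1 := by rw [hij, hkv]
        rcases Nat.lt_or_ge (i.val + j.val) n with h4 | h4
        · rw [ZMod.val_add_of_lt h4] at h3; omega
        · have h5 := ZMod.val_add_val_of_le h4
          have h6 := ZMod.val_lt j
          rw [h3] at h5
          omega
      have := Gen.lie i j x y (Gen.base i x h1 hx) (Gen.base j y h hy) (M := M) (k := k + 1)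
      rwa [hij] at this
    · have h1 : j = ((k + 1 : ℕ) : ZMod n) := by
        apply ZMod.val_injective n
        rw [hkv]; omega
      have h2 : i = 0 := by
        rw [h1] at hij
        simpa using hij
      rw [h2, hM.zero, AddSubgroup.mem_bot] at hx
      rw [hx, zero_lie]
      exact Gen.zero _
  | zero j =>
    intro i x _ _
    rw [lie_zero]; exact Gen.zero _
  | add j y1 y2 _ _ ih1 ih2 =>
    intro i x hx hij
    rw [lie_add]
    exact Gen.add _ _ _ (ih1 i x hx hij) (ih2 i x hx hij)
  | neg j y _ ih =>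
    intro i x hx hij
    rw [lie_neg]
    exact Gen.neg _ _ (ih i x hx hij)
  | lie j1 j2 y1 y2 h1 h2 ih1 ih2 =>
    intro i x hx hij
    have e : ⁅x, ⁅y1, y2⁆⁆ = ⁅⁅x, y1⁆, y2⁆ + -⁅⁅x, y2⁆, y1⁆ := by
      rw [leibniz_lie, ← lie_skew ⁅x, y2⁆ y1, neg_neg]
    rw [e]
    apply Gen.add
    · apply ih2 (i + j1) _ (hM.lie _ _ _ _ hx (h1.mem hM))
      rw [← hij]; ring
    · apply Gen.neg
      apply ih1 (i + j2) _ (hM.lie _ _ _ _ hx (h2.mem hM))
      rw [← hij]; ring

theorem kreknin_aux [NeZero n] (k : ℕ) : k < n → ∀ M : ZMod n → AddSubgroup L, GR M →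
    ∀ i, DD (2 ^ k - 1) M i ≤ GenS M k i := by
  induction k with
  | zero =>
    intro _ M hM i x hx
    rw [pow_zero, Nat.sub_self, DD_zero] at hx
    by_cases hi : i = 0
    · rw [hi, hM.zero, AddSubgroup.mem_bot] at hx
      rw [hx]; exact Gen.zero _
    · exact Gen.base i x (Nat.pos_of_ne_zero (fun h => hi ((ZMod.val_eq_zero i).mp h))) hx
  | succ k ih =>
    intro hk M hM i
    have e1 : 2 ^ (k + 1) - 1 = (2 ^ k - 1) + ((2 ^ k - 1) + 1) := by
      have : 0 < 2 ^ k := Nat.pos_of_ne_zero (by positivity)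
      rw [pow_succ]; omega
    rw [e1, DD_add]
    set M2 := DD ((2 ^ k - 1) + 1) M with hM2
    have hGR2 : GR M2 := hM.DD _
    have h1 := ih (by omega) M2 hGR2 i
    refine h1.trans ?_
    have hM2k : ∀ x ∈ M2 ((k + 1 : ℕ) : ZMod n), Gen M (k + 1) ((k + 1 : ℕ) : ZMod n) x := by
      have h2 : M2 ((k + 1 : ℕ) : ZMod n) ≤ GenS M (k + 1) ((k + 1 : ℕ) : ZMod n) := by
        rw [hM2, DD_succ']
        apply BF_le
        intro a b x y hx hy hab
        exact key hM hk (ih (by omega) M hM b hy) a x (hM.DD_le _ a hx) hab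
      exact h2
    intro x hx
    rw [mem_GenS] at hx ⊢
    clear h1
    induction hx with
    | base j x hj hx =>
      rcases Nat.lt_or_ge (k + 1) j.val with h | h
      · exact Gen.base j x h (hM.DD_le _ j hx)
      · have h3 : j = ((k + 1 : ℕ) : ZMod n) := by
          apply ZMod.val_injective n
          rw [ZMod.val_cast_of_lt hk]; omega
        subst h3
        exact hM2k x hx
    | zero i => exact Gen.zero _
    | add i x y _ _ h1 h2 => exact Gen.add _ _ _ h1 h2
    | neg i x _ h1 => exact Gen.neg _ _ h1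
    | lie i j x y _ _ h1 h2 => exact Gen.lie _ _ _ _ h1 h2

/-- **Kreknin's theorem**. -/
theorem kreknin [NeZero n] {M : ZMod n → AddSubgroup L} (hM : GR M) (i : ZMod n) :
    DD (2 ^ (n - 1) - 1) M i = ⊥ := by
  rw [eq_bot_iff]
  have hn : 0 < n := Nat.pos_of_ne_zero (NeZero.ne n)
  refine (kreknin_aux (n - 1) (by omega) M hM i).trans ?_
  intro x hx
  rw [mem_GenS] at hx
  rw [AddSubgroup.mem_bot]
  induction hx with
  | base i x hi hx => have := ZMod.val_lt i; omega
  | zero i => rfl
  | add i x y _ _ h1 h2 => rw [h1, h2, add_zero]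
  | neg i x _ h1 => rw [h1, neg_zero]
  | lie i j x y _ _ h1 h2 => rw [h1, zero_lie]

/-! ### the nilpotency bound -/

/-- `[X, M, …, M]` with `r` factors `M`. -/
def LC (M X : ZMod n → AddSubgroup L) (r : ℕ) : ZMod n → AddSubgroup L := (fun Y => BF Y M)^[r] X

theorem LC_zero (M X : ZMod n → AddSubgroup L) : LC M X 0 = X := rfl

theorem LC_succ (M X : ZMod n → AddSubgroup L) (r : ℕ) : LC M X (r + 1) = LC M (BF X M) r := rfl

theorem LC_succ' (M X : ZMod n → AddSubgroup L) (r : ℕ) : LC M X (r + 1) = BF (LC M X r) M := by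
  rw [LC, Function.iterate_succ_apply']; rfl

/-- left-normed products along a list -/
def act (x : L) : List (ZMod n × L) → L
  | [] => x
  | a :: l => act ⁅x, a.2⁆ l

@[simp] theorem act_nil (x : L) : act x ([] : List (ZMod n × L)) = x := rfl
@[simp] theorem act_cons (x : L) (a : ZMod n × L) (l : List (ZMod n × L)) :
    act x (a :: l) = act ⁅x, a.2⁆ l := rfl

theorem act_append (x : L) (l l' : List (ZMod n × L)) : act x (l ++ l') = act (act x l) l' := by
  induction l generalizing x with
  | nil => rfl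
  | cons a l ih => rw [List.cons_append, act_cons, act_cons, ih]

theorem act_add (x y : L) (l : List (ZMod n × L)) : act (x + y) l = act x l + act y l := by
  induction l generalizing x y with
  | nil => rfl
  | cons a l ih => rw [act_cons, act_cons, act_cons, add_lie, ih]

@[simp] theorem act_zero (l : List (ZMod n × L)) : act (0 : L) l = 0 := by
  induction l with
  | nil => rfl
  | cons a l ih => rw [act_cons, zero_lie, ih]

theorem act_neg (x : L) (l : List (ZMod n × L)) : act (-x) l = -act x l := by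
  have h := act_add x (-x) l
  rw [add_neg_cancel, act_zero] at h
  exact (neg_eq_of_add_eq_zero_right h.symm).symm

theorem act_sub (x y : L) (l : List (ZMod n × L)) : act (x - y) l = act x l - act y l := by
  rw [sub_eq_add_neg, act_add, act_neg, sub_eq_add_neg]

/-- valid lists of homogeneous elements -/
def Val (M : ZMod n → AddSubgroup L) (l : List (ZMod n × L)) : Prop := ∀ a ∈ l, a.2 ∈ M a.1

theorem LC_eq_bot {M : ZMod n → AddSubgroup L} (r : ℕ) : ∀ X : ZMod n → AddSubgroup L,
    (∀ u, ∀ x ∈ X u, ∀ l : List (ZMod n × L), Val M l → l.length = r → act x l = 0) →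
      ∀ i, LC M X r i = ⊥ := by
  induction r with
  | zero =>
    intro X h i
    rw [LC_zero, eq_bot_iff]
    intro x hx
    exact h i x hx [] (by intro a ha; simp at ha) rfl
  | succ r ih =>
    intro X h i
    rw [LC_succ]
    apply ih
    intro u x hx l hl hlen
    induction hx using AddSubgroup.closure_induction with
    | mem z hz =>
      obtain ⟨i, j, x, y, hx, hy, _, rfl⟩ := hz
      have := h i x hx ((j, y) :: l) (by
        intro a ha
        rcases List.mem_cons.mp ha with h | h
        · rw [h]; exact hy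
        · exact hl a h) (by simp [hlen])
      exact this
    | zero => exact act_zero l
    | add a b _ _ h1 h2 => rw [act_add, h1, h2, add_zero]
    | neg a _ h1 => rw [act_neg, h1, neg_zero]

theorem act_mem {M X : ZMod n → AddSubgroup L} {u : ZMod n} {x : L} (hx : x ∈ X u)
    (l : List (ZMod n × L)) (hl : Val M l) : act x l ∈ LC M X l.length (u + (l.map Prod.fst).sum) := by
  induction l generalizing X u x with
  | nil => simpa [LC_zero] using hx
  | cons a l ih =>
    have h1 : ⁅x, a.2⁆ ∈ BF X M (u + a.1) := mem_BF hx (hl a (by simp))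
    have h2 := ih h1 (fun b hb => hl b (by simp [hb]))
    rw [act_cons, List.length_cons, LC_succ, List.map_cons, List.sum_cons, ← add_assoc]
    exact h2

theorem LC_mono {M X : ZMod n → AddSubgroup L} (hX : ∀ i, BF X M i ≤ X i) {r s : ℕ} (hrs : r ≤ s)
    (i : ZMod n) : LC M X s i ≤ LC M X r i := by
  have h1 : ∀ t, (∀ i, BF (LC M X t) M i ≤ LC M X t i) := by
    intro t
    induction t with
    | zero => exact hX
    | succ t ih =>
      intro i
      rw [LC_succ']
      apply BF_le
      intro a b x y hx hy hab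
      rw [← hab]
      exact mem_BF (ih a hx) hy
  induction hrs with
  | refl => exact le_rfl
  | step h ih => rw [LC_succ']; exact (h1 _ i).trans ih

theorem act_eq_zero {M X : ZMod n → AddSubgroup L} (hX : ∀ i, BF X M i ≤ X i) {r : ℕ}
    (h : ∀ i, LC M X r i = ⊥) {u : ZMod n} {x : L} (hx : x ∈ X u)
    (l : List (ZMod n × L)) (hl : Val M l) (hlen : r ≤ l.length) : act x l = 0 := by
  have h1 := act_mem hx l hl
  have h2 := LC_mono hX hlen _ h1
  rw [h] at h2
  exact h2

omit [LieRing L] in
/-- subset sums of nonzero residues -/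
theorem subset_sums {p : ℕ} [Fact p.Prime] (l : List (ZMod p × L)) (hl : ∀ a ∈ l, a.1 ≠ 0)
    (hlen : l.length = p - 1) (t : ZMod p) : ∃ l' : List (ZMod p × L), l'.Sublist l ∧
      (l'.map Prod.fst).sum = t := by
  classical
  have hp : p.Prime := Fact.out
  have key : ∀ l : List (ZMod p × L), (∀ a ∈ l, a.1 ≠ 0) → ∃ S : Finset (ZMod p),
      min p (l.length + 1) ≤ S.card ∧ S.Nonempty ∧ ∀ s ∈ S, ∃ l' : List (ZMod p × L), l'.Sublist l ∧
        (l'.map Prod.fst).sum = s := by
    intro l
    induction l with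
    | nil =>
      intro _
      exact ⟨{0}, by simp, by simp, by
        intro s hs
        rw [Finset.mem_singleton] at hs
        exact ⟨[], List.Sublist.refl _, by simp [hs]⟩⟩
    | cons a l ih =>
      intro hl
      obtain ⟨S, hS, hSne, hSm⟩ := ih (fun b hb => hl b (by simp [hb]))
      open scoped Pointwise in
      refine ⟨S + {0, a.1}, ?_, ?_, ?_⟩
      · have h1 := ZMod.cauchy_davenport hp hSne (t := {0, a.1}) (by simp)
        have h2 : ({0, a.1} : Finset (ZMod p)).card = 2 := Finset.card_pair (hl a (by simp)).symm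
        rw [h2] at h1
        refine le_trans ?_ h1
        rw [List.length_cons]
        omega
      · exact hSne.add (by simp)
      · intro s hs
        obtain ⟨s1, hs1, s2, hs2, rfl⟩ := Finset.mem_add.mp hs
        obtain ⟨l', hl', hsum⟩ := hSm s1 hs1
        rcases Finset.mem_insert.mp hs2 with h | h
        · exact ⟨l', hl'.cons a, by rw [hsum, h, add_zero]⟩
        · rw [Finset.mem_singleton] at h
          exact ⟨a :: l', hl'.cons_cons a, by rw [List.map_cons, List.sum_cons, hsum, h, add_comm]⟩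
  obtain ⟨S, hS, _, hSm⟩ := key l hl
  have h1 : S = Finset.univ := by
    rw [← Finset.card_eq_iff_eq_univ, ZMod.card]
    apply le_antisymm
    · have := Finset.card_le_univ S
      rwa [ZMod.card] at this
    · have h2 : l.length + 1 = p := by rw [hlen]; have := hp.pos; omega
      rw [h2, min_self] at hS
      exact hS
  exact hSm t (by rw [h1]; exact Finset.mem_univ t)

section step

variable {M N X X' : ZMod n → AddSubgroup L}

theorem act_perm (hM : GR M) (hXid : ∀ i, BF X M i ≤ X i) {r' : ℕ}
    (hX'id : ∀ i, BF (BF X (BF M M)) M i ≤ BF X (BF M M) i)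
    (h : ∀ i, LC M (BF X (BF M M)) r' i = ⊥) {l1 l2 : List (ZMod n × L)} (hp : l1.Perm l2) :
    ∀ (rest : List (ZMod n × L)), Val M rest → r' ≤ rest.length → Val M l1 →
      ∀ u, ∀ x ∈ X u, act x (l1 ++ rest) = act x (l2 ++ rest) := by
  induction hp with
  | nil => intro rest _ _ _ u x _; rfl
  | cons a hp ih =>
    intro rest hrest hlen hl u x hx
    rw [List.cons_append, List.cons_append, act_cons, act_cons]
    exact ih rest hrest hlen (fun b hb => hl b (by simp [hb])) (u + a.1) _
      (hXid _ (mem_BF hx (hl a (by simp))))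
  | swap a b l =>
    intro rest hrest hlen hl u x hx
    simp only [List.cons_append, act_cons]
    rw [← sub_eq_zero, ← act_sub]
    have h1 : ⁅⁅x, b.2⁆, a.2⁆ - ⁅⁅x, a.2⁆, b.2⁆ = ⁅x, ⁅b.2, a.2⁆⁆ := by
      rw [leibniz_lie, ← lie_skew b.2 ⁅x, a.2⁆]
      abel
    rw [h1]
    have h2 : ⁅x, ⁅b.2, a.2⁆⁆ ∈ BF X (BF M M) (u + (b.1 + a.1)) :=
      mem_BF hx (mem_BF (hl b (by simp)) (hl a (by simp)))
    apply act_eq_zero hX'id h h2
    · intro c hc
      rcases List.mem_append.mp hc with h | h
      · exact hl c (by simp [h])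
      · exact hrest c h
    · rw [List.length_append]; omega
  | trans h1 h2 ih1 ih2 =>
    intro rest hrest hlen hl u x hx
    rw [ih1 rest hrest hlen hl u x hx]
    exact ih2 rest hrest hlen (fun a ha => hl a (h1.mem_iff.mpr ha)) u x hx

theorem step {p : ℕ} [Fact p.Prime] {M X : ZMod p → AddSubgroup L} (hM : GR M) (hXM : ∀ i, X i ≤ M i)
    (hXid : ∀ i, BF X M i ≤ X i) {r' : ℕ}
    (hX'id : ∀ i, BF (BF X (BF M M)) M i ≤ BF X (BF M M) i)
    (h : ∀ i, LC M (BF X (BF M M)) r' i = ⊥) : ∀ i, LC M X (r' + (p - 1)) i = ⊥ := by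
  apply LC_eq_bot
  intro u x hx l hl hlen
  set l1 := l.take (p - 1) with hl1
  set rest := l.drop (p - 1) with hrest
  have hsplit : l = l1 ++ rest := (List.take_append_drop _ _).symm
  have hlen1 : l1.length = p - 1 := by rw [hl1, List.length_take]; omega
  have hlenr : rest.length = r' := by rw [hrest, List.length_drop]; omega
  have hv1 : Val M l1 := fun a ha => hl a (by rw [hsplit]; exact List.mem_append_left _ ha)
  have hvr : Val M rest := fun a ha => hl a (by rw [hsplit]; exact List.mem_append_right _ ha)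
  by_cases hz : ∀ a ∈ l1, a.1 ≠ 0
  · obtain ⟨l', hl', hsum⟩ := subset_sums l1 hz hlen1 (-u)
    obtain ⟨l'', hl''⟩ := hl'.exists_perm_append
    rw [hsplit, act_perm hM hXid hX'id h hl'' rest hvr hlenr.ge hv1 u x hx, List.append_assoc, act_append]
    have h1 : act x l' ∈ M (u + (l'.map Prod.fst).sum) := by
      have hv' : Val M l' := fun a ha => hv1 a (hl'.subset ha)
      have h2 := act_mem hx l' hv'
      have h3 := LC_mono hXid (Nat.zero_le l'.length) _ h2
      exact hXM _ h3
    rw [hsum, add_neg_cancel, hM.zero, AddSubgroup.mem_bot] at h1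
    rw [h1, act_zero]
  · push Not at hz
    obtain ⟨a, ha, ha0⟩ := hz
    have h1 : a.2 = 0 := by
      have := hv1 a ha
      rwa [ha0, hM.zero, AddSubgroup.mem_bot] at this
    obtain ⟨s, t, hst⟩ := List.append_of_mem (show a ∈ l by rw [hsplit]; exact List.mem_append_left _ ha)
    rw [hst, act_append, act_cons, h1, lie_zero, act_zero]

end step

/-- the class bound. -/
theorem nilp {p : ℕ} [Fact p.Prime] (s : ℕ) : ∀ M : ZMod p → AddSubgroup L, GR M →
    (∀ i, DD s M i = ⊥) → ∀ i, LC M M (∑ i ∈ Finset.range s, (p - 1) ^ i) i = ⊥ := by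
  induction s with
  | zero =>
    intro M hM h i
    simpa [LC_zero, DD_zero] using h i
  | succ s ih =>
    intro M hM h
    set N := BF M M with hN
    have hNM : ∀ i, N i ≤ M i := hM.BF_le
    have hGN : GR N := hM.BF
    have h1 : ∀ i, LC N N (∑ i ∈ Finset.range s, (p - 1) ^ i) i = ⊥ := ih N hGN (by
      intro i; have := h i; rwa [DD_succ] at this)
    set c := ∑ i ∈ Finset.range s, (p - 1) ^ i with hc
    -- ideals
    have hid : ∀ j i, BF (LC N N j) M i ≤ LC N N j i := by
      intro j
      induction j with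
      | zero =>
        intro i
        rw [LC_zero]
        apply BF_le
        intro a b x y hx hy hab
        rw [← hab, hN]
        exact mem_BF (hNM a hx) hy
      | succ j ihj =>
        intro i
        rw [LC_succ']
        apply BF_le
        intro a b x y hx hy hab
        -- x ∈ [X, N]_a ; [x, y] ∈ [X, N]
        rw [← hab]
        have h2 : BF (LC N N j) N a ≤ (BF (LC N N j) N (a + b)).comap
            (AddMonoidHom.mk' (fun z : L => ⁅z, y⁆) (fun z w => add_lie z w y)) := by
          apply BF_le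
          intro a' b' x' y' hx' hy' hab'
          rw [AddSubgroup.mem_comap]
          change ⁅⁅x', y'⁆, y⁆ ∈ _
          have e : ⁅⁅x', y'⁆, y⁆ = ⁅x', ⁅y', y⁆⁆ + ⁅⁅x', y⁆, y'⁆ := by
            rw [leibniz_lie x' y' y, ← lie_skew y' ⁅x', y⁆]; abel
          rw [e]
          apply add_mem
          · have : ⁅y', y⁆ ∈ N (b' + b) := by
              rw [hN]; exact mem_BF (hNM _ hy') hy
            have h3 := mem_BF hx' this
            have h4 : a' + (b' + b) = a + b := by rw [← hab']; ring
            rwa [h4] at h3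
          · have : ⁅x', y⁆ ∈ LC N N j (a' + b) := ihj _ (mem_BF hx' hy)
            have h3 := mem_BF this hy'
            have h4 : a' + b + b' = a + b := by rw [← hab']; ring
            rwa [h4] at h3
        exact h2 hx
    have hle : ∀ j i, LC N N j i ≤ M i := by
      intro j i
      refine (LC_mono (M := N) (X := N) hGN.BF_le (Nat.zero_le j) i).trans ?_
      exact hNM i
    -- descending induction
    have hdesc : ∀ t, t ≤ c → ∀ i, LC M (LC N N (c - t)) (t * (p - 1)) i = ⊥ := by
      intro t
      induction t with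
      | zero =>
        intro _ i
        rw [Nat.sub_zero, zero_mul, LC_zero]
        exact h1 i
      | succ t iht =>
        intro ht i
        have e1 : c - t = (c - (t + 1)) + 1 := by omega
        have h2 := iht (by omega)
        rw [e1, LC_succ'] at h2
        rw [Nat.succ_mul]
        refine step hM (hle _) (hid _) ?_ h2 i
        intro i
        have h3 := hid (c - (t + 1) + 1) i
        rw [LC_succ'] at h3
        exact h3
    have h2 := hdesc c le_rfl
    intro i
    rw [Nat.sub_self, LC_zero] at h2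
    rw [Finset.sum_range_succ', pow_zero]
    have e2 : ∑ k ∈ Finset.range s, (p - 1) ^ (k + 1) = c * (p - 1) := by
      rw [hc, Finset.sum_mul]
      apply Finset.sum_congr rfl
      intro k _
      rw [pow_succ]
    rw [e2, LC_succ]
    exact h2 i

/-- **Higman–Kreknin–Kostrikin**, graded form. -/
theorem hkk {p : ℕ} [Fact p.Prime] {M : ZMod p → AddSubgroup L} (hM : GR M) (i : ZMod p) :
    LC M M (∑ i ∈ Finset.range (2 ^ (p - 1) - 1), (p - 1) ^ i) i = ⊥ :=
  nilp _ M hM (fun i => kreknin hM i) i

/-- the case `p = 3`. -/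
theorem three {M : ZMod 3 → AddSubgroup L} (hM : GR M) (i : ZMod 3) : LC M M 2 i = ⊥ := by
  apply LC_eq_bot
  intro u x hx l hl hlen
  match l, hlen with
  | [a, b], _ =>
    have ha : a.2 ∈ M a.1 := hl a (by simp)
    have hb : b.2 ∈ M b.1 := hl b (by simp)
    simp only [act_cons, act_nil]
    have hz : ∀ i j (x y : L), x ∈ M i → y ∈ M j → i + j = 0 → ⁅x, y⁆ = 0 := by
      intro i j x y hx hy hij
      have := hM.lie i j x y hx hy
      rwa [hij, hM.zero, AddSubgroup.mem_bot] at this
    have hcases : ∀ u v w : ZMod 3, u = 0 ∨ v = 0 ∨ w = 0 ∨ u + v = 0 ∨ (u + v) + w = 0 ∨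
        (v + w = 0 ∧ u + w = 0) := by decide
    rcases hcases u a.1 b.1 with h | h | h | h | h | ⟨h, h'⟩
    · rw [h, hM.zero, AddSubgroup.mem_bot] at hx
      rw [hx, zero_lie, zero_lie]
    · rw [h, hM.zero, AddSubgroup.mem_bot] at ha
      rw [ha, lie_zero, zero_lie]
    · rw [h, hM.zero, AddSubgroup.mem_bot] at hb
      rw [hb, lie_zero]
    · rw [hz _ _ _ _ hx ha h, zero_lie]
    · exact hz _ _ _ _ (hM.lie _ _ _ _ hx ha) hb h
    · have e : ⁅⁅x, a.2⁆, b.2⁆ = ⁅x, ⁅a.2, b.2⁆⁆ + ⁅⁅x, b.2⁆, a.2⁆ := by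
        rw [leibniz_lie x a.2 b.2, ← lie_skew a.2 ⁅x, b.2⁆]; abel
      rw [e, hz _ _ _ _ ha hb h, hz _ _ _ _ hx hb h', lie_zero, zero_lie, add_zero]

end H66.Kreknin
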