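import Mathlib
import Cfsg.Agent.Lib.H57.Mc6
import Cfsg.Agent.Lib.H57.Mc8
import Cfsg.Agent.Lib.H3.MaxClass2
import Cfsg.Agent.Lib.H3.PBasic
import Cfsg.Agent.Lib.H58.MaxCent
import Cfsg.Agent.Lib.H76.PG

/-!
`p`-groups of maximal class: uniform elements outside a given proper subgroup, and characteristic maximal subgroups.
-/

set_option autoImplicit false

namespace H66.MaxD

open Subgroup H57.Mc H67.HallPetrescu
open scoped commutatorElement

variable {p : ℕ} [hp : Fact p.Prime] {P : Type*} [Group P] [Finite P]

theorem exists_not_mem_two {G : Type*} [Group G] {A B : Subgroup G} (hA : A ≠ ⊤) (hB : B ≠ ⊤) : ∃ g, g ∉ A ∧ g ∉ B := by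
  by_contra hcon
  push Not at hcon
  obtain ⟨a, ha⟩ : ∃ a, a ∉ A := by
    by_contra h; push Not at h; exact hA ((eq_top_iff' A).mpr h)
  obtain ⟨b, hb⟩ : ∃ b, b ∉ B := by
    by_contra h; push Not at h; exact hB ((eq_top_iff' B).mpr h)
  have haB := hcon a ha
  have hbA : b ∈ A := by
    by_contra h
    exact hb (hcon b h)
  have h1 : a * b ∉ A := fun h => ha ((mul_mem_cancel_right hbA).mp h)
  exact hb ((mul_mem_cancel_left haB).mp (hcon _ h1))

/-- centralizers in a `p`-group of order at least `p²` have order at least `p²` -/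
theorem le_card_cent {n : ℕ} (hn : 2 ≤ n) (hP : Nat.card P = p ^ n) (y : P) :
    ∃ k, 2 ≤ k ∧ Nat.card (centralizer ({y} : Set P)) = p ^ k := by
  have hpg : IsPGroup p P := IsPGroup.of_card hP
  have hnt : Nontrivial P := by
    rw [← Finite.one_lt_card_iff_nontrivial, hP]
    exact Nat.one_lt_pow (by omega) hp.out.one_lt
  obtain ⟨k, hk⟩ := IsPGroup.iff_card.mp (hpg.to_subgroup (centralizer ({y} : Set P)))
  refine ⟨k, ?_, hk⟩
  by_contra hlt
  push Not at hlt
  have hZne : center P ≠ ⊥ := by
    have := hpg.center_nontrivial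
    exact (nontrivial_iff_ne_bot _).mp this
  have hZC : center P ≤ centralizer ({y} : Set P) := center_le_centralizer _
  have hyC : y ∈ centralizer ({y} : Set P) := mem_centralizer_singleton_iff.2 rfl
  have hZ1 : 1 < Nat.card (center P) := by
    rw [Finite.one_lt_card_iff_nontrivial]
    exact hpg.center_nontrivial
  by_cases hy : y ∈ center P
  · have : centralizer ({y} : Set P) = ⊤ := by
      rw [eq_top_iff]
      intro g _
      rw [mem_centralizer_singleton_iff]
      exact (mem_center_iff.mp hy g)
    rw [this, card_top, hP] at hk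
    have := Nat.pow_right_injective hp.out.two_le hk
    omega
  · have h1 : Nat.card (center P) ∣ Nat.card (centralizer ({y} : Set P)) := card_dvd_of_le hZC
    have h2 : Nat.card (centralizer ({y} : Set P)) ∣ p := by
      rw [hk]
      exact (pow_dvd_pow p (by omega : k ≤ 1)).trans (by rw [pow_one])
    rcases (Nat.dvd_prime hp.out).mp (h1.trans h2) with h3 | h3
    · omega
    · have h4 : Nat.card (centralizer ({y} : Set P)) ≤ Nat.card (center P) := by
        rw [h3]; exact Nat.le_of_dvd hp.out.pos h2
      have h5 := Subgroup.eq_of_le_of_card_ge hZC h4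
      rw [h5] at hy
      exact hy hyC

theorem center_ne_top {n : ℕ} (hn : 3 ≤ n) (hP : Nat.card P = p ^ n) (hcl : Group.nilpotencyClass P = n - 1) :
    center P ≠ ⊤ := by
  intro h
  have h1 := H3.MaxClassP.index_commutator_eq (by omega : 2 ≤ n) hP hcl
  have h2 : commutator P = ⊥ := by
    rw [commutator_def, Subgroup.commutator_eq_bot_iff_le_centralizer]
    intro x _
    rw [mem_centralizer_iff]
    intro y _
    have hx : x ∈ center P := by rw [h]; exact mem_top x
    exact mem_center_iff.mp hx y
  rw [h2, index_bot, hP] at h1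
  have := Nat.pow_right_injective hp.out.two_le h1
  omega

theorem exists_unif_elt {n : ℕ} (hn : 3 ≤ n) (hP : Nat.card P = p ^ n) (hcl : Group.nilpotencyClass P = n - 1)
    {M : Subgroup P} (hM : M ≠ ⊤) : ∃ y, y ∉ M ∧ Nat.card (centralizer ({y} : Set P)) = p ^ 2 := by
  have hpg : IsPGroup p P := IsPGroup.of_card hP
  have hlow := le_card_cent (p := p) (by omega : 2 ≤ n) hP
  have hfin : ∀ y : P, Nat.card (centralizer ({y} : Set P)) ≤ p ^ 2 → Nat.card (centralizer ({y} : Set P)) = p ^ 2 := by
    intro y hy
    obtain ⟨k, hk, he⟩ := hlow y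
    rw [he] at hy ⊢
    have := (Nat.pow_le_pow_iff_right hp.out.one_lt).mp hy
    rw [le_antisymm this hk]
  by_cases hn3 : n = 3
  · subst hn3
    obtain ⟨y, hyM, hyZ⟩ := exists_not_mem_two hM (center_ne_top le_rfl hP hcl)
    refine ⟨y, hyM, hfin y ?_⟩
    obtain ⟨k, hk, he⟩ := hlow y
    rw [he]
    apply Nat.pow_le_pow_right hp.out.pos
    have h1 : k ≤ 3 := by
      have := card_le_card_group (centralizer ({y} : Set P))
      rw [he, hP] at this
      exact (Nat.pow_le_pow_iff_right hp.out.one_lt).mp this
    by_contra hlt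
    have h2 : k = 3 := by omega
    apply hyZ
    have h3 : centralizer ({y} : Set P) = ⊤ := Subgroup.eq_top_of_card_eq _ (by rw [he, h2, hP])
    rw [mem_center_iff]
    intro g
    have : g ∈ centralizer ({y} : Set P) := by rw [h3]; exact mem_top g
    exact mem_centralizer_singleton_iff.mp this
  · have hn4 : 4 ≤ n := by omega
    by_cases hp2 : p = 2
    · subst hp2
      have h1 := H3.MaxClassP.index_commutator_eq (by omega : 2 ≤ n) hP hcl
      obtain ⟨a, t, ha, hidx, ht, hcen, hZ, -, -⟩ := H3.MaxClass2.exists_structure (by omega : 3 ≤ n) hP (by rw [h1]; norm_num)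
      have ha' : zpowers a ≠ ⊤ := by
        intro h; rw [h, index_top] at hidx; omega
      obtain ⟨y, hyM, hya⟩ := exists_not_mem_two hM ha'
      refine ⟨y, hyM, hfin y ?_⟩
      have h2 := hcen y hya
      have h3 : (zpowers a).relIndex (centralizer ({y} : Set P)) ≤ 2 := by
        have := Subgroup.normal_of_index_eq_two hidx
        have h4 := Subgroup.relIndex_dvd_index_of_normal (zpowers a) (centralizer ({y} : Set P))
        rw [hidx] at h4
        exact Nat.le_of_dvd (by norm_num) h4
      have h4 : Nat.card (centralizer ({y} : Set P)) =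
          Nat.card (↥(zpowers a ⊓ centralizer ({y} : Set P))) * (zpowers a).relIndex (centralizer ({y} : Set P)) := by
        have h5 := Subgroup.card_mul_index ((zpowers a).subgroupOf (centralizer ({y} : Set P)))
        rw [← h5]
        congr 1
        rw [← Subgroup.inf_subgroupOf_right]
        exact Nat.card_congr (Subgroup.subgroupOfEquivOfLe inf_le_right).toEquiv
      rw [h4, h2, hZ, pow_two]
      exact Nat.mul_le_mul le_rfl h3
    · have h3 : 3 ≤ p := by
        have := hp.out.two_le
        omega
      have h : MC p n P := mc_of_class (by omega) hP hcl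
      have hMi : p ≤ M.index := by
        obtain ⟨k, hk⟩ := hpg.index M
        rw [hk]
        have hk0 : k ≠ 0 := by
          rintro rfl
          rw [pow_zero] at hk
          exact hM (index_eq_one.mp hk)
        calc p = p ^ 1 := (pow_one p).symm
          _ ≤ p ^ k := Nat.pow_le_pow_right hp.out.pos (by omega)
      obtain ⟨s, hs1, hs2, hs3⟩ := exists_not_mem_three h3 (h.index_TC (le_refl 2) (by omega)).ge
        (h.index_TC (i := n - 2) (by omega) (by omega)).ge hMi
      have hs : Unif n s := by
        intro i hi hin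
        rcases Nat.lt_or_ge i (n - 2) with h1 | h1
        · rw [h.TC_eq hi hin ((h.blackburn hn4 h3).1 i hi h1)]; exact hs1
        · have : i = n - 2 := by omega
          rw [this]; exact hs2
      refine ⟨s, hs3, hfin s ?_⟩
      set C := Subgroup.centralizer ({s} : Set P) with hC
      have hmemC : ∀ x, x ∈ C ↔ x * s = s * x := fun x => by
        rw [hC, Subgroup.mem_centralizer_singleton_iff]
      have h1 : (C ⊓ TC P 2) ≤ lcsF P (n - 1) := fun x hx => h.cent hn4 hs hx.2
        (commutatorElement_eq_one_iff_mul_comm.2 ((hmemC x).1 hx.1))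
      have h2 : Nat.card (↥(C ⊓ TC P 2)) ≤ p := by
        have := Subgroup.card_le_of_le h1
        rwa [h.cardK (n - 1) (by omega) (by omega), show n - (n - 1) = 1 by omega, pow_one] at this
      have h3' : (TC P 2).relIndex C ≤ p := by
        have hnorm := h.normal_P1 hn4
        have h4 := Subgroup.relIndex_dvd_index_of_normal (TC P 2) C
        rw [h.index_TC (le_refl 2) (by omega)] at h4
        exact Nat.le_of_dvd hp.out.pos h4
      have h4 : Nat.card C = Nat.card (↥(C ⊓ TC P 2)) * (TC P 2).relIndex C := by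
        have h5 := Subgroup.card_mul_index ((TC P 2).subgroupOf C)
        rw [← h5]
        congr 1
        rw [← Subgroup.inf_subgroupOf_left]
        exact Nat.card_congr (Subgroup.subgroupOfEquivOfLe inf_le_left).toEquiv
      rw [h4, pow_two]
      exact Nat.mul_le_mul h2 h3'

/-- a `p`-group with an element with centralizer of order `p²` has a center of order `p` if the order is at least `p³` -/
theorem card_center {y : P} (hpg : IsPGroup p P) (hy : Nat.card (centralizer ({y} : Set P)) = p ^ 2)
    (h3 : p ^ 3 ≤ Nat.card P) : y ∉ center P ∧ Nat.card (center P) = p := by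
  have hyZ : y ∉ center P := by
    intro h
    have : centralizer ({y} : Set P) = ⊤ := by
      rw [eq_top_iff]
      intro g _
      rw [mem_centralizer_singleton_iff]
      exact mem_center_iff.mp h g
    rw [this, card_top] at hy
    rw [hy] at h3
    have := (Nat.pow_le_pow_iff_right hp.out.one_lt).mp h3
    omega
  refine ⟨hyZ, ?_⟩
  have hZC : center P ≤ centralizer ({y} : Set P) := center_le_centralizer _
  have hyC : y ∈ centralizer ({y} : Set P) := mem_centralizer_singleton_iff.2 rfl
  have hnt : Nontrivial P := by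
    rw [← Finite.one_lt_card_iff_nontrivial]
    have : p ^ 0 < p ^ 3 := Nat.pow_lt_pow_right hp.out.one_lt (by norm_num)
    rw [pow_zero] at this
    omega
  have h1 : Nat.card (center P) ∣ p ^ 2 := by rw [← hy]; exact card_dvd_of_le hZC
  obtain ⟨k, hk, he⟩ := (Nat.dvd_prime_pow hp.out).mp h1
  have hk1 : k ≠ 0 := by
    rintro rfl
    have : Nontrivial (center P) := hpg.center_nontrivial
    have := Finite.one_lt_card_iff_nontrivial.mpr this
    rw [he, pow_zero] at this
    omega
  have hk2 : k ≠ 2 := by
    rintro rfl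
    have h5 := Subgroup.eq_of_le_of_card_ge hZC (by rw [hy, he])
    rw [h5] at hyZ
    exact hyZ hyC
  have : k = 1 := by omega
  rw [he, this, pow_one]

/-- characteristic maximal subgroup -/
theorem exists_char {y : P} (hpg : IsPGroup p P) (hy : Nat.card (centralizer ({y} : Set P)) = p ^ 2)
    (h4 : p ^ 4 ≤ Nat.card P) : ∃ D : Subgroup P, D.index = p ∧ ∀ (σ : P ≃* P), D.map σ.toMonoidHom = D := by
  have h34 : p ^ 3 ≤ p ^ 4 := Nat.pow_le_pow_right hp.out.pos (by norm_num)
  obtain ⟨hyZ, hZ⟩ := card_center hpg hy (h34.trans h4)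
  have hyC : y ∈ centralizer ({y} : Set P) := mem_centralizer_singleton_iff.2 rfl
  have hZC : center P ≤ centralizer ({y} : Set P) := center_le_centralizer _
  have hmem2 : ∀ t : P, t ∈ Subgroup.upperCentralSeries P 2 ↔ ∀ g : P, ⁅t, g⁆ ∈ center P := by
    intro t
    rw [Subgroup.mem_upperCentralSeries_succ_iff, Subgroup.upperCentralSeries_one]
  have hcomm : ∀ t ∈ Subgroup.upperCentralSeries P 2, ∀ g : P, g * t * g⁻¹ * t⁻¹ ∈ center P := by
    intro t ht g
    have h1 := (hmem2 t).mp ht g
    have h2 := (center P).inv_mem h1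
    rwa [commutatorElement_inv, commutatorElement_def] at h2
  set Z2 := Subgroup.upperCentralSeries P 2 with hZ2
  have hZle : center P ≤ Z2 := by
    intro t ht
    rw [hmem2]
    intro g
    have : ⁅t, g⁆ = 1 := by
      rw [commutatorElement_eq_one_iff_mul_comm]
      exact (mem_center_iff.mp ht g).symm
    rw [this]
    exact one_mem _
  -- `Z₂ ≠ Z`
  have hne : center P ≠ Z2 := by
    intro h
    have h1 : (center P : Subgroup P) ≠ ⊤ := by
      intro h'
      exact hyZ (by rw [h']; exact mem_top y)
    have hlt : center P < ⊤ := lt_top_iff_ne_top.mpr h1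
    obtain ⟨K, hKn, hK1, _, hK3, hK4⟩ := H3.PBasic.exists_normal_between hpg (center P) ⊤ hlt
    have h2 : K ≤ Z2 := by
      intro t ht
      rw [hmem2]
      intro g
      exact hK4 (commutator_mem_commutator ht (mem_top g))
    rw [← h] at h2
    have h3 := card_le_of_le h2
    rw [hK3] at h3
    have : 0 < Nat.card (center P) := Nat.card_pos
    have := hp.out.two_le
    nlinarith
  obtain ⟨t, htZ2, htZ⟩ := SetLike.exists_of_lt (lt_of_le_of_ne hZle hne)
  -- relIndex of the centralizer
  have hrel : ∀ x ∈ Z2, (centralizer ({x} : Set P)).index ∣ p := by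
    intro x hx
    have := H58.MaxCent.relIndex_dvd (x := x) (N := ⊤) (fun g _ => hcomm x hx g)
    rwa [relIndex_top_right, hZ] at this
  have hyZ2 : y ∉ Z2 := by
    intro h
    have h1 := hrel y h
    have h2 := Subgroup.card_mul_index (centralizer ({y} : Set P))
    rw [hy] at h2
    have h3 := Nat.le_of_dvd hp.out.pos h1
    have h5 : Nat.card P ≤ p ^ 3 := by
      rw [← h2, pow_succ p 2]
      exact Nat.mul_le_mul le_rfl h3
    have h6 := h4.trans h5
    have := (Nat.pow_le_pow_iff_right hp.out.one_lt).mp h6
    omega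
  -- `|Z₂| ≤ p²`
  have hcardZ2 : Nat.card Z2 ≤ p ^ 2 := by
    have h1 : Z2 ⊓ centralizer ({y} : Set P) < centralizer ({y} : Set P) := by
      refine lt_of_le_of_ne inf_le_right ?_
      intro h
      rw [← h] at hyC
      exact hyZ2 hyC.1
    have h2 : Nat.card (↥(Z2 ⊓ centralizer ({y} : Set P))) ≤ p := by
      have h3 : Nat.card (↥(Z2 ⊓ centralizer ({y} : Set P))) ∣ p ^ 2 := by
        rw [← hy]; exact card_dvd_of_le inf_le_right
      obtain ⟨k, hk, he⟩ := (Nat.dvd_prime_pow hp.out).mp h3
      have hk2 : k ≠ 2 := by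
        rintro rfl
        exact h1.ne (Subgroup.eq_of_le_of_card_ge inf_le_right (by rw [he, hy]))
      rw [he]
      calc p ^ k ≤ p ^ 1 := Nat.pow_le_pow_right hp.out.pos (by omega)
        _ = p := pow_one p
    let f : ↥Z2 →* ↥(center P) := MonoidHom.mk' (fun z => ⟨y * z * y⁻¹ * (z : P)⁻¹, hcomm z z.2 y⟩) (by
      intro a b
      apply Subtype.ext
      show y * ((a : P) * b) * y⁻¹ * ((a : P) * b)⁻¹ = (y * a * y⁻¹ * (a : P)⁻¹) * (y * b * y⁻¹ * (b : P)⁻¹)
      have hb := Subgroup.mem_center_iff.1 (hcomm b b.2 y)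
      have h2 := hb (a : P)⁻¹
      calc y * ((a : P) * b) * y⁻¹ * ((a : P) * b)⁻¹ = y * a * y⁻¹ * ((y * b * y⁻¹ * (b : P)⁻¹) * (a : P)⁻¹) := by group
        _ = y * a * y⁻¹ * ((a : P)⁻¹ * (y * b * y⁻¹ * (b : P)⁻¹)) := by rw [← h2]
        _ = _ := by group)
    have hker : f.ker = (centralizer ({y} : Set P)).subgroupOf Z2 := by
      ext z
      rw [MonoidHom.mem_ker, Subgroup.mem_subgroupOf, Subgroup.mem_centralizer_singleton_iff]
      constructor
      · intro h
        have h1 : y * (z : P) * y⁻¹ * (z : P)⁻¹ = 1 := congrArg Subtype.val h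
        rw [mul_inv_eq_one] at h1
        exact (mul_inv_eq_iff_eq_mul.1 h1).symm
      · intro h
        apply Subtype.ext
        show y * (z : P) * y⁻¹ * (z : P)⁻¹ = 1
        rw [← h]; group
    have h5 := Subgroup.card_mul_index f.ker
    rw [Subgroup.index_ker] at h5
    have h6 : Nat.card f.range ≤ p := by
      rw [← hZ]; exact card_le_card_group _
    have h7 : Nat.card f.ker ≤ p := by
      rw [hker]
      have : Nat.card ((centralizer ({y} : Set P)).subgroupOf Z2) = Nat.card (↥(Z2 ⊓ centralizer ({y} : Set P))) := by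
        rw [← Subgroup.inf_subgroupOf_left]
        exact Nat.card_congr (Subgroup.subgroupOfEquivOfLe inf_le_left).toEquiv
      rw [this]; exact h2
    rw [← h5, pow_two]
    exact Nat.mul_le_mul h7 h6
  -- `Z₂ = ⟨t⟩ Z`
  have hZ2t : Z2 ≤ zpowers t ⊔ center P := by
    have h1 : center P < zpowers t ⊔ center P := by
      refine lt_of_le_of_ne le_sup_right ?_
      intro h
      apply htZ
      rw [h]
      exact (le_sup_left : zpowers t ≤ _) (mem_zpowers t)
    have h2 : zpowers t ⊔ center P ≤ Z2 := sup_le (by rwa [zpowers_le]) hZle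
    have h3 : Nat.card (zpowers t ⊔ center P : Subgroup P) ∣ Nat.card P := card_subgroup_dvd_card _
    obtain ⟨k, hk⟩ := IsPGroup.iff_card.mp (hpg.to_subgroup (zpowers t ⊔ center P))
    have h5 : Nat.card (center P) < Nat.card (zpowers t ⊔ center P : Subgroup P) := by
      by_contra hle
      push Not at hle
      exact h1.ne (Subgroup.eq_of_le_of_card_ge h1.le hle)
    rw [hZ, hk] at h5
    have h6 : 2 ≤ k := by
      by_contra hlt
      have : p ^ k ≤ p ^ 1 := Nat.pow_le_pow_right hp.out.pos (by omega)
      rw [pow_one] at this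
      omega
    have h7 : Nat.card Z2 ≤ Nat.card (zpowers t ⊔ center P : Subgroup P) := by
      rw [hk]
      exact hcardZ2.trans (Nat.pow_le_pow_right hp.out.pos h6)
    exact (Subgroup.eq_of_le_of_card_ge h2 h7).ge
  refine ⟨centralizer (Z2 : Set P), ?_, ?_⟩
  · have h1 : centralizer (Z2 : Set P) = centralizer ({t} : Set P) := by
      apply le_antisymm
      · exact centralizer_le (by
          intro x hx
          rw [Set.mem_singleton_iff] at hx
          rw [hx]; exact htZ2)
      · intro g hg
        rw [mem_centralizer_iff]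
        intro x hx
        have hx' := hZ2t hx
        obtain ⟨u, hu, z, hz, rfl⟩ := mem_sup_of_normal_right.mp hx'
        obtain ⟨i, rfl⟩ := mem_zpowers_iff.mp hu
        have h2 : Commute g t := mem_centralizer_singleton_iff.mp hg
        have h3 : Commute g z := mem_center_iff.mp hz g
        exact ((h2.zpow_right i).mul_right h3).eq.symm
    rw [h1]
    rcases (Nat.dvd_prime hp.out).mp (hrel t htZ2) with h2 | h2
    · exfalso
      apply htZ
      rw [mem_center_iff]
      intro g
      have : g ∈ centralizer ({t} : Set P) := by rw [index_eq_one.mp h2]; exact mem_top g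
      exact mem_centralizer_singleton_iff.mp this
    · exact h2
  · intro σ
    have hσ : ∀ (τ : P ≃* P) (x : P), x ∈ Z2 → τ x ∈ Z2 := by
      intro τ x hx
      have hcc : ∀ (τ : P ≃* P) (x : P), x ∈ center P → τ x ∈ center P := by
        intro τ x hx
        rw [mem_center_iff] at hx ⊢
        intro g
        have := congrArg τ (hx (τ.symm g))
        rwa [map_mul, map_mul, τ.apply_symm_apply] at this
      rw [hmem2] at hx ⊢
      intro g
      have h2 := hcc τ _ (hx (τ.symm g))
      rwa [map_commutatorElement, τ.apply_symm_apply] at h2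
    have hle : ∀ τ : P ≃* P, (centralizer (Z2 : Set P)).map τ.toMonoidHom ≤ centralizer (Z2 : Set P) := by
      rintro τ _ ⟨g, hg, rfl⟩
      have hg' := mem_centralizer_iff.mp hg
      rw [mem_centralizer_iff]
      intro x hx
      have h1 := congrArg τ (hg' (τ.symm x) (hσ τ.symm x hx))
      rw [map_mul, map_mul, τ.apply_symm_apply] at h1
      exact h1
    apply le_antisymm (hle σ)
    intro g hg
    exact ⟨σ.symm g, hle σ.symm ⟨g, hg, rfl⟩, σ.apply_symm_apply g⟩

end H66.MaxD
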