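import Mathlib
import Cfsg.Agent.Lib.H66.MaxD1
import Cfsg.Agent.Lib.H38.Goldschmidt
import Cfsg.Agent.Lib.H1.Coprime2
import Cfsg.Agent.Lib.H11.PStabApp

/-!
Centric radical subgroups of a Sylow subgroup containing uniform elements.
-/

set_option autoImplicit false

namespace H66.MaxD

open Subgroup
open scoped commutatorElement

universe u

variable {p : ℕ} [hp : Fact p.Prime] {G : Type u} [Group G] [Finite G]

/-- centric radical subgroups of `S` -/
structure CR (p : ℕ) (S E : Subgroup G) : Prop where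
  le : E ≤ S
  cent : S ⊓ centralizer (E : Set G) ≤ E
  rad : ∀ X : Subgroup G, X ≤ normalizer (E : Set G) →
        (∀ n ∈ normalizer (E : Set G), X.map (MulAut.conj n).toMonoidHom = X) →
        E ⊔ centralizer (E : Set G) ≤ X →
        (∃ k : ℕ, (E ⊔ centralizer (E : Set G)).relIndex X = p ^ k) →
        X = E ⊔ centralizer (E : Set G)

/-- elements acting trivially on `E/D` and `D/F` -/
def Act (E D F : Subgroup G) : Subgroup G where
  carrier := {g | g ∈ normalizer (E : Set G) ∧ g ∈ normalizer (D : Set G) ∧ g ∈ normalizer (F : Set G) ∧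
    (∀ e ∈ E, ⁅g, e⁆ ∈ D) ∧ ∀ d ∈ D, ⁅g, d⁆ ∈ F}
  one_mem' := ⟨one_mem _, one_mem _, one_mem _, fun e _ => by rw [commutatorElement_one_left]; exact one_mem _,
    fun d _ => by rw [commutatorElement_one_left]; exact one_mem _⟩
  mul_mem' := by
    rintro g h ⟨g1, g2, g3, g4, g5⟩ ⟨h1, h2, h3, h4, h5⟩
    refine ⟨mul_mem g1 h1, mul_mem g2 h2, mul_mem g3 h3, fun e he => ?_, fun d hd => ?_⟩
    · have : ⁅g * h, e⁆ = (g * ⁅h, e⁆ * g⁻¹) * ⁅g, e⁆ := by simp only [commutatorElement_def]; group
      rw [this]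
      exact mul_mem ((mem_normalizer_iff.mp g2 _).mp (h4 e he)) (g4 e he)
    · have : ⁅g * h, d⁆ = (g * ⁅h, d⁆ * g⁻¹) * ⁅g, d⁆ := by simp only [commutatorElement_def]; group
      rw [this]
      exact mul_mem ((mem_normalizer_iff.mp g3 _).mp (h5 d hd)) (g5 d hd)
  inv_mem' := by
    rintro g ⟨g1, g2, g3, g4, g5⟩
    refine ⟨inv_mem g1, inv_mem g2, inv_mem g3, fun e he => ?_, fun d hd => ?_⟩
    · have : ⁅g⁻¹, e⁆ = g⁻¹ * (⁅g, e⁆)⁻¹ * g⁻¹⁻¹ := by simp only [commutatorElement_def]; group
      rw [this]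
      exact (mem_normalizer_iff.mp (inv_mem g2) _).mp (inv_mem (g4 e he))
    · have : ⁅g⁻¹, d⁆ = g⁻¹ * (⁅g, d⁆)⁻¹ * g⁻¹⁻¹ := by simp only [commutatorElement_def]; group
      rw [this]
      exact (mem_normalizer_iff.mp (inv_mem g3) _).mp (inv_mem (g5 d hd))

theorem mem_Act {E D F : Subgroup G} {g : G} : g ∈ Act E D F ↔ g ∈ normalizer (E : Set G) ∧ g ∈ normalizer (D : Set G) ∧
    g ∈ normalizer (F : Set G) ∧ (∀ e ∈ E, ⁅g, e⁆ ∈ D) ∧ ∀ d ∈ D, ⁅g, d⁆ ∈ F := Iff.rfl

theorem Act_conj {E D F : Subgroup G} (hD : normalizer (E : Set G) ≤ normalizer (D : Set G))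
    (hF : normalizer (E : Set G) ≤ normalizer (F : Set G)) {n a : G} (hn : n ∈ normalizer (E : Set G))
    (ha : a ∈ Act E D F) : n * a * n⁻¹ ∈ Act E D F := by
  obtain ⟨g1, g2, g3, g4, g5⟩ := ha
  have hn' := inv_mem hn
  refine ⟨mul_mem (mul_mem hn g1) hn', mul_mem (mul_mem (hD hn) g2) (hD hn'), mul_mem (mul_mem (hF hn) g3) (hF hn'),
    fun e he => ?_, fun d hd => ?_⟩
  · have : ⁅n * a * n⁻¹, e⁆ = n * ⁅a, n⁻¹ * e * n⁻¹⁻¹⁆ * n⁻¹ := by simp only [commutatorElement_def]; group
    rw [this]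
    exact (mem_normalizer_iff.mp (hD hn) _).mp (g4 _ ((mem_normalizer_iff.mp hn' _).mp he))
  · have : ⁅n * a * n⁻¹, d⁆ = n * ⁅a, n⁻¹ * d * n⁻¹⁻¹⁆ * n⁻¹ := by simp only [commutatorElement_def]; group
    rw [this]
    exact (mem_normalizer_iff.mp (hF hn) _).mp (g5 _ ((mem_normalizer_iff.mp (hD hn') _).mp hd))

theorem conj_stable {A N : Subgroup G} (h : ∀ n ∈ N, ∀ a ∈ A, n * a * n⁻¹ ∈ A) {n : G} (hn : n ∈ N) :
    A.map (MulAut.conj n).toMonoidHom = A := by
  apply le_antisymm
  · rintro _ ⟨a, ha, rfl⟩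
    exact h n hn a ha
  · intro a ha
    refine ⟨n⁻¹ * a * n⁻¹⁻¹, h _ (inv_mem hn) a ha, ?_⟩
    show n * (n⁻¹ * a * n⁻¹⁻¹) * n⁻¹ = a
    group

/-- use of the radical condition -/
theorem CR.rad_use {S E : Subgroup G} (h : CR p S E) {A : Subgroup G} (hA : A ≤ normalizer (E : Set G))
    (hAn : ∀ n ∈ normalizer (E : Set G), ∀ a ∈ A, n * a * n⁻¹ ∈ A)
    (hpow : ∀ a ∈ A, ∃ k : ℕ, a ^ p ^ k ∈ E ⊔ centralizer (E : Set G)) : A ≤ E ⊔ centralizer (E : Set G) := by
  set B := E ⊔ centralizer (E : Set G) with hB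
  have hBN : B ≤ normalizer (E : Set G) := sup_le le_normalizer (centralizer_le_normalizer _)
  have hNB : ∀ n ∈ normalizer (E : Set G), ∀ b ∈ B, n * b * n⁻¹ ∈ B := by
    intro n hn b hb
    have h1 : normalizer (E : Set G) ≤ normalizer (B : Set G) := by
      rw [hB]
      exact H1.Coprime2.le_normalizer_sup le_rfl (H1.Coprime2.le_normalizer_centralizer le_rfl)
    exact (mem_normalizer_iff.mp (h1 hn) b).mp hb
  have hAB : A ≤ normalizer (B : Set G) := by
    intro a ha
    have h1 : normalizer (E : Set G) ≤ normalizer (B : Set G) := by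
      rw [hB]
      exact H1.Coprime2.le_normalizer_sup le_rfl (H1.Coprime2.le_normalizer_centralizer le_rfl)
    exact h1 (hA ha)
  have key := h.rad (A ⊔ B) (sup_le hA hBN) ?_ le_sup_right ?_
  · rw [← hB] at key
    calc A ≤ A ⊔ B := le_sup_left
      _ = B := key
  · intro n hn
    rw [Subgroup.map_sup, conj_stable hAn hn, conj_stable hNB hn]
  · rw [← hB]
    have hnorm : (B.subgroupOf (A ⊔ B)).Normal :=
      (normal_subgroupOf_iff_le_normalizer le_sup_right).mpr (sup_le hAB le_normalizer)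
    have hpg : IsPGroup p (↥(A ⊔ B) ⧸ B.subgroupOf (A ⊔ B)) := by
      intro x
      obtain ⟨⟨x, hx⟩, rfl⟩ := QuotientGroup.mk_surjective x
      obtain ⟨b, hb, a, ha, hxe⟩ := (H38.Goldschmidt.mem_sup_iff_of_le_normalizer hAB).mp hx
      obtain ⟨k, hk⟩ := hpow a ha
      refine ⟨k, ?_⟩
      have h1 : (QuotientGroup.mk ⟨x, hx⟩ : ↥(A ⊔ B) ⧸ B.subgroupOf (A ⊔ B)) =
          QuotientGroup.mk ⟨a, (le_sup_left : A ≤ A ⊔ B) ha⟩ := by
        rw [QuotientGroup.eq, mem_subgroupOf]
        show x⁻¹ * a ∈ B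
        rw [hxe]
        have h2 := (mem_normalizer_iff.mp (inv_mem (hAB ha)) b⁻¹).mp (inv_mem hb)
        have e : (b * a)⁻¹ * a = a⁻¹ * b⁻¹ * a⁻¹⁻¹ := by group
        rwa [e]
      rw [h1, ← QuotientGroup.mk_pow, QuotientGroup.eq_one_iff, mem_subgroupOf]
      exact hk
    obtain ⟨k, hk⟩ := IsPGroup.iff_card.mp hpg
    exact ⟨k, hk⟩

/-- a `p`-group acts trivially on an invariant section of order dividing `p` -/
theorem comm_mem_of_relIndex {T A B : Subgroup G} (hT : IsPGroup p T) (hBT : B ≤ T) (hAB : A ≤ B)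
    (hTA : T ≤ normalizer (A : Set G)) (hTB : T ≤ normalizer (B : Set G)) (hi : A.relIndex B ∣ p) {t b : G}
    (ht : t ∈ T) (hb : b ∈ B) : ⁅t, b⁆ ∈ A := by
  rcases (Nat.dvd_prime hp.out).mp hi with h1 | h1
  · have h2 : B ≤ A := relIndex_eq_one.mp h1
    have h3 : t * b * t⁻¹ ∈ B := (mem_normalizer_iff.mp (hTB ht) b).mp hb
    rw [commutatorElement_def]
    exact h2 (mul_mem h3 (inv_mem hb))
  · have hAn : (A.subgroupOf T).Normal := (normal_subgroupOf_iff_le_normalizer (hAB.trans hBT)).mpr hTA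
    have hBn : (B.subgroupOf T).Normal := (normal_subgroupOf_iff_le_normalizer hBT).mpr hTB
    have hlt : A.subgroupOf T < B.subgroupOf T := by
      refine lt_of_le_of_ne (fun x hx => hAB hx) ?_
      intro he
      have h2 : B ≤ A := by
        intro x hx
        have : (⟨x, hBT hx⟩ : T) ∈ A.subgroupOf T := by rw [he]; exact hx
        exact this
      rw [relIndex_eq_one.mpr h2] at h1
      exact hp.out.one_lt.ne h1
    obtain ⟨K, hKn, hK1, hK2, hK3, hK4⟩ := H3.PBasic.exists_normal_between hT _ _ hlt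
    have h4 : Nat.card (B.subgroupOf T) = p * Nat.card (A.subgroupOf T) := by
      rw [Nat.card_congr (subgroupOfEquivOfLe hBT).toEquiv, Nat.card_congr (subgroupOfEquivOfLe (hAB.trans hBT)).toEquiv,
        ← H3.PBasic.card_mul_relIndex hAB, h1, mul_comm]
    have h5 : K = B.subgroupOf T := Subgroup.eq_of_le_of_card_ge hK2 (by rw [hK3, h4])
    rw [h5] at hK4
    have h6 := hK4 (commutator_mem_commutator (g₁ := (⟨b, hBT hb⟩ : T)) (g₂ := (⟨t, ht⟩ : T)) hb (mem_top _))
    have h7 := inv_mem h6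
    rw [commutatorElement_inv] at h7
    exact h7

theorem char_normalizer {E : Subgroup G} {D : Subgroup E} (h : ∀ σ : E ≃* E, D.map σ.toMonoidHom = D) :
    normalizer (E : Set G) ≤ normalizer ((D.map E.subtype : Subgroup G) : Set G) := by
  apply H1.Coprime.le_normalizer_of_conj_mem
  rintro n hn _ ⟨d, hd, rfl⟩
  have h1 := h (E.normalizerMonoidHom ⟨n, hn⟩)
  have h2 : (E.normalizerMonoidHom ⟨n, hn⟩) d ∈ D := by
    rw [← h1]
    exact ⟨d, hd, rfl⟩
  exact ⟨_, h2, rfl⟩

theorem frattini_normalizer {E : Subgroup G} :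
    normalizer (E : Set G) ≤ normalizer (((frattini E).map E.subtype : Subgroup G) : Set G) := by
  apply char_normalizer
  intro σ
  exact Subgroup.characteristic_iff_map_eq.mp inferInstance σ

/-- elements of `Act` have `p`-power order modulo the centralizer of `E` -/
theorem pow_cent {E D : Subgroup G} (hEp : IsPGroup p E) (hDE : D ≤ E) {a : G}
    (ha : a ∈ Act E D ((frattini E).map E.subtype)) : ∃ k : ℕ, a ^ p ^ k ∈ centralizer (E : Set G) := by
  obtain ⟨k, hk⟩ := H11.PStabApp.exists_pow_coprime p a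
  refine ⟨k, ?_⟩
  set A := zpowers (a ^ p ^ k) with hA
  have hAle : A ≤ Act E D ((frattini E).map E.subtype) := by
    rw [hA, zpowers_le]
    exact pow_mem ha _
  have hcard : (Nat.card A).Coprime p := by rw [hA, Nat.card_zpowers]; exact hk
  have hcop : (Nat.card A).Coprime (Nat.card E) := by
    obtain ⟨n, hn⟩ := IsPGroup.iff_card.mp hEp
    rw [hn]
    exact Nat.Coprime.pow_right _ hcard
  have hAE : A ≤ normalizer (E : Set G) := fun x hx => (hAle hx).1
  have hsol : Group.IsSolvable A ∨ Group.IsSolvable E := by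
    right
    have := hEp.isNilpotent
    infer_instance
  have h1 : ⁅E, A⁆ ≤ D := by
    rw [commutator_le]
    intro e he x hx
    have := inv_mem ((hAle hx).2.2.2.1 e he)
    rwa [commutatorElement_inv] at this
  have h2 : ⁅E, A⁆ ≤ (frattini E).map E.subtype := by
    rw [← H1.Coprime2.commutator_commutator_eq A E hAE hcop hsol]
    rw [commutator_le]
    intro d hd x hx
    have := inv_mem ((hAle hx).2.2.2.2 d (h1 hd))
    rwa [commutatorElement_inv] at this
  have h3 : A ≤ centralizer (E : Set G) := by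
    apply H1.Coprime2.le_centralizer_of_frattini
    · obtain ⟨n, hn⟩ := IsPGroup.iff_card.mp (hEp.to_subgroup (frattini E))
      rw [hn]
      exact Nat.Coprime.pow_right _ hcard
    · intro x hx e he
      have := inv_mem (h2 (commutator_mem_commutator he hx))
      rwa [commutatorElement_inv, commutatorElement_def] at this
  exact h3 (mem_zpowers _)

theorem CR.act_le {S E : Subgroup G} (h : CR p S E) (hS : IsPGroup p S) {D : Subgroup G} (hDE : D ≤ E)
    (hD : normalizer (E : Set G) ≤ normalizer (D : Set G)) {t : G} (htS : t ∈ S)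
    (ht : t ∈ Act E D ((frattini E).map E.subtype)) : t ∈ E := by
  have h1 := h.rad_use (A := Act E D ((frattini E).map E.subtype)) (fun a ha => ha.1)
    (fun n hn a ha => Act_conj hD frattini_normalizer hn ha)
    (fun a ha => by
      obtain ⟨k, hk⟩ := pow_cent (hS.to_le h.le) hDE ha
      exact ⟨k, (le_sup_right : _ ≤ E ⊔ centralizer (E : Set G)) hk⟩)
  have h2 := h1 ht
  have h3 : centralizer (E : Set G) ≤ normalizer (E : Set G) := centralizer_le_normalizer _
  rw [sup_comm] at h2
  obtain ⟨e, he, c, hc, rfl⟩ := (H38.Goldschmidt.mem_sup_iff_of_le_normalizer h3).mp h2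
  have h4 : c ∈ S := by
    have := mul_mem (inv_mem (h.le he)) htS
    rwa [inv_mul_cancel_left] at this
  exact mul_mem he (h.cent ⟨h4, hc⟩)

/-- A centric radical subgroup `E ≠ S` with `|E : Φ(E)| ≤ p²` has no invariant subgroup of index `p`. -/
theorem CR.no_index {S E : Subgroup G} (h : CR p S E) (hS : IsPGroup p S) (hne : E ≠ S) {D : Subgroup G} (hDE : D ≤ E)
    (hD : normalizer (E : Set G) ≤ normalizer (D : Set G)) (hi : D.relIndex E = p)
    (hfr : (frattini E).index ∣ p ^ 2) : False := by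
  set F := (frattini E).map E.subtype with hF
  have hEp : IsPGroup p E := hS.to_le h.le
  have hFD : F ≤ D := by
    rintro _ ⟨x, hx, rfl⟩
    have h1 : IsCoatom (D.subgroupOf E) := H3.PBasic.isCoatom_of_index (p := p) _ hi
    exact frattini_le_coatom h1 hx
  have hFE : F ≤ E := hFD.trans hDE
  have hFi : F.relIndex E = (frattini E).index := by
    rw [relIndex]
    congr 1
    ext x
    rw [mem_subgroupOf, hF, mem_map]
    constructor
    · rintro ⟨y, hy, hxy⟩
      have : y = x := Subtype.ext hxy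
      rwa [← this]
    · intro hx; exact ⟨x, hx, rfl⟩
  have hFDi : F.relIndex D ∣ p := by
    have h1 := relIndex_mul_relIndex F D E hFD hDE
    rw [hi, hFi] at h1
    have h2 : F.relIndex D * p ∣ p * p := by rw [h1, ← pow_two]; exact hfr
    exact Nat.dvd_of_mul_dvd_mul_right hp.out.pos h2
  set T := S ⊓ normalizer (E : Set G) with hT
  have hTp : IsPGroup p T := hS.to_le inf_le_left
  have hET : E ≤ T := le_inf h.le le_normalizer
  have hTE : T ≤ E := by
    intro t ht
    apply h.act_le hS hDE hD ht.1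
    refine ⟨ht.2, hD ht.2, frattini_normalizer ht.2, fun e he => ?_, fun d hd => ?_⟩
    · exact comm_mem_of_relIndex hTp hET hDE (fun x hx => hD hx.2) (fun x hx => hx.2) (by rw [hi]) ht he
    · exact comm_mem_of_relIndex hTp (hDE.trans hET) hFD (fun x hx => frattini_normalizer hx.2) (fun x hx => hD hx.2)
        hFDi ht hd
  -- normalizers grow
  have h1 : E.subgroupOf S ≠ ⊤ := by
    intro he
    apply hne
    exact le_antisymm h.le (subgroupOf_eq_top.mp he)
  have := hS.isNilpotent
  have h2 := H3.PBasic.lt_normalizer h1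
  obtain ⟨x, hx, hxE⟩ := SetLike.exists_of_lt h2
  apply hxE
  apply hTE
  refine ⟨x.2, ?_⟩
  have h3 : (normalizer ((E.subgroupOf S : Subgroup S) : Set S)).map S.subtype ≤ normalizer (E : Set G) := by
    apply H1.Coprime.le_normalizer_of_conj_mem
    rintro _ ⟨u, hu, rfl⟩ e he
    exact (mem_normalizer_iff.mp hu ⟨e, h.le he⟩).mp he
  exact h3 ⟨x, hx, rfl⟩

theorem card_cent_subtype {S : Subgroup G} {y : G} (hy : y ∈ S) :
    Nat.card (centralizer ({(⟨y, hy⟩ : S)} : Set S)) = Nat.card (↥(S ⊓ centralizer ({y} : Set G))) := by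
  have h1 : centralizer ({(⟨y, hy⟩ : S)} : Set S) = (centralizer ({y} : Set G)).subgroupOf S := by
    ext g
    rw [mem_centralizer_singleton_iff, mem_subgroupOf, mem_centralizer_singleton_iff, Subtype.ext_iff]
    rfl
  rw [h1, ← inf_subgroupOf_left]
  exact Nat.card_congr (subgroupOfEquivOfLe inf_le_left).toEquiv

/-- A proper centric radical subgroup contains no uniform element outside a normal subgroup `K` with `|K ∩ S| ≥ p²`. -/
theorem CR.no_unif {S E : Subgroup G} (h : CR p S E) (hS : IsPGroup p S) (hS3 : p ^ 3 ≤ Nat.card S) (hne : E ≠ S)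
    {K : Subgroup G} [hKn : K.Normal] (hK : p ^ 2 ≤ Nat.card (K.subgroupOf S)) {y : G} (hy : y ∈ E) (hyK : y ∉ K)
    (hyu : Nat.card (↥(S ⊓ centralizer ({y} : Set G))) = p ^ 2) : False := by
  have hyS := h.le hy
  have hEp : IsPGroup p E := hS.to_le h.le
  have hKE : normalizer (E : Set G) ≤ normalizer ((K ⊓ E : Subgroup G) : Set G) := by
    apply H1.Coprime2.le_normalizer_inf _ le_rfl
    rw [normalizer_eq_top (H := K)]; exact le_top
  have hcS : Nat.card (centralizer ({(⟨y, hyS⟩ : S)} : Set S)) = p ^ 2 := by rw [card_cent_subtype, hyu]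
  obtain ⟨hyZ, hZ⟩ := card_center hS hcS hS3
  set Z := (center S).map S.subtype with hZdef
  have hZcard : Nat.card Z = p := by
    rw [hZdef, ← hZ]
    exact (Nat.card_congr ((center S).equivMapOfInjective S.subtype S.subtype_injective).toEquiv).symm
  have hyZ' : y ∉ Z := by
    rintro ⟨z, hz, hzy⟩
    apply hyZ
    have : z = ⟨y, hyS⟩ := Subtype.ext hzy
    rwa [← this]
  have hZS : Z ≤ S := by
    rintro _ ⟨z, _, rfl⟩; exact z.2
  have hZcomm : ∀ z ∈ Z, ∀ s ∈ S, s * z = z * s := by
    rintro _ ⟨z, hz, rfl⟩ s hs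
    have := mem_center_iff.mp hz ⟨s, hs⟩
    exact congrArg Subtype.val this
  have hZE : Z ≤ E := by
    intro z hz
    exact h.cent ⟨hZS hz, mem_centralizer_iff.mpr fun e he => hZcomm z hz e (h.le he)⟩
  have hZK : Z ≤ K := by
    have h1 : K.subgroupOf S ≠ ⊥ := by
      intro h0
      rw [h0, card_bot] at hK
      have := Nat.one_lt_pow (two_ne_zero) hp.out.one_lt
      omega
    have h2 := H76.PG.center_le_of_normal hS hZ (K.subgroupOf S) h1
    rintro _ ⟨z, hz, rfl⟩
    exact h2 hz
  -- `C_S(y) ≤ E`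
  have hCE : S ⊓ centralizer ({y} : Set G) ≤ E := by
    have h1 : zpowers y ⊔ Z ≤ S ⊓ centralizer ({y} : Set G) := by
      refine sup_le ?_ ?_
      · rw [zpowers_le]
        exact ⟨hyS, mem_centralizer_singleton_iff.mpr rfl⟩
      · intro z hz
        exact ⟨hZS hz, mem_centralizer_singleton_iff.mpr (hZcomm z hz y hyS).symm⟩
    have h2 : Z < zpowers y ⊔ Z := by
      refine lt_of_le_of_ne le_sup_right ?_
      intro he
      apply hyZ'
      rw [he]
      exact (le_sup_left : zpowers y ≤ _) (mem_zpowers y)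
    have h3 : Nat.card (zpowers y ⊔ Z : Subgroup G) ∣ p ^ 2 := by
      rw [← hyu]; exact card_dvd_of_le h1
    obtain ⟨k, hk, hke⟩ := (Nat.dvd_prime_pow hp.out).mp h3
    have h4 : k = 2 := by
      by_contra hk2
      have h5 : Nat.card (zpowers y ⊔ Z : Subgroup G) ≤ Nat.card Z := by
        rw [hke, hZcard]
        calc p ^ k ≤ p ^ 1 := Nat.pow_le_pow_right hp.out.pos (by omega)
          _ = p := pow_one p
      exact h2.ne (Subgroup.eq_of_le_of_card_ge h2.le h5)
    have h5 : zpowers y ⊔ Z = S ⊓ centralizer ({y} : Set G) :=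
      Subgroup.eq_of_le_of_card_ge h1 (by rw [hyu, hke, h4])
    rw [← h5]
    exact sup_le (by rwa [zpowers_le]) hZE
  have hCE' : E ⊓ centralizer ({y} : Set G) = S ⊓ centralizer ({y} : Set G) :=
    le_antisymm (inf_le_inf_right _ h.le) (le_inf hCE inf_le_right)
  have hcE : Nat.card (centralizer ({(⟨y, hy⟩ : E)} : Set E)) = p ^ 2 := by rw [card_cent_subtype, hCE', hyu]
  have hfr : (frattini E).index ∣ p ^ 2 := by
    rw [← H58.MaxCent.commutator_index hEp _ hcE]
    exact index_dvd_of_le (H3.PBasic.commutator_le_frattini hEp)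
  obtain ⟨m, hm⟩ := IsPGroup.iff_card.mp hEp
  have hm2 : 2 ≤ m := by
    have h1 : p ^ 2 ≤ Nat.card E := by rw [← hcE]; exact card_le_card_group _
    rw [hm] at h1
    exact (Nat.pow_le_pow_iff_right hp.out.one_lt).mp h1
  by_cases hm4 : 4 ≤ m
  · obtain ⟨D, hDi, hDc⟩ := exists_char (p := p) hEp hcE (by rw [hm]; exact Nat.pow_le_pow_right hp.out.pos hm4)
    refine h.no_index hS hne (D := D.map E.subtype) (map_subtype_le D) (char_normalizer hDc) ?_ hfr
    have h1 : (D.map E.subtype).subgroupOf E = D := by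
      ext x
      rw [mem_subgroupOf, mem_map]
      constructor
      · rintro ⟨z, hz, hzx⟩
        have : z = x := Subtype.ext hzx
        rwa [← this]
      · intro hx; exact ⟨x, hx, rfl⟩
    rw [relIndex, h1, hDi]
  · -- `D = K ∩ E`
    set D := K ⊓ E with hDdef
    have hDE : D ≤ E := inf_le_right
    have hZD : Z ≤ D := le_inf hZK hZE
    have hDlt : D < E := by
      refine lt_of_le_of_ne hDE ?_
      intro he
      rw [← he] at hy
      exact hyK hy.1
    obtain ⟨j, hj⟩ := IsPGroup.iff_card.mp (hEp.to_le hDE)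
    have hj1 : 1 ≤ j := by
      have h1 := card_le_of_le hZD
      rw [hZcard, hj] at h1
      by_contra h0
      have : j = 0 := by omega
      rw [this, pow_zero] at h1
      have := hp.out.one_lt
      omega
    have hjm : j < m := by
      have h1 : Nat.card D < Nat.card E := by
        by_contra hle
        push Not at hle
        exact hDlt.ne (Subgroup.eq_of_le_of_card_ge hDE hle)
      rw [hj, hm] at h1
      exact (Nat.pow_lt_pow_iff_right hp.out.one_lt).mp h1
    have hrel : p ^ j * D.relIndex E = p ^ m := by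
      rw [← hj, H3.PBasic.card_mul_relIndex hDE, hm]
    by_cases hjm1 : j + 1 = m
    · apply h.no_index hS hne hDE hKE ?_ hfr
      rw [← hjm1, pow_succ] at hrel
      exact Nat.eq_of_mul_eq_mul_left (pow_pos hp.out.pos _) hrel
    · have hj' : j = 1 := by omega
      have hDZ : Z = D := Subgroup.eq_of_le_of_card_ge hZD (by rw [hZcard, hj, hj', pow_one])
      -- a normal subgroup of order `p²` in `K ∩ S`
      have hlt : center S < K.subgroupOf S := by
        have h1 : center S ≤ K.subgroupOf S := fun z hz => hZK ⟨z, hz, rfl⟩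
        refine lt_of_le_of_ne h1 ?_
        intro he
        rw [← he, hZ] at hK
        have := (Nat.pow_lt_pow_right hp.out.one_lt (by norm_num : 1 < 2))
        rw [pow_one] at this
        omega
      obtain ⟨W, hWn, hW1, hW2, hW3, hW4⟩ := H3.PBasic.exists_normal_between hS _ _ hlt
      have hWE : ∀ w ∈ W, (w : G) ∈ E := by
        intro w hw
        have hwc : ∀ s ∈ S, ⁅(w : G), s⁆ ∈ Z := by
          intro s hs
          exact ⟨⁅w, ⟨s, hs⟩⁆, hW4 (commutator_mem_commutator hw (mem_top _)), rfl⟩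
        have hwN : ∀ {A : Subgroup G}, Z ≤ A → A ≤ S → (w : G) ∈ normalizer (A : Set G) := by
          intro A hZA hAS
          have h1 : W.map S.subtype ≤ normalizer (A : Set G) := by
            apply H1.Coprime.le_normalizer_of_conj_mem
            rintro _ ⟨v, hv, rfl⟩ a ha
            have h2 : ⁅(v : G), a⁆ ∈ Z :=
              ⟨⁅v, ⟨a, hAS ha⟩⁆, hW4 (commutator_mem_commutator hv (mem_top _)), rfl⟩
            have h3 := mul_mem (hZA h2) ha
            have e : ⁅(v : G), a⁆ * a = v * a * (v : G)⁻¹ := by rw [commutatorElement_def]; group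
            rwa [e] at h3
          exact h1 ⟨w, hw, rfl⟩
        have hwE : (w : G) ∈ normalizer (E : Set G) := hwN hZE h.le
        apply h.act_le hS (D := D) hDE hKE w.2
        refine ⟨hwE, hKE hwE, frattini_normalizer hwE, fun e he => ?_, fun d hd => ?_⟩
        · rw [← hDZ]; exact hwc e (h.le he)
        · have h1 : ⁅(w : G), d⁆ = 1 := by
            rw [commutatorElement_eq_one_iff_mul_comm]
            rw [← hDZ] at hd
            exact hZcomm d hd w w.2
          rw [h1]
          exact one_mem _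
      have h1 : W.map S.subtype ≤ Z := by
        rw [hDZ]
        rintro _ ⟨w, hw, rfl⟩
        exact ⟨hW2 hw, hWE w hw⟩
      have h2 := card_le_of_le h1
      have h3 : Nat.card (W.map S.subtype) = Nat.card W :=
        (Nat.card_congr (W.equivMapOfInjective S.subtype S.subtype_injective).toEquiv).symm
      rw [h3, hW3, hZ, hZcard] at h2
      have := hp.out.one_lt
      nlinarith

end H66.MaxD
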