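import Mathlib
import Cfsg.Agent.Lib.H66.MaxD2
import Cfsg.Agent.Lib.H38.PPrime
import Cfsg.Agent.Lib.H1.Cores

/-!
Groups with a Sylow subgroup of maximal class in which every `p`-element has a centralizer of order divisible by `p³`.
-/

set_option autoImplicit false

namespace H66.MaxD

open Subgroup H38.Alperin H38.Basic
open scoped commutatorElement

universe u

variable {p : ℕ} [hp : Fact p.Prime] {G : Type u} [Group G] [Finite G]

theorem card_cent_conj {S : Subgroup G} {g : G} (hg : g ∈ normalizer (S : Set G)) (y : G) :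
    Nat.card (↥(S ⊓ centralizer ({g * y * g⁻¹} : Set G))) = Nat.card (↥(S ⊓ centralizer ({y} : Set G))) := by
  have h1 : (S ⊓ centralizer ({y} : Set G)).map (MulAut.conj g).toMonoidHom = S ⊓ centralizer ({g * y * g⁻¹} : Set G) := by
    ext x
    rw [mem_map]
    constructor
    · rintro ⟨u, ⟨hu1, hu2⟩, rfl⟩
      refine ⟨(mem_normalizer_iff.mp hg u).mp hu1, ?_⟩
      have h2 := mem_centralizer_singleton_iff.mp hu2
      refine mem_centralizer_singleton_iff.mpr ?_
      show g * u * g⁻¹ * (g * y * g⁻¹) = g * y * g⁻¹ * (g * u * g⁻¹)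
      calc g * u * g⁻¹ * (g * y * g⁻¹) = g * (u * y) * g⁻¹ := by group
        _ = g * (y * u) * g⁻¹ := by rw [h2]
        _ = _ := by group
    · rintro ⟨hx1, hx2⟩
      refine ⟨g⁻¹ * x * g, ⟨?_, ?_⟩, ?_⟩
      · have := (mem_normalizer_iff.mp (inv_mem hg) x).mp hx1
        rwa [inv_inv] at this
      · refine mem_centralizer_singleton_iff.mpr ?_
        have h2 := mem_centralizer_singleton_iff.mp hx2
        calc g⁻¹ * x * g * y = g⁻¹ * (x * (g * y * g⁻¹)) * g := by group
          _ = g⁻¹ * ((g * y * g⁻¹) * x) * g := by rw [h2]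
          _ = _ := by group
      · show g * (g⁻¹ * x * g) * g⁻¹ = x
        group
  rw [← h1]
  exact (Nat.card_congr ((S ⊓ centralizer ({y} : Set G)).equivMapOfInjective _ (MulAut.conj g).injective).toEquiv).symm

/-- fusion preserves uniform elements outside `K` -/
theorem unif_conj (S : Sylow p G) (hS3 : p ^ 3 ≤ Nat.card (S : Subgroup G)) {K : Subgroup G} [hKn : K.Normal]
    (hK : p ^ 2 ≤ Nat.card (K.subgroupOf (S : Subgroup G))) {y : G} (hy : y ∈ (S : Subgroup G)) (hyK : y ∉ K)
    (hyu : Nat.card (↥((S : Subgroup G) ⊓ centralizer ({y} : Set G))) = p ^ 2) {g : G}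
    (hg : g * y * g⁻¹ ∈ (S : Subgroup G)) :
    Nat.card (↥((S : Subgroup G) ⊓ centralizer ({g * y * g⁻¹} : Set G))) = p ^ 2 := by
  set U : G → Prop := fun y => y ∉ K ∧ Nat.card (↥((S : Subgroup G) ⊓ centralizer ({y} : Set G))) = p ^ 2 with hU
  set R : Set G → G → Prop := fun A g => ∀ y ∈ A, (U y ↔ U (g * y * g⁻¹)) with hR
  have hKc : ∀ (g y : G), g * y * g⁻¹ ∉ K ↔ y ∉ K := by
    intro g y
    rw [not_iff_not]
    constructor
    · intro h
      have := hKn.conj_mem _ h g⁻¹
      have e : g⁻¹ * (g * y * g⁻¹) * g⁻¹⁻¹ = y := by group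
      rwa [e] at this
    · intro h; exact hKn.conj_mem _ h g
  have hRf : IsFusionRel R := by
    refine ⟨?_, ?_, ?_⟩
    · intro A g h h1 h2 y hy
      rw [h1 y hy, h2 (g * y * g⁻¹) ⟨y, hy, rfl⟩]
      have e : h * (g * y * g⁻¹) * h⁻¹ = h * g * y * (h * g)⁻¹ := by group
      rw [e]
    · rintro A g h1 _ ⟨y, hy, rfl⟩
      have e : g⁻¹ * ((fun a => g * a * g⁻¹) y) * g⁻¹⁻¹ = y := by
        show g⁻¹ * (g * y * g⁻¹) * g⁻¹⁻¹ = y
        group
      rw [e]
      exact (h1 y hy).symm
    · intro A B g hAB h y hy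
      exact h y (hAB hy)
  have key := H38.Goldschmidt.alperin_goldschmidt S hRf ?_ ?_ (zpowers y) (by rwa [zpowers_le]) g ?_
  · exact ((key y (mem_zpowers y)).mp ⟨hyK, hyu⟩).2
  · intro A c _ hc y hy
    have h1 : c * y * c⁻¹ = y := by
      rw [mul_inv_eq_iff_eq_mul]
      exact (mem_centralizer_iff.mp hc y hy).symm
    rw [h1]
  · intro E hE _ hcent hrad x hx
    by_cases hES : E = (S : Subgroup G)
    · subst hES
      intro y hy
      have h1 := card_cent_conj hx y
      show (y ∉ K ∧ _) ↔ (_ ∧ _)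
      rw [h1, hKc]
    · have hCR : CR p (S : Subgroup G) E := ⟨hE, hcent, hrad⟩
      have hno : ∀ y ∈ E, ¬ U y := fun y hy hUy => hCR.no_unif S.isPGroup' hS3 hES hK hy hUy.1 hUy.2
      intro y hy
      have h2 : x * y * x⁻¹ ∈ E := (mem_normalizer_iff.mp hx y).mp hy
      exact ⟨fun h => (hno y hy h).elim, fun h => (hno _ h2 h).elim⟩
  · rintro _ ⟨z, hz, rfl⟩
    obtain ⟨i, rfl⟩ := mem_zpowers_iff.mp hz
    show g * y ^ i * g⁻¹ ∈ (S : Subgroup G)
    rw [← conj_zpow]
    exact zpow_mem hg i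

/-- uniform elements outside `K` have a centralizer with Sylow subgroups of order `p²` -/
theorem fact_cent (S : Sylow p G) (hS3 : p ^ 3 ≤ Nat.card (S : Subgroup G)) {K : Subgroup G} [hKn : K.Normal]
    (hK : p ^ 2 ≤ Nat.card (K.subgroupOf (S : Subgroup G))) {y : G} (hy : y ∈ (S : Subgroup G)) (hyK : y ∉ K)
    (hyu : Nat.card (↥((S : Subgroup G) ⊓ centralizer ({y} : Set G))) = p ^ 2) :
    (Nat.card (centralizer ({y} : Set G))).factorization p = 2 := by
  set C := centralizer ({y} : Set G) with hC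
  have hpS : IsPGroup p (↥((S : Subgroup G) ⊓ C)) := S.isPGroup'.to_le inf_le_left
  have h1 : IsPGroup p (((S : Subgroup G) ⊓ C).subgroupOf C) :=
    hpS.of_equiv (subgroupOfEquivOfLe inf_le_right).symm
  obtain ⟨Q, hQ⟩ := h1.exists_le_sylow
  set Qa := (Q : Subgroup C).map C.subtype with hQa
  have hQaC : Qa ≤ C := map_subtype_le _
  have hQap : IsPGroup p Qa := Q.isPGroup'.map _
  have hcardQ : Nat.card Qa = Nat.card (Q : Subgroup C) :=
    (Nat.card_congr ((Q : Subgroup C).equivMapOfInjective C.subtype C.subtype_injective).toEquiv).symm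
  have hSQ : (S : Subgroup G) ⊓ C ≤ Qa := by
    intro x hx
    exact ⟨⟨x, hx.2⟩, hQ (mem_subgroupOf.mpr hx), rfl⟩
  have hyQ : y ∈ Qa := hSQ ⟨hy, mem_centralizer_singleton_iff.mpr rfl⟩
  obtain ⟨S', hS'⟩ := hQap.exists_le_sylow
  obtain ⟨g, hg⟩ := MulAction.exists_smul_eq G S' S
  have hgQ : ∀ x ∈ Qa, g * x * g⁻¹ ∈ (S : Subgroup G) := by
    intro x hx
    rw [← hg, Sylow.smul_def, Sylow.pointwise_smul_def]
    exact Subgroup.mem_map.mpr ⟨x, hS' hx, rfl⟩
  have h2 := unif_conj S hS3 hK hy hyK hyu (hgQ y hyQ)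
  have h3 : Qa.map (MulAut.conj g).toMonoidHom ≤ (S : Subgroup G) ⊓ centralizer ({g * y * g⁻¹} : Set G) := by
    rintro _ ⟨x, hx, rfl⟩
    refine ⟨hgQ x hx, ?_⟩
    have h4 := mem_centralizer_singleton_iff.mp (hQaC hx)
    refine mem_centralizer_singleton_iff.mpr ?_
    show g * x * g⁻¹ * (g * y * g⁻¹) = g * y * g⁻¹ * (g * x * g⁻¹)
    calc g * x * g⁻¹ * (g * y * g⁻¹) = g * (x * y) * g⁻¹ := by group
      _ = g * (y * x) * g⁻¹ := by rw [h4]
      _ = _ := by group
  have h4 := card_le_of_le h3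
  rw [h2, ← Nat.card_congr (Qa.equivMapOfInjective _ (MulAut.conj g).injective).toEquiv] at h4
  have h5 := card_le_of_le hSQ
  rw [hyu] at h5
  have h6 : Nat.card Qa = p ^ 2 := le_antisymm h4 h5
  have h7 := Q.card_eq_multiplicity
  rw [← hcardQ, h6] at h7
  exact (Nat.pow_right_injective hp.out.two_le h7).symm

/-- a normal subgroup `K` with `|K ∩ S| = p` -/
theorem card_inf_p (S : Sylow p G) (hcore : Cfsg.pPrimeCore p G = ⊥) (hS3 : p ^ 2 ≤ Nat.card (S : Subgroup G))
    (hZ : Nat.card (center (S : Subgroup G)) = p) {K : Subgroup G} [hKn : K.Normal]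
    (hK : Nat.card (K.subgroupOf (S : Subgroup G)) = p) : K ≤ (S : Subgroup G) := by
  have hcen : K.subgroupOf (S : Subgroup G) = center (S : Subgroup G) := by
    have h1 : K.subgroupOf (S : Subgroup G) ≠ ⊥ := by
      intro h0; rw [h0, card_bot] at hK; exact hp.out.one_lt.ne hK
    exact (Subgroup.eq_of_le_of_card_ge (H76.PG.center_le_of_normal S.isPGroup' hZ _ h1) (by rw [hK, hZ])).symm
  set Z := K ⊓ (S : Subgroup G) with hZdef
  have hZcard : Nat.card Z = p := by
    rw [← hK, hZdef, ← inf_subgroupOf_right]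
    exact (Nat.card_congr (subgroupOfEquivOfLe inf_le_right).toEquiv).symm
  have hZc : ∀ z ∈ Z, ∀ u ∈ (S : Subgroup G), u * z = z * u := by
    intro z hz u hu
    have h1 : (⟨z, hz.2⟩ : (S : Subgroup G)) ∈ center (S : Subgroup G) := by rw [← hcen]; exact hz.1
    exact congrArg Subtype.val (mem_center_iff.mp h1 ⟨u, hu⟩)
  have hZp : IsPGroup p Z := S.isPGroup'.to_le inf_le_right
  have hsylK : IsSyl p Z K := by
    have h1 := (isSyl_sylow S).inf_normal (N := K) le_top (by rw [normalizer_eq_top (H := K)])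
    rwa [inf_comm] at h1
  -- elements of a `p'`-subgroup invariant under `G` are trivial
  have hordc : ∀ (g x : G), (orderOf (g * x * g⁻¹)) = orderOf x := fun g x => H38.PPrime.orderOf_conj g x
  by_cases hN : K ⊓ normalizer (Z : Set G) ≤ centralizer (Z : Set G)
  · obtain ⟨V, hV1, hV2, hV3⟩ := H38.PPrime.exists_complement_of_burnside hsylK hN
    have hVn : V.Normal := by
      refine ⟨fun x hx g => ?_⟩
      rw [hV1] at hx ⊢
      exact ⟨hKn.conj_mem _ hx.1 g, by rw [hordc]; exact hx.2⟩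
    have hVb : V = ⊥ := by
      rw [eq_bot_iff, ← hcore]
      exact H1.Cores.le_pPrimeCore hVn hV2
    intro x hx
    obtain ⟨t, ht, k, hk, rfl⟩ := hV3 x hx
    rw [hVb, mem_bot] at hk
    rw [hk, mul_one]
    exact ht.2
  · exfalso
    obtain ⟨h, hh, hhc⟩ := SetLike.not_le_iff_exists.mp hN
    obtain ⟨hhK, hhN⟩ := hh
    set C := K ⊓ centralizer (Z : Set G) with hC
    have hZab : Z ≤ centralizer (Z : Set G) := by
      intro z hz
      rw [mem_centralizer_iff]
      exact fun w hw => hZc z hz w hw.2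
    have hsylC : IsSyl p Z C := hsylK.of_le (le_inf inf_le_left hZab) inf_le_left
    obtain ⟨V, hV1, hV2, hV3⟩ := H38.PPrime.exists_complement_of_central hsylC inf_le_right
    have hVC : V ≤ C := fun x hx => ((hV1 x).mp hx).1
    -- `S` normalizes `C` and `V`
    have hSC : ∀ u ∈ (S : Subgroup G), ∀ c ∈ C, u * c * u⁻¹ ∈ C := by
      intro u hu c hc
      refine ⟨hKn.conj_mem _ hc.1 u, mem_centralizer_iff.mpr fun z hz => ?_⟩
      have h1 : u * z = z * u := hZc z hz u hu
      have h2 : z * c = c * z := mem_centralizer_iff.mp hc.2 z hz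
      have h3 : z * u = u * z := h1.symm
      have h4 : u⁻¹ * z = z * u⁻¹ := by
        rw [inv_mul_eq_iff_eq_mul, ← mul_assoc, h1, mul_inv_cancel_right]
      calc z * (u * c * u⁻¹) = (z * u) * c * u⁻¹ := by group
        _ = u * (z * c) * u⁻¹ := by rw [h3]; group
        _ = u * c * (z * u⁻¹) := by rw [h2]; group
        _ = u * c * (u⁻¹ * z) := by rw [h4]
        _ = u * c * u⁻¹ * z := by group
    have hSV : ∀ u ∈ (S : Subgroup G), ∀ v ∈ V, u * v * u⁻¹ ∈ V := by
      intro u hu v hv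
      rw [hV1] at hv ⊢
      exact ⟨hSC u hu v hv.1, by rw [hordc]; exact hv.2⟩
    have hVn : (V.subgroupOf C).Normal := by
      refine ⟨fun x hx g => ?_⟩
      rw [mem_subgroupOf, hV1] at hx ⊢
      exact ⟨(g * x * g⁻¹).2, by
        show (orderOf ((g : G) * x * (g : G)⁻¹)).Coprime p
        rw [hordc]; exact hx.2⟩
    have hhu : ∀ u ∈ (S : Subgroup G), ⁅h, u⁆ ∈ C := by
      intro u hu
      refine ⟨?_, mem_centralizer_iff.mpr fun z hz => ?_⟩
      · have h1 := hKn.conj_mem _ (inv_mem hhK) u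
        have e : ⁅h, u⁆ = h * (u * h⁻¹ * u⁻¹) := by rw [commutatorElement_def]; group
        rw [e]
        exact K.mul_mem hhK h1
      · -- `h⁻¹ z h ∈ Z`
        have h1 : h⁻¹ * z * h ∈ Z := by
          have := (mem_normalizer_iff.mp (inv_mem hhN) z).mp hz
          rwa [inv_inv] at this
        have h2 := hZc _ h1 u hu
        have h3 := hZc _ hz u hu
        have h4 : u⁻¹ * z = z * u⁻¹ := by
          rw [inv_mul_eq_iff_eq_mul, ← mul_assoc, h3, mul_inv_cancel_right]
        rw [commutatorElement_def]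
        calc z * (h * u * h⁻¹ * u⁻¹) = h * ((h⁻¹ * z * h) * u) * h⁻¹ * u⁻¹ := by group
          _ = h * (u * (h⁻¹ * z * h)) * h⁻¹ * u⁻¹ := by rw [h2]
          _ = h * u * h⁻¹ * (z * u⁻¹) := by group
          _ = h * u * h⁻¹ * (u⁻¹ * z) := by rw [h4]
          _ = h * u * h⁻¹ * u⁻¹ * z := by group
    have hact : ∀ u ∈ (S : Subgroup G), ∀ c ∈ C, c⁻¹ * (u * c * u⁻¹) ∈ V := by
      intro u hu c hc
      obtain ⟨t, ht, k, hk, rfl⟩ := hV3 c hc
      have h1 := hZc t ht u hu
      have e : (t * k)⁻¹ * (u * (t * k) * u⁻¹) = k⁻¹ * (u * k * u⁻¹) := by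
        calc (t * k)⁻¹ * (u * (t * k) * u⁻¹) = k⁻¹ * t⁻¹ * (u * t) * k * u⁻¹ := by group
          _ = k⁻¹ * t⁻¹ * (t * u) * k * u⁻¹ := by rw [h1]
          _ = _ := by group
      rw [e]
      exact mul_mem (inv_mem hk) (hSV u hu k hk)
    let f : (S : Subgroup G) →* (C ⧸ V.subgroupOf C) := MonoidHom.mk'
      (fun u => QuotientGroup.mk ⟨⁅h, (u : G)⁆, hhu u u.2⟩) (by
        intro u v
        have hmul : (⟨⁅h, ((u * v : (S : Subgroup G)) : G)⁆, hhu _ (u * v).2⟩ : C) =
            ⟨⁅h, (u : G)⁆, hhu u u.2⟩ * ⟨⁅h, (v : G)⁆, hhu v v.2⟩ *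
            ⟨(⁅h, (v : G)⁆)⁻¹ * (u * ⁅h, (v : G)⁆ * (u : G)⁻¹), hVC (hact u u.2 _ (hhu v v.2))⟩ := by
          apply Subtype.ext
          show ⁅h, (u : G) * v⁆ = ⁅h, (u : G)⁆ * ⁅h, (v : G)⁆ * ((⁅h, (v : G)⁆)⁻¹ * (u * ⁅h, (v : G)⁆ * (u : G)⁻¹))
          simp only [commutatorElement_def]; group
        show (QuotientGroup.mk (⟨⁅h, ((u * v : (S : Subgroup G)) : G)⁆, hhu _ (u * v).2⟩ : C) : C ⧸ V.subgroupOf C) = _
        rw [hmul, QuotientGroup.mk_mul, QuotientGroup.mk_mul]
        have h1 : (QuotientGroup.mk (⟨(⁅h, (v : G)⁆)⁻¹ * (u * ⁅h, (v : G)⁆ * (u : G)⁻¹), hVC (hact u u.2 _ (hhu v v.2))⟩ : C) :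
            C ⧸ V.subgroupOf C) = 1 := by
          rw [QuotientGroup.eq_one_iff, mem_subgroupOf]
          exact hact u u.2 _ (hhu v v.2)
        rw [h1, mul_one])
    have hcardq : Nat.card (C ⧸ V.subgroupOf C) ≤ p := by
      rw [← hZcard]
      have hZC : Z ≤ C := hsylC.1
      apply Nat.card_le_card_of_surjective (fun z : Z => (QuotientGroup.mk ⟨(z : G), hZC z.2⟩ : C ⧸ V.subgroupOf C))
      intro x
      obtain ⟨⟨c, hc⟩, rfl⟩ := QuotientGroup.mk_surjective x
      obtain ⟨t, ht, k, hk, rfl⟩ := hV3 c hc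
      refine ⟨⟨t, ht⟩, ?_⟩
      show QuotientGroup.mk (⟨t, hZC ht⟩ : C) = QuotientGroup.mk (⟨t * k, hc⟩ : C)
      rw [QuotientGroup.eq, mem_subgroupOf]
      show t⁻¹ * (t * k) ∈ V
      rwa [inv_mul_cancel_left]
    have hker : f.ker = ⊥ := by
      by_contra hne
      have h1 := H76.PG.center_le_of_normal S.isPGroup' hZ f.ker hne
      apply hhc
      rw [mem_centralizer_iff]
      intro z hz
      have h2 : (⟨z, hz.2⟩ : (S : Subgroup G)) ∈ center (S : Subgroup G) := by rw [← hcen]; exact hz.1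
      have h3 := h1 h2
      rw [MonoidHom.mem_ker] at h3
      have h4 : ⁅h, z⁆ ∈ V := by
        have h5 : (QuotientGroup.mk (⟨⁅h, z⁆, hhu z hz.2⟩ : C) : C ⧸ V.subgroupOf C) = 1 := h3
        rw [QuotientGroup.eq_one_iff, mem_subgroupOf] at h5
        exact h5
      have h5 : ⁅h, z⁆ ∈ Z := by
        rw [commutatorElement_def]
        exact mul_mem ((mem_normalizer_iff.mp hhN z).mp hz) (inv_mem hz)
      have h6 : (orderOf ⁅h, z⁆).Coprime p := ((hV1 _).mp h4).2
      obtain ⟨k, hk⟩ := (IsPGroup.iff_orderOf (p := p)).mp hZp ⟨⁅h, z⁆, h5⟩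
      rw [Subgroup.orderOf_mk] at hk
      rw [hk] at h6
      have h7 : k = 0 := by
        by_contra hk0
        have h2 : p.Coprime p := Nat.Coprime.coprime_dvd_left (dvd_pow_self p hk0) h6
        rw [Nat.coprime_self] at h2
        exact hp.out.one_lt.ne' h2
      rw [h7, pow_zero, orderOf_eq_one_iff, commutatorElement_eq_one_iff_mul_comm] at hk
      exact hk.symm
    have h8 : Nat.card (S : Subgroup G) ≤ p := by
      refine le_trans ?_ hcardq
      exact Nat.card_le_card_of_injective f ((MonoidHom.ker_eq_bot_iff f).mp hker)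
    have h9 := hS3.trans h8
    have := hp.out.one_lt
    nlinarith

theorem main (P : Sylow p G) {n : ℕ} (hP : Nat.card P = p ^ n) (hn : 2 ≤ n)
    (hmax : Group.nilpotencyClass ↥(P : Subgroup G) = n - 1) (hcore : Cfsg.pPrimeCore p G = ⊥)
    (hres : ∀ N : Subgroup G, N.Normal → (N.index).Coprime p → N = ⊤) :
    (∃ x ∈ (P : Subgroup G), (Nat.card (Subgroup.centralizer ({x} : Set G))).factorization p = 2) ∨
      (Cfsg.IsQuasisimple G ∧ Nat.card (Subgroup.center G) ≤ p) := by
  by_cases hn2 : n = 2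
  · left
    subst hn2
    refine ⟨1, one_mem _, ?_⟩
    have h1 : centralizer ({1} : Set G) = ⊤ := by
      rw [eq_top_iff]
      intro g _
      rw [mem_centralizer_singleton_iff, mul_one, one_mul]
    rw [h1, card_top]
    have h2 := P.card_eq_multiplicity
    have hP' : Nat.card P = p ^ 2 := hP
    rw [hP'] at h2
    exact (Nat.pow_right_injective hp.out.two_le h2).symm
  have hn3 : 3 ≤ n := by omega
  have hPg : IsPGroup p (P : Subgroup G) := P.isPGroup'
  have hP' : Nat.card (P : Subgroup G) = p ^ n := hP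
  have hS3 : p ^ 3 ≤ Nat.card (P : Subgroup G) := by rw [hP']; exact Nat.pow_le_pow_right hp.out.pos hn3
  by_contra hcon
  rw [not_or] at hcon
  obtain ⟨hcon1, hcon2⟩ := hcon
  push Not at hcon1
  -- uniform elements
  have hunif : ∀ M : Subgroup (P : Subgroup G), M ≠ ⊤ → ∃ y : (P : Subgroup G), y ∉ M ∧
      Nat.card (↥((P : Subgroup G) ⊓ centralizer ({(y : G)} : Set G))) = p ^ 2 := by
    intro M hM
    obtain ⟨y, hy, hyc⟩ := exists_unif_elt hn3 hP' hmax hM
    exact ⟨y, hy, by rw [← card_cent_subtype y.2]; exact hyc⟩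
  have hZ : Nat.card (center (P : Subgroup G)) = p := by
    obtain ⟨y, _, hyc⟩ := exists_unif_elt (p := p) hn3 hP' hmax (M := ⊥) (by
      intro h
      have h1 : Nat.card (P : Subgroup G) = 1 := by rw [← card_top, ← h, card_bot]
      rw [hP'] at h1
      have := Nat.one_lt_pow (by omega : n ≠ 0) hp.out.one_lt
      omega)
    exact (card_center hPg hyc hS3).2
  have hcop : ∀ N : Subgroup G, N.Normal → (P : Subgroup G) ≤ N → N = ⊤ := by
    intro N hN hPN
    apply hres N hN
    have h1 : N.index ∣ (P : Subgroup G).index := index_dvd_of_le hPN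
    have h2 := P.not_dvd_index
    exact ((Nat.Prime.coprime_iff_not_dvd hp.out).mpr (fun h => h2 (h.trans h1))).symm
  have hPtop : (P : Subgroup G) ≠ ⊤ := by
    intro htop
    obtain ⟨y, _, hyc⟩ := hunif ⊥ (by
      intro h
      have h1 : Nat.card (P : Subgroup G) = 1 := by rw [← card_top, ← h, card_bot]
      rw [hP'] at h1
      have := Nat.one_lt_pow (by omega : n ≠ 0) hp.out.one_lt
      omega)
    apply hcon1 y y.2
    have h1 : (P : Subgroup G) ⊓ centralizer ({(y : G)} : Set G) = centralizer ({(y : G)} : Set G) :=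
      inf_eq_right.mpr (le_top.trans htop.ge)
    rw [h1] at hyc
    rw [hyc, Nat.factorization_pow_self hp.out]
  have hnP : ¬ (P : Subgroup G).Normal := fun h => hPtop (hcop _ h le_rfl)
  have key : ∀ K : Subgroup G, K.Normal → p ^ 2 ≤ Nat.card (K.subgroupOf (P : Subgroup G)) → K = ⊤ := by
    intro K hK hc
    apply hcop K hK
    rw [← subgroupOf_eq_top]
    by_contra hne
    obtain ⟨y, hyK, hyc⟩ := hunif _ hne
    exact hcon1 y y.2 (fact_cent P hS3 hc y.2 hyK hyc)
  have key2 : ∀ K : Subgroup G, K.Normal → K ≠ ⊤ → K ≤ center G ∧ Nat.card K ≤ p := by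
    intro K hK hKtop
    have h1 : Nat.card (K.subgroupOf (P : Subgroup G)) < p ^ 2 := by
      by_contra hle
      exact hKtop (key K hK (by omega))
    obtain ⟨k, hk⟩ := IsPGroup.iff_card.mp (hPg.to_subgroup (K.subgroupOf (P : Subgroup G)))
    rw [hk] at h1
    have h2 : k < 2 := (Nat.pow_lt_pow_iff_right hp.out.one_lt).mp h1
    have h3 : K ≤ (P : Subgroup G) := by
      rcases (by omega : k = 0 ∨ k = 1) with rfl | rfl
      · -- `K` is a `p'`-group
        have h4 : IsSyl p (K ⊓ (P : Subgroup G)) K := by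
          have h1 := (isSyl_sylow P).inf_normal (N := K) le_top (by rw [normalizer_eq_top (H := K)])
          rwa [inf_comm] at h1
        have h5 : K ⊓ (P : Subgroup G) = ⊥ := by
          rw [pow_zero, Subgroup.card_eq_one, subgroupOf_eq_bot] at hk
          exact hk.eq_bot
        have h6 : (Nat.card K).Coprime p := by
          have := h4.2.2
          rw [h5, relIndex_bot_left] at this
          exact ((Nat.Prime.coprime_iff_not_dvd hp.out).mpr this).symm
        have h7 := H1.Cores.le_pPrimeCore hK h6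
        rw [hcore] at h7
        exact h7.trans bot_le
      · exact card_inf_p P hcore ((Nat.pow_le_pow_right hp.out.pos (by norm_num)).trans hS3) hZ (by rw [hk, pow_one])
    have hcard : Nat.card K ≤ p := by
      rw [← Nat.card_congr (subgroupOfEquivOfLe h3).toEquiv, hk]
      calc p ^ k ≤ p ^ 1 := Nat.pow_le_pow_right hp.out.pos (by omega)
        _ = p := pow_one p
    refine ⟨?_, hcard⟩
    -- `P` centralizes `K`
    have h4 : (P : Subgroup G) ≤ centralizer (K : Set G) := by
      intro u hu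
      rw [mem_centralizer_iff]
      intro x hx
      have h5 : ⁅u, x⁆ ∈ (⊥ : Subgroup G) := by
        have hKi : (⊥ : Subgroup G).relIndex K ∣ p := by
          rw [relIndex_bot_left, ← Nat.card_congr (subgroupOfEquivOfLe h3).toEquiv, hk]
          exact (pow_dvd_pow p (by omega : k ≤ 1)).trans (by rw [pow_one])
        exact comm_mem_of_relIndex hPg h3 bot_le (by rw [normalizer_eq_top (H := (⊥ : Subgroup G))]; exact le_top)
          (by rw [normalizer_eq_top (H := K)]; exact le_top) hKi hu hx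
      rw [mem_bot, commutatorElement_eq_one_iff_mul_comm] at h5
      exact h5.symm
    have h5 := hcop (centralizer (K : Set G)) inferInstance h4
    intro x hx
    rw [mem_center_iff]
    intro g
    have : g ∈ centralizer (K : Set G) := by rw [h5]; exact mem_top g
    exact (mem_centralizer_iff.mp this x hx).symm
  have hcen : center G ≠ ⊤ := by
    intro h
    apply hnP
    refine ⟨fun x hx g => ?_⟩
    have : x ∈ center G := by rw [h]; exact mem_top x
    rw [mem_center_iff.mp this g, mul_inv_cancel_right]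
    exact hx
  refine hcon2 ⟨⟨?_, ?_⟩, (key2 _ inferInstance hcen).2⟩
  · -- perfect
    have h1 : commutator G = ⊤ := by
      by_contra hne
      have h2 := (key2 (commutator G) inferInstance hne).1
      have h3 : ((P : Subgroup G) ⊔ center G).Normal := by
        refine ⟨fun x hx g => ?_⟩
        have e : g * x * g⁻¹ = ⁅g, x⁆ * x := by rw [commutatorElement_def]; group
        rw [e]
        exact mul_mem ((le_sup_right : center G ≤ _) (h2 (commutator_mem_commutator (mem_top g) (mem_top x)))) hx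
      have h4 := hcop _ h3 le_sup_left
      apply hnP
      refine ⟨fun x hx g => ?_⟩
      have h5 : g ∈ (P : Subgroup G) ⊔ center G := by rw [h4]; exact mem_top g
      obtain ⟨u, hu, z, hz, rfl⟩ := mem_sup_of_normal_right.mp h5
      have e : u * z * x * (u * z)⁻¹ = u * (z * x) * z⁻¹ * u⁻¹ := by group
      rw [e, ← (mem_center_iff.mp hz x)]
      have e2 : u * (x * z) * z⁻¹ * u⁻¹ = u * x * u⁻¹ := by group
      rw [e2]
      exact mul_mem (mul_mem hu hx) (inv_mem hu)
    exact ⟨h1⟩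
  · have hnt : Nontrivial (G ⧸ center G) := QuotientGroup.nontrivial_iff.mpr hcen
    refine { eq_bot_or_eq_top_of_normal := fun H hH => ?_ }
    have h1 : (H.comap (QuotientGroup.mk' (center G))).Normal := inferInstance
    by_cases h2 : H.comap (QuotientGroup.mk' (center G)) = ⊤
    · right
      rw [eq_top_iff]
      intro x _
      obtain ⟨g, rfl⟩ := QuotientGroup.mk'_surjective (center G) x
      have : g ∈ H.comap (QuotientGroup.mk' (center G)) := by rw [h2]; exact mem_top g
      exact this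
    · left
      have h3 := (key2 _ h1 h2).1
      rw [eq_bot_iff]
      intro x hx
      obtain ⟨g, rfl⟩ := QuotientGroup.mk'_surjective (center G) x
      rw [mem_bot]
      exact (QuotientGroup.eq_one_iff g).mpr (h3 hx)

end H66.MaxD
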