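import Mathlib


/-! Two-vector bases for completely reducible modules of groups of odd order: definitions and the
permutation group lemma. -/

set_option linter.unusedSectionVars false
set_option linter.style.haveILetI false

namespace H66.OddA

open Subgroup
open scoped commutatorElement

universe u v

section Defs

variable {A : Type u} [Group A] {V : Type v} [AddCommGroup V]

/-- a pair of vectors which is only fixed by elements acting trivially. -/
def Good (φ : A →* AddMonoid.End V) (x : V × V) : Prop :=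
  ∀ a, φ a x.1 = x.1 → φ a x.2 = x.2 → φ a = 1

/-- irreducible action. -/
def Irr (φ : A →* AddMonoid.End V) : Prop :=
  Nontrivial V ∧ ∀ U : AddSubgroup V, (∀ a, ∀ u ∈ U, φ a u ∈ U) → U = ⊥ ∨ U = ⊤

/-- there are two inequivalent good pairs. -/
def Two (φ : A →* AddMonoid.End V) : Prop :=
  ∃ x y : V × V, Good φ x ∧ Good φ y ∧ ∀ a, ¬ (φ a x.1 = y.1 ∧ φ a x.2 = y.2)

end Defs

/-- the induction hypothesis. -/
def IHyp (n : ℕ) : Prop :=
  ∀ (B W : Type u) [Group B] [Finite B] [AddCommGroup W] [Finite W]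
    (ψ : B →* AddMonoid.End W), Odd (Nat.card B) → Irr ψ → Nat.card W < n → Two ψ

section Odd

variable {A : Type u} [Group A] [Finite A]

/-- In a group of odd order, `a` is a power of `a ^ 2`. -/
theorem mem_zpowers_sq (hA : Odd (Nat.card A)) (a : A) : ∃ k : ℕ, (a ^ 2) ^ k = a := by
  obtain ⟨m, hm⟩ := hA
  refine ⟨m + 1, ?_⟩
  rw [← pow_mul, show 2 * (m + 1) = (2 * m + 1) + 1 by ring, pow_succ, ← hm, pow_card_eq_one',
    one_mul]

theorem sq_fix {X : Type*} [MulAction A X] (hA : Odd (Nat.card A)) {a : A} {x : X}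
    (h : a • a • x = x) : a • x = x := by
  obtain ⟨k, hk⟩ := mem_zpowers_sq hA a
  have h2 : a ^ 2 • x = x := by rw [pow_two, mul_smul, h]
  have h3 : a ^ 2 ∈ MulAction.stabilizer A x := h2
  have h4 := (MulAction.stabilizer A x).pow_mem h3 k
  rw [hk] at h4
  exact h4

theorem odd_sub (hA : Odd (Nat.card A)) (H : Subgroup A) : Odd (Nat.card H) :=
  hA.of_dvd_nat H.card_subgroup_dvd_card

theorem eq_one_of_sq (hA : Odd (Nat.card A)) {a : A} (h : a * a = 1) : a = 1 := by
  obtain ⟨k, hk⟩ := mem_zpowers_sq hA a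
  rw [pow_two, h, one_pow] at hk
  exact hk.symm

end Odd

section Conj

variable {Q : Type u} [Group Q] (N : Subgroup Q) [N.Normal]

/-- conjugation action on a normal subgroup written additively. -/
noncomputable def conjRep : Q →* AddMonoid.End (Additive N) where
  toFun g := MonoidHom.toAdditive (MulAut.conjNormal g : N ≃* N).toMonoidHom
  map_one' := by
    ext x
    simp
    rfl
  map_mul' g h := by
    ext x
    simp
    rfl

theorem conjRep_apply (g : Q) (x : N) :
    (((conjRep N g (Additive.ofMul x)).toMul : N) : Q) = g * x * g⁻¹ := by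
  exact MulAut.conjNormal_apply g x

/-- an abelian normal subgroup is an additive commutative group. -/
@[reducible]
noncomputable def addN (hab : ∀ x ∈ N, ∀ y ∈ N, x * y = y * x) : AddCommGroup (Additive N) :=
  { (inferInstance : AddGroup (Additive N)) with
    add_comm := fun a b => by
      apply Additive.toMul.injective
      apply Subtype.ext
      exact hab _ a.toMul.2 _ b.toMul.2 }

end Conj

/-- every nontrivial normal subgroup of a solvable group contains an abelian minimal one. -/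
theorem exists_min_normal {Q : Type u} [Group Q] [Finite Q] (hs : Group.IsSolvable Q)
    (T : Subgroup Q) [T.Normal] (hT : T ≠ ⊥) :
    ∃ N : Subgroup Q, N.Normal ∧ N ≤ T ∧ N ≠ ⊥ ∧ (∀ x ∈ N, ∀ y ∈ N, x * y = y * x) ∧
      ∀ U : Subgroup Q, U.Normal → U ≤ N → U = ⊥ ∨ U = N := by
  obtain ⟨N, hN, hmin⟩ := Set.Finite.exists_minimal
    (s := {N : Subgroup Q | N.Normal ∧ N ≤ T ∧ N ≠ ⊥}) (Set.toFinite _) ⟨T, ‹_›, le_rfl, hT⟩
  obtain ⟨hN1, hN2, hN3⟩ := hN
  have key : ∀ U : Subgroup Q, U.Normal → U ≤ N → U = ⊥ ∨ U = N := by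
    intro U hU hUN
    by_cases h : U = ⊥
    · exact Or.inl h
    · right
      exact le_antisymm hUN (hmin ⟨hU, hUN.trans hN2, h⟩ hUN)
  refine ⟨N, hN1, hN2, hN3, ?_, key⟩
  have hc : (⁅N, N⁆ : Subgroup Q) = ⊥ := by
    haveI : (⁅N, N⁆ : Subgroup Q).Normal := Subgroup.commutator_normal N N
    rcases key ⁅N, N⁆ this (Subgroup.commutator_le_left N N) with h | h
    · exact h
    · exfalso
      apply hN3
      have h2 : ∀ n : ℕ, N ≤ derivedSeries Q n := by
        intro n
        induction n with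
        | zero => simp
        | succ n ih =>
          rw [derivedSeries_succ]
          calc N = ⁅N, N⁆ := h.symm
            _ ≤ _ := Subgroup.commutator_mono ih ih
      obtain ⟨n, hn⟩ := hs.solvable
      have := h2 n
      rw [hn] at this
      exact le_bot_iff.mp this
  intro x hx y hy
  have h1 : ⁅x, y⁆ ∈ (⁅N, N⁆ : Subgroup Q) := Subgroup.commutator_mem_commutator hx hy
  rw [hc, Subgroup.mem_bot, commutatorElement_eq_one_iff_mul_comm] at h1
  exact h1


/-- three points. -/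
theorem three_points {X G : Type*} [Group G] [MulAction G X] (g : G)
    (F : ∀ p : X, g • g • p = p → g • p = p) (a b c : X)
    (ha : g • a = a ∨ g • a = b ∨ g • a = c) (hb : g • b = a ∨ g • b = b ∨ g • b = c)
    (hc : g • c = a ∨ g • c = b ∨ g • c = c) :
    (g • a = a ∧ g • b = b ∧ g • c = c) ∨ (g • a = b ∧ g • b = c ∧ g • c = a) ∨
      (g • a = c ∧ g • c = b ∧ g • b = a) := by
  have Fa := F a
  have Fb := F b
  have Fc := F c
  have iab : g • a = g • b → a = b := fun h => MulAction.injective g h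
  have iac : g • a = g • c → a = c := fun h => MulAction.injective g h
  have ibc : g • b = g • c → b = c := fun h => MulAction.injective g h
  clear F
  grind

section Perm

variable {G Ω : Type u} [Group G] [Finite G] [Finite Ω] [MulAction G Ω]

theorem perm_claim (hodd : Odd (Nat.card G)) (N : Subgroup G) [N.Normal] (ω : Ω)
    (reg : ∀ m ∈ N, ∀ x : Ω, m • x = x → m = 1) (x z : G) (hx : x ∈ N) (hz : z ∈ N)
    (hgood : ∀ h : G, h • ω = ω → h * x * h⁻¹ = x → h * z * h⁻¹ = z → h = 1)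
    (g : G) (hg : ∀ p : Ω, g • p ∈ ({ω, x • ω, z • ω} : Set Ω) ↔
      p ∈ ({ω, x • ω, z • ω} : Set Ω)) (hg1 : g ≠ 1) :
    ∃ h : G, h • ω = ω ∧ z = h⁻¹ * x⁻¹ * h := by
  have regc : ∀ m ∈ N, ∀ m' ∈ N, m • ω = m' • ω → m = m' := by
    intro m hm m' hm' h
    have h1 : (m'⁻¹ * m) • ω = ω := by rw [mul_smul, h, inv_smul_smul]
    have h2 := reg _ (N.mul_mem (N.inv_mem hm') hm) ω h1
    rw [inv_mul_eq_one] at h2
    exact h2.symm
  have F : ∀ p : Ω, g • g • p = p → g • p = p := fun p h => sq_fix hodd h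
  have conj : ∀ h : G, h • ω = ω → ∀ m : G, (h * m * h⁻¹) • ω = h • m • ω := by
    intro h hh m
    have : h⁻¹ • ω = ω := by rw [inv_smul_eq_iff, hh]
    rw [mul_smul, mul_smul, this]
  have main : ∀ g : G, g • ω = x • ω → g • z • ω = ω → ∃ h : G, h • ω = ω ∧ z = h⁻¹ * x⁻¹ * h := by
    intro g h1 h3
    have hh : (x⁻¹ * g) • ω = ω := by rw [mul_smul, h1, inv_smul_smul]
    refine ⟨x⁻¹ * g, hh, ?_⟩
    have h4 : (x * ((x⁻¹ * g) * z * (x⁻¹ * g)⁻¹)) • ω = (1 : G) • ω := by
      rw [mul_smul, conj _ hh, mul_smul, smul_inv_smul, h3, one_smul]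
    have h5 := regc _ (N.mul_mem hx (Subgroup.Normal.conj_mem ‹_› z hz _)) 1 N.one_mem h4
    have h6 : (x⁻¹ * g) * z * (x⁻¹ * g)⁻¹ = x⁻¹ := by
      rw [← mul_eq_one_iff_eq_inv'] 
      exact h5
    have h7 : z = (x⁻¹ * g)⁻¹ * ((x⁻¹ * g) * z * (x⁻¹ * g)⁻¹) * (x⁻¹ * g) := by group
    rw [h6] at h7
    exact h7
  have ha := (hg ω).mpr (by simp)
  have hb := (hg (x • ω)).mpr (by simp)
  have hc := (hg (z • ω)).mpr (by simp)
  simp only [Set.mem_insert_iff, Set.mem_singleton_iff] at ha hb hc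
  rcases three_points g F ω (x • ω) (z • ω) ha hb hc with h | h | h
  · exfalso
    obtain ⟨h1, h2, h3⟩ := h
    apply hg1
    apply hgood g h1
    · apply regc _ (Subgroup.Normal.conj_mem ‹_› x hx _) _ hx
      rw [conj g h1, h2]
    · apply regc _ (Subgroup.Normal.conj_mem ‹_› z hz _) _ hz
      rw [conj g h1, h3]
  · exact main g h.1 h.2.2
  · obtain ⟨h1, h2, h3⟩ := h
    apply main g⁻¹
    · rw [inv_smul_eq_iff, h3]
    · rw [inv_smul_eq_iff, h1]

theorem perm_odd {n : ℕ} (IH : IHyp.{u} n) [FaithfulSMul G Ω] [MulAction.IsPreprimitive G Ω]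
    (hodd : Odd (Nat.card G)) (hs : Group.IsSolvable G) (hn : Nat.card Ω < n) :
    ∃ Δ : Set Ω, ∀ g : G, (∀ x, g • x ∈ Δ ↔ x ∈ Δ) → g = 1 := by
  classical
  by_cases hG : Subsingleton G
  · exact ⟨∅, fun g _ => Subsingleton.elim _ _⟩
  rw [not_subsingleton_iff_nontrivial] at hG
  obtain ⟨g0, hg0⟩ := exists_ne (1 : G)
  obtain ⟨ω, -⟩ : ∃ ω : Ω, g0 • ω ≠ ω := by
    by_contra hcon
    push Not at hcon
    exact hg0 (FaithfulSMul.eq_of_smul_eq_smul (α := Ω) (fun x => by rw [hcon x, one_smul]))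
  obtain ⟨N, hN, -, hN0, hab, hmin⟩ := exists_min_normal hs (⊤ : Subgroup G) top_ne_bot
  have hNfix : MulAction.fixedPoints N Ω ≠ Set.univ := by
    intro h
    apply hN0
    rw [eq_bot_iff]
    intro m hm
    rw [Subgroup.mem_bot]
    apply FaithfulSMul.eq_of_smul_eq_smul (α := Ω)
    intro x
    have : x ∈ MulAction.fixedPoints N Ω := by rw [h]; trivial
    have h2 := this ⟨m, hm⟩
    rw [one_smul]
    exact h2
  haveI := MulAction.IsQuasiPreprimitive.isPretransitive_of_normal hNfix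
  have htr : ∀ x : Ω, ∃ m ∈ N, m • ω = x := by
    intro x
    obtain ⟨m, hm⟩ := MulAction.exists_smul_eq N ω x
    exact ⟨m, m.2, hm⟩
  have reg : ∀ m ∈ N, ∀ x : Ω, m • x = x → m = 1 := by
    intro m hm x hx
    apply FaithfulSMul.eq_of_smul_eq_smul (α := Ω)
    intro y
    obtain ⟨a, ha⟩ := MulAction.exists_smul_eq N x y
    have ha' : (a : G) • x = y := ha
    rw [one_smul, ← ha', ← mul_smul, hab m hm a a.2, mul_smul, hx]
  letI := addN N hab
  set ψ : MulAction.stabilizer G ω →* AddMonoid.End (Additive N) :=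
    (conjRep N).comp (Subgroup.subtype _) with hψ
  have hψa : ∀ (h : MulAction.stabilizer G ω) (x : N),
      (((ψ h (Additive.ofMul x)).toMul : N) : G) = h * x * (h : G)⁻¹ := fun h x =>
    conjRep_apply N h x
  have hirr : Irr ψ := by
    constructor
    · obtain ⟨m, hm, hm1⟩ := (Subgroup.ne_bot_iff_exists_ne_one (H := N)).mp hN0 |>.elim
        (fun a h => (⟨a.1, a.2, fun h' => h (Subtype.ext h')⟩ : ∃ m : G, m ∈ N ∧ m ≠ 1))
      exact ⟨⟨Additive.ofMul ⟨m, hm⟩, 0, fun h => hm1 (congrArg (fun z : Additive N =>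
        ((z.toMul : N) : G)) h)⟩⟩
    · intro U hU
      set U' : Subgroup G :=
        { carrier := {x | ∃ h : x ∈ N, Additive.ofMul (⟨x, h⟩ : N) ∈ U}
          one_mem' := ⟨N.one_mem, U.zero_mem⟩
          mul_mem' := by
            rintro a b ⟨ha, ha'⟩ ⟨hb, hb'⟩
            exact ⟨N.mul_mem ha hb, U.add_mem ha' hb'⟩
          inv_mem' := by
            rintro a ⟨ha, ha'⟩
            exact ⟨N.inv_mem ha, U.neg_mem ha'⟩ } with hU'
      have hmem : ∀ (x : G) (hx : x ∈ N), x ∈ U' ↔ Additive.ofMul (⟨x, hx⟩ : N) ∈ U :=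
        fun x hx => ⟨fun ⟨_, h⟩ => h, fun h => ⟨hx, h⟩⟩
      have hU'N : U' ≤ N := fun x ⟨h, _⟩ => h
      have hnorm : U'.Normal := by
        constructor
        intro a ha g
        obtain ⟨m, hm, hmg⟩ := htr (g • ω)
        have hst : m⁻¹ * g ∈ MulAction.stabilizer G ω := by
          rw [MulAction.mem_stabilizer_iff, mul_smul, ← hmg, inv_smul_smul]
        have h1 := hU ⟨m⁻¹ * g, hst⟩ _ ((hmem a (hU'N ha)).mp ha)
        have h2 : (m⁻¹ * g) * a * (m⁻¹ * g)⁻¹ ∈ U' := by
          refine ⟨hN.conj_mem a (hU'N ha) _, ?_⟩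
          convert h1 using 1
          apply Additive.toMul.injective
          apply Subtype.ext
          exact (hψa ⟨m⁻¹ * g, hst⟩ ⟨a, hU'N ha⟩).symm
        have h3 : g * a * g⁻¹ = m * ((m⁻¹ * g) * a * (m⁻¹ * g)⁻¹) * m⁻¹ := by group
        rw [h3, hab m hm _ (hU'N h2), mul_assoc, mul_inv_cancel, mul_one]
        exact h2
      rcases hmin U' hnorm hU'N with h | h
      · left
        rw [eq_bot_iff]
        intro x hx
        have : ((x.toMul : N) : G) ∈ U' := (hmem _ (x.toMul).2).mpr hx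
        rw [h, Subgroup.mem_bot] at this
        exact Subtype.ext this
      · right
        rw [eq_top_iff]
        intro x _
        have : ((x.toMul : N) : G) ∈ U' := by rw [h]; exact (x.toMul).2
        exact (hmem _ (x.toMul).2).mp this
  have hcard : Nat.card (Additive N) = Nat.card Ω := by
    apply Nat.card_congr
    refine Equiv.ofBijective (fun x : Additive N => ((x.toMul : N) : G) • ω) ⟨?_, ?_⟩
    · intro a b hab'
      have h1 : ((((b.toMul : N) : G))⁻¹ * ((a.toMul : N) : G)) • ω = ω := by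
        rw [mul_smul, inv_smul_eq_iff]
        exact hab'
      have h2 := reg _ (N.mul_mem (N.inv_mem (b.toMul).2) (a.toMul).2) ω h1
      rw [inv_mul_eq_one] at h2
      exact (Subtype.ext h2 : b.toMul = a.toMul).symm
    · intro x
      obtain ⟨m, hm, h⟩ := htr x
      exact ⟨Additive.ofMul ⟨m, hm⟩, h⟩
  obtain ⟨⟨x', y'⟩, _, hgood, _, _⟩ := IH _ (Additive N) ψ (odd_sub hodd _) hirr
    (by rw [hcard]; exact hn)
  set x : G := ((x'.toMul : N) : G) with hxdef
  set y : G := ((y'.toMul : N) : G) with hydef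
  have hxN : x ∈ N := (x'.toMul).2
  have hyN : y ∈ N := (y'.toMul).2
  have hgood' : ∀ h : G, h • ω = ω → h * x * h⁻¹ = x → h * y * h⁻¹ = y → h = 1 := by
    intro h hh hx hy
    have h1 := hgood ⟨h, hh⟩ (by
      apply Additive.toMul.injective
      apply Subtype.ext
      exact (hψa ⟨h, hh⟩ x'.toMul).trans hx) (by
      apply Additive.toMul.injective
      apply Subtype.ext
      exact (hψa ⟨h, hh⟩ y'.toMul).trans hy)
    apply FaithfulSMul.eq_of_smul_eq_smul (α := Ω)
    intro p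
    obtain ⟨m, hm, hmp⟩ := htr p
    have h2 := hψa ⟨h, hh⟩ ⟨m, hm⟩
    rw [h1] at h2
    have h3 : m = h * m * h⁻¹ := h2
    have h4 : h⁻¹ • ω = ω := by rw [inv_smul_eq_iff, hh]
    rw [one_smul, ← hmp]
    conv_rhs => rw [h3, mul_smul, mul_smul, h4]
  by_contra hcon
  push Not at hcon
  obtain ⟨g1, hg1, hg1'⟩ := hcon {ω, x • ω, y • ω}
  obtain ⟨g2, hg2, hg2'⟩ := hcon {ω, x • ω, y⁻¹ • ω}
  obtain ⟨h1, hh1, e1⟩ := perm_claim hodd N ω reg x y hxN hyN hgood' g1 hg1 hg1'
  obtain ⟨h2, hh2, e2⟩ := perm_claim hodd N ω reg x y⁻¹ hxN (N.inv_mem hyN)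
    (fun h a b c => hgood' h a b (by
      rw [← inv_inj]
      calc (h * y * h⁻¹)⁻¹ = h * y⁻¹ * h⁻¹ := by group
        _ = y⁻¹ := c)) g2 hg2 hg2'
  have hk : (h2 * h1⁻¹) * x * (h2 * h1⁻¹)⁻¹ = x⁻¹ := by
    have : h1⁻¹ * x * h1 = h2⁻¹ * x⁻¹ * h2 := by
      rw [← e2, e1, mul_inv_rev, mul_inv_rev, inv_inv, inv_inv, mul_assoc]
    calc (h2 * h1⁻¹) * x * (h2 * h1⁻¹)⁻¹ = h2 * (h1⁻¹ * x * h1) * h2⁻¹ := by group
      _ = h2 * (h2⁻¹ * x⁻¹ * h2) * h2⁻¹ := by rw [this]
      _ = x⁻¹ := by group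
  set k := h2 * h1⁻¹ with hkdef
  have hk2 : k * (k * x * k⁻¹) * k⁻¹ = x := by
    rw [hk]
    calc k * x⁻¹ * k⁻¹ = (k * x * k⁻¹)⁻¹ := by group
      _ = x := by rw [hk, inv_inv]
  -- k commutes with x
  have hkx : k * x * k⁻¹ = x := by
    obtain ⟨j, hj⟩ := mem_zpowers_sq hodd k
    have hc : Commute (k ^ 2) x := by
      have : k ^ 2 * x * (k ^ 2)⁻¹ = x := by
        calc k ^ 2 * x * (k ^ 2)⁻¹ = k * (k * x * k⁻¹) * k⁻¹ := by rw [pow_two]; group
          _ = x := hk2
      exact mul_inv_eq_iff_eq_mul.mp this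
    have hc2 := hc.pow_left j
    rw [hj] at hc2
    rw [hc2.eq]; group
  have hx1 : x = 1 := by
    apply eq_one_of_sq hodd
    rw [hkx] at hk
    nth_rewrite 1 [hk]
    simp
  have hy1 : y = 1 := by rw [e1, hx1]; group
  apply hg1'
  have hg1ω : g1 • ω = ω := by
    have := (hg1 ω).mpr (by simp)
    rw [hx1, hy1] at this
    simpa using this
  exact hgood' g1 hg1ω (by rw [hx1]; group) (by rw [hy1]; group)

end Perm

end H66.OddA
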