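import Mathlib
import Cfsg.Agent.Lib.H66.OddA

/-! Imprimitive modules of groups of odd order. -/

set_option linter.unusedSectionVars false
set_option linter.style.haveILetI false

namespace H66.OddA

open Subgroup

universe u v

/-- non-faithful version of `perm_odd`. -/
theorem perm_odd' {n : ℕ} (IH : IHyp.{u} n) {A Ω : Type u} [Group A] [Finite A] [Finite Ω]
    [MulAction A Ω] [MulAction.IsPreprimitive A Ω]
    (hodd : Odd (Nat.card A)) (hs : Group.IsSolvable A) (hn : Nat.card Ω < n) :
    ∃ Δ : Set Ω, ∀ g : A, (∀ x, g • x ∈ Δ ↔ x ∈ Δ) → ∀ x : Ω, g • x = x := by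
  set f := MulAction.toPermHom A Ω with hf
  have hsurj : Function.Surjective f.rangeRestrict := f.rangeRestrict_surjective
  haveI : Group.IsSolvable f.range := solvable_of_surjective hsurj
  have hodd' : Odd (Nat.card f.range) := hodd.of_dvd_nat (Subgroup.card_range_dvd f)
  let F : Ω →ₑ[f.rangeRestrict] Ω := { toFun := id, map_smul' := fun a x => rfl }
  haveI : MulAction.IsPreprimitive f.range Ω :=
    MulAction.IsPreprimitive.of_surjective (f := F) Function.surjective_id
  obtain ⟨Δ, hΔ⟩ := perm_odd IH (G := f.range) (Ω := Ω) hodd' ‹_› hn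
  refine ⟨Δ, fun g hg x => ?_⟩
  have h1 := hΔ (f.rangeRestrict g) (fun x => hg x)
  have h2 : f.rangeRestrict g • x = x := by rw [h1, one_smul]
  exact h2

section Restr

variable {B : Type u} [Group B] {V : Type v} [AddCommGroup V]

/-- restriction of an action to an invariant subgroup. -/
def restr (ψ : B →* AddMonoid.End V) (U : AddSubgroup V) (hU : ∀ b, ∀ u ∈ U, ψ b u ∈ U) :
    B →* AddMonoid.End U where
  toFun b :=
    { toFun := fun u => ⟨ψ b u, hU b u u.2⟩
      map_zero' := by ext; simp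
      map_add' := fun x y => by ext; simp }
  map_one' := by
    apply AddMonoidHom.ext
    intro x
    apply Subtype.ext
    change ψ 1 x = x
    rw [map_one]
    rfl
  map_mul' a b := by
    apply AddMonoidHom.ext
    intro x
    apply Subtype.ext
    change ψ (a * b) x = ψ a (ψ b x)
    rw [map_mul]
    rfl

@[simp] theorem restr_apply (ψ : B →* AddMonoid.End V) (U : AddSubgroup V)
    (hU : ∀ b, ∀ u ∈ U, ψ b u ∈ U) (b : B) (u : U) :
    ((restr ψ U hU b u : U) : V) = ψ b u := rfl

end Restr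

section Blk

variable {A : Type u} [Group A] [Finite A] {V : Type u} [AddCommGroup V] [Finite V]

/-- A system of orthogonal idempotents permuted by the group. -/
def IsBlk (φ : A →* AddMonoid.End V) (Ω : Type u) [Fintype Ω] [MulAction A Ω]
    (e : Ω → AddMonoid.End V) : Prop :=
  (∀ a x, φ a * e x = e (a • x) * φ a) ∧ (∀ x y, x ≠ y → e x * e y = 0) ∧
    (∀ x, e x * e x = e x) ∧ ∑ x, e x = 1

variable {φ : A →* AddMonoid.End V} {Ω : Type u} [Fintype Ω] [MulAction A Ω]
  {e : Ω → AddMonoid.End V}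

theorem end_sum_apply {ι : Type*} (s : Finset ι) (f : ι → AddMonoid.End V) (v : V) :
    (∑ i ∈ s, f i) v = ∑ i ∈ s, f i v := by
  classical
  induction s using Finset.induction_on with
  | empty => simp
  | insert a s ha ih =>
    rw [Finset.sum_insert ha, Finset.sum_insert ha, ← ih]
    rfl

theorem phi_inv (φ : A →* AddMonoid.End V) (a : A) (v : V) : φ a⁻¹ (φ a v) = v := by
  have : φ a⁻¹ * φ a = 1 := by rw [← map_mul, inv_mul_cancel, map_one]
  exact DFunLike.congr_fun this v

theorem phi_inv' (φ : A →* AddMonoid.End V) (a : A) (v : V) : φ a (φ a⁻¹ v) = v := by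
  have : φ a * φ a⁻¹ = 1 := by rw [← map_mul, mul_inv_cancel, map_one]
  exact DFunLike.congr_fun this v

theorem phi_mul (φ : A →* AddMonoid.End V) (a b : A) (v : V) : φ (a * b) v = φ a (φ b v) := by
  rw [map_mul]; rfl

theorem phi_inj (φ : A →* AddMonoid.End V) (a : A) : Function.Injective (φ a) := by
  intro x y h
  rw [← phi_inv φ a x, h, phi_inv]

namespace IsBlk

theorem eqv (h : IsBlk φ Ω e) (a : A) (x : Ω) (v : V) : φ a (e x v) = e (a • x) (φ a v) :=
  DFunLike.congr_fun (h.1 a x) v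

theorem orth (h : IsBlk φ Ω e) {x y : Ω} (hxy : x ≠ y) (v : V) : e x (e y v) = 0 :=
  DFunLike.congr_fun (h.2.1 x y hxy) v

theorem idem (h : IsBlk φ Ω e) (x : Ω) (v : V) : e x (e x v) = e x v :=
  DFunLike.congr_fun (h.2.2.1 x) v

theorem sum (h : IsBlk φ Ω e) (v : V) : ∑ x, e x v = v := by
  have := DFunLike.congr_fun h.2.2.2 v
  rw [end_sum_apply] at this
  exact this

/-- coarsening. -/
theorem coarsen (h : IsBlk φ Ω e) {Ω' : Type u} [Fintype Ω'] [MulAction A Ω'] (π : Ω → Ω')
    (hπ : ∀ (a : A) x, π (a • x) = a • π x) : ∃ e' : Ω' → AddMonoid.End V, IsBlk φ Ω' e' := by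
  classical
  refine ⟨fun y => ∑ x with π x = y, e x, ?_, ?_, ?_, ?_⟩
  · intro a y
    rw [Finset.mul_sum, Finset.sum_mul]
    refine Finset.sum_bij (fun x _ => a • x) ?_ ?_ ?_ ?_
    · intro x hx
      simp only [Finset.mem_filter, Finset.mem_univ, true_and] at hx ⊢
      rw [hπ, hx]
    · intro x _ y _ hxy
      exact MulAction.injective a hxy
    · intro x hx
      simp only [Finset.mem_filter, Finset.mem_univ, true_and] at hx
      refine ⟨a⁻¹ • x, ?_, by simp⟩
      simp only [Finset.mem_filter, Finset.mem_univ, true_and]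
      rw [hπ, hx, inv_smul_smul]
    · intro x _
      exact h.1 a x
  · intro y y' hyy
    rw [Finset.sum_mul_sum]
    apply Finset.sum_eq_zero
    intro x hx
    apply Finset.sum_eq_zero
    intro x' hx'
    simp only [Finset.mem_filter, Finset.mem_univ, true_and] at hx hx'
    apply h.2.1
    intro hxx
    apply hyy
    rw [← hx, hxx, hx']
  · intro y
    rw [Finset.sum_mul_sum]
    apply Finset.sum_congr rfl
    intro x hx
    rw [Finset.sum_eq_single x]
    · exact h.2.2.1 x
    · intro x' _ hne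
      exact h.2.1 x x' (Ne.symm hne)
    · intro hx'
      exact absurd hx hx'
  · rw [← h.2.2.2]
    exact Finset.sum_fiberwise Finset.univ π e

end IsBlk

/-- the vector with prescribed components. -/
noncomputable def vec (φ : A →* AddMonoid.End V) (r : Ω → A) (γ : Ω → V) : V :=
  ∑ x, φ (r x) (γ x)

theorem vec_comp (h : IsBlk φ Ω e) {ω : Ω} {r : Ω → A} (hr : ∀ x, r x • ω = x) {γ : Ω → V}
    (hγ : ∀ x, e ω (γ x) = γ x) (x : Ω) : e x (vec φ r γ) = φ (r x) (γ x) := by
  classical
  rw [vec, map_sum, Finset.sum_eq_single x]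
  · rw [← hγ x, h.eqv, hr, h.idem]
  · intro y _ hy
    rw [← hγ y, h.eqv, hr, h.orth hy.symm]
  · intro hx
    exact absurd (Finset.mem_univ _) hx

theorem vec_move (h : IsBlk φ Ω e) {ω : Ω} {r : Ω → A} (hr : ∀ x, r x • ω = x) {γ γ' : Ω → V}
    (hγ : ∀ x, e ω (γ x) = γ x) (hγ' : ∀ x, e ω (γ' x) = γ' x) {g : A}
    (hg : φ g (vec φ r γ) = vec φ r γ') (x : Ω) :
    φ ((r (g • x))⁻¹ * g * r x) (γ x) = γ' (g • x) := by
  have h1 : φ g (e x (vec φ r γ)) = e (g • x) (vec φ r γ') := by rw [h.eqv, hg]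
  rw [vec_comp h hr hγ, vec_comp h hr hγ'] at h1
  rw [mul_assoc, phi_mul, phi_mul, h1, phi_inv]

theorem stab_mem {ω : Ω} {r : Ω → A} (hr : ∀ x, r x • ω = x) (g : A) (x : Ω) :
    (r (g • x))⁻¹ * g * r x ∈ MulAction.stabilizer A ω := by
  rw [MulAction.mem_stabilizer_iff, mul_assoc, mul_smul, mul_smul, hr, inv_smul_eq_iff, hr]

/-- Step I. -/
theorem two_of_blk (IH : IHyp.{u} (Nat.card V)) (hodd : Odd (Nat.card A))
    (hs : Group.IsSolvable A) (hirr : Irr φ) [MulAction.IsPreprimitive A Ω] [Nontrivial Ω]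
    (h : IsBlk φ Ω e) : Two φ := by
  classical
  haveI := hirr.1
  obtain ⟨ω⟩ : Nonempty Ω := inferInstance
  have hr' : ∀ x : Ω, ∃ a : A, a • ω = x := fun x => MulAction.exists_smul_eq A ω x
  choose r hr using hr'
  -- the block
  set V1 : AddSubgroup V := (e ω : V →+ V).range with hV1
  have hV1m : ∀ v : V, v ∈ V1 ↔ e ω v = v := by
    intro v
    constructor
    · rintro ⟨w, rfl⟩
      exact h.idem ω w
    · intro hv
      exact ⟨v, hv⟩
  set H := MulAction.stabilizer A ω with hH
  have hinv : ∀ b : H, ∀ u ∈ V1, (φ.comp H.subtype) b u ∈ V1 := by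
    intro b u hu
    rw [hV1m] at hu ⊢
    change e ω (φ b u) = φ b u
    have hb : (b : A) • ω = ω := b.2
    conv_rhs => rw [← hu, h.eqv, hb]
  set ψ := restr (φ.comp H.subtype) V1 hinv with hψ
  have hψa : ∀ (b : H) (u : V1), ((ψ b u : V1) : V) = φ b u := fun b u => rfl
  -- e ω ≠ 0
  have he0 : ∀ x, ∃ v, e x v ≠ 0 := by
    by_contra hcon
    push Not at hcon
    obtain ⟨x, hx⟩ := hcon
    have hall : ∀ y v, e y v = 0 := by
      intro y v
      obtain ⟨a, rfl⟩ := MulAction.exists_smul_eq A x y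
      rw [← phi_inv' φ a v, ← h.eqv, hx, map_zero]
    obtain ⟨v, hv⟩ := exists_ne (0 : V)
    apply hv
    rw [← h.sum v]
    exact Finset.sum_eq_zero (fun y _ => hall y v)
  have hirr1 : Irr ψ := by
    constructor
    · obtain ⟨v, hv⟩ := he0 ω
      exact ⟨⟨⟨e ω v, (hV1m _).mpr (h.idem ω v)⟩, 0, fun hh => hv (congrArg Subtype.val hh)⟩⟩
    · intro U hU
      set U' : AddSubgroup V := ⨆ x : Ω, (U.map V1.subtype).map (φ (r x) : V →+ V) with hU'
      have hU'inv : ∀ a, ∀ u ∈ U', φ a u ∈ U' := by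
        intro a u hu
        induction hu using AddSubgroup.iSup_induction' with
        | hp x v hv =>
          obtain ⟨v1, ⟨v2, hv2, rfl⟩, rfl⟩ := hv
          have h1 := hU ⟨_, stab_mem hr a x⟩ v2 hv2
          have h2 : φ a (φ (r x) v2) = φ (r (a • x)) (φ ((r (a • x))⁻¹ * a * r x) v2) := by
            rw [← phi_mul, ← phi_mul]
            congr 2
            group
          change φ a (φ (r x) v2) ∈ U'
          rw [h2]
          exact AddSubgroup.mem_iSup_of_mem (a • x) ⟨_, ⟨_, h1, rfl⟩, rfl⟩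
        | h1 => rw [map_zero]; exact U'.zero_mem
        | hadd x y _ _ hx hy => rw [map_add]; exact U'.add_mem hx hy
      rcases hirr.2 U' hU'inv with h1 | h1
      · left
        rw [eq_bot_iff]
        intro u hu
        have h2 : φ (r ω) u ∈ U' := AddSubgroup.mem_iSup_of_mem ω ⟨_, ⟨u, hu, rfl⟩, rfl⟩
        rw [h1, AddSubgroup.mem_bot] at h2
        have h3 : (u : V) = 0 := phi_inj φ (r ω) (by rw [h2, map_zero])
        exact Subtype.ext h3
      · right
        rw [eq_top_iff]
        intro u _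
        -- project
        have h2 : ∀ v ∈ U', ∃ u' ∈ U, (u' : V) = e ω v := by
          intro v hv
          induction hv using AddSubgroup.iSup_induction' with
          | hp x v hv =>
            obtain ⟨v1, ⟨v2, hv2, rfl⟩, rfl⟩ := hv
            have h3 : e ω (v2 : V) = v2 := (hV1m _).mp v2.2
            have h4 : φ (r x) (v2 : V) = e x (φ (r x) v2) := by
              conv_lhs => rw [← h3, h.eqv, hr]
            by_cases hx : x = ω
            · have hst : r x ∈ H := by
                change r x • ω = ω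
                rw [hr, hx]
              refine ⟨ψ ⟨r x, hst⟩ v2, hU _ _ hv2, ?_⟩
              change φ (r x) v2 = e ω (φ (r x) v2)
              conv_lhs => rw [h4, hx]
              rw [hx]
            · refine ⟨0, U.zero_mem, ?_⟩
              change (0 : V) = e ω (φ (r x) v2)
              rw [h4, h.orth (Ne.symm hx)]
          | h1 => exact ⟨0, U.zero_mem, by simp⟩
          | hadd x y _ _ hx hy =>
            obtain ⟨a, ha, ha'⟩ := hx
            obtain ⟨b, hb, hb'⟩ := hy
            exact ⟨a + b, U.add_mem ha hb, by rw [map_add, ← ha', ← hb']; rfl⟩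
        obtain ⟨u', hu', hu''⟩ := h2 (u : V) (by rw [h1]; trivial)
        rw [(hV1m _).mp u.2] at hu''
        rw [← Subtype.ext hu'']
        exact hu'
  have hcard1 : Nat.card V1 < Nat.card V := by
    have hne : V1 ≠ ⊤ := by
      intro htop
      obtain ⟨x, hx⟩ := exists_ne ω
      obtain ⟨v, hv⟩ := he0 x
      apply hv
      have : e x v ∈ V1 := by rw [htop]; trivial
      rw [hV1m] at this
      rw [← this, h.orth hx.symm]
    have h1 : Nat.card V1 ∣ Nat.card V := V1.card_addSubgroup_dvd_card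
    refine lt_of_le_of_ne (Nat.le_of_dvd Nat.card_pos h1) ?_
    intro heq
    exact hne (AddSubgroup.eq_top_of_card_eq _ heq)
  have hcardΩ : Nat.card Ω < Nat.card V := by
    obtain ⟨v, hv⟩ := he0 ω
    have hinj : Function.Injective (fun x : Ω => φ (r x) (e ω v)) := by
      intro x y hxy
      by_contra hne
      have h1 : φ (r x) (e ω v) = e x (φ (r x) (e ω v)) := by
        rw [h.eqv, hr, h.idem]
      have h2 : φ (r y) (e ω v) = e y (φ (r y) v) := by
        rw [h.eqv, hr]
      have h3 : φ (r x) (e ω v) = 0 := by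
        rw [h1]
        change φ (r x) (e ω v) = φ (r y) (e ω v) at hxy
        rw [hxy, h2, h.orth hne]
      exact hv (phi_inj φ (r x) (by rw [h3, map_zero]))
    haveI := Fintype.ofFinite V
    rw [Nat.card_eq_fintype_card, Nat.card_eq_fintype_card]
    apply Fintype.card_lt_of_injective_of_notMem _ hinj (b := 0)
    rintro ⟨x, hx⟩
    exact hv (phi_inj φ (r x) (by rw [map_zero]; exact hx))
  obtain ⟨α, β, hα, hβ, hαβ⟩ := IH H V1 ψ (odd_sub hodd H) hirr1 hcard1
  obtain ⟨Δ, hΔ⟩ := perm_odd' IH (A := A) (Ω := Ω) hodd hs hcardΩ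
  -- the vectors
  set γ1 : Set Ω → Ω → V := fun D x => if x ∈ D then (α.1 : V) else β.1 with hγ1
  set γ2 : Set Ω → Ω → V := fun D x => if x ∈ D then (α.2 : V) else β.2 with hγ2
  have hγ1e : ∀ D x, e ω (γ1 D x) = γ1 D x := by
    intro D x
    rw [hγ1]
    dsimp only
    split_ifs
    · exact (hV1m _).mp α.1.2
    · exact (hV1m _).mp β.1.2
  have hγ2e : ∀ D x, e ω (γ2 D x) = γ2 D x := by
    intro D x
    rw [hγ2]
    dsimp only
    split_ifs
    · exact (hV1m _).mp α.2.2
    · exact (hV1m _).mp β.2.2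
  have key : ∀ (D D' : Set Ω) (g : A), φ g (vec φ r (γ1 D)) = vec φ r (γ1 D') →
      φ g (vec φ r (γ2 D)) = vec φ r (γ2 D') → ∀ x, (g • x ∈ D' ↔ x ∈ D) := by
    intro D D' g h1 h2 x
    have e1 := vec_move h hr (hγ1e D) (hγ1e D') h1 x
    have e2 := vec_move h hr (hγ2e D) (hγ2e D') h2 x
    have hst := stab_mem hr g x
    rw [← hH] at hst
    by_cases hx : x ∈ D <;> by_cases hgx : g • x ∈ D'
    · simp [hx, hgx]
    · exfalso
      simp only [hγ1, hγ2, hx, hgx, if_true, if_false] at e1 e2
      exact hαβ ⟨_, hst⟩ ⟨Subtype.ext e1, Subtype.ext e2⟩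
    · exfalso
      simp only [hγ1, hγ2, hx, hgx, if_true, if_false] at e1 e2
      refine hαβ (⟨_, hst⟩ : H)⁻¹ ⟨Subtype.ext ?_, Subtype.ext ?_⟩
      · rw [hψa, ← e1]
        exact phi_inv φ _ _
      · rw [hψa, ← e2]
        exact phi_inv φ _ _
    · simp [hx, hgx]
  have good : ∀ D : Set Ω, (∀ g : A, (∀ x, g • x ∈ D ↔ x ∈ D) → ∀ x : Ω, g • x = x) →
      Good φ (vec φ r (γ1 D), vec φ r (γ2 D)) := by
    intro D hD g h1 h2
    have h3 := hD g (key D D g h1 h2)
    have h4 : ∀ x, ψ ⟨_, stab_mem hr g x⟩ = 1 := by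
      intro x
      have e1 := vec_move h hr (hγ1e D) (hγ1e D) h1 x
      have e2 := vec_move h hr (hγ2e D) (hγ2e D) h2 x
      rw [show γ1 D (g • x) = γ1 D x by rw [h3]] at e1
      rw [show γ2 D (g • x) = γ2 D x by rw [h3]] at e2
      by_cases hx : x ∈ D
      · simp only [hγ1, hγ2, hx, if_true] at e1 e2
        exact hα _ (Subtype.ext e1) (Subtype.ext e2)
      · simp only [hγ1, hγ2, hx, if_false] at e1 e2
        exact hβ _ (Subtype.ext e1) (Subtype.ext e2)
    apply AddMonoidHom.ext
    intro v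
    change φ g v = v
    have h5 : ∀ x, φ g (e x v) = e x v := by
      intro x
      have h6 : e ω (φ (r x)⁻¹ (e x v)) = φ (r x)⁻¹ (e x v) := by
        have h7 := h.eqv (r x)⁻¹ x (e x v)
        rw [h.idem] at h7
        have h8 : (r x)⁻¹ • x = ω := by
          conv_lhs => rw [← hr x, hr x]
          rw [inv_smul_eq_iff, hr]
        rw [h8] at h7
        exact h7.symm
      have h9 := congrArg (fun z : V1 => (z : V))
        (DFunLike.congr_fun (h4 x) ⟨φ (r x)⁻¹ (e x v), (hV1m _).mpr h6⟩)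
      have h10 : φ ((r (g • x))⁻¹ * g * r x) (φ (r x)⁻¹ (e x v)) = φ (r x)⁻¹ (e x v) := h9
      rw [h3 x, mul_assoc, phi_mul, phi_mul, phi_inv'] at h10
      exact phi_inj φ _ h10
    rw [← h.sum v, map_sum]
    exact Finset.sum_congr rfl (fun x _ => h5 x)
  refine ⟨_, _, good Δ hΔ, good Δᶜ ?_, ?_⟩
  · intro g hg
    apply hΔ g
    intro x
    have := hg x
    simp only [Set.mem_compl_iff] at this
    exact not_iff_not.mp this
  · rintro g ⟨h1, h2⟩
    have h3 := key Δ Δᶜ g h1 h2
    -- |Δ| = |Δᶜ|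
    have hodΩ : Odd (Nat.card Ω) := by
      have h4 : Nat.card Ω = (MulAction.stabilizer A ω).index := by
        rw [MulAction.index_stabilizer, MulAction.orbit_eq_univ, Set.ncard_univ]
      rw [h4]
      exact hodd.of_dvd_nat (Subgroup.index_dvd_card _)
    have h5 : Δᶜ.ncard = Δ.ncard := by
      have : Δᶜ = (fun x => g • x) '' Δ := by
        ext y
        constructor
        · intro hy
          refine ⟨g⁻¹ • y, ?_, by simp⟩
          rw [← h3, smul_inv_smul]
          exact hy
        · rintro ⟨x, hx, rfl⟩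
          exact (h3 x).mpr hx
      rw [this, Set.ncard_image_of_injective _ (MulAction.injective g)]
    have h6 := Set.ncard_add_ncard_compl Δ
    rw [h5] at h6
    rw [← h6] at hodΩ
    exact (Nat.not_even_iff_odd.mpr hodΩ) ⟨_, rfl⟩

end Blk

end H66.OddA
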