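import Mathlib
import Cfsg.Agent.Lib.H66.OddB

/-! Abelian normal subgroups: either a block system or a field. -/

set_option linter.unusedSectionVars false
set_option linter.style.haveILetI false

namespace H66.OddA

open Subgroup

universe u v

/-- some power of an element of a finite monoid is idempotent. -/
theorem exists_idem_pow {M : Type*} [Monoid M] [Finite M] (r : M) :
    ∃ n : ℕ, n ≠ 0 ∧ r ^ n * r ^ n = r ^ n := by
  obtain ⟨i, j, hij, h⟩ := Finite.exists_ne_map_eq_of_infinite (fun n : ℕ => r ^ n)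
  wlog hlt : i < j generalizing i j
  · exact this j i hij.symm h.symm (lt_of_le_of_ne (not_lt.mp hlt) hij.symm)
  obtain ⟨d, rfl⟩ := Nat.exists_eq_add_of_lt hlt
  have h' : r ^ i = r ^ (i + (d + 1)) := h
  have key : ∀ k m : ℕ, r ^ (i + m + k * (d + 1)) = r ^ (i + m) := by
    intro k
    induction k with
    | zero => intro m; simp
    | succ k ih =>
      intro m
      have : i + m + (k + 1) * (d + 1) = i + (m + (d + 1)) + k * (d + 1) := by ring
      rw [this, ih]
      rw [show i + (m + (d + 1)) = (i + (d + 1)) + m by ring, pow_add, ← h', ← pow_add]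
  refine ⟨(i + 1) * (d + 1), by positivity, ?_⟩
  rw [← pow_add]
  have h1 : i ≤ (i + 1) * (d + 1) := by nlinarith
  obtain ⟨m, hm⟩ := Nat.exists_eq_add_of_le h1
  have := key (i + 1) m
  rw [← hm] at this
  exact this

section

variable {A : Type u} [Group A] [Finite A] {V : Type u} [AddCommGroup V] [Finite V]

instance finEnd : Finite (AddMonoid.End V) :=
  Finite.of_injective (fun f : AddMonoid.End V => (f : V → V)) DFunLike.coe_injective

/-- the ring generated by a subgroup. -/
def RZ (φ : A →* AddMonoid.End V) (Z : Subgroup A) : Subring (AddMonoid.End V) :=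
  Subring.closure (φ '' (Z : Set A))

variable {φ : A →* AddMonoid.End V} {Z : Subgroup A}

theorem phi_mem (z : A) (hz : z ∈ Z) : φ z ∈ RZ φ Z := Subring.subset_closure ⟨z, hz, rfl⟩

/-- conjugation as a ring homomorphism -/
def cnj (φ : A →* AddMonoid.End V) (a : A) : AddMonoid.End V →+* AddMonoid.End V where
  toFun r := φ a * r * φ a⁻¹
  map_one' := by rw [mul_one, ← map_mul, mul_inv_cancel, map_one]
  map_mul' x y := by
    have : φ a⁻¹ * φ a = 1 := by rw [← map_mul, inv_mul_cancel, map_one]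
    calc φ a * (x * y) * φ a⁻¹ = φ a * x * 1 * y * φ a⁻¹ := by simp only [mul_one, mul_assoc]
      _ = φ a * x * φ a⁻¹ * (φ a * y * φ a⁻¹) := by rw [← this]; simp only [mul_assoc]
  map_zero' := by simp
  map_add' x y := by rw [mul_add, add_mul]

theorem cnj_mem [Z.Normal] (a : A) {r : AddMonoid.End V} (hr : r ∈ RZ φ Z) :
    φ a * r * φ a⁻¹ ∈ RZ φ Z := by
  have : RZ φ Z ≤ (RZ φ Z).comap (cnj φ a) := by
    rw [RZ, Subring.closure_le]
    rintro _ ⟨z, hz, rfl⟩
    change φ a * φ z * φ a⁻¹ ∈ RZ φ Z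
    rw [← map_mul, ← map_mul]
    exact phi_mem _ (Subgroup.Normal.conj_mem ‹_› z hz a)
  exact this hr

theorem rz_comm (hab : ∀ x ∈ Z, ∀ y ∈ Z, x * y = y * x) {r s : AddMonoid.End V}
    (hr : r ∈ RZ φ Z) (hs : s ∈ RZ φ Z) : r * s = s * r := by
  letI := Subring.closureCommRingOfComm (R := AddMonoid.End V) (s := φ '' (Z : Set A)) (by
    rintro _ ⟨x, hx, rfl⟩ _ ⟨y, hy, rfl⟩
    rw [← map_mul, ← map_mul, hab x hx y hy])
  exact congrArg Subtype.val (mul_comm (⟨r, hr⟩ : Subring.closure (φ '' (Z : Set A))) ⟨s, hs⟩)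

theorem rz_nil (hirr : Irr φ) [Z.Normal] (hab : ∀ x ∈ Z, ∀ y ∈ Z, x * y = y * x)
    {r : AddMonoid.End V} (hr : r ∈ RZ φ Z) (hn : IsNilpotent r) : r = 0 := by
  haveI := hirr.1
  set W0 : AddSubgroup V :=
    { carrier := {v | ∀ r ∈ RZ φ Z, IsNilpotent r → r v = 0}
      zero_mem' := fun r _ _ => map_zero r
      add_mem' := fun {a b} ha hb r hr hn => by rw [map_add, ha r hr hn, hb r hr hn, add_zero]
      neg_mem' := fun {a} ha r hr hn => by rw [map_neg, ha r hr hn, neg_zero] } with hW0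
  have hinv : ∀ a, ∀ v ∈ W0, φ a v ∈ W0 := by
    intro a v hv r hr hn
    have h1 := cnj_mem (φ := φ) (Z := Z) a⁻¹ hr
    have h2 : IsNilpotent (φ a⁻¹ * r * φ a⁻¹⁻¹) := by
      have := hn.map (cnj φ a⁻¹)
      exact this
    have h3 := hv _ h1 h2
    have h4 : φ a⁻¹ (r (φ a v)) = 0 := by
      rw [inv_inv] at h3
      exact h3
    exact phi_inj φ a⁻¹ (by rw [h4, map_zero])
  rcases hirr.2 W0 hinv with h | h
  · exfalso
    obtain ⟨S, hS, hmin⟩ := Set.Finite.exists_minimal
      (s := {S : AddSubgroup V | S ≠ ⊥ ∧ ∀ r ∈ RZ φ Z, ∀ s ∈ S, r s ∈ S}) (Set.toFinite _)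
      ⟨⊤, top_ne_bot, fun _ _ _ _ => trivial⟩
    obtain ⟨hS0, hSinv⟩ := hS
    apply hS0
    rw [eq_bot_iff, ← h]
    intro s hs r hr hn
    by_contra hne
    have h1 : S ≤ S.map (r : V →+ V) := by
      apply hmin
      · refine ⟨?_, ?_⟩
        · intro h2
          apply hne
          have : r s ∈ S.map (r : V →+ V) := ⟨s, hs, rfl⟩
          rw [h2] at this
          exact this
        · rintro t ht _ ⟨s', hs', rfl⟩
          refine ⟨t s', hSinv t ht s' hs', ?_⟩
          exact DFunLike.congr_fun (rz_comm hab hr ht) s'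
      · rintro _ ⟨s', hs', rfl⟩
        exact hSinv r hr s' hs'
    have h2 : ∀ k : ℕ, ∀ s ∈ S, ∃ s' ∈ S, (r ^ k) s' = s := by
      intro k
      induction k with
      | zero => intro s hs; exact ⟨s, hs, rfl⟩
      | succ k ih =>
        intro s hs
        obtain ⟨s1, hs1, e1⟩ := ih s hs
        obtain ⟨s2, hs2, e2⟩ := h1 hs1
        refine ⟨s2, hs2, ?_⟩
        rw [pow_succ]
        change (r ^ k) (r s2) = s
        have e2' : r s2 = s1 := e2
        rw [e2', e1]
    obtain ⟨k, hk⟩ := hn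
    obtain ⟨s', _, e⟩ := h2 k s hs
    rw [hk] at e
    apply hne
    rw [← e]
    exact map_zero r
  · apply AddMonoidHom.ext
    intro v
    have : v ∈ W0 := by rw [h]; trivial
    exact this r hr hn

/-- Step R. -/
theorem field_or_blk (hirr : Irr φ) [Z.Normal] (hab : ∀ x ∈ Z, ∀ y ∈ Z, x * y = y * x)
    {r : AddMonoid.End V} (hr : r ∈ RZ φ Z) (hr0 : r ≠ 0) (hinj : ¬ Function.Injective r) :
    ∃ (H : Subgroup A) (e : A ⧸ H → AddMonoid.End V), H ≠ ⊤ ∧
      @IsBlk A _ V _ φ (A ⧸ H) (Fintype.ofFinite _) _ e := by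
  classical
  haveI := hirr.1
  obtain ⟨n, hn0, hn⟩ := exists_idem_pow r
  have hε1 : r ^ n ≠ 1 := by
    intro h
    apply hinj
    intro x y hxy
    have h1 : (r ^ n) x = (r ^ n) y := by
      obtain ⟨m, rfl⟩ := Nat.exists_eq_succ_of_ne_zero hn0
      rw [pow_succ]
      change (r ^ m) (r x) = (r ^ m) (r y)
      rw [hxy]
    rw [h] at h1
    exact h1
  have hε0 : r ^ n ≠ 0 := by
    intro h
    exact hr0 (rz_nil hirr hab hr ⟨n, h⟩)
  -- minimal idempotent
  set E : Set (AddMonoid.End V) := {f | f ∈ RZ φ Z ∧ f * f = f ∧ f ≠ 0} with hE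
  set rg : AddMonoid.End V → ℕ := fun f => Nat.card (f : V →+ V).range with hrg
  obtain ⟨f, hf, hfmin⟩ := Set.exists_min_image E rg (Set.toFinite _)
    ⟨r ^ n, (RZ φ Z).pow_mem hr n, hn, hε0⟩
  have hidfix : ∀ {f : AddMonoid.End V}, f * f = f → ∀ v ∈ (f : V →+ V).range, f v = v := by
    rintro f hf _ ⟨w, rfl⟩
    exact DFunLike.congr_fun hf w
  have hclaim : ∀ f1 ∈ E, ∀ f2 ∈ E, rg f1 = rg f → rg f2 = rg f → f1 = f2 ∨ f1 * f2 = 0 := by
    intro f1 hf1 f2 hf2 e1 e2
    by_cases h0 : f1 * f2 = 0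
    · exact Or.inr h0
    left
    have hcm := rz_comm hab hf1.1 hf2.1
    have hg : f1 * f2 ∈ E := by
      refine ⟨(RZ φ Z).mul_mem hf1.1 hf2.1, ?_, h0⟩
      calc f1 * f2 * (f1 * f2) = f1 * (f2 * f1) * f2 := by simp only [mul_assoc]
        _ = (f1 * f1) * (f2 * f2) := by rw [← hcm]; simp only [mul_assoc]
        _ = f1 * f2 := by rw [hf1.2.1, hf2.2.1]
    have hmin := hfmin _ hg
    have hle1 : ((f1 * f2 : AddMonoid.End V) : V →+ V).range ≤ (f1 : V →+ V).range := by
      rintro _ ⟨w, rfl⟩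
      exact ⟨f2 w, rfl⟩
    have hle2 : ((f1 * f2 : AddMonoid.End V) : V →+ V).range ≤ (f2 : V →+ V).range := by
      rintro _ ⟨w, rfl⟩
      rw [hcm]
      exact ⟨f1 w, rfl⟩
    have he1 : ((f1 * f2 : AddMonoid.End V) : V →+ V).range = (f1 : V →+ V).range := by
      apply AddSubgroup.eq_of_le_of_card_ge hle1
      change rg f1 ≤ rg (f1 * f2)
      rw [e1]; exact hmin
    have he2 : ((f1 * f2 : AddMonoid.End V) : V →+ V).range = (f2 : V →+ V).range := by
      apply AddSubgroup.eq_of_le_of_card_ge hle2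
      change rg f2 ≤ rg (f1 * f2)
      rw [e2]; exact hmin
    have h12 : f1 * f2 = f2 := by
      apply AddMonoidHom.ext
      intro v
      apply hidfix hf1.2.1 (f2 v)
      rw [← he1, he2]
      exact ⟨v, rfl⟩
    have h21 : f2 * f1 = f1 := by
      apply AddMonoidHom.ext
      intro v
      apply hidfix hf2.2.1 (f1 v)
      rw [← he2, he1]
      exact ⟨v, rfl⟩
    rw [← h21, ← hcm, h12]
  -- conjugates
  have hinv : ∀ a : A, φ a⁻¹ * φ a = 1 := fun a => by rw [← map_mul, inv_mul_cancel, map_one]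
  have hinv' : ∀ a : A, φ a * φ a⁻¹ = 1 := fun a => by rw [← map_mul, mul_inv_cancel, map_one]
  set c : A → AddMonoid.End V := fun a => φ a * f * φ a⁻¹ with hc
  have hcE : ∀ a, c a ∈ E := by
    intro a
    refine ⟨cnj_mem a hf.1, ?_, ?_⟩
    · calc φ a * f * φ a⁻¹ * (φ a * f * φ a⁻¹) = φ a * f * (φ a⁻¹ * φ a) * f * φ a⁻¹ := by
            simp only [mul_assoc]
        _ = φ a * (f * f) * φ a⁻¹ := by rw [hinv, mul_one]; simp only [mul_assoc]
        _ = _ := by rw [hf.2.1]
    · intro h0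
      apply hf.2.2
      calc f = (φ a⁻¹ * φ a) * f * (φ a⁻¹ * φ a) := by rw [hinv, one_mul, mul_one]
        _ = φ a⁻¹ * (φ a * f * φ a⁻¹) * φ a := by simp only [mul_assoc]
        _ = 0 := by rw [show φ a * f * φ a⁻¹ = 0 from h0, mul_zero, zero_mul]
  have hcrg : ∀ a, rg (c a) = rg f := by
    intro a
    apply le_antisymm _ (hfmin _ (hcE a))
    have hle : ((c a : AddMonoid.End V) : V →+ V).range ≤ ((f : V →+ V).range).map (φ a : V →+ V) := by
      rintro _ ⟨w, rfl⟩
      exact ⟨f (φ a⁻¹ w), ⟨_, rfl⟩, rfl⟩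
    calc rg (c a) ≤ Nat.card (((f : V →+ V).range).map (φ a : V →+ V)) :=
          Nat.card_le_card_of_injective _ (AddSubgroup.inclusion_injective hle)
      _ ≤ rg f := Nat.card_le_card_of_surjective
          ((φ a : V →+ V).addSubgroupMap (f : V →+ V).range)
          (AddMonoidHom.addSubgroupMap_surjective _ _)
  -- stabilizer
  set H : Subgroup A :=
    { carrier := {a | φ a * f = f * φ a}
      one_mem' := by simp
      mul_mem' := by
        intro a b ha hb
        simp only [Set.mem_setOf_eq] at ha hb ⊢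
        rw [map_mul, mul_assoc, hb, ← mul_assoc, ha, mul_assoc]
      inv_mem' := by
        intro a ha
        simp only [Set.mem_setOf_eq] at ha ⊢
        calc φ a⁻¹ * f = φ a⁻¹ * f * (φ a * φ a⁻¹) := by rw [hinv', mul_one]
          _ = φ a⁻¹ * (f * φ a) * φ a⁻¹ := by simp only [mul_assoc]
          _ = (φ a⁻¹ * φ a) * f * φ a⁻¹ := by rw [← ha]; simp only [mul_assoc]
          _ = f * φ a⁻¹ := by rw [hinv, one_mul] } with hH
  have hHmem : ∀ a, a ∈ H ↔ φ a * f = f * φ a := fun a => Iff.rfl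
  have hceq : ∀ a b, c a = c b ↔ a⁻¹ * b ∈ H := by
    intro a b
    rw [hHmem]
    have h1 : φ (a⁻¹ * b) = φ a⁻¹ * φ b := map_mul φ _ _
    rw [h1]
    constructor
    · intro h
      calc φ a⁻¹ * φ b * f = φ a⁻¹ * (φ b * f * φ b⁻¹) * φ b := by
            simp only [mul_assoc, hinv, mul_one]
        _ = φ a⁻¹ * (φ a * f * φ a⁻¹) * φ b := by rw [show φ b * f * φ b⁻¹ = c b from rfl, ← h]
        _ = (φ a⁻¹ * φ a) * f * (φ a⁻¹ * φ b) := by simp only [mul_assoc]
        _ = f * (φ a⁻¹ * φ b) := by rw [hinv, one_mul]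
    · intro h
      calc φ a * f * φ a⁻¹ = φ a * (f * (φ a⁻¹ * φ b)) * φ b⁻¹ := by
            simp only [mul_assoc, hinv', mul_one]
        _ = φ a * (φ a⁻¹ * φ b * f) * φ b⁻¹ := by rw [h]
        _ = (φ a * φ a⁻¹) * φ b * f * φ b⁻¹ := by simp only [mul_assoc]
        _ = φ b * f * φ b⁻¹ := by rw [hinv', one_mul]
  set e : A ⧸ H → AddMonoid.End V := fun x => c x.out with he
  have hemk : ∀ a : A, e (QuotientGroup.mk a) = c a := by
    intro a
    obtain ⟨h, hh⟩ := QuotientGroup.mk_out_eq_mul H a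
    rw [he]
    dsimp only
    rw [hh]
    symm
    rw [hceq]
    have : a⁻¹ * (a * (h : A)) = h := by group
    rw [this]
    exact h.2
  letI : Fintype (A ⧸ H) := Fintype.ofFinite _
  have heqv : ∀ (a : A) (x : A ⧸ H), φ a * e x = e (a • x) * φ a := by
    intro a x
    obtain ⟨b, rfl⟩ := QuotientGroup.mk_surjective x
    rw [show a • (QuotientGroup.mk b : A ⧸ H) = QuotientGroup.mk (a * b) from rfl, hemk, hemk]
    change φ a * (φ b * f * φ b⁻¹) = φ (a * b) * f * φ (a * b)⁻¹ * φ a
    rw [mul_inv_rev, map_mul, map_mul]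
    simp only [mul_assoc, hinv, mul_one]
  have horth : ∀ x y, x ≠ y → e x * e y = 0 := by
    intro x y hxy
    obtain ⟨a, rfl⟩ := QuotientGroup.mk_surjective x
    obtain ⟨b, rfl⟩ := QuotientGroup.mk_surjective y
    rw [hemk, hemk]
    rcases hclaim _ (hcE a) _ (hcE b) (hcrg a) (hcrg b) with h | h
    · exfalso
      apply hxy
      rw [QuotientGroup.eq, ← hceq]
      exact h
    · exact h
  have hidem : ∀ x, e x * e x = e x := fun x => (hcE _).2.1
  set s := ∑ x, e x with hs
  have hes : ∀ x, e x * s = e x := by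
    intro x
    rw [hs, Finset.mul_sum, Finset.sum_eq_single x]
    · exact hidem x
    · intro y _ hy
      exact horth x y hy.symm
    · intro hx
      exact absurd (Finset.mem_univ _) hx
  have hss : s * s = s := by
    conv_lhs => rw [hs, Finset.sum_mul]
    rw [hs]
    exact Finset.sum_congr rfl (fun x _ => by rw [← hs]; exact hes x)
  have hsa : ∀ a, φ a * s = s * φ a := by
    intro a
    rw [hs, Finset.mul_sum, Finset.sum_mul]
    refine Finset.sum_bij (fun x _ => a • x) (fun _ _ => Finset.mem_univ _)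
      (fun x _ y _ hxy => MulAction.injective a hxy)
      (fun x _ => ⟨a⁻¹ • x, Finset.mem_univ _, by simp⟩) (fun x _ => heqv a x)
  have hs1 : s = 1 := by
    rcases hirr.2 (s : V →+ V).range (by
      rintro a _ ⟨w, rfl⟩
      exact ⟨φ a w, (DFunLike.congr_fun (hsa a) w).symm⟩) with h | h
    · exfalso
      have h0 : s = 0 := by
        apply AddMonoidHom.ext
        intro v
        have : s v ∈ (s : V →+ V).range := ⟨v, rfl⟩
        rw [h] at this
        exact this
      have := hes (QuotientGroup.mk 1)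
      rw [h0, mul_zero] at this
      exact (hcE _).2.2 this.symm
    · apply AddMonoidHom.ext
      intro v
      have : v ∈ (s : V →+ V).range := by rw [h]; trivial
      exact hidfix hss v this
  refine ⟨H, e, ?_, heqv, horth, hidem, hs1⟩
  intro htop
  have h1 : f = 1 := by
    have h2 : ∀ x : A ⧸ H, e x = f := by
      intro x
      obtain ⟨a, rfl⟩ := QuotientGroup.mk_surjective x
      rw [hemk]
      have : a ∈ H := by rw [htop]; trivial
      rw [hHmem] at this
      change φ a * f * φ a⁻¹ = f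
      rw [this, mul_assoc, hinv', mul_one]
    rw [← hs1, hs]
    haveI : Subsingleton (A ⧸ H) := by
      rw [htop]
      exact QuotientGroup.subsingleton_quotient_top
    rw [Fintype.sum_subsingleton _ (QuotientGroup.mk 1 : A ⧸ H), h2]
  have h3 := hfmin (r ^ n) ⟨(RZ φ Z).pow_mem hr n, hn, hε0⟩
  apply hε1
  apply AddMonoidHom.ext
  intro v
  apply hidfix hn
  have h4 : ((r ^ n : AddMonoid.End V) : V →+ V).range = ⊤ := by
    apply AddSubgroup.eq_top_of_card_eq
    apply le_antisymm (AddSubgroup.card_le_card_addGroup _)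
    calc Nat.card V = rg f := by
          rw [h1]
          have : ((1 : AddMonoid.End V) : V →+ V).range = ⊤ := by
            rw [eq_top_iff]
            intro v _
            exact ⟨v, rfl⟩
          rw [hrg]
          dsimp only
          rw [this, AddSubgroup.card_top]
      _ ≤ _ := h3
  rw [h4]
  trivial

/-- either the ring is a domain, or we are done. -/
theorem domain_or_two (IH : IHyp.{u} (Nat.card V)) (hodd : Odd (Nat.card A))
    (hs : Group.IsSolvable A) (hirr : Irr φ) (Z : Subgroup A) [Z.Normal]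
    (hab : ∀ x ∈ Z, ∀ y ∈ Z, x * y = y * x) :
    (∀ r ∈ RZ φ Z, r ≠ 0 → Function.Injective r) ∨ Two φ := by
  by_cases hcon : ∀ r ∈ RZ φ Z, r ≠ 0 → Function.Injective r
  · exact Or.inl hcon
  right
  push Not at hcon
  obtain ⟨r, hr, hr0, hri⟩ := hcon
  obtain ⟨H, e, hH, he⟩ := field_or_blk hirr hab hr hr0 hri
  obtain ⟨H', hH', hHH⟩ := (eq_top_or_exists_le_coatom H).resolve_left hH
  letI : Fintype (A ⧸ H) := Fintype.ofFinite _
  letI : Fintype (A ⧸ H') := Fintype.ofFinite _
  obtain ⟨e', he'⟩ := he.coarsen (Ω' := A ⧸ H') (Subgroup.quotientMapOfLE hHH) (by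
    intro a x
    obtain ⟨b, rfl⟩ := QuotientGroup.mk_surjective x
    rfl)
  haveI : Nontrivial (A ⧸ H') := by
    rw [← not_subsingleton_iff_nontrivial]
    intro h
    apply hH'.1
    rw [← Subgroup.index_eq_one]
    rw [Subgroup.index, Nat.card_eq_one_iff_unique]
    exact ⟨h, ⟨QuotientGroup.mk 1⟩⟩
  haveI : MulAction.IsPreprimitive A (A ⧸ H') := by
    apply (MulAction.isCoatom_stabilizer_iff_preprimitive A (QuotientGroup.mk 1 : A ⧸ H')).mp
    rw [MulAction.stabilizer_quotient]
    exact hH'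
  exact two_of_blk IH hodd hs hirr he'

end

end H66.OddA
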