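import Mathlib
import Cfsg.Agent.Lib.H66.OddC

/-! Field package, semilinear case, counting, fixed points. -/

set_option linter.unusedSectionVars false
set_option linter.style.haveILetI false

namespace H66.OddA

open Subgroup

universe u v

section

variable {A : Type u} [Group A] [Finite A] {V : Type u} [AddCommGroup V] [Finite V]

/-- the field attached to an abelian normal subgroup. -/
structure Pack (φ : A →* AddMonoid.End V) (Z : Subgroup A) (K : Type u) [Field K]
    [Module K V] where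
  ζ : Z →* K
  hζ : ∀ z v, ζ z • v = φ z v
  σ : A →* RingAut K
  hσ : ∀ a k v, φ a (k • v) = σ a k • φ a v
  hC : ∀ a, (∀ z ∈ Z, a * z = z * a) → σ a = 1

theorem end_ext {f g : AddMonoid.End V} (h : ∀ v, f v = g v) : f = g := DFunLike.ext _ _ h

theorem rz_isField {φ : A →* AddMonoid.End V} {Z : Subgroup A} [Nontrivial V]
    (hab : ∀ x ∈ Z, ∀ y ∈ Z, x * y = y * x)
    (hR : ∀ r ∈ RZ φ Z, r ≠ 0 → Function.Injective r) : IsField (RZ φ Z) := by
  haveI : Finite (RZ φ Z) := Subtype.finite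
  refine ⟨⟨0, 1, ?_⟩, fun x y => Subtype.ext (rz_comm hab x.2 y.2), ?_⟩
  · intro h
    obtain ⟨v, hv⟩ := exists_ne (0 : V)
    apply hv
    have h1 : (0 : AddMonoid.End V) = 1 := congrArg Subtype.val h
    have := DFunLike.congr_fun h1 v
    exact this.symm
  · intro a ha
    have hx' : a.1 ≠ 0 := fun h => ha (Subtype.ext h)
    have hinj := hR a.1 a.2 hx'
    have h1 : Function.Injective (fun b : RZ φ Z => a * b) := by
      intro x y hxy
      apply Subtype.ext
      apply end_ext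
      intro v
      apply hinj
      have h2 : a.1 * x.1 = a.1 * y.1 := congrArg Subtype.val hxy
      exact DFunLike.congr_fun h2 v
    exact (Finite.injective_iff_surjective.mp h1) 1

theorem exists_field_gen {R S : Type u} [Ring R] [Ring S] (h : IsField R) (f : R →+* S) :
    ∃ (K : Type u) (_ : Field K) (e : K ≃ R) (f' : K →+* S), ∀ x, f' x = f (e x) := by
  letI fd : Field R := h.toField
  refine ⟨R, fd, Equiv.refl R, ⟨⟨⟨f, ?_⟩, ?_⟩, ?_, ?_⟩, fun x => rfl⟩
  · exact f.map_one
  · exact f.map_mul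
  · exact f.map_zero
  · exact f.map_add

theorem exists_field {φ : A →* AddMonoid.End V} {Z : Subgroup A} [Nontrivial V]
    (hab : ∀ x ∈ Z, ∀ y ∈ Z, x * y = y * x)
    (hR : ∀ r ∈ RZ φ Z, r ≠ 0 → Function.Injective r) :
    ∃ (K : Type u) (_ : Field K) (_ : Finite K) (f : K →+* AddMonoid.End V),
      Function.Injective f ∧ ∀ r, r ∈ RZ φ Z ↔ ∃ k, f k = r := by
  obtain ⟨K, fd, e, f', hf'⟩ := exists_field_gen (rz_isField hab hR) (RZ φ Z).subtype
  haveI : Finite (RZ φ Z) := Subtype.finite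
  refine ⟨K, fd, Finite.of_equiv _ e.symm, f', ?_, ?_⟩
  · intro x y hxy
    rw [hf', hf'] at hxy
    exact e.injective (Subtype.val_injective hxy)
  · intro r
    constructor
    · intro h
      refine ⟨e.symm ⟨r, h⟩, ?_⟩
      rw [hf', e.apply_symm_apply]
      rfl
    · rintro ⟨k, hk⟩
      rw [← hk, hf']
      exact (e k).2

theorem pack_of {φ : A →* AddMonoid.End V} {Z : Subgroup A} [Z.Normal] {K : Type u} [Field K]
    [Module K V] (f : K →+* AddMonoid.End V) (hsm : ∀ (k : K) (v : V), k • v = f k v)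
    (hinj : Function.Injective f) (hfK : ∀ k, f k ∈ RZ φ Z)
    (ζ : Z → K) (hζ : ∀ z, f (ζ z) = φ z) (τ : A → K → K) (hτ : ∀ a k, f (τ a k) = cnj φ a (f k)) :
    Nonempty (Pack φ Z K) := by
  have hcnj1 : ∀ r, cnj φ 1 r = r := by
    intro r
    change φ 1 * r * φ 1⁻¹ = r
    rw [inv_one, map_one, one_mul, mul_one]
  have hcnjm : ∀ a b r, cnj φ (a * b) r = cnj φ a (cnj φ b r) := by
    intro a b r
    change φ (a * b) * r * φ (a * b)⁻¹ = φ a * (φ b * r * φ b⁻¹) * φ a⁻¹
    rw [mul_inv_rev, map_mul, map_mul]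
    simp only [mul_assoc]
  have hτmul : ∀ a b k, τ (a * b) k = τ a (τ b k) := by
    intro a b k
    apply hinj
    rw [hτ, hτ, hτ, hcnjm]
  have hτ1 : ∀ k, τ 1 k = k := by
    intro k
    apply hinj
    rw [hτ, hcnj1]
  have hτa : ∀ a x y, τ a (x + y) = τ a x + τ a y := fun a x y =>
    hinj (by rw [map_add, hτ, hτ, hτ, map_add, map_add])
  have hτm : ∀ a x y, τ a (x * y) = τ a x * τ a y := fun a x y =>
    hinj (by rw [map_mul, hτ, hτ, hτ, map_mul, map_mul])
  have hζ1 : ζ 1 = 1 := hinj (by rw [hζ, map_one]; exact map_one φ)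
  have hζm : ∀ x y, ζ (x * y) = ζ x * ζ y := fun x y =>
    hinj (by rw [map_mul, hζ, hζ, hζ]; exact map_mul φ _ _)
  set σ : A →* RingAut K :=
    { toFun := fun a =>
        { toFun := τ a
          invFun := τ a⁻¹
          left_inv := fun k => by rw [← hτmul, inv_mul_cancel, hτ1]
          right_inv := fun k => by rw [← hτmul, mul_inv_cancel, hτ1]
          map_mul' := hτm a
          map_add' := hτa a }
      map_one' := RingEquiv.ext hτ1
      map_mul' := fun a b => RingEquiv.ext (hτmul a b) } with hσ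
  have hσa : ∀ a k, σ a k = τ a k := fun _ _ => rfl
  refine ⟨⟨⟨⟨ζ, hζ1⟩, hζm⟩, ?_, σ, ?_, ?_⟩⟩
  · intro z v
    change ζ z • v = _
    rw [hsm, hζ]
  · intro a k v
    rw [hσa, hsm, hsm, hτ]
    change φ a (f k v) = φ a (f k (φ a⁻¹ (φ a v)))
    rw [phi_inv]
  · intro a ha
    apply RingEquiv.ext
    intro k
    apply hinj
    change f (τ a k) = f k
    rw [hτ]
    have : RZ φ Z ≤ (cnj φ a).eqLocus (RingHom.id _) := by
      rw [RZ, Subring.closure_le]
      rintro _ ⟨z, hz, rfl⟩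
      change φ a * φ z * φ a⁻¹ = φ z
      rw [← map_mul, ← map_mul, ha z hz, mul_inv_cancel_right]
    exact this (hfK k)

theorem cnj_mem' {φ : A →* AddMonoid.End V} {Z : Subgroup A} [Z.Normal] (a : A)
    {r : AddMonoid.End V} (hr : r ∈ RZ φ Z) : cnj φ a r ∈ RZ φ Z := cnj_mem a hr

theorem exists_mod {K : Type u} [Field K] (f : K →+* AddMonoid.End V) :
    ∃ (_ : Module K V), ∀ (k : K) (v : V), k • v = f k v :=
  ⟨Module.compHom V f, fun _ _ => rfl⟩

theorem exists_pack {φ : A →* AddMonoid.End V} {Z : Subgroup A} [Nontrivial V] [Z.Normal]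
    (hab : ∀ x ∈ Z, ∀ y ∈ Z, x * y = y * x)
    (hR : ∀ r ∈ RZ φ Z, r ≠ 0 → Function.Injective r) :
    ∃ (K : Type u) (_ : Field K) (_ : Finite K) (_ : Module K V), Nonempty (Pack φ Z K) := by
  obtain ⟨K, fd, hfin, f, hinj, hran⟩ := exists_field hab hR
  have hfK : ∀ k, f k ∈ RZ φ Z := fun k => (hran (f k)).mpr ⟨k, rfl⟩
  have hz : ∀ z : Z, ∃ k, f k = φ z := fun z =>
    (hran (φ z)).mp (phi_mem (φ := φ) (Z := Z) z.1 z.2)
  choose ζ hζ using hz
  have hs : ∀ (a : A) (k : K), ∃ l, f l = cnj φ a (f k) := fun a k =>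
    (hran (cnj φ a (f k))).mp (cnj_mem' (φ := φ) (Z := Z) a (hfK k))
  choose τ hτ using hs
  obtain ⟨md, hsm⟩ := exists_mod f
  exact ⟨K, fd, hfin, md, pack_of f hsm hinj hfK ζ hζ τ hτ⟩


variable {φ : A →* AddMonoid.End V} {Z : Subgroup A} {K : Type u} [Field K] [Module K V]

namespace Pack

theorem smul_inj [Nontrivial V] (k : K) (h : ∀ v : V, k • v = v) : k = 1 := by
  obtain ⟨v, hv⟩ := exists_ne (0 : V)
  have h1 : (k - 1) • v = 0 := by rw [sub_smul, h, one_smul, sub_self]
  rcases smul_eq_zero.mp h1 with h2 | h2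
  · exact sub_eq_zero.mp h2
  · exact absurd h2 hv

theorem eq_one_of_smul {v : V} (hv : v ≠ 0) {k : K} (h : k • v = v) : k = 1 := by
  have h1 : (k - 1) • v = 0 := by rw [sub_smul, h, one_smul, sub_self]
  rcases smul_eq_zero.mp h1 with h2 | h2
  · exact sub_eq_zero.mp h2
  · exact absurd h2 hv

theorem eq_of_smul {v : V} (hv : v ≠ 0) {k l : K} (h : k • v = l • v) : k = l := by
  have h1 : (k - l) • v = 0 := by rw [sub_smul, h, sub_self]
  rcases smul_eq_zero.mp h1 with h2 | h2
  · exact sub_eq_zero.mp h2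
  · exact absurd h2 hv

theorem ζ_inj [Nontrivial V] (P : Pack φ Z K) (hφ : Function.Injective φ) :
    Function.Injective P.ζ := by
  intro x y h
  apply Subtype.ext
  apply hφ
  apply end_ext
  intro v
  rw [← P.hζ, ← P.hζ, h]

theorem mem_of_fix (P : Pack φ Z K) (hφ : Function.Injective φ) {z : A} (hz : z ∈ Z) {v : V}
    (hv : v ≠ 0) (h : φ z v = v) : z = 1 := by
  have h1 : P.ζ ⟨z, hz⟩ • v = v := by rw [P.hζ]; exact h
  have h2 := eq_one_of_smul hv h1
  apply hφ
  apply end_ext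
  intro w
  have := P.hζ ⟨z, hz⟩ w
  rw [h2, one_smul] at this
  rw [map_one]
  exact this.symm

/-- `σ a = 1` iff `a` centralises `Z`. -/
theorem comm_of_σ (P : Pack φ Z K) (hφ : Function.Injective φ) {a : A} (h : P.σ a = 1) :
    ∀ z ∈ Z, a * z = z * a := by
  intro z hz
  apply hφ
  apply end_ext
  intro v
  rw [phi_mul, phi_mul, ← P.hζ ⟨z, hz⟩ v, P.hσ, h, ← P.hζ ⟨z, hz⟩]
  rfl

/-- the one-dimensional semilinear case. -/
theorem gammaL [Nontrivial V] [Finite K] (P : Pack φ Z K) (hφ : Function.Injective φ)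
    (hodd : Odd (Nat.card A)) (hCZ : ∀ a : A, (∀ z ∈ Z, a * z = z * a) → a ∈ Z) : Two φ := by
  obtain ⟨v, hv⟩ := exists_ne (0 : V)
  have key : ∀ a, P.σ a = 1 → φ a v = v → φ a = 1 := by
    intro a h1 h2
    rw [P.mem_of_fix hφ (hCZ a (P.comm_of_σ hφ h1)) hv h2, map_one]
  by_cases hall : ∀ a, P.σ a = 1
  · refine ⟨(v, 0), (0, v), ?_, ?_, ?_⟩
    · intro a h1 _
      exact key a (hall a) h1
    · intro a _ h2
      exact key a (hall a) h2
    · rintro a ⟨h1, -⟩
      exact hv (phi_inj φ a (by rw [map_zero]; exact h1))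
  push Not at hall
  obtain ⟨a0, ha0⟩ := hall
  obtain ⟨α, hα⟩ := IsCyclic.exists_generator (α := Kˣ)
  have hgen : ∀ s : RingAut K, s (α : K) = α → s = 1 := by
    intro s hs
    apply RingEquiv.ext
    intro x
    by_cases hx : x = 0
    · rw [hx, map_zero, map_zero]
    obtain ⟨n, hn⟩ := hα (Units.mk0 x hx)
    have h1 : (x : K) = (α : K) ^ n := by
      have := congrArg (fun u : Kˣ => (u : K)) hn
      simpa using this.symm
    rw [h1, map_zpow₀, hs]
    simp
  refine ⟨(v, (α : K) • v), (v, (α : K)⁻¹ • v), ?_, ?_, ?_⟩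
  · intro a h1 h2
    dsimp only at h1 h2
    rw [P.hσ, h1] at h2
    exact key a (hgen _ (eq_of_smul hv h2)) h1
  · intro a h1 h2
    dsimp only at h1 h2
    rw [P.hσ, h1] at h2
    have h3 := eq_of_smul hv h2
    rw [map_inv₀, inv_inj] at h3
    exact key a (hgen _ h3) h1
  · rintro a ⟨h1, h2⟩
    dsimp only at h1 h2
    rw [P.hσ, h1] at h2
    have h3 := eq_of_smul hv h2
    have h4 : P.σ a * P.σ a = 1 := by
      apply hgen
      change P.σ a (P.σ a α) = α
      rw [h3, map_inv₀, h3, inv_inv]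
    obtain ⟨k, hk⟩ := mem_zpowers_sq hodd a
    have h5 : P.σ a = 1 := by
      rw [← hk, map_pow, map_pow, pow_two, h4, one_pow]
    rw [h5] at h3
    have h6 : (α : K) = (α : K)⁻¹ := h3
    apply ha0
    have h7 : ∀ x : K, x ≠ 0 → x * x = 1 := by
      intro x hx
      obtain ⟨n, hn⟩ := hα (Units.mk0 x hx)
      have h1 : (x : K) = (α : K) ^ n := by
        have := congrArg (fun u : Kˣ => (u : K)) hn
        simpa using this.symm
      have h8 : (α : K) * α = 1 := by
        nth_rewrite 2 [h6]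
        exact mul_inv_cancel₀ α.ne_zero
      rw [h1, ← mul_zpow, h8, one_zpow]
    apply RingEquiv.ext
    intro x
    by_cases hx : x = 0
    · rw [hx, map_zero, map_zero]
    · rcases mul_self_eq_one_iff.mp (h7 x hx) with h | h
      · rw [h, map_one, map_one]
      · rw [h, map_neg, map_one, map_neg, map_one]

/-- index of the centraliser of `Z`. -/
theorem index_le [Nontrivial V] [Finite K] (P : Pack φ Z K) (hφ : Function.Injective φ) :
    2 ^ (Subgroup.centralizer (Z : Set A)).index ≤ Nat.card K := by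
  classical
  haveI : Finite (RingAut K) :=
    Finite.of_injective (fun s : RingAut K => (s : K → K)) DFunLike.coe_injective
  letI := Fintype.ofFinite (RingAut K)
  haveI : FaithfulSMul (RingAut K) K := ⟨fun {s t} h => RingEquiv.ext h⟩
  have h1 := FixedPoints.finrank_eq_card (RingAut K) K
  have h2 : (Subgroup.centralizer (Z : Set A)).index ≤ Nat.card (RingAut K) := by
    rw [Subgroup.index]
    apply Nat.card_le_card_of_injective (fun x : A ⧸ (Subgroup.centralizer (Z : Set A)) =>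
      P.σ x.out)
    intro x y hxy
    have h3 : P.σ (x.out⁻¹ * y.out) = 1 := by
      rw [map_mul, map_inv]
      change P.σ x.out = P.σ y.out at hxy
      rw [hxy, inv_mul_cancel]
    have h4 := P.comm_of_σ hφ h3
    rw [← Quotient.out_eq x, ← Quotient.out_eq y]
    apply QuotientGroup.eq.mpr
    rw [Subgroup.mem_centralizer_iff]
    intro z hz
    exact (h4 z hz).symm
  have h5 : Nat.card K = Nat.card (FixedPoints.subfield (RingAut K) K) ^
      Module.finrank (FixedPoints.subfield (RingAut K) K) K := by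
    apply Module.natCard_eq_pow_finrank
  rw [h5, h1, ← Nat.card_eq_fintype_card]
  have h6 : 2 ≤ Nat.card (FixedPoints.subfield (RingAut K) K) := Finite.one_lt_card
  calc 2 ^ (Subgroup.centralizer (Z : Set A)).index ≤ 2 ^ Nat.card (RingAut K) :=
        Nat.pow_le_pow_right (by norm_num) h2
    _ ≤ _ := Nat.pow_le_pow_left h6 _

theorem card_Z_le [Nontrivial V] [Finite K] (P : Pack φ Z K) (hφ : Function.Injective φ) :
    Nat.card Z + 1 ≤ Nat.card K := by
  classical
  letI := Fintype.ofFinite K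
  letI := Fintype.ofFinite Z
  rw [Nat.card_eq_fintype_card, Nat.card_eq_fintype_card]
  apply Fintype.card_lt_of_injective_of_notMem P.ζ (P.ζ_inj hφ) (b := 0)
  rintro ⟨z, hz⟩
  have h1 : P.ζ z * P.ζ z⁻¹ = 1 := by rw [← map_mul, mul_inv_cancel, map_one]
  rw [hz, zero_mul] at h1
  exact zero_ne_one h1

end Pack

/-- fixed points. -/
def fixS (φ : A →* AddMonoid.End V) (g : A) : AddSubgroup V where
  carrier := {v | φ g v = v}
  zero_mem' := map_zero _
  add_mem' := fun {a b} ha hb => by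
    simp only [Set.mem_setOf_eq] at ha hb ⊢
    rw [map_add, ha, hb]
  neg_mem' := fun {a} ha => by
    simp only [Set.mem_setOf_eq] at ha ⊢
    rw [map_neg, ha]

theorem mem_fixS {g : A} {v : V} : v ∈ fixS φ g ↔ φ g v = v := Iff.rfl

/-- counting. -/
theorem two_of_count (hφ : Function.Injective φ) (y : ℕ) (hy : 2 ≤ y) (hA : Nat.card A ≤ y)
    (hfix : ∀ g : A, g ≠ 1 → Nat.card (fixS φ g) ≤ y) (h3 : y ^ 3 ≤ Nat.card V ^ 2) :
    Two φ := by
  classical
  letI := Fintype.ofFinite A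
  letI := Fintype.ofFinite V
  by_contra hno
  set good : Finset (V × V) := Finset.univ.filter (fun p => Good φ p) with hgood
  set bad : Finset (V × V) := Finset.univ.filter (fun p => ¬ Good φ p) with hbad
  have hsum : good.card + bad.card = Nat.card V ^ 2 := by
    rw [hgood, hbad, Finset.card_filter_add_card_filter_not, Finset.card_univ, Fintype.card_prod,
      Nat.card_eq_fintype_card, pow_two]
  have hbadle : bad.card ≤ (Nat.card A - 1) * y ^ 2 := by
    have h1 : bad ⊆ (Finset.univ.erase (1 : A)).biUnion (fun g =>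
        (Finset.univ.filter (fun p : V × V => p.1 ∈ fixS φ g ∧ p.2 ∈ fixS φ g))) := by
      intro p hp
      rw [hbad, Finset.mem_filter] at hp
      have hp2 := hp.2
      rw [Good] at hp2
      push Not at hp2
      obtain ⟨a, h1, h2, h3⟩ := hp2
      rw [Finset.mem_biUnion]
      refine ⟨a, ?_, ?_⟩
      · rw [Finset.mem_erase]
        exact ⟨fun h => h3 (by rw [h, map_one]), Finset.mem_univ _⟩
      · rw [Finset.mem_filter]
        exact ⟨Finset.mem_univ _, h1, h2⟩
    calc bad.card ≤ _ := Finset.card_le_card h1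
      _ ≤ (Finset.univ.erase (1 : A)).card * y ^ 2 := by
          apply Finset.card_biUnion_le_card_mul
          intro g hg
          rw [Finset.mem_erase] at hg
          have h2 : (Finset.univ.filter (fun p : V × V => p.1 ∈ fixS φ g ∧ p.2 ∈ fixS φ g)) =
              (Finset.univ.filter (fun v : V => v ∈ fixS φ g)) ×ˢ
              (Finset.univ.filter (fun v : V => v ∈ fixS φ g)) := by
            ext p
            simp
          rw [h2, Finset.card_product, ← pow_two]
          apply Nat.pow_le_pow_left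
          have h4 : (Finset.univ.filter (fun v : V => v ∈ fixS φ g)).card =
              Nat.card (fixS φ g) := by
            rw [Nat.card_eq_fintype_card]
            exact (Fintype.card_subtype _).symm
          rw [h4]
          exact hfix g hg.1
      _ = (Nat.card A - 1) * y ^ 2 := by
          rw [Finset.card_erase_of_mem (Finset.mem_univ _), Finset.card_univ,
            Nat.card_eq_fintype_card]
  have hgoodle : good.card ≤ Nat.card A := by
    rcases good.eq_empty_or_nonempty with h | ⟨p, hp⟩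
    · rw [h]; simp
    · have h1 : good ⊆ Finset.univ.image (fun a : A => (φ a p.1, φ a p.2)) := by
        intro q hq
        rw [hgood, Finset.mem_filter] at hp hq
        by_contra hcon
        apply hno
        refine ⟨p, q, hp.2, hq.2, ?_⟩
        rintro a ⟨h1, h2⟩
        apply hcon
        rw [Finset.mem_image]
        exact ⟨a, Finset.mem_univ _, by rw [h1, h2]⟩
      calc good.card ≤ _ := Finset.card_le_card h1
        _ ≤ Finset.card (Finset.univ : Finset A) := Finset.card_image_le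
        _ = Nat.card A := by rw [Finset.card_univ, Nat.card_eq_fintype_card]
  have hA1 : 1 ≤ Nat.card A := Nat.card_pos
  obtain ⟨m, hm⟩ : ∃ m, Nat.card A = m + 1 := ⟨Nat.card A - 1, by omega⟩
  rw [hm] at hbadle hgoodle hA
  rw [Nat.add_sub_cancel] at hbadle
  have h4 : y ^ 3 ≤ (m + 1) + m * y ^ 2 := by omega
  have h5 : m * y ^ 2 + y ^ 2 ≤ y ^ 3 := by
    calc m * y ^ 2 + y ^ 2 = (m + 1) * y ^ 2 := by ring
      _ ≤ y * y ^ 2 := Nat.mul_le_mul_right _ hA
      _ = y ^ 3 := by ring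
  nlinarith

/-- intersections of subgroups. -/
theorem card_mul_le (P Q : AddSubgroup V) :
    Nat.card P * Nat.card Q ≤ Nat.card V * Nat.card (P ⊓ Q : AddSubgroup V) := by
  have h1 : Q.relIndex P ∣ Q.index := AddSubgroup.relIndex_dvd_index_of_normal Q P
  have h2 : Q.relIndex P ≤ Q.index := Nat.le_of_dvd (Nat.pos_of_ne_zero Q.index_ne_zero_of_finite) h1
  have h3 : Nat.card (P ⊓ Q : AddSubgroup V) * (P ⊓ Q).relIndex P = Nat.card P :=
    by
      have := AddSubgroup.relIndex_mul_relIndex ⊥ (P ⊓ Q) P bot_le inf_le_left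
      rw [AddSubgroup.relIndex_bot_left, AddSubgroup.relIndex_bot_left] at this
      exact this
  rw [AddSubgroup.inf_relIndex_left] at h3
  have h4 : Nat.card Q * Q.index = Nat.card V := Q.card_mul_index
  rw [← h3, ← h4]
  calc _ = Nat.card (P ⊓ Q : AddSubgroup V) * Nat.card Q * Q.relIndex P := by ring
    _ ≤ Nat.card (P ⊓ Q : AddSubgroup V) * Nat.card Q * Q.index := Nat.mul_le_mul_left _ h2
    _ = _ := by ring

/-- fixed points of an element and of a commutator. -/
theorem fix_sq_le (g x : A) :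
    Nat.card (fixS φ g) ^ 2 ≤ Nat.card V * Nat.card (fixS φ (g⁻¹ * (x * g * x⁻¹))) := by
  have h1 : Nat.card (fixS φ (x * g * x⁻¹)) = Nat.card (fixS φ g) := by
    apply Nat.card_congr
    refine
      { toFun := fun v => ⟨φ x⁻¹ v.1, ?_⟩
        invFun := fun v => ⟨φ x v.1, ?_⟩
        left_inv := fun v => Subtype.ext (phi_inv' φ x v.1)
        right_inv := fun v => Subtype.ext (phi_inv φ x v.1) }
    · have := v.2
      rw [mem_fixS] at this ⊢
      rw [← phi_mul]
      have h2 : φ x⁻¹ (φ (x * g * x⁻¹) v.1) = φ (g * x⁻¹) v.1 := by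
        rw [← phi_mul]
        congr 2
        group
      rw [← h2, this]
    · have := v.2
      rw [mem_fixS] at this ⊢
      rw [← phi_mul, show x * g * x⁻¹ * x = x * g by group, phi_mul, this]
  have h2 := card_mul_le (fixS φ g) (fixS φ (x * g * x⁻¹))
  rw [h1, ← pow_two] at h2
  refine h2.trans (Nat.mul_le_mul_left _ ?_)
  apply Nat.card_le_card_of_injective _ (AddSubgroup.inclusion_injective (?_ :
    fixS φ g ⊓ fixS φ (x * g * x⁻¹) ≤ fixS φ (g⁻¹ * (x * g * x⁻¹))))
  rintro v ⟨hv1, hv2⟩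
  have hv1' : φ g v = v := hv1
  have hv2' : φ (x * g * x⁻¹) v = v := hv2
  rw [mem_fixS, phi_mul, hv2']
  conv_lhs => rw [← hv1']
  exact phi_inv φ g v

/-- fixed points of `y` when `y x = z x y`. -/
theorem fix_cube_le [Nontrivial V] (P : Pack φ Z K) (hφ : Function.Injective φ) (y x z : A)
    (hz : z ∈ Z) (hz2 : z * z ≠ 1) (hyx : y * x = z * (x * y)) (hy : P.σ y = 1)
    (hx : P.σ x = 1) : Nat.card (fixS φ y) ^ 3 ≤ Nat.card V := by
  set ξ := P.ζ ⟨z, hz⟩ with hξ
  have hξs : ∀ v, φ z v = ξ • v := fun v => (P.hζ ⟨z, hz⟩ v).symm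
  have hξ1 : ξ ≠ 1 := by
    intro h
    have : (⟨z, hz⟩ : Z) = 1 := P.ζ_inj hφ (by rw [map_one]; exact h)
    have : z = 1 := congrArg Subtype.val this
    exact hz2 (by rw [this, one_mul])
  have hξ2 : ξ * ξ ≠ 1 := by
    intro h
    have : (⟨z, hz⟩ * ⟨z, hz⟩ : Z) = 1 := P.ζ_inj hφ (by rw [map_one, map_mul]; exact h)
    exact hz2 (congrArg Subtype.val this)
  have hξ0 : ξ ≠ 0 := by
    intro h
    have h1 : P.ζ ⟨z, hz⟩ * P.ζ (⟨z, hz⟩)⁻¹ = 1 := by rw [← map_mul, mul_inv_cancel, map_one]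
    rw [← hξ, h, zero_mul] at h1
    exact zero_ne_one h1
  have hylin : ∀ (k : K) v, φ y (k • v) = k • φ y v := fun k v => by rw [P.hσ, hy]; rfl
  have hxlin : ∀ (k : K) v, φ x (k • v) = k • φ x v := fun k v => by rw [P.hσ, hx]; rfl
  have hyx' : ∀ v, φ y (φ x v) = ξ • φ x (φ y v) := by
    intro v
    rw [← phi_mul, hyx, phi_mul, phi_mul, hξs]
  have h1 : ∀ v ∈ fixS φ y, φ y (φ x v) = ξ • φ x v := by
    intro v hv
    rw [hyx', mem_fixS.mp hv]
  have h2 : ∀ v ∈ fixS φ y, φ y (φ x (φ x v)) = (ξ * ξ) • φ x (φ x v) := by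
    intro v hv
    rw [hyx', h1 v hv, hxlin, smul_smul]
  have hinj : Function.Injective (fun t : fixS φ y × fixS φ y × fixS φ y =>
      t.1.1 + φ x t.2.1.1 + φ x (φ x t.2.2.1)) := by
    have hker : ∀ a ∈ fixS φ y, ∀ b ∈ fixS φ y, ∀ c ∈ fixS φ y,
        a + φ x b + φ x (φ x c) = 0 → a = 0 ∧ b = 0 ∧ c = 0 := by
      intro a ha b hb c hc h0
      have e1 : a + ξ • φ x b + (ξ * ξ) • φ x (φ x c) = 0 := by
        have := congrArg (φ y) h0
        rw [map_add, map_add, map_zero, h1 b hb, h2 c hc, mem_fixS.mp ha] at this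
        exact this
      have e2 : a + (ξ * ξ) • φ x b + ((ξ * ξ) * (ξ * ξ)) • φ x (φ x c) = 0 := by
        have := congrArg (φ y) e1
        rw [map_add, map_add, map_zero, hylin, hylin, h1 b hb, h2 c hc, mem_fixS.mp ha,
          smul_smul, smul_smul] at this
        exact this
      set B := φ x b with hB
      set C := φ x (φ x c) with hC
      have e3 : (ξ - 1) • B + (ξ * ξ - 1) • C = 0 := by
        have : (ξ - 1) • B + (ξ * ξ - 1) • C = (a + ξ • B + (ξ * ξ) • C) - (a + B + C) := by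
          rw [sub_smul, sub_smul, one_smul, one_smul]
          abel
        rw [this, e1, h0, sub_zero]
      have e4 : (ξ * (ξ - 1)) • B + ((ξ * ξ) * (ξ * ξ - 1)) • C = 0 := by
        have : (ξ * (ξ - 1)) • B + ((ξ * ξ) * (ξ * ξ - 1)) • C =
            (a + (ξ * ξ) • B + ((ξ * ξ) * (ξ * ξ)) • C) - (a + ξ • B + (ξ * ξ) • C) := by
          rw [mul_sub, mul_sub, mul_one, mul_one, sub_smul, sub_smul]
          abel
        rw [this, e2, e1, sub_zero]
      have e5 : (ξ * (ξ - 1) * (ξ * ξ - 1)) • C = 0 := by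
        have : (ξ * (ξ - 1) * (ξ * ξ - 1)) • C =
            ((ξ * (ξ - 1)) • B + ((ξ * ξ) * (ξ * ξ - 1)) • C) -
              ξ • ((ξ - 1) • B + (ξ * ξ - 1) • C) := by
          rw [smul_add, smul_smul, smul_smul, add_sub_add_left_eq_sub, ← sub_smul]
          congr 1
          ring
        rw [this, e4, e3, smul_zero, sub_zero]
      have hne : ξ * (ξ - 1) * (ξ * ξ - 1) ≠ 0 :=
        mul_ne_zero (mul_ne_zero hξ0 (sub_ne_zero.mpr hξ1)) (sub_ne_zero.mpr hξ2)
      have hC0 : C = 0 := (smul_eq_zero.mp e5).resolve_left hne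
      have hB0 : B = 0 := by
        rw [hC0, smul_zero, add_zero] at e3
        exact (smul_eq_zero.mp e3).resolve_left (sub_ne_zero.mpr hξ1)
      have ha0 : a = 0 := by
        rw [hB0, hC0, add_zero, add_zero] at h0
        exact h0
      refine ⟨ha0, ?_, ?_⟩
      · exact phi_inj φ x (by rw [map_zero]; exact hB0)
      · apply phi_inj φ x
        apply phi_inj φ x
        rw [map_zero, map_zero]
        exact hC0
    rintro ⟨a, b, c⟩ ⟨a', b', c'⟩ h
    dsimp only at h
    have h0 : (a.1 - a'.1) + φ x (b.1 - b'.1) + φ x (φ x (c.1 - c'.1)) = 0 := by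
      rw [map_sub, map_sub, map_sub]
      have : a.1 - a'.1 + (φ x b.1 - φ x b'.1) + (φ x (φ x c.1) - φ x (φ x c'.1)) =
        (a.1 + φ x b.1 + φ x (φ x c.1)) - (a'.1 + φ x b'.1 + φ x (φ x c'.1)) := by abel
      rw [this, h, sub_self]
    obtain ⟨ha, hb, hc⟩ := hker _ ((fixS φ y).sub_mem a.2 a'.2) _ ((fixS φ y).sub_mem b.2 b'.2)
      _ ((fixS φ y).sub_mem c.2 c'.2) h0
    rw [Prod.mk.injEq, Prod.mk.injEq]
    exact ⟨Subtype.ext (sub_eq_zero.mp ha), Subtype.ext (sub_eq_zero.mp hb),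
      Subtype.ext (sub_eq_zero.mp hc)⟩
  have hc := Nat.card_le_card_of_injective _ hinj
  rw [Nat.card_prod, Nat.card_prod] at hc
  calc Nat.card (fixS φ y) ^ 3 = _ := by ring
    _ ≤ _ := hc

/-- all nontrivial elements have small fixed space. -/
theorem fix_le [Nontrivial V] (P : Pack φ Z K) (hφ : Function.Injective φ)
    (hodd : Odd (Nat.card A)) (D : Subgroup A) [D.Normal]
    (hDC : ∀ x ∈ D, ∀ z ∈ Z, x * z = z * x)
    (hCD : ∀ g : A, (∀ x ∈ D, g * x = x * g) → g ∈ Z)
    (hDD : ∀ x ∈ D, ∀ y ∈ D, y * x * y⁻¹ * x⁻¹ ∈ Z)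
    (g : A) (hg : g ≠ 1) : Nat.card (fixS φ g) ^ 3 ≤ Nat.card V ^ 2 := by
  have hV : 1 ≤ Nat.card V := Nat.card_pos
  have hZfix : ∀ z ∈ Z, z ≠ 1 → Nat.card (fixS φ z) = 1 := by
    intro z hz hz1
    rw [Nat.card_eq_one_iff_unique]
    refine ⟨⟨fun a b => ?_⟩, ⟨0⟩⟩
    have h : ∀ a : fixS φ z, a = 0 := by
      intro a
      by_contra hne
      have hne' : a.1 ≠ 0 := fun h => hne (Subtype.ext h)
      exact hz1 (P.mem_of_fix hφ hz hne' a.2)
    rw [h a, h b]
  by_cases hgZ : g ∈ Z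
  · rw [hZfix g hgZ hg, one_pow]
    exact Nat.one_le_pow _ _ hV
  have hex : ∃ x ∈ D, g * x ≠ x * g := by
    by_contra hcon
    push Not at hcon
    exact hgZ (hCD g hcon)
  obtain ⟨x, hx, hgx⟩ := hex
  set y := g⁻¹ * (x * g * x⁻¹) with hy
  have hyD : y ∈ D := by
    have : y = (g⁻¹ * x * g⁻¹⁻¹) * x⁻¹ := by rw [hy]; group
    rw [this]
    exact D.mul_mem (Subgroup.Normal.conj_mem ‹_› x hx _) (D.inv_mem hx)
  have hy1 : y ≠ 1 := by
    intro h
    apply hgx
    rw [hy, inv_mul_eq_one] at h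
    rw [eq_mul_inv_iff_mul_eq] at h
    exact h
  have hcube : Nat.card (fixS φ y) ^ 3 ≤ Nat.card V := by
    by_cases hyZ : y ∈ Z
    · rw [hZfix y hyZ hy1, one_pow]
      exact hV
    · have hex : ∃ x' ∈ D, y * x' ≠ x' * y := by
        by_contra hcon
        push Not at hcon
        exact hyZ (hCD y hcon)
      obtain ⟨x', hx', hyx'⟩ := hex
      set z := y * x' * y⁻¹ * x'⁻¹ with hz
      have hzZ : z ∈ Z := hDD x' hx' y hyD
      have hz1 : z ≠ 1 := by
        intro h
        apply hyx'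
        rw [hz, mul_inv_eq_one, mul_inv_eq_iff_eq_mul] at h
        exact h
      refine fix_cube_le P hφ y x' z hzZ ?_ ?_ ?_ ?_
      · intro h
        exact hz1 (eq_one_of_sq hodd h)
      · rw [hz]; group
      · exact P.hC y (hDC y hyD)
      · exact P.hC x' (hDC x' hx')
  have h1 := fix_sq_le (φ := φ) g x
  rw [← hy] at h1
  have h2 : (Nat.card (fixS φ g) ^ 3) ^ 2 ≤ (Nat.card V ^ 2) ^ 2 := by
    calc (Nat.card (fixS φ g) ^ 3) ^ 2 = (Nat.card (fixS φ g) ^ 2) ^ 3 := by ring
      _ ≤ (Nat.card V * Nat.card (fixS φ y)) ^ 3 := Nat.pow_le_pow_left h1 3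
      _ = Nat.card V ^ 3 * Nat.card (fixS φ y) ^ 3 := by ring
      _ ≤ Nat.card V ^ 3 * Nat.card V := Nat.mul_le_mul_left _ hcube
      _ = (Nat.card V ^ 2) ^ 2 := by ring
  exact (Nat.pow_le_pow_iff_left (by norm_num)).mp h2

end

end H66.OddA
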