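import Mathlib
import Cfsg.Agent.Lib.H66.OddD

/-! Dimension bounds from commutator pairings. -/

set_option linter.unusedSectionVars false
set_option linter.style.haveILetI false

namespace H66.OddA

open Subgroup

universe u v

/-- simultaneous eigenvectors with distinct eigenvalue functions are independent. -/
theorem li_of_eigen {K E ι X : Type*} [Field K] [AddCommGroup E] [Module K E] (F : ι → E)
    (T : X → (E →ₗ[K] E)) (χ : X → ι → K) (hF : ∀ i, F i ≠ 0)
    (hT : ∀ x i, T x (F i) = χ x i • F i) (hχ : ∀ i j, i ≠ j → ∃ x, χ x i ≠ χ x j) :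
    LinearIndependent K F := by
  classical
  rw [linearIndependent_iff']
  intro s
  induction s using Finset.induction_on with
  | empty => intro g _ i hi; exact absurd hi (Finset.notMem_empty i)
  | insert a s ha ih =>
    intro g hg
    rw [Finset.sum_insert ha] at hg
    have h1 : ∀ j ∈ s, g j = 0 := by
      intro j hj
      have haj : a ≠ j := fun h => ha (h ▸ hj)
      obtain ⟨x, hx⟩ := hχ a j haj
      have h2 := congrArg (T x) hg
      rw [map_add, map_smul, hT, map_sum, map_zero] at h2
      have h3 : ∑ i ∈ s, (g i * (χ x i - χ x a)) • F i = 0 := by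
        have h4 : ∑ i ∈ s, (g i * (χ x i - χ x a)) • F i =
            (g a • χ x a • F a + ∑ i ∈ s, T x (g i • F i)) -
              χ x a • (g a • F a + ∑ i ∈ s, g i • F i) := by
          rw [smul_add, Finset.smul_sum, smul_comm (χ x a) (g a), add_sub_add_left_eq_sub,
            ← Finset.sum_sub_distrib]
          apply Finset.sum_congr rfl
          intro i _
          rw [map_smul, hT, smul_smul, smul_smul, ← sub_smul]
          congr 1
          ring
        rw [h4, h2, hg, smul_zero, sub_zero]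
      have h5 := ih (fun i => g i * (χ x i - χ x a)) h3 j hj
      rcases mul_eq_zero.mp h5 with h6 | h6
      · exact h6
      · exact absurd (sub_eq_zero.mp h6).symm hx
    have h2 : ∑ i ∈ s, g i • F i = 0 := Finset.sum_eq_zero (fun i hi => by rw [h1 i hi, zero_smul])
    rw [h2, add_zero] at hg
    intro i hi
    rcases Finset.mem_insert.mp hi with h | h
    · rw [h]
      exact (smul_eq_zero.mp hg).resolve_right (hF a)
    · exact h1 i h

/-- few homomorphisms to a field. -/
theorem homs_le {K X T : Type*} [Field K] [Group X] [Finite X] (Y : Subgroup X)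
    (F : T → (X →* K)) (hF : Function.Injective F) (hY : ∀ t, ∀ y ∈ Y, F t y = 1) :
    Nat.card T ≤ Y.index := by
  classical
  letI := Fintype.ofFinite (X ⧸ Y)
  have hwd : ∀ t (a b : X), (QuotientGroup.leftRel Y).r a b → F t a = F t b := by
    intro t a b hab
    have h1 := hY t _ (QuotientGroup.leftRel_apply.mp hab)
    have : F t b = F t a * F t (a⁻¹ * b) := by rw [← map_mul, mul_inv_cancel_left]
    rw [this, h1, mul_one]
  let g : T → (X ⧸ Y → K) := fun t => Quotient.lift (F t) (fun a b h => hwd t a b h)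
  have hg : ∀ t x, g t (QuotientGroup.mk x) = F t x := fun _ _ => rfl
  have hli : LinearIndependent K (fun t => (F t : X → K)) :=
    (linearIndependent_monoidHom X K).comp F hF
  have hli2 : LinearIndependent K g := by
    apply LinearIndependent.of_comp (LinearMap.funLeft K K (QuotientGroup.mk : X → X ⧸ Y))
    exact hli
  haveI : Finite T := hli2.finite
  letI := Fintype.ofFinite T
  have h := hli2.fintype_card_le_finrank
  rw [Module.finrank_fintype_fun_eq_card] at h
  rw [Nat.card_eq_fintype_card, Subgroup.index, Nat.card_eq_fintype_card]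
  exact h

section

variable {A : Type u} [Group A] [Finite A] {V : Type u} [AddCommGroup V] [Finite V]
variable {φ : A →* AddMonoid.End V} {Z : Subgroup A} {K : Type u} [Field K] [Module K V]

/-- the `K`-linear map of an element centralising `Z`. -/
def linOf (P : Pack φ Z K) (x : A) (hx : P.σ x = 1) : V →ₗ[K] V where
  toFun := φ x
  map_add' := map_add _
  map_smul' := fun k v => by
    rw [P.hσ, hx]
    rfl

theorem relIndex_le_sq [Nontrivial V] [Finite K] (P : Pack φ Z K) (hφ : Function.Injective φ)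
    (N : Subgroup A) (hNC : ∀ x ∈ N, ∀ z ∈ Z, x * z = z * x)
    (hNN : ∀ x ∈ N, ∀ y ∈ N, x * y * x⁻¹ * y⁻¹ ∈ Z)
    (hcen : ∀ x ∈ N, (∀ y ∈ N, x * y = y * x) → x ∈ Z) :
    Z.relIndex N ≤ (Module.finrank K V) ^ 2 := by
  classical
  have hσ1 : ∀ x ∈ N, P.σ x = 1 := fun x hx => P.hC x (hNC x hx)
  set ι := N ⧸ Z.subgroupOf N with hι
  haveI : Finite ι := inferInstance
  letI : Fintype ι := Fintype.ofFinite _
  let p : ι → N := fun i => i.out
  let F : ι → (V →ₗ[K] V) := fun i => linOf P (p i) (hσ1 _ (p i).2)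
  let T : N → ((V →ₗ[K] V) →ₗ[K] (V →ₗ[K] V)) := fun x =>
    { toFun := fun f => (linOf P x (hσ1 _ x.2)) ∘ₗ f ∘ₗ
        (linOf P (x : A)⁻¹ (hσ1 _ (N.inv_mem x.2)))
      map_add' := fun f g => by
        ext v
        simp
      map_smul' := fun k f => by
        ext v
        simp }
  let χ : N → ι → K := fun x i => P.ζ ⟨_, hNN x x.2 (p i) (p i).2⟩
  haveI : FiniteDimensional K V := Module.Finite.of_finite
  have hli : LinearIndependent K F := by
    apply li_of_eigen F T χ
    · intro i h
      obtain ⟨v, hv⟩ := exists_ne (0 : V)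
      have h1 : φ (p i : A) v = 0 := by
        have := LinearMap.congr_fun h v
        exact this
      exact hv (phi_inj φ _ (by rw [h1, map_zero]))
    · intro x i
      apply LinearMap.ext
      intro v
      change φ (x : A) (φ (p i : A) (φ (x : A)⁻¹ v)) = P.ζ ⟨_, _⟩ • φ (p i : A) v
      rw [P.hζ, ← phi_mul, ← phi_mul, ← phi_mul]
      congr 2
      simp
    · intro i j hij
      by_contra hcon
      push Not at hcon
      apply hij
      have h1 : ∀ x : N, (x : A) * (p i : A) * (x : A)⁻¹ * (p i : A)⁻¹ =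
          (x : A) * (p j : A) * (x : A)⁻¹ * (p j : A)⁻¹ := by
        intro x
        have := P.ζ_inj hφ (hcon x)
        exact congrArg Subtype.val this
      have h2 : ((p i : A)⁻¹ * (p j : A)) ∈ Z := by
        apply hcen _ (N.mul_mem (N.inv_mem (p i).2) (p j).2)
        intro y hy
        have h3 := h1 ⟨y, hy⟩
        simp only at h3
        -- y p_i y⁻¹ = c p_i, y p_j y⁻¹ = c p_j
        set c := y * (p i : A) * y⁻¹ * (p i : A)⁻¹ with hc
        have e1 : y * (p i : A) * y⁻¹ = c * (p i : A) := by rw [hc]; group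
        have e2 : y * (p j : A) * y⁻¹ = c * (p j : A) := by rw [h3]; group
        have e3 : y * ((p i : A)⁻¹ * (p j : A)) * y⁻¹ = (p i : A)⁻¹ * (p j : A) := by
          calc y * ((p i : A)⁻¹ * (p j : A)) * y⁻¹
              = (y * (p i : A) * y⁻¹)⁻¹ * (y * (p j : A) * y⁻¹) := by group
            _ = (c * (p i : A))⁻¹ * (c * (p j : A)) := by rw [e1, e2]
            _ = _ := by group
        exact (mul_inv_eq_iff_eq_mul.mp e3).symm
      have h4 : (p i)⁻¹ * p j ∈ Z.subgroupOf N := h2
      have h5 : (QuotientGroup.mk (p i) : ι) = QuotientGroup.mk (p j) := QuotientGroup.eq.mpr h4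
      rw [← Quotient.out_eq i, ← Quotient.out_eq j]
      exact h5
  have h := hli.fintype_card_le_finrank
  rw [Module.finrank_linearMap] at h
  rw [Subgroup.relIndex, Subgroup.index, Nat.card_eq_fintype_card, pow_two]
  exact h

theorem pair_le [Nontrivial V] (Pk : Pack φ Z K) (hφ : Function.Injective φ)
    (P1 P0 X Y : Subgroup A)
    (hc : ∀ p ∈ P1, ∀ x ∈ X, p * x * p⁻¹ * x⁻¹ ∈ Z)
    (hZX : ∀ x ∈ X, ∀ z ∈ Z, x * z = z * x)
    (hY1 : ∀ p ∈ P1, ∀ y ∈ Y, p * y = y * p)
    (h0 : ∀ p ∈ P1, (∀ x ∈ X, p * x = x * p) → p ∈ P0) :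
    P0.relIndex P1 ≤ Y.relIndex X := by
  classical
  let F : P1 ⧸ P0.subgroupOf P1 → (X →* K) := fun i =>
    { toFun := fun x => Pk.ζ ⟨_, hc (i.out : P1) (i.out : P1).2 x x.2⟩
      map_one' := by
        rw [← map_one Pk.ζ]
        congr 1
        apply Subtype.ext
        simp
      map_mul' := fun x y => by
        rw [← map_mul]
        congr 1
        apply Subtype.ext
        change ((i.out : P1) : A) * ((x : A) * y) * ((i.out : P1) : A)⁻¹ * ((x : A) * y)⁻¹ =
          (((i.out : P1) : A) * x * ((i.out : P1) : A)⁻¹ * (x : A)⁻¹) *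
          (((i.out : P1) : A) * y * ((i.out : P1) : A)⁻¹ * (y : A)⁻¹)
        set p := ((i.out : P1) : A) with hp
        have h1 := hZX x x.2 _ (hc p (i.out : P1).2 y y.2)
        have h2 : p * ((x : A) * y) * p⁻¹ * ((x : A) * y)⁻¹ =
          (p * x * p⁻¹ * (x : A)⁻¹) * ((x : A) * (p * y * p⁻¹ * (y : A)⁻¹) * (x : A)⁻¹) := by group
        rw [h2, h1]
        group }
  have hFi : Function.Injective F := by
    intro i j hij
    have h1 : ∀ x : X, ((i.out : P1) : A) * x * ((i.out : P1) : A)⁻¹ =
        ((j.out : P1) : A) * x * ((j.out : P1) : A)⁻¹ := by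
      intro x
      have h2 : Pk.ζ ⟨_, hc (i.out : P1) (i.out : P1).2 x x.2⟩ =
          Pk.ζ ⟨_, hc (j.out : P1) (j.out : P1).2 x x.2⟩ := DFunLike.congr_fun hij x
      have h3 := congrArg Subtype.val (Pk.ζ_inj hφ h2)
      exact mul_right_cancel h3
    have h2 : ((i.out : P1) : A)⁻¹ * ((j.out : P1) : A) ∈ P0 := by
      apply h0 _ (P1.mul_mem (P1.inv_mem (i.out : P1).2) (j.out : P1).2)
      intro x hx
      have h3 := h1 ⟨x, hx⟩
      simp only at h3
      set p := ((i.out : P1) : A)
      set q := ((j.out : P1) : A)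
      have h4 : p⁻¹ * q * x = p⁻¹ * (q * x * q⁻¹) * q := by group
      rw [h4, ← h3]
      group
    have h4 : (i.out : P1)⁻¹ * (j.out : P1) ∈ P0.subgroupOf P1 := h2
    have h5 := QuotientGroup.eq.mpr h4
    rw [← Quotient.out_eq i, ← Quotient.out_eq j]
    exact h5
  have h := homs_le (Y.subgroupOf X) F hFi (by
    intro i y hy
    have h1 : ((i.out : P1) : A) * (y : A) = (y : A) * ((i.out : P1) : A) :=
      hY1 _ (i.out : P1).2 y hy
    change Pk.ζ ⟨((i.out : P1) : A) * (y : A) * ((i.out : P1) : A)⁻¹ * (y : A)⁻¹, _⟩ = 1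
    rw [← map_one Pk.ζ]
    congr 1
    apply Subtype.ext
    change ((i.out : P1) : A) * (y : A) * ((i.out : P1) : A)⁻¹ * (y : A)⁻¹ = 1
    rw [h1]
    group)
  exact h

/-- the index is a square. -/
theorem index_square [Nontrivial V] (Pk : Pack φ Z K) (hφ : Function.Injective φ)
    (hab : ∀ x ∈ Z, ∀ y ∈ Z, x * y = y * x)
    (D : Subgroup A) (hZD : Z ≤ D) (hDC : ∀ x ∈ D, ∀ z ∈ Z, x * z = z * x)
    (hDD : ∀ x ∈ D, ∀ y ∈ D, x * y * x⁻¹ * y⁻¹ ∈ Z)
    (hcen : ∀ x ∈ D, (∀ y ∈ D, x * y = y * x) → x ∈ Z) :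
    ∃ L : Subgroup A, Z ≤ L ∧ L ≤ D ∧ (∀ x ∈ L, ∀ y ∈ L, x * y = y * x) ∧
      Z.relIndex D = (Z.relIndex L) ^ 2 := by
  obtain ⟨L, ⟨hZL, hLD, hLab⟩, hmax⟩ := Set.Finite.exists_maximal
    (s := {L : Subgroup A | Z ≤ L ∧ L ≤ D ∧ ∀ x ∈ L, ∀ y ∈ L, x * y = y * x}) (Set.toFinite _)
    ⟨Z, le_rfl, hZD, hab⟩
  refine ⟨L, hZL, hLD, hLab, ?_⟩
  have hCL : ∀ x ∈ D, (∀ y ∈ L, x * y = y * x) → x ∈ L := by
    intro x hx hxL
    have hcomm : ∀ a ∈ (L : Set A) ∪ {x}, ∀ b ∈ (L : Set A) ∪ {x}, a * b = b * a := by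
      rintro a (ha | ha) b (hb | hb)
      · exact hLab a ha b hb
      · rw [Set.mem_singleton_iff] at hb
        rw [hb, hxL a ha]
      · rw [Set.mem_singleton_iff] at ha
        rw [ha, hxL b hb]
      · rw [Set.mem_singleton_iff] at ha hb
        rw [ha, hb]
    set L' := Subgroup.closure ((L : Set A) ∪ {x}) with hL'
    have hLL' : L ≤ L' := fun y hy => Subgroup.subset_closure (Or.inl hy)
    have hxL' : x ∈ L' := Subgroup.subset_closure (Or.inr rfl)
    have hab' : ∀ a ∈ L', ∀ b ∈ L', a * b = b * a := by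
      intro a ha b hb
      have h1 : ∀ c ∈ (L : Set A) ∪ {x}, ∀ b ∈ L', b * c = c * b := by
        intro c hc b hb
        have h2 : L' ≤ Subgroup.centralizer {c} := by
          rw [hL', Subgroup.closure_le]
          intro d hd
          rw [SetLike.mem_coe, Subgroup.mem_centralizer_iff]
          intro e he
          rw [Set.mem_singleton_iff] at he
          rw [he]
          exact hcomm c hc d hd
        have h3 := Subgroup.mem_centralizer_iff.mp (h2 hb) c rfl
        exact h3.symm
      have h2 : L' ≤ Subgroup.centralizer {b} := by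
        rw [hL', Subgroup.closure_le]
        intro d hd
        rw [SetLike.mem_coe, Subgroup.mem_centralizer_iff]
        intro e he
        rw [Set.mem_singleton_iff] at he
        rw [he]
        exact h1 d hd b hb
      exact (Subgroup.mem_centralizer_iff.mp (h2 ha) b rfl).symm
    have hL'D : L' ≤ D := by
      rw [hL', Subgroup.closure_le]
      rintro y (hy | hy)
      · exact hLD hy
      · rw [Set.mem_singleton_iff] at hy
        rw [hy]; exact hx
    exact hmax ⟨hZL.trans hLL', hL'D, hab'⟩ hLL' hxL'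
  have h1 : L.relIndex D ≤ Z.relIndex L := by
    apply pair_le Pk hφ D L L Z
    · exact fun p hp x hx => hDD p hp x (hLD hx)
    · exact fun x hx z hz => hDC x (hLD hx) z hz
    · exact fun p hp z hz => hDC p hp z hz
    · exact hCL
  have h2 : Z.relIndex L ≤ L.relIndex D := by
    apply pair_le Pk hφ L Z D L
    · exact fun p hp x hx => hDD p (hLD hp) x hx
    · exact hDC
    · exact fun p hp y hy => hLab p hp y hy
    · exact fun p hp h => hcen p (hLD hp) h
  have h3 := Subgroup.relIndex_mul_relIndex Z L D hZL hLD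
  rw [← h3, le_antisymm h1 h2, pow_two]

end

end H66.OddA
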