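import Mathlib
import Cfsg.Agent.Lib.H66.OddE

/-! Choice of the class-two section. -/

set_option linter.unusedSectionVars false
set_option linter.style.haveILetI false

namespace H66.OddA

open Subgroup

universe u v

/-- two inequivalent good pairs bound the index of the kernel. -/
theorem two_card {B : Type u} [Group B] [Finite B] {W : Type u} [AddCommGroup W] [Finite W]
    {ψ : B →* AddMonoid.End W} (h : Two ψ) : 2 * ψ.ker.index ≤ (Nat.card W) ^ 2 := by
  classical
  obtain ⟨x, y, hx, hy, hxy⟩ := h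
  let f : (B ⧸ ψ.ker) ⊕ (B ⧸ ψ.ker) → W × W := fun s =>
    match s with
    | Sum.inl i => (ψ i.out x.1, ψ i.out x.2)
    | Sum.inr i => (ψ i.out y.1, ψ i.out y.2)
  have hf : Function.Injective f := by
    have key : ∀ p : W × W, Good ψ p → ∀ i j : B ⧸ ψ.ker, (ψ i.out p.1, ψ i.out p.2) =
        (ψ j.out p.1, ψ j.out p.2) → i = j := by
      intro p hp i j hij
      rw [Prod.mk.injEq] at hij
      have h1 := hp (i.out⁻¹ * j.out) (by rw [phi_mul, ← hij.1, phi_inv])
        (by rw [phi_mul, ← hij.2, phi_inv])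
      have h2 : i.out⁻¹ * j.out ∈ ψ.ker := h1
      have h3 := QuotientGroup.eq.mpr h2
      rw [← Quotient.out_eq i, ← Quotient.out_eq j]
      exact h3
    have cross : ∀ i j : B ⧸ ψ.ker, (ψ i.out x.1, ψ i.out x.2) ≠
        (ψ j.out y.1, ψ j.out y.2) := by
      intro i j hij
      rw [Prod.mk.injEq] at hij
      exact hxy (j.out⁻¹ * i.out) ⟨by rw [phi_mul, hij.1, phi_inv], by rw [phi_mul, hij.2, phi_inv]⟩
    rintro (i | i) (j | j) hij
    · rw [key x hx i j hij]
    · exact absurd hij (cross i j)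
    · exact absurd hij.symm (cross j i)
    · rw [key y hy i j hij]
  have h := Nat.card_le_card_of_injective f hf
  rw [Nat.card_sum, Nat.card_prod] at h
  rw [Subgroup.index, pow_two]
  omega

section

variable {A : Type u} [Group A] [Finite A]

/-- elements acting trivially on `D / Z`. -/
def CW (Z D : Subgroup A) [Z.Normal] : Subgroup A :=
  (Subgroup.centralizer ((D.map (QuotientGroup.mk' Z) : Subgroup (A ⧸ Z)) : Set (A ⧸ Z))).comap
    (QuotientGroup.mk' Z)

theorem mk_comm (Z : Subgroup A) [Z.Normal] (a x : A) :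
    (QuotientGroup.mk' Z a * QuotientGroup.mk' Z x = QuotientGroup.mk' Z x * QuotientGroup.mk' Z a)
      ↔ a * x * a⁻¹ * x⁻¹ ∈ Z := by
  rw [← QuotientGroup.eq_one_iff (N := Z)]
  change _ ↔ QuotientGroup.mk' Z (a * x * a⁻¹ * x⁻¹) = 1
  rw [map_mul, map_mul, map_mul, map_inv, map_inv, mul_inv_eq_one, mul_inv_eq_iff_eq_mul]

theorem mem_CW {Z D : Subgroup A} [Z.Normal] {a : A} :
    a ∈ CW Z D ↔ ∀ x ∈ D, a * x * a⁻¹ * x⁻¹ ∈ Z := by
  rw [CW, Subgroup.mem_comap, Subgroup.mem_centralizer_iff]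
  constructor
  · intro h x hx
    rw [← mk_comm]
    exact (h _ ⟨x, hx, rfl⟩).symm
  · rintro h _ ⟨x, hx, rfl⟩
    exact ((mk_comm Z a x).mpr (h x hx)).symm

theorem index_CW (Z D : Subgroup A) [Z.Normal] : (CW Z D).index =
    (Subgroup.centralizer ((D.map (QuotientGroup.mk' Z) : Subgroup (A ⧸ Z)) :
      Set (A ⧸ Z))).index :=
  Subgroup.index_comap_of_surjective _ (QuotientGroup.mk'_surjective Z)

theorem card_map_mk {Z D : Subgroup A} [Z.Normal] (hZD : Z ≤ D) :
    Nat.card (D.map (QuotientGroup.mk' Z)) = Z.relIndex D := by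
  rw [← Subgroup.relIndex_ker, QuotientGroup.ker_mk']

variable {V : Type u} [AddCommGroup V] [Finite V]
variable {φ : A →* AddMonoid.End V} {Z : Subgroup A} {K : Type u} [Field K] [Module K V]

theorem exists_D (IH : IHyp.{u} (Nat.card V)) (hodd : Odd (Nat.card A))
    (hs : Group.IsSolvable A) [Nontrivial V] [Finite K] (Pk : Pack φ Z K)
    (hφ : Function.Injective φ) [Z.Normal] (hab : ∀ x ∈ Z, ∀ y ∈ Z, x * y = y * x)
    (hZmax : ∀ Z' : Subgroup A, Z'.Normal → (∀ x ∈ Z', ∀ y ∈ Z', x * y = y * x) → Z ≤ Z' →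
      Z' ≤ Z) :
    ∃ D : Subgroup A, D.Normal ∧ Z ≤ D ∧ (∀ x ∈ D, ∀ z ∈ Z, x * z = z * x) ∧
      (∀ x ∈ D, ∀ y ∈ D, x * y * x⁻¹ * y⁻¹ ∈ Z) ∧
      (∀ g : A, (∀ x ∈ D, g * x = x * g) → g ∈ Z) ∧
      (D = Z ∨ 2 * (CW Z D).index ≤ (Z.relIndex D) ^ 2) := by
  classical
  set mk := QuotientGroup.mk' Z with hmk
  have hmks : Function.Surjective mk := QuotientGroup.mk'_surjective Z
  have hker : mk.ker = Z := QuotientGroup.ker_mk' Z
  haveI hsQ : Group.IsSolvable (A ⧸ Z) := solvable_of_surjective hmks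
  have hcm : ∀ U : Subgroup A, Z ≤ U → (U.map mk).comap mk = U := by
    intro U hU
    rw [Subgroup.comap_map_eq, hker, sup_eq_left.mpr hU]
  -- the family
  obtain ⟨D', hD', hmax⟩ := Set.Finite.exists_maximal
    (s := {D' : Subgroup (A ⧸ Z) | D'.Normal ∧
      (∀ x ∈ D'.comap mk, ∀ z ∈ Z, x * z = z * x) ∧
      D' ≤ Subgroup.centralizer (D' : Set (A ⧸ Z)) ∧
      (D' = ⊥ ∨ 2 * (Subgroup.centralizer (D' : Set (A ⧸ Z))).index ≤ (Nat.card D') ^ 2)})
    (Set.toFinite _) ⟨⊥, inferInstance, by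
      intro x hx z hz
      have : x ∈ Z := by
        rw [← hker]
        exact hx
      exact hab x this z hz, bot_le, Or.inl rfl⟩
  obtain ⟨hDn', hDC', hDab', hDi'⟩ := hD'
  haveI := hDn'
  set D := D'.comap mk with hD
  have hDmap : D.map mk = D' := Subgroup.map_comap_eq_self_of_surjective hmks D'
  haveI hDn : D.Normal := hDn'.comap mk
  have hZD : Z ≤ D := by
    rw [← hker]
    exact Subgroup.ker_le_comap mk D'
  have hDD : ∀ x ∈ D, ∀ y ∈ D, x * y * x⁻¹ * y⁻¹ ∈ Z := by
    intro x hx y hy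
    rw [← mk_comm]
    have h1 := hDab' (show mk x ∈ D' from hx)
    rw [Subgroup.mem_centralizer_iff] at h1
    exact (h1 (mk y) hy).symm
  -- centres
  have hcenN : ∀ N : Subgroup A, N.Normal → Z ≤ N → (∀ x ∈ N, ∀ z ∈ Z, x * z = z * x) →
      ∀ x ∈ N, (∀ y ∈ N, x * y = y * x) → x ∈ Z := by
    intro N hN hZN hNC x hx hxN
    haveI := hN
    have h1 : (N ⊓ Subgroup.centralizer (N : Set A)).Normal := inferInstance
    apply hZmax _ h1
    · rintro a ⟨ha, _⟩ b ⟨_, hb⟩
      exact (Subgroup.mem_centralizer_iff.mp hb a ha)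
    · intro z hz
      exact ⟨hZN hz, Subgroup.mem_centralizer_iff.mpr (fun y hy => hNC y hy z hz)⟩
    · exact ⟨hx, Subgroup.mem_centralizer_iff.mpr (fun y hy => (hxN y hy).symm)⟩
  refine ⟨D, hDn, hZD, hDC', hDD, ?_, ?_⟩
  swap
  · rcases hDi' with h | h
    · left
      rw [hD, h]
      exact (MonoidHom.comap_bot mk).trans hker
    · right
      rw [index_CW, ← card_map_mk hZD]
      change 2 * (Subgroup.centralizer ((D.map mk : Subgroup (A ⧸ Z)) : Set (A ⧸ Z))).index ≤
        Nat.card (D.map mk) ^ 2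
      rw [hDmap]
      exact h
  -- the centraliser of D
  by_contra hcon
  push Not at hcon
  obtain ⟨g, hg, hgZ⟩ := hcon
  set T := Subgroup.centralizer (D : Set A) with hT
  have hgT : g ∈ T := Subgroup.mem_centralizer_iff.mpr (fun x hx => (hg x hx).symm)
  have hZT : Z ≤ T := fun z hz => Subgroup.mem_centralizer_iff.mpr (fun x hx => hDC' x hx z hz)
  haveI hTn : T.Normal := inferInstance
  haveI : (T.map mk).Normal := hTn.map mk hmks
  have hT0 : T.map mk ≠ ⊥ := by
    intro h
    apply hgZ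
    rw [← hker]
    have : mk g ∈ T.map mk := ⟨g, hgT, rfl⟩
    rw [h] at this
    exact this
  obtain ⟨N', hNn', hN'T, hN'0, hN'ab, hN'min⟩ := exists_min_normal hsQ (T.map mk) hT0
  haveI := hNn'
  set N := N'.comap mk with hN
  have hNmap : N.map mk = N' := Subgroup.map_comap_eq_self_of_surjective hmks N'
  haveI hNn : N.Normal := hNn'.comap mk
  have hZN : Z ≤ N := by
    rw [← hker]
    exact Subgroup.ker_le_comap mk N'
  have hNT : N ≤ T := by
    rw [← hcm T hZT]
    exact Subgroup.comap_mono hN'T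
  have hND : ∀ x ∈ N, ∀ y ∈ D, x * y = y * x := fun x hx y hy =>
    (Subgroup.mem_centralizer_iff.mp (hNT hx) y hy).symm
  have hNC : ∀ x ∈ N, ∀ z ∈ Z, x * z = z * x := fun x hx z hz => hND x hx z (hZD hz)
  have hNN : ∀ x ∈ N, ∀ y ∈ N, x * y * x⁻¹ * y⁻¹ ∈ Z := by
    intro x hx y hy
    rw [← mk_comm]
    exact hN'ab (mk x) hx (mk y) hy
  have hcN := hcenN N hNn hZN hNC
  have hcD := hcenN D hDn hZD hDC'
  -- Z is nontrivial
  have hZ3 : 3 ≤ Nat.card Z := by
    have h1 : Z ≠ ⊥ := by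
      intro hZ0
      apply hN'0
      rw [← hNmap, Subgroup.map_eq_bot_iff, hker]
      intro x hx
      apply hcN x hx
      intro y hy
      have := hNN x hx y hy
      rw [hZ0, Subgroup.mem_bot, mul_inv_eq_one, mul_inv_eq_iff_eq_mul] at this
      exact this
    have h2 : Nat.card Z ≠ 1 := fun h => h1 (Subgroup.card_eq_one.mp h)
    have h3 := odd_sub hodd Z
    have h4 : 0 < Nat.card Z := Nat.card_pos
    obtain ⟨k, hk⟩ := h3
    omega
  have hK4 : 4 ≤ Nat.card K := le_trans (by omega) (Pk.card_Z_le hφ)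
  haveI : FiniteDimensional K V := Module.Finite.of_finite
  have hcardV : Nat.card V = Nat.card K ^ Module.finrank K V := Module.natCard_eq_pow_finrank
  have hlt : Nat.card N' < Nat.card V := by
    have h1 := relIndex_le_sq Pk hφ N hNC hNN hcN
    rw [← card_map_mk hZN] at h1
    change Nat.card (N.map mk) ≤ _ at h1
    rw [hNmap] at h1
    refine lt_of_le_of_lt h1 ?_
    rw [hcardV]
    set d := Module.finrank K V
    calc d ^ 2 < 4 ^ d := by
          have h := Nat.lt_two_pow_self (n := d)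
          calc d ^ 2 < (2 ^ d) ^ 2 := Nat.pow_lt_pow_left h (by norm_num)
            _ = 4 ^ d := by rw [← pow_mul, mul_comm, pow_mul]; norm_num
      _ ≤ Nat.card K ^ d := Nat.pow_le_pow_left hK4 d
  -- the action of A on N'
  letI := addN N' hN'ab
  set ψ : A →* AddMonoid.End (Additive N') := (conjRep N').comp mk with hψ
  have hψa : ∀ (a : A) (x : N'),
      (((ψ a (Additive.ofMul x)).toMul : N') : A ⧸ Z) = mk a * x * (mk a)⁻¹ := fun a x =>
    conjRep_apply N' (mk a) x
  have hirr : Irr ψ := by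
    constructor
    · obtain ⟨m, hm1⟩ := (Subgroup.ne_bot_iff_exists_ne_one (H := N')).mp hN'0
      exact ⟨⟨Additive.ofMul m, 0, fun h => hm1 (congrArg Additive.toMul h)⟩⟩
    · intro U hU
      set U' : Subgroup (A ⧸ Z) :=
        { carrier := {x | ∃ h : x ∈ N', Additive.ofMul (⟨x, h⟩ : N') ∈ U}
          one_mem' := ⟨N'.one_mem, U.zero_mem⟩
          mul_mem' := by
            rintro a b ⟨ha, ha'⟩ ⟨hb, hb'⟩
            exact ⟨N'.mul_mem ha hb, U.add_mem ha' hb'⟩
          inv_mem' := by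
            rintro a ⟨ha, ha'⟩
            exact ⟨N'.inv_mem ha, U.neg_mem ha'⟩ } with hU'
      have hmem : ∀ (x : A ⧸ Z) (hx : x ∈ N'), x ∈ U' ↔ Additive.ofMul (⟨x, hx⟩ : N') ∈ U :=
        fun x hx => ⟨fun ⟨_, h⟩ => h, fun h => ⟨hx, h⟩⟩
      have hU'N : U' ≤ N' := fun x ⟨h, _⟩ => h
      have hnorm : U'.Normal := by
        constructor
        intro a ha g
        obtain ⟨g, rfl⟩ := hmks g
        have h1 := hU g _ ((hmem a (hU'N ha)).mp ha)
        refine ⟨hNn'.conj_mem a (hU'N ha) _, ?_⟩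
        convert h1 using 1
        apply Additive.toMul.injective
        apply Subtype.ext
        exact (hψa g ⟨a, hU'N ha⟩).symm
      rcases hN'min U' hnorm hU'N with h | h
      · left
        rw [eq_bot_iff]
        intro x hx
        have : ((x.toMul : N') : A ⧸ Z) ∈ U' := (hmem _ (x.toMul).2).mpr hx
        rw [h, Subgroup.mem_bot] at this
        exact Subtype.ext this
      · right
        rw [eq_top_iff]
        intro x _
        have : ((x.toMul : N') : A ⧸ Z) ∈ U' := by rw [h]; exact (x.toMul).2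
        exact (hmem _ (x.toMul).2).mp this
  have hkerψ : ψ.ker = (Subgroup.centralizer (N' : Set (A ⧸ Z))).comap mk := by
    ext a
    rw [MonoidHom.mem_ker, Subgroup.mem_comap, Subgroup.mem_centralizer_iff]
    constructor
    · intro h x hx
      have h1 := hψa a ⟨x, hx⟩
      rw [h] at h1
      have h2 : x = mk a * x * (mk a)⁻¹ := h1
      rw [eq_mul_inv_iff_mul_eq] at h2
      exact h2
    · intro h
      apply end_ext
      intro x
      apply Additive.toMul.injective
      apply Subtype.ext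
      have h1 := hψa a x.toMul
      have h2 := h _ (x.toMul).2
      have h3 : (((ψ a x).toMul : N') : A ⧸ Z) = mk a * ((x.toMul : N') : A ⧸ Z) * (mk a)⁻¹ := h1
      rw [h3, ← h2, mul_inv_cancel_right]
      rfl
  have htwo := two_card (IH A (Additive N') ψ hodd hirr hlt)
  rw [hkerψ, Subgroup.index_comap_of_surjective _ hmks] at htwo
  have hcA : Nat.card (Additive N') = Nat.card N' := rfl
  rw [hcA] at htwo
  -- the contradiction
  have hinf : D' ⊓ N' = ⊥ := by
    rw [eq_bot_iff]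
    intro x hx
    obtain ⟨x, rfl⟩ := hmks x
    rw [Subgroup.mem_bot]
    have h1 : x ∈ Z := hcD x hx.1 (fun y hy => hND x hx.2 y hy)
    rw [← hker] at h1
    exact h1
  have hD'N' : D' ≤ Subgroup.centralizer (N' : Set (A ⧸ Z)) := by
    intro x hx
    obtain ⟨x, rfl⟩ := hmks x
    rw [Subgroup.mem_centralizer_iff]
    rintro y hy
    obtain ⟨y, rfl⟩ := hmks y
    rw [← map_mul, ← map_mul, hND y hy x hx]
  have hN'D' : N' ≤ Subgroup.centralizer (D' : Set (A ⧸ Z)) := Subgroup.le_centralizer_iff.mp hD'N'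
  have hN'N' : N' ≤ Subgroup.centralizer (N' : Set (A ⧸ Z)) := fun x hx =>
    Subgroup.mem_centralizer_iff.mpr (fun y hy => hN'ab y hy x hx)
  have hcsup : Subgroup.centralizer (D' : Set (A ⧸ Z)) ⊓ Subgroup.centralizer (N' : Set (A ⧸ Z)) ≤
      Subgroup.centralizer ((D' ⊔ N' : Subgroup (A ⧸ Z)) : Set (A ⧸ Z)) := by
    rw [Subgroup.le_centralizer_iff]
    apply sup_le
    · rw [Subgroup.le_centralizer_iff]
      exact inf_le_left
    · rw [Subgroup.le_centralizer_iff]
      exact inf_le_right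
  have hcard : Nat.card (D' ⊔ N' : Subgroup (A ⧸ Z)) = Nat.card D' * Nat.card N' := by
    have h1 := Subgroup.relIndex_mul_relIndex ⊥ N' (D' ⊔ N') bot_le le_sup_right
    rw [Subgroup.relIndex_bot_left, Subgroup.relIndex_bot_left, Subgroup.relIndex_sup_right,
      ← Subgroup.inf_relIndex_right, inf_comm, hinf, Subgroup.relIndex_bot_left] at h1
    rw [← h1, mul_comm]
  have hidx : (Subgroup.centralizer ((D' ⊔ N' : Subgroup (A ⧸ Z)) : Set (A ⧸ Z))).index ≤
      (Subgroup.centralizer (D' : Set (A ⧸ Z))).index *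
        (Subgroup.centralizer (N' : Set (A ⧸ Z))).index :=
    le_trans (Nat.le_of_dvd (Nat.pos_of_ne_zero Subgroup.index_ne_zero_of_finite)
      (Subgroup.index_dvd_of_le hcsup)) Subgroup.index_inf_le
  have hnew := hmax (y := D' ⊔ N') ⟨inferInstance, ?_, ?_, Or.inr ?_⟩ le_sup_left
  · apply hN'0
    rw [← hinf]
    exact (inf_eq_right.mpr (le_sup_right.trans hnew)).symm
  · -- commutes with Z
    intro x hx z hz
    have h1 : (D' ⊔ N').comap mk ≤ Subgroup.centralizer (Z : Set A) := by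
      have h2 : (D' ⊔ N').comap mk = D ⊔ N := by
        rw [← hDmap, ← hNmap, ← Subgroup.map_sup, hcm _ (hZD.trans le_sup_left)]
      rw [h2]
      apply sup_le
      · intro x hx
        exact Subgroup.mem_centralizer_iff.mpr (fun z hz => (hDC' x hx z hz).symm)
      · intro x hx
        exact Subgroup.mem_centralizer_iff.mpr (fun z hz => (hNC x hx z hz).symm)
    exact (Subgroup.mem_centralizer_iff.mp (h1 hx) z hz).symm
  · refine le_trans ?_ hcsup
    exact sup_le (le_inf hDab' hD'N') (le_inf hN'D' hN'N')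
  · rw [hcard, mul_pow]
    rcases hDi' with h | h
    · have h1 : (Subgroup.centralizer (D' : Set (A ⧸ Z))).index = 1 := by
        rw [h, Subgroup.index_eq_one, eq_top_iff]
        intro x _
        rw [Subgroup.mem_centralizer_iff]
        intro y hy
        rw [show y = 1 from hy, one_mul, mul_one]
      rw [h1, one_mul] at hidx
      have h2 : 1 ≤ Nat.card D' ^ 2 := Nat.one_le_pow _ _ Nat.card_pos
      calc 2 * _ ≤ 2 * (Subgroup.centralizer (N' : Set (A ⧸ Z))).index := Nat.mul_le_mul_left _ hidx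
        _ ≤ Nat.card N' ^ 2 := htwo
        _ ≤ Nat.card D' ^ 2 * Nat.card N' ^ 2 := Nat.le_mul_of_pos_left _ (by positivity)
    · calc 2 * _ ≤ 2 * ((Subgroup.centralizer (D' : Set (A ⧸ Z))).index *
          (Subgroup.centralizer (N' : Set (A ⧸ Z))).index) := Nat.mul_le_mul_left _ hidx
        _ ≤ (2 * (Subgroup.centralizer (D' : Set (A ⧸ Z))).index) *
          (2 * (Subgroup.centralizer (N' : Set (A ⧸ Z))).index) := by nlinarith
        _ ≤ Nat.card D' ^ 2 * Nat.card N' ^ 2 := Nat.mul_le_mul h htwo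

end

end H66.OddA
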