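import Mathlib
import Cfsg.Agent.Lib.H66.OddF
import Cfsg.Agent.Lib.H65.PBasic

/-! Small cases. -/

set_option linter.unusedSectionVars false
set_option linter.style.haveILetI false

namespace H66.OddA

open Subgroup

universe u v

theorem relIndex_ne {G : Type*} [Group G] [Finite G] (H L : Subgroup G) : H.relIndex L ≠ 0 := by
  rw [Subgroup.relIndex]
  exact Subgroup.index_ne_zero_of_finite

theorem conj_mod {Q : Type*} [Group Q] [Finite Q] (c : Q) (S : Set Q)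
    (hS : ∀ t ∈ S, c * t * c⁻¹ ∈ S) (ℓ : ℕ) [Fact ℓ.Prime]
    (hc : ∀ t ∈ S, c ^ ℓ * t = t * c ^ ℓ) :
    S.ncard ≡ {t | t ∈ S ∧ c * t = t * c}.ncard [MOD ℓ] := by
  classical
  letI := Fintype.ofFinite Q
  let f : Function.End S := fun t => ⟨c * t.1 * c⁻¹, hS t.1 t.2⟩
  have hpow : ∀ (k : ℕ) (t : S), ((f ^ k) t).1 = c ^ k * t.1 * (c ^ k)⁻¹ := by
    intro k
    induction k with
    | zero => intro t; simp; rfl
    | succ k ih =>
      intro t
      rw [pow_succ]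
      change ((f ^ k) (f t)).1 = _
      rw [ih, pow_succ]
      change c ^ k * (c * t.1 * c⁻¹) * (c ^ k)⁻¹ = _
      group
  have hf : f ^ ℓ ^ 1 = 1 := by
    funext t
    apply Subtype.ext
    rw [pow_one, hpow, hc t.1 t.2, mul_inv_cancel_right]
    rfl
  have h := Equiv.Perm.card_fixedPoints_modEq hf
  rw [← Nat.card_eq_fintype_card, ← Nat.card_eq_fintype_card] at h
  have h1 : Nat.card S = S.ncard := rfl
  have h2 : Nat.card f.fixedPoints = {t | t ∈ S ∧ c * t = t * c}.ncard := by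
    rw [← Nat.card_coe_set_eq]
    apply Nat.card_congr
    refine
      { toFun := fun t => ⟨t.1.1, t.1.2, ?_⟩
        invFun := fun t => ⟨⟨t.1, t.2.1⟩, ?_⟩
        left_inv := fun t => rfl
        right_inv := fun t => rfl }
    · have := congrArg Subtype.val t.2
      change c * t.1.1 * c⁻¹ = t.1.1 at this
      exact mul_inv_eq_iff_eq_mul.mp this
    · apply Subtype.ext
      change c * t.1 * c⁻¹ = t.1
      exact mul_inv_eq_iff_eq_mul.mpr t.2.2
  rw [h1, h2] at h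
  exact h

section

variable {A : Type u} [Group A] [Finite A]
variable {V : Type u} [AddCommGroup V] [Finite V]
variable {φ : A →* AddMonoid.End V} {Z : Subgroup A} {K : Type u} [Field K] [Module K V]

theorem fix_all [Z.Normal] (D : Subgroup A) [D.Normal]
    (hZD : Z ≤ D) (hDC : ∀ x ∈ D, ∀ z ∈ Z, x * z = z * x)
    (hDD : ∀ x ∈ D, ∀ y ∈ D, x * y * x⁻¹ * y⁻¹ ∈ Z)
    (hcen : ∀ x ∈ D, (∀ y ∈ D, x * y = y * x) → x ∈ Z)
    (q n ℓ : ℕ) [Fact q.Prime] [Fact ℓ.Prime] (hlq : ℓ ≠ q) (hl2 : ℓ ≠ 2)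
    (hw : Z.relIndex D = q ^ n) (hn : n = 2 ∨ (q = 3 ∧ n = 4))
    (c : A) (hcZ : ∀ z ∈ Z, c * z = z * c) (hcl : c ^ ℓ ∈ D) (x : A) (hx : x ∈ D) (hxZ : x ∉ Z)
    (hcx : c * x * c⁻¹ * x⁻¹ ∈ Z) : ∀ y ∈ D, c * y * c⁻¹ * y⁻¹ ∈ Z := by
  classical
  have hℓ : ℓ.Prime := Fact.out
  have hq : q.Prime := Fact.out
  set mk := QuotientGroup.mk' Z with hmk
  have hker : mk.ker = Z := QuotientGroup.ker_mk' Z
  set F : Subgroup A := D ⊓ (Subgroup.centralizer {mk c}).comap mk with hF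
  have hFm : ∀ y, y ∈ F ↔ y ∈ D ∧ mk c * mk y = mk y * mk c := by
    intro y
    rw [hF, Subgroup.mem_inf, Subgroup.mem_comap, Subgroup.mem_centralizer_iff]
    constructor
    · rintro ⟨h1, h2⟩
      exact ⟨h1, h2 _ rfl⟩
    · rintro ⟨h1, h2⟩
      refine ⟨h1, ?_⟩
      intro t ht
      rw [Set.mem_singleton_iff] at ht
      rw [ht, h2]
  set E : Subgroup A := D ⊓ Subgroup.centralizer {x} with hE
  have hEm : ∀ y, y ∈ E ↔ y ∈ D ∧ x * y = y * x := by
    intro y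
    rw [hE, Subgroup.mem_inf, Subgroup.mem_centralizer_iff]
    constructor
    · rintro ⟨h1, h2⟩
      exact ⟨h1, h2 _ rfl⟩
    · rintro ⟨h1, h2⟩
      refine ⟨h1, ?_⟩
      intro t ht
      rw [Set.mem_singleton_iff] at ht
      rw [ht, h2]
  have hDn : D.Normal := ‹_›
  -- commutator identities
  have hzc : c * x * c⁻¹ = (c * x * c⁻¹ * x⁻¹) * x := by group
  have hcom : ∀ y ∈ D, (c * x * c⁻¹) * y * (c * x * c⁻¹)⁻¹ = x * y * x⁻¹ := by
    intro y hy
    set z := c * x * c⁻¹ * x⁻¹ with hz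
    rw [hzc]
    have h1 : (x * y * x⁻¹) * z = z * (x * y * x⁻¹) := hDC _ (hDn.conj_mem y hy x) z hcx
    calc z * x * y * (z * x)⁻¹ = z * (x * y * x⁻¹) * z⁻¹ := by group
      _ = (x * y * x⁻¹) * z * z⁻¹ := by rw [h1]
      _ = x * y * x⁻¹ := by group
  have hcE : ∀ y ∈ E, c * y * c⁻¹ ∈ E := by
    intro y hy
    rw [hEm] at hy ⊢
    refine ⟨hDn.conj_mem y hy.1 c, ?_⟩
    have h1 := hcom (c * y * c⁻¹) (hDn.conj_mem y hy.1 c)
    have h2 : (c * x * c⁻¹) * (c * y * c⁻¹) * (c * x * c⁻¹)⁻¹ = c * (x * y * x⁻¹) * c⁻¹ := by group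
    have h3 : x * y * x⁻¹ = y := by rw [hy.2]; group
    rw [h2, h3] at h1
    exact (mul_inv_eq_iff_eq_mul.mp h1.symm)
  have hcy : ∀ y ∈ D, y⁻¹ * (c * y * c⁻¹) ∈ E := by
    intro y hy
    rw [hEm]
    have hyc := hDn.conj_mem y hy c
    refine ⟨D.mul_mem (D.inv_mem hy) hyc, ?_⟩
    have h1 := hcom (c * y * c⁻¹) hyc
    -- x yc x⁻¹ = c (x y x⁻¹) c⁻¹ = c ([x,y] y) c⁻¹ = [x,y] yc
    set w := x * y * x⁻¹ * y⁻¹ with hw
    have hwZ : w ∈ Z := hDD x hx y hy
    have h2 : (c * x * c⁻¹) * (c * y * c⁻¹) * (c * x * c⁻¹)⁻¹ = c * (w * y) * c⁻¹ := by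
      rw [hw]; group
    rw [h2] at h1
    have h3 : c * (w * y) * c⁻¹ = w * (c * y * c⁻¹) := by
      rw [← mul_assoc, hcZ w hwZ]; group
    rw [h3] at h1
    -- h1 : w * yc = x * yc * x⁻¹
    have h4 : x * y⁻¹ * x⁻¹ = y⁻¹ * w⁻¹ := by rw [hw]; group
    have h5 : x * (y⁻¹ * (c * y * c⁻¹)) * x⁻¹ = y⁻¹ * (c * y * c⁻¹) := by
      calc x * (y⁻¹ * (c * y * c⁻¹)) * x⁻¹ = (x * y⁻¹ * x⁻¹) * (x * (c * y * c⁻¹) * x⁻¹) := by group
        _ = (y⁻¹ * w⁻¹) * (w * (c * y * c⁻¹)) := by rw [h4, ← h1]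
        _ = _ := by group
    exact mul_inv_eq_iff_eq_mul.mp h5
  -- D̄ abelian
  have hDab : ∀ a ∈ D, ∀ b ∈ D, mk a * mk b = mk b * mk a := by
    intro a ha b hb
    rw [hmk, mk_comm]
    exact hDD a ha b hb
  have hZE : Z ≤ E := fun z hz => (hEm z).mpr ⟨hZD hz, hDC x hx z hz⟩
  have hED : E ≤ D := inf_le_left
  have hFD : F ≤ D := inf_le_left
  have hZF : Z ≤ F := by
    intro z hz
    rw [hFm]
    refine ⟨hZD hz, ?_⟩
    have : mk z = 1 := by
      rw [← MonoidHom.mem_ker, hker]; exact hz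
    rw [this, one_mul, mul_one]
  -- E is of q-power index over Z
  obtain ⟨j, hj, hj'⟩ : ∃ j ≤ n, Z.relIndex E = q ^ j := by
    have h1 : Z.relIndex E ∣ q ^ n := by
      rw [← hw, ← Subgroup.relIndex_mul_relIndex Z E D hZE hED]
      exact Dvd.intro _ rfl
    exact (Nat.dvd_prime_pow hq).mp h1
  -- Claim 1
  have claim1 : ∀ y ∈ D, ∃ e ∈ E, y * e ∈ F := by
    intro y hy
    set S : Set (A ⧸ Z) := (fun t => mk y * t) '' (E.map mk : Set (A ⧸ Z)) with hS
    have hScard : S.ncard = q ^ j := by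
      rw [hS, Set.ncard_image_of_injective _ (mul_right_injective _), ← hj',
        ← card_map_mk hZE]
      rfl
    have h1 := conj_mod (mk c) S (by
      rintro _ ⟨_, ⟨e, he, rfl⟩, rfl⟩
      refine ⟨mk ((y⁻¹ * (c * y * c⁻¹)) * (c * e * c⁻¹)), ⟨_, E.mul_mem (hcy y hy) (hcE e he), rfl⟩, ?_⟩
      change mk y * mk _ = mk c * (mk y * mk e) * (mk c)⁻¹
      rw [← map_mul, ← map_mul, ← map_mul, ← map_inv, ← map_mul]
      congr 1
      group) ℓ (by
      rintro _ ⟨_, ⟨e, he, rfl⟩, rfl⟩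
      change mk c ^ ℓ * (mk y * mk e) = mk y * mk e * mk c ^ ℓ
      rw [← map_pow, ← map_mul]
      exact hDab _ hcl _ (D.mul_mem hy (hED he)))
    rw [hScard] at h1
    have h2 : {t | t ∈ S ∧ mk c * t = t * mk c}.ncard ≠ 0 := by
      intro h0
      rw [h0] at h1
      have h3 : ℓ ∣ q ^ j := (Nat.modEq_zero_iff_dvd).mp h1
      exact hlq ((Nat.prime_dvd_prime_iff_eq hℓ hq).mp (hℓ.dvd_of_dvd_pow h3))
    obtain ⟨_, ⟨_, ⟨e, he, rfl⟩, rfl⟩, h4⟩ := Set.nonempty_of_ncard_ne_zero h2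
    refine ⟨e, he, ?_⟩
    rw [hFm]
    refine ⟨D.mul_mem hy (hED he), ?_⟩
    rw [map_mul]
    exact h4
  have hxF : x ∈ F := (hFm x).mpr ⟨hx, (mk_comm Z c x).mpr hcx⟩
  have hxE : x ∈ E := (hEm x).mpr ⟨hx, rfl⟩
  obtain ⟨i, hi, hi'⟩ : ∃ i ≤ n, Z.relIndex F = q ^ i := by
    have h1 : Z.relIndex F ∣ q ^ n := by
      rw [← hw, ← Subgroup.relIndex_mul_relIndex Z F D hZF hFD]
      exact Dvd.intro _ rfl
    exact (Nat.dvd_prime_pow hq).mp h1
  have hi2 : 2 ≤ i := by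
    have hZG : Z ≤ F ⊓ E := le_inf hZF hZE
    have h1 : Z.relIndex (F ⊓ E) * (F ⊓ E).relIndex F = q ^ i := by
      rw [Subgroup.relIndex_mul_relIndex Z (F ⊓ E) F hZG inf_le_left, hi']
    have hdvd : Z.relIndex (F ⊓ E) ∣ q ^ i := by rw [← h1]; exact Dvd.intro _ rfl
    have hdvd2 : (F ⊓ E).relIndex F ∣ q ^ i := by rw [← h1]; exact Dvd.intro_left _ rfl
    obtain ⟨a, ha, ha'⟩ := (Nat.dvd_prime_pow hq).mp hdvd
    obtain ⟨b, hb, hb'⟩ := (Nat.dvd_prime_pow hq).mp hdvd2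
    have ha1 : a ≠ 0 := by
      rintro rfl
      rw [pow_zero, Subgroup.relIndex_eq_one] at ha'
      exact hxZ (ha' ⟨hxF, hxE⟩)
    have hb1 : b ≠ 0 := by
      rintro rfl
      rw [pow_zero, Subgroup.relIndex_eq_one] at hb'
      -- F ≤ E, so D ≤ E
      apply hxZ
      apply hcen x hx
      intro y hy
      obtain ⟨e, he, hye⟩ := claim1 y hy
      have h2 : y * e ∈ E := (hb' hye).2
      have h3 : y ∈ E := by
        have := E.mul_mem h2 (E.inv_mem he)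
        rwa [mul_inv_cancel_right] at this
      exact ((hEm y).mp h3).2
    rw [ha', hb', ← pow_add] at h1
    have := Nat.pow_right_injective hq.two_le h1
    omega
  -- Claim 2
  have claim2 : q ^ n ≡ q ^ i [MOD ℓ] := by
    have h1 := conj_mod (mk c) (D.map mk : Set (A ⧸ Z)) (by
      rintro _ ⟨y, hy, rfl⟩
      refine ⟨c * y * c⁻¹, hDn.conj_mem y hy c, ?_⟩
      rw [map_mul, map_mul, map_inv]) ℓ (by
      rintro _ ⟨y, hy, rfl⟩
      rw [← map_pow]
      exact hDab _ hcl _ hy)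
    have h2 : ((D.map mk : Subgroup (A ⧸ Z)) : Set (A ⧸ Z)).ncard = q ^ n := by
      rw [← hw, ← card_map_mk hZD]
      rfl
    have h3 : {t | t ∈ ((D.map mk : Subgroup (A ⧸ Z)) : Set (A ⧸ Z)) ∧ mk c * t = t * mk c}.ncard =
        q ^ i := by
      rw [← hi', ← card_map_mk hZF]
      change _ = ((F.map mk : Subgroup (A ⧸ Z)) : Set (A ⧸ Z)).ncard
      congr 1
      ext t
      constructor
      · rintro ⟨⟨y, hy, rfl⟩, h⟩
        exact ⟨y, (hFm y).mpr ⟨hy, h⟩, rfl⟩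
      · rintro ⟨y, hy, rfl⟩
        have := (hFm y).mp hy
        exact ⟨⟨y, this.1, rfl⟩, this.2⟩
    rw [h2, h3] at h1
    exact h1
  have hin : i = n := by
    rcases hn with h | ⟨h3, h4⟩
    · omega
    · subst h3 h4
      have h5 : ℓ ∣ 3 ^ 4 - 3 ^ i := (Nat.modEq_iff_dvd' (Nat.pow_le_pow_right (by norm_num) hi)).mp
        claim2.symm
      have hl3 : ¬ ℓ ∣ 3 := fun h => hlq ((Nat.prime_dvd_prime_iff_eq hℓ hq).mp h)
      have hl2' : ¬ ℓ ∣ 2 := fun h => hl2 ((Nat.prime_dvd_prime_iff_eq hℓ Nat.prime_two).mp h)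
      interval_cases i
      · exfalso
        have h6 : (3 ^ 4 - 3 ^ 2 : ℕ) = 2 ^ 3 * 3 ^ 2 := by norm_num
        rw [h6] at h5
        rcases hℓ.dvd_mul.mp h5 with h | h
        · exact hl2' (hℓ.dvd_of_dvd_pow h)
        · exact hl3 (hℓ.dvd_of_dvd_pow h)
      · exfalso
        have h6 : (3 ^ 4 - 3 ^ 3 : ℕ) = 2 * 3 ^ 3 := by norm_num
        rw [h6] at h5
        rcases hℓ.dvd_mul.mp h5 with h | h
        · exact hl2' h
        · exact hl3 (hℓ.dvd_of_dvd_pow h)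
      · rfl
  have hFeq : D ≤ F := by
    have h1 := Subgroup.relIndex_mul_relIndex Z F D hZF hFD
    rw [hi', hw, hin] at h1
    have h2 : F.relIndex D = 1 := by
      have hpos : 0 < q ^ n := pow_pos hq.pos n
      exact Nat.eq_of_mul_eq_mul_left hpos (by rw [h1, mul_one])
    exact Subgroup.relIndex_eq_one.mp h2
  intro y hy
  rw [← mk_comm]
  exact ((hFm y).mp (hFeq hy)).2

/-- `C ∩ CW D = D`. -/
theorem inf_CW [Nontrivial V] [Z.Normal] (Pk : Pack φ Z K) (hφ : Function.Injective φ)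
    (D : Subgroup A)
    (hZD : Z ≤ D) (hDC : ∀ x ∈ D, ∀ z ∈ Z, x * z = z * x)
    (hDD : ∀ x ∈ D, ∀ y ∈ D, x * y * x⁻¹ * y⁻¹ ∈ Z)
    (hCD : ∀ g : A, (∀ x ∈ D, g * x = x * g) → g ∈ Z) :
    Subgroup.centralizer (Z : Set A) ⊓ CW Z D = D := by
  set P1 := Subgroup.centralizer (Z : Set A) ⊓ CW Z D with hP1
  have hDP : D ≤ P1 := by
    intro x hx
    refine ⟨?_, ?_⟩
    · exact Subgroup.mem_centralizer_iff.mpr (fun z hz => (hDC x hx z hz).symm)
    · exact mem_CW.mpr (fun y hy => hDD x hx y hy)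
  have hle : Z.relIndex P1 ≤ Z.relIndex D := by
    apply pair_le Pk hφ P1 Z D Z
    · exact fun p hp x hx => (mem_CW.mp hp.2) x hx
    · exact hDC
    · exact fun p hp z hz => (Subgroup.mem_centralizer_iff.mp hp.1 z hz).symm
    · exact fun p _ h => hCD p h
  have h1 := Subgroup.relIndex_mul_relIndex Z D P1 hZD hDP
  have hpos : 0 < Z.relIndex D := Nat.pos_of_ne_zero (relIndex_ne _ _)
  have h2 : D.relIndex P1 ≤ 1 := by
    by_contra hcon
    push Not at hcon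
    have : Z.relIndex D * 2 ≤ Z.relIndex D := by
      calc Z.relIndex D * 2 ≤ Z.relIndex D * D.relIndex P1 := Nat.mul_le_mul_left _ hcon
        _ ≤ _ := by rw [h1]; exact hle
    omega
  have h3 : D.relIndex P1 = 1 := by
    have : D.relIndex P1 ≠ 0 := (relIndex_ne _ _)
    omega
  exact le_antisymm (Subgroup.relIndex_eq_one.mp h3) hDP

/-- normal `q`-sections above `D` are trivial. -/
theorem no_q_core [Nontrivial V] [Z.Normal] (Pk : Pack φ Z K) (hφ : Function.Injective φ)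
    (hZmax : ∀ Z' : Subgroup A, Z'.Normal → (∀ x ∈ Z', ∀ y ∈ Z', x * y = y * x) → Z ≤ Z' →
      Z' ≤ Z)
    (D : Subgroup A) [D.Normal]
    (hZD : Z ≤ D) (hDC : ∀ x ∈ D, ∀ z ∈ Z, x * z = z * x)
    (hDD : ∀ x ∈ D, ∀ y ∈ D, x * y * x⁻¹ * y⁻¹ ∈ Z)
    (hCD : ∀ g : A, (∀ x ∈ D, g * x = x * g) → g ∈ Z)
    (q : ℕ) [Fact q.Prime] (S : Subgroup A) [S.Normal] (hDS : D ≤ S)
    (hSC : S ≤ Subgroup.centralizer (Z : Set A))
    (hSp : IsPGroup q (S.map (QuotientGroup.mk' Z))) : S ≤ D := by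
  classical
  set mk := QuotientGroup.mk' Z with hmk
  have hmks : Function.Surjective mk := QuotientGroup.mk'_surjective Z
  have hker : mk.ker = Z := QuotientGroup.ker_mk' Z
  haveI hCWn : (CW Z S).Normal := by
    rw [CW]
    haveI : (S.map (QuotientGroup.mk' Z)).Normal := Subgroup.Normal.map ‹_› _ hmks
    infer_instance
  set U := D ⊓ CW Z S with hU
  haveI : U.Normal := inferInstance
  have hUD : U ≤ D := inf_le_left
  have hZU : Z ≤ U := by
    intro z hz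
    refine ⟨hZD hz, mem_CW.mpr (fun x hx => ?_)⟩
    have h1 := Subgroup.mem_centralizer_iff.mp (hSC hx) z hz
    rw [h1]
    simpa using Z.one_mem
  set E := D ⊓ Subgroup.centralizer (U : Set A) with hE
  haveI : E.Normal := inferInstance
  have hED : E ≤ D := inf_le_left
  have hZE : Z ≤ E := fun z hz => ⟨hZD hz, Subgroup.mem_centralizer_iff.mpr
    (fun x hx => hDC x (hUD hx) z hz)⟩
  have hEU : E ⊓ U ≤ Z := by
    apply hZmax
    · infer_instance
    · rintro a ⟨ha, _⟩ b ⟨_, hb⟩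
      exact (Subgroup.mem_centralizer_iff.mp ha.2 b hb).symm
    · exact le_inf hZE hZU
  have hEZ : E ≤ Z := by
    by_contra hcon
    have hE0 : E.map mk ≠ ⊥ := by
      rw [Ne, Subgroup.map_eq_bot_iff, hker]
      exact hcon
    -- inside the p-group S.map mk
    set Sb := S.map mk with hSb
    have hEb : E.map mk ≤ Sb := Subgroup.map_mono (hED.trans hDS)
    set N := (E.map mk).subgroupOf Sb with hN
    haveI : (E.map mk).Normal := Subgroup.Normal.map ‹_› _ hmks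
    haveI : N.Normal := inferInstance
    have hN0 : N ≠ ⊥ := by
      intro h
      rw [hN, Subgroup.subgroupOf_eq_bot] at h
      apply hE0
      rw [eq_bot_iff]
      exact fun t ht => h.le_bot ⟨ht, hEb ht⟩
    have h1 := H65.PBasic.inf_center_ne_bot hSp N hN0
    obtain ⟨⟨t, ht⟩, ht1⟩ := (Subgroup.ne_bot_iff_exists_ne_one).mp h1
    obtain ⟨e, he, heq⟩ : ∃ e ∈ E, mk e = (t : A ⧸ Z) := by
      obtain ⟨e, he, heq⟩ := ht.1
      exact ⟨e, he, heq⟩
    have heU : e ∈ U := by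
      refine ⟨hED he, mem_CW.mpr (fun s hs => ?_)⟩
      rw [← mk_comm]
      have h2 := Subgroup.mem_center_iff.mp ht.2 ⟨mk s, ⟨s, hs, rfl⟩⟩
      have h3 := congrArg Subtype.val h2
      change mk s * (t : A ⧸ Z) = (t : A ⧸ Z) * mk s at h3
      rw [← heq] at h3
      exact h3.symm
    have heZ : e ∈ Z := hEU ⟨he, heU⟩
    apply ht1
    apply Subtype.ext
    apply Subtype.ext
    change (t : A ⧸ Z) = 1
    rw [← heq, ← MonoidHom.mem_ker, hker]
    exact heZ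
  have hle : Z.relIndex D ≤ Z.relIndex U := by
    apply pair_le Pk hφ D Z U Z
    · exact fun p hp x hx => hDD p hp x (hUD hx)
    · exact fun x hx z hz => hDC x (hUD hx) z hz
    · exact fun p hp z hz => hDC p hp z hz
    · intro p hp h
      exact hEZ ⟨hp, Subgroup.mem_centralizer_iff.mpr (fun x hx => (h x hx).symm)⟩
  have hUeq : D ≤ U := by
    have h1 := Subgroup.relIndex_mul_relIndex Z U D hZU hUD
    have hpos : 0 < Z.relIndex U := Nat.pos_of_ne_zero (relIndex_ne _ _)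
    have h2 : U.relIndex D ≤ 1 := by
      by_contra hcon
      push Not at hcon
      have : Z.relIndex U * 2 ≤ Z.relIndex U := by
        calc Z.relIndex U * 2 ≤ Z.relIndex U * U.relIndex D := Nat.mul_le_mul_left _ hcon
          _ ≤ _ := by rw [h1]; exact hle
      omega
    have h3 : U.relIndex D = 1 := by
      have : U.relIndex D ≠ 0 := (relIndex_ne _ _)
      omega
    exact Subgroup.relIndex_eq_one.mp h3
  rw [← inf_CW Pk hφ D hZD hDC hDD hCD]
  refine le_inf hSC ?_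
  intro s hs
  rw [mem_CW]
  intro x hx
  have h1 := mem_CW.mp (hUeq hx).2 s hs
  rw [← mk_comm] at h1 ⊢
  exact h1.symm

end

end H66.OddA
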