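import Mathlib
import Cfsg.Agent.Lib.H66.OddG

/-! Small cases, second part: the order of `C / D`. -/

set_option linter.unusedSectionVars false
set_option linter.style.haveILetI false

namespace H66.OddA

open Subgroup

universe u v

/-- an odd order group acting by conjugation on a normal subgroup of order nine has a nontrivial
fixed point. -/
theorem odd_fix9 {Q : Type*} [Group Q] [Finite Q] (hodd : Odd (Nat.card Q)) (W : Subgroup Q)
    [W.Normal] (hW : Nat.card W = 9) : ∃ t ∈ W, t ≠ 1 ∧ ∀ g : Q, g * t * g⁻¹ = t := by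
  classical
  by_contra hcon
  push Not at hcon
  have hWn : W.Normal := ‹_›
  let O : Q → Set Q := fun t => MulAction.orbit (ConjAct Q) t
  have hO : ∀ t s, s ∈ O t ↔ ∃ g : Q, g * t * g⁻¹ = s := by
    intro t s
    constructor
    · rintro ⟨g, rfl⟩
      exact ⟨ConjAct.ofConjAct g, by simp [ConjAct.smul_def]⟩
    · rintro ⟨g, rfl⟩
      exact ⟨ConjAct.toConjAct g, by simp [ConjAct.smul_def]⟩
  have hOodd : ∀ t, Odd (O t).ncard := by
    intro t
    have h1 : (MulAction.stabilizer (ConjAct Q) t).index = (O t).ncard :=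
      MulAction.index_stabilizer (ConjAct Q) t
    rw [← h1]
    exact hodd.of_dvd_nat (Subgroup.index_dvd_card _)
  have hself : ∀ t, t ∈ O t := fun t => (hO t t).mpr ⟨1, by simp⟩
  have hOW : ∀ t ∈ W, O t ⊆ W := by
    rintro t ht s hs
    obtain ⟨g, rfl⟩ := (hO t s).mp hs
    exact hWn.conj_mem t ht g
  have hO3 : ∀ t ∈ W, t ≠ 1 → 3 ≤ (O t).ncard := by
    intro t ht ht1
    obtain ⟨g, hg⟩ := hcon t ht ht1
    have h1 : 1 < (O t).ncard := by
      rw [Set.one_lt_ncard]
      exact ⟨_, (hO t _).mpr ⟨g, rfl⟩, t, hself t, hg⟩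
    obtain ⟨k, hk⟩ := hOodd t
    omega
  have hinv : ∀ t, t ≠ 1 → t⁻¹ ∉ O t := by
    intro t ht hmem
    obtain ⟨g, hg⟩ := (hO t _).mp hmem
    have h2 : g * (g * t * g⁻¹) * g⁻¹ = t := by
      rw [hg]
      calc g * t⁻¹ * g⁻¹ = (g * t * g⁻¹)⁻¹ := by group
        _ = t := by rw [hg, inv_inv]
    have hc : Commute (g ^ 2) t := by
      have : g ^ 2 * t * (g ^ 2)⁻¹ = t := by
        calc g ^ 2 * t * (g ^ 2)⁻¹ = g * (g * t * g⁻¹) * g⁻¹ := by rw [pow_two]; group
          _ = t := h2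
      exact mul_inv_eq_iff_eq_mul.mp this
    obtain ⟨j, hj⟩ := mem_zpowers_sq hodd g
    have hc2 := hc.pow_left j
    rw [hj] at hc2
    have h3 : g * t * g⁻¹ = t := by rw [hc2.eq]; group
    rw [h3] at hg
    apply ht
    apply eq_one_of_sq hodd
    nth_rewrite 1 [hg]
    simp
  have hdisj : ∀ t s, s ∉ O t → Disjoint (O t) (O s) := by
    intro t s hs
    rw [Set.disjoint_left]
    intro r hr hr'
    apply hs
    have e1 := MulAction.orbit_eq_iff.mpr hr
    have e2 := MulAction.orbit_eq_iff.mpr hr'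
    change s ∈ MulAction.orbit (ConjAct Q) t
    rw [← e1, e2]
    exact hself s
  have hOinv : ∀ t, (O t⁻¹).ncard = (O t).ncard := by
    intro t
    have : O t⁻¹ = (fun s => s⁻¹) '' (O t) := by
      ext s
      rw [hO]
      constructor
      · rintro ⟨g, rfl⟩
        exact ⟨g * t * g⁻¹, (hO t _).mpr ⟨g, rfl⟩, by group⟩
      · rintro ⟨r, hr, rfl⟩
        obtain ⟨g, rfl⟩ := (hO t r).mp hr
        exact ⟨g, by group⟩
    rw [this, Set.ncard_image_of_injective _ inv_injective]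
  -- pick t
  have hWb : W ≠ ⊥ := by
    intro h
    rw [h, Subgroup.card_bot] at hW
    norm_num at hW
  obtain ⟨⟨t, ht⟩, ht1'⟩ := (Subgroup.ne_bot_iff_exists_ne_one).mp hWb
  have ht1 : t ≠ 1 := fun h => ht1' (Subtype.ext h)
  have hti : t⁻¹ ≠ 1 := fun h => ht1 (inv_eq_one.mp h)
  have h1O : ∀ s, s ≠ 1 → (1 : Q) ∉ O s := by
    intro s hs h
    obtain ⟨g, hg⟩ := (hO s 1).mp h
    apply hs
    rw [mul_inv_eq_one] at hg
    exact mul_left_cancel (a := g) (by rw [hg, mul_one])
  have hWc : (W : Set Q).ncard = 9 := hW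
  set S1 : Set Q := O t ∪ O t⁻¹ with hS1
  have hd1 : Disjoint (O t) (O t⁻¹) := hdisj t t⁻¹ (hinv t ht1)
  have hS1c : S1.ncard = 2 * (O t).ncard := by
    rw [hS1, Set.ncard_union_eq hd1, hOinv, two_mul]
  have h1S : (1 : Q) ∉ S1 := by
    rintro (h | h)
    · exact h1O t ht1 h
    · exact h1O _ hti h
  have hS2c : (insert 1 S1 : Set Q).ncard = 2 * (O t).ncard + 1 := by
    rw [Set.ncard_insert_of_notMem h1S, hS1c]
  have hS2W : (insert 1 S1 : Set Q) ⊆ W := by
    rintro s (rfl | h | h)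
    · exact W.one_mem
    · exact hOW t ht h
    · exact hOW _ (W.inv_mem ht) h
  have h3 := hO3 t ht ht1
  by_cases hall : (W : Set Q) ⊆ insert 1 S1
  · have h4 : (W : Set Q) = insert 1 S1 := Set.Subset.antisymm hall hS2W
    rw [← h4, hWc] at hS2c
    obtain ⟨k, hk⟩ := hOodd t
    omega
  · obtain ⟨s, hsW, hs⟩ := Set.not_subset.mp hall
    have hs1 : s ≠ 1 := fun h => hs (Or.inl h)
    have hst : s ∉ O t := fun h => hs (Or.inr (Or.inl h))
    have hst' : s ∉ O t⁻¹ := fun h => hs (Or.inr (Or.inr h))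
    have hd : Disjoint (insert 1 S1 : Set Q) (O s) := by
      rw [Set.disjoint_left]
      rintro r (rfl | h | h) hr
      · exact h1O s hs1 hr
      · exact Set.disjoint_left.mp (hdisj t s hst) h hr
      · exact Set.disjoint_left.mp (hdisj t⁻¹ s hst') h hr
    have h5 : (insert 1 S1 ∪ O s : Set Q).ncard ≤ 9 := by
      rw [← hWc]
      exact Set.ncard_le_ncard (Set.union_subset hS2W (hOW s hsW))
    rw [Set.ncard_union_eq hd, hS2c] at h5
    have h6 := hO3 s hsW hs1
    omega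

section

variable {A : Type u} [Group A] [Finite A]
variable {V : Type u} [AddCommGroup V] [Finite V]
variable {φ : A →* AddMonoid.End V} {Z : Subgroup A} {K : Type u} [Field K] [Module K V]

/-- index nine is impossible. -/
theorem not_nine [Z.Normal] (hodd : Odd (Nat.card A))
    (hZmax : ∀ Z' : Subgroup A, Z'.Normal → (∀ x ∈ Z', ∀ y ∈ Z', x * y = y * x) → Z ≤ Z' →
      Z' ≤ Z) (hab : ∀ x ∈ Z, ∀ y ∈ Z, x * y = y * x)
    (D : Subgroup A) [D.Normal]
    (hZD : Z ≤ D) (hDC : ∀ x ∈ D, ∀ z ∈ Z, x * z = z * x) : Z.relIndex D ≠ 9 := by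
  intro hw
  set mk := QuotientGroup.mk' Z with hmk
  have hmks : Function.Surjective mk := QuotientGroup.mk'_surjective Z
  have hker : mk.ker = Z := QuotientGroup.ker_mk' Z
  haveI : (D.map mk).Normal := Subgroup.Normal.map ‹_› _ hmks
  have hoddQ : Odd (Nat.card (A ⧸ Z)) := by
    have : Nat.card (A ⧸ Z) ∣ Nat.card A := by
      rw [← Subgroup.index]
      exact Z.index_dvd_card
    exact hodd.of_dvd_nat this
  obtain ⟨t, ht, ht1, htc⟩ := odd_fix9 hoddQ (D.map mk) (by rw [card_map_mk hZD, hw])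
  obtain ⟨x, hx, rfl⟩ := ht
  have hxZ : x ∉ Z := by
    intro h
    apply ht1
    rw [← MonoidHom.mem_ker, hker]
    exact h
  apply hxZ
  set L := (Subgroup.zpowers (mk x)).comap mk with hL
  have hLx : ∀ a ∈ L, ∃ (i : ℤ) (z : A), z ∈ Z ∧ a = x ^ i * z := by
    intro a ha
    obtain ⟨i, hi⟩ := Subgroup.mem_zpowers_iff.mp (show mk a ∈ Subgroup.zpowers (mk x) from ha)
    refine ⟨i, (x ^ i)⁻¹ * a, ?_, by group⟩
    rw [← hker, MonoidHom.mem_ker, map_mul, map_inv, map_zpow, hi]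
    group
  have hxz : ∀ (i : ℤ), ∀ z ∈ Z, x ^ i * z = z * x ^ i := by
    intro i z hz
    exact (Commute.zpow_left (hDC x hx z hz : Commute x z) i)
  apply hZmax L
  · constructor
    intro a ha g
    change mk (g * a * g⁻¹) ∈ Subgroup.zpowers (mk x)
    obtain ⟨i, hi⟩ := Subgroup.mem_zpowers_iff.mp (show mk a ∈ Subgroup.zpowers (mk x) from ha)
    rw [map_mul, map_mul, map_inv, ← hi]
    have h1 : mk g * mk x ^ i * (mk g)⁻¹ = (mk g * mk x * (mk g)⁻¹) ^ i := by
      rw [conj_zpow]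
    rw [h1, htc]
    exact ⟨i, rfl⟩
  · intro a ha b hb
    obtain ⟨i, z, hz, rfl⟩ := hLx a ha
    obtain ⟨j, z', hz', rfl⟩ := hLx b hb
    calc x ^ i * z * (x ^ j * z') = x ^ i * (z * x ^ j) * z' := by group
      _ = x ^ i * (x ^ j * z) * z' := by rw [hxz j z hz]
      _ = x ^ (i + j) * (z * z') := by rw [zpow_add]; group
      _ = x ^ (j + i) * (z' * z) := by rw [hab z hz z' hz', add_comm]
      _ = x ^ j * (x ^ i * z') * z := by rw [zpow_add]; group
      _ = x ^ j * (z' * x ^ i) * z := by rw [hxz i z' hz']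
      _ = x ^ j * z' * (x ^ i * z) := by group
  · intro z hz
    change mk z ∈ Subgroup.zpowers (mk x)
    have : mk z = 1 := by rw [← MonoidHom.mem_ker, hker]; exact hz
    rw [this]
    exact Subgroup.one_mem _
  · change mk x ∈ Subgroup.zpowers (mk x)
    exact Subgroup.mem_zpowers _

/-- the order of `C / D` when `D / Z` has order `q ^ 2` or `3 ^ 4`. -/
theorem small_card [Nontrivial V] [Z.Normal] (Pk : Pack φ Z K) (hφ : Function.Injective φ)
    (hodd : Odd (Nat.card A))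
    (hZmax : ∀ Z' : Subgroup A, Z'.Normal → (∀ x ∈ Z', ∀ y ∈ Z', x * y = y * x) → Z ≤ Z' →
      Z' ≤ Z)
    (D : Subgroup A) [D.Normal]
    (hZD : Z ≤ D) (hDC : ∀ x ∈ D, ∀ z ∈ Z, x * z = z * x)
    (hDD : ∀ x ∈ D, ∀ y ∈ D, x * y * x⁻¹ * y⁻¹ ∈ Z)
    (hCD : ∀ g : A, (∀ x ∈ D, g * x = x * g) → g ∈ Z)
    (q n : ℕ) [Fact q.Prime] (hw : Z.relIndex D = q ^ n) (hn : n = 2 ∨ (q = 3 ∧ n = 4))
    (hsyl : ∀ m, m ∣ q ^ n - 1 → Odd m → ∀ k, k ∣ m → k ≡ 1 [MOD q] → k = 1) :
    D.relIndex (Subgroup.centralizer (Z : Set A)) ∣ q ^ n - 1 := by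
  classical
  have hq : q.Prime := Fact.out
  set mk := QuotientGroup.mk' Z with hmk
  have hmks : Function.Surjective mk := QuotientGroup.mk'_surjective Z
  have hker : mk.ker = Z := QuotientGroup.ker_mk' Z
  set C := Subgroup.centralizer (Z : Set A) with hC
  haveI hCn : C.Normal := inferInstance
  have hDn : D.Normal := ‹_›
  haveI : (D.map mk).Normal := Subgroup.Normal.map ‹_› _ hmks
  set W := D.map mk with hW
  let θ0 : C →* MulAut W := (MulAut.conjNormal : (A ⧸ Z) →* MulAut W).comp (mk.comp C.subtype)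
  have hθ0 : ∀ (c : C) (t : W), ((θ0 c t : W) : A ⧸ Z) = mk c * t * (mk c)⁻¹ := fun c t =>
    MulAut.conjNormal_apply _ _
  let Θ : Subgroup (MulAut W) := θ0.range
  let θ : C →* Θ := θ0.rangeRestrict
  have hθs : Function.Surjective θ := θ0.rangeRestrict_surjective
  have hkerθ : ∀ c : C, θ c = 1 ↔ (c : A) ∈ D := by
    intro c
    have h1 : θ c = 1 ↔ θ0 c = 1 := by
      constructor
      · intro h
        exact congrArg Subtype.val h
      · intro h
        exact Subtype.ext h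
    rw [h1]
    constructor
    · intro h
      rw [← inf_CW Pk hφ D hZD hDC hDD hCD]
      refine ⟨c.2, mem_CW.mpr (fun x hx => ?_)⟩
      rw [← mk_comm]
      have h2 := hθ0 c ⟨mk x, ⟨x, hx, rfl⟩⟩
      rw [h] at h2
      exact (mul_inv_eq_iff_eq_mul.mp h2.symm)
    · intro h
      ext t
      obtain ⟨x, hx, hxt⟩ := t.2
      rw [hθ0, ← hxt]
      have h3 := (mk_comm Z (c : A) x).mpr (hDD c h x hx)
      change mk (c : A) * mk x * (mk (c : A))⁻¹ = _
      rw [h3, mul_inv_cancel_right]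
      exact hxt
  have hcardΘ : Nat.card Θ = D.relIndex C := by
    rw [Subgroup.relIndex, ← Subgroup.index_ker]
    congr 1
    ext c
    rw [MonoidHom.mem_ker, Subgroup.mem_subgroupOf, ← hkerθ]
    constructor
    · intro h
      exact Subtype.ext h
    · intro h
      exact congrArg Subtype.val h
  have hoddΘ : Odd (Nat.card Θ) := by
    rw [hcardΘ]
    exact hodd.of_dvd_nat ((Subgroup.relIndex_dvd_card D C).trans C.card_subgroup_dvd_card)
  -- stabilizers
  have hstab : ∀ t : W, t ≠ 1 → ∃ j, Nat.card (MulAction.stabilizer Θ t) = q ^ j := by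
    intro t ht
    refine ⟨_, Nat.eq_prime_pow_of_unique_prime_dvd (p := q) Nat.card_pos.ne' ?_⟩
    intro ℓ hℓ hdvd
    by_contra hlq
    haveI : Fact ℓ.Prime := ⟨hℓ⟩
    obtain ⟨g, hg⟩ := exists_prime_orderOf_dvd_card' ℓ hdvd
    obtain ⟨c, hc⟩ := hθs (g : Θ)
    have hgℓ : (g : Θ) ^ ℓ = 1 := by
      have : g ^ ℓ = 1 := by rw [← hg, pow_orderOf_eq_one]
      exact congrArg Subtype.val this
    have hcl : ((c ^ ℓ : C) : A) ∈ D := by
      rw [← hkerθ, map_pow, hc, hgℓ]
    obtain ⟨x, hx, hxt⟩ := t.2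
    have hxZ : x ∉ Z := by
      intro h
      apply ht
      apply Subtype.ext
      rw [← hxt]
      change mk x = 1
      rw [← MonoidHom.mem_ker, hker]
      exact h
    have hgt : (g : Θ) • t = t := g.2
    rw [← hc] at hgt
    have h1 : θ0 c t = t := hgt
    have h2 := hθ0 c t
    rw [h1, ← hxt] at h2
    have h3 : mk (c : A) * mk x = mk x * mk (c : A) := (mul_inv_eq_iff_eq_mul.mp h2.symm)
    have hl2 : ℓ ≠ 2 := by
      rintro rfl
      have h4 : 2 ∣ Nat.card Θ := hdvd.trans (Subgroup.card_subgroup_dvd_card _)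
      exact (Nat.not_even_iff_odd.mpr hoddΘ) (even_iff_two_dvd.mpr h4)
    have hall := fix_all D hZD hDC hDD (fun x _ h => hCD x h) q n ℓ hlq hl2 hw hn (c : A)
      (fun z hz => (Subgroup.mem_centralizer_iff.mp c.2 z hz).symm) (by exact_mod_cast hcl)
      x hx hxZ ((mk_comm Z (c : A) x).mp h3)
    have hcD : (c : A) ∈ D := by
      rw [← inf_CW Pk hφ D hZD hDC hDD hCD]
      exact ⟨c.2, mem_CW.mpr hall⟩
    have h5 : (g : Θ) = 1 := by
      rw [← hc, hkerθ]
      exact hcD
    have h6 : g = 1 := Subtype.ext h5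
    rw [h6, orderOf_one] at hg
    exact hℓ.one_lt.ne hg
  -- the q'-part
  obtain ⟨a, m, hqm, ham⟩ : ∃ a m, ¬ q ∣ m ∧ Nat.card Θ = q ^ a * m :=
    Nat.exists_eq_pow_mul_and_not_dvd Nat.card_pos.ne' q hq.ne_one
  have hmodd : Odd m := hoddΘ.of_dvd_nat (by rw [ham]; exact Dvd.intro_left _ rfl)
  have hmdvd : m ∣ q ^ n - 1 := by
    letI := Fintype.ofFinite Θ
    letI := Fintype.ofFinite W
    letI : Fintype (Quotient (MulAction.orbitRel Θ W)) := Fintype.ofFinite _
    letI : ∀ b : W, Fintype (MulAction.stabilizer Θ b) := fun b => Fintype.ofFinite _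
    have hcf := MulAction.card_eq_sum_card_group_div_card_stabilizer Θ W
    set ω0 : Quotient (MulAction.orbitRel Θ W) := Quotient.mk'' 1 with hω0
    have hout0 : ω0.out = 1 := by
      have h1 : (MulAction.orbitRel Θ W).r ω0.out 1 := by
        have := Quotient.mk_out (s := MulAction.orbitRel Θ W) (1 : W)
        exact this
      obtain ⟨g, hg⟩ := h1
      rw [← hg]
      change (g : MulAut W) 1 = 1
      exact map_one _
    rw [← Finset.add_sum_erase _ _ (Finset.mem_univ ω0)] at hcf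
    have hterm0 : Fintype.card Θ / Fintype.card (MulAction.stabilizer Θ ω0.out) = 1 := by
      have h1 : Fintype.card (MulAction.stabilizer Θ ω0.out) = Fintype.card Θ := by
        rw [← Nat.card_eq_fintype_card, ← Nat.card_eq_fintype_card]
        have h2 : MulAction.stabilizer Θ ω0.out = ⊤ := by
          rw [eq_top_iff]
          intro g _
          rw [MulAction.mem_stabilizer_iff, hout0]
          change (g : MulAut W) 1 = 1
          exact map_one _
        rw [h2, Subgroup.card_top]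
      rw [h1, Nat.div_self Fintype.card_pos]
    rw [hterm0] at hcf
    have hsum : m ∣ ∑ ω ∈ Finset.univ.erase ω0,
        Fintype.card Θ / Fintype.card (MulAction.stabilizer Θ ω.out) := by
      apply Finset.dvd_sum
      intro ω hω
      rw [Finset.mem_erase] at hω
      have hne : ω.out ≠ 1 := by
        intro h
        apply hω.1
        rw [← Quotient.out_eq ω, h]
      obtain ⟨j, hj⟩ := hstab ω.out hne
      rw [← Nat.card_eq_fintype_card, ← Nat.card_eq_fintype_card, hj]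
      have h1 : q ^ j ∣ Nat.card Θ := by
        rw [← hj]
        exact Subgroup.card_subgroup_dvd_card _
      have h2 : m ∣ (Nat.card Θ / q ^ j) * q ^ j := by
        rw [Nat.div_mul_cancel h1, ham]
        exact Dvd.intro_left _ rfl
      exact Nat.Coprime.dvd_of_dvd_mul_right
        (Nat.Coprime.pow_right j ((Nat.Prime.coprime_iff_not_dvd hq).mpr hqm).symm) h2
    have hWc : Fintype.card W = q ^ n := by
      rw [← Nat.card_eq_fintype_card, ← hw, hW, card_map_mk hZD]
    rw [hWc] at hcf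
    rw [hcf, Nat.add_sub_cancel_left]
    exact hsum
  -- the Sylow q-subgroup is normal
  obtain ⟨P⟩ : Nonempty (Sylow q Θ) := inferInstance
  have hPi : (P : Subgroup Θ).index ∣ m := by
    have h1 : (P : Subgroup Θ).index ∣ q ^ a * m := by
      rw [← ham]; exact Subgroup.index_dvd_card _
    exact Nat.Coprime.dvd_of_dvd_mul_left
      (Nat.Coprime.pow_right a ((Nat.Prime.coprime_iff_not_dvd hq).mpr P.not_dvd_index).symm) h1
  have hcS : Nat.card (Sylow q Θ) = 1 :=
    hsyl m hmdvd hmodd _ (P.card_dvd_index.trans hPi) (card_sylow_modEq_one q Θ)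
  haveI : Subsingleton (Sylow q Θ) := (Nat.card_eq_one_iff_unique.mp hcS).1
  have hPmem : ∀ (g : Θ) (k : ℕ), g ^ q ^ k = 1 → g ∈ (P : Subgroup Θ) := by
    intro g k hg
    have h1 : IsPGroup q (Subgroup.zpowers g) := by
      rintro ⟨_, i, rfl⟩
      refine ⟨k, ?_⟩
      apply Subtype.ext
      change (g ^ i) ^ q ^ k = 1
      rw [← zpow_natCast, ← zpow_mul, mul_comm, zpow_mul, zpow_natCast, hg, one_zpow]
    obtain ⟨Q, hQ⟩ := h1.exists_le_sylow
    rw [Subsingleton.elim Q P] at hQ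
    exact hQ (Subgroup.mem_zpowers g)
  set S : Subgroup A := ((P : Subgroup Θ).comap θ).map C.subtype with hS
  have hSm : ∀ c : C, (c : A) ∈ S ↔ θ c ∈ (P : Subgroup Θ) := by
    intro c
    constructor
    · rintro ⟨c', hc', h⟩
      have : c' = c := Subtype.ext h
      rw [← this]
      exact hc'
    · intro h
      exact ⟨c, h, rfl⟩
  have hSC : S ≤ C := by
    rintro _ ⟨c, _, rfl⟩
    exact c.2
  have hSpow : ∀ c : C, (c : A) ∈ S → ∃ k : ℕ, ((c : A)) ^ q ^ k ∈ D := by
    intro c hc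
    have h1 := (hSm c).mp hc
    obtain ⟨k, hk⟩ := P.isPGroup' ⟨θ c, h1⟩
    refine ⟨k, ?_⟩
    have h2 : θ (c ^ q ^ k) = 1 := by
      rw [map_pow]
      exact congrArg Subtype.val hk
    have h3 := (hkerθ _).mp h2
    exact_mod_cast h3
  haveI hSn : S.Normal := by
    constructor
    intro s hs g
    have hsC := hSC hs
    have hgC : g * s * g⁻¹ ∈ C := hCn.conj_mem s hsC g
    obtain ⟨k, hk⟩ := hSpow ⟨s, hsC⟩ hs
    rw [show g * s * g⁻¹ = ((⟨g * s * g⁻¹, hgC⟩ : C) : A) from rfl, hSm]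
    apply hPmem _ k
    have h1 : θ ((⟨g * s * g⁻¹, hgC⟩ : C) ^ q ^ k) = 1 := by
      apply (hkerθ _).mpr
      change (g * s * g⁻¹) ^ q ^ k ∈ D
      rw [conj_pow]
      exact hDn.conj_mem _ hk g
    rw [map_pow] at h1
    exact h1
  have hDS : D ≤ S := by
    intro x hx
    have hxC : x ∈ C := Subgroup.mem_centralizer_iff.mpr (fun z hz => (hDC x hx z hz).symm)
    have h1 : θ ⟨x, hxC⟩ = 1 := (hkerθ ⟨x, hxC⟩).mpr hx
    apply (hSm ⟨x, hxC⟩).mpr
    have h2 : (1 : Θ) ∈ (P : Subgroup Θ) := Subgroup.one_mem _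
    exact h1.symm ▸ h2
  have hSp : IsPGroup q (S.map (QuotientGroup.mk' Z)) := by
    rintro ⟨_, s, hs, rfl⟩
    obtain ⟨k, hk⟩ := hSpow ⟨s, hSC hs⟩ hs
    refine ⟨k + n, ?_⟩
    apply Subtype.ext
    change (mk s) ^ q ^ (k + n) = 1
    rw [pow_add, pow_mul, ← map_pow]
    have h1 : mk (s ^ q ^ k) ∈ W := ⟨_, hk, rfl⟩
    have hcW : Nat.card W = q ^ n := by rw [← hw, hW, card_map_mk hZD]
    have h2 : (⟨_, h1⟩ : W) ^ q ^ n = 1 := by
      rw [← hcW]
      exact pow_card_eq_one'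
    exact congrArg Subtype.val h2
  have hSD := no_q_core Pk hφ hZmax D hZD hDC hDD hCD q S hDS hSC hSp
  -- P is trivial
  have hP1 : (P : Subgroup Θ) = ⊥ := by
    rw [eq_bot_iff]
    intro g hg
    obtain ⟨c, hc⟩ := hθs g
    rw [Subgroup.mem_bot, ← hc]
    apply (hkerθ c).mpr
    apply hSD
    apply (hSm c).mpr
    exact hc.symm ▸ hg
  have ha0 : a = 0 := by
    by_contra ha
    have h1 : q ∣ Nat.card Θ := by
      rw [ham]
      exact (dvd_pow_self q ha).mul_right m
    have h2 : ¬ q ∣ (P : Subgroup Θ).index := P.not_dvd_index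
    rw [hP1, Subgroup.index_bot] at h2
    exact h2 h1
  rw [ha0, pow_zero, one_mul] at ham
  rw [← hcardΘ, ham]
  exact hmdvd

end

end H66.OddA
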