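import Mathlib
import Cfsg.Agent.Lib.H66.OddH

/-! Numerical part and the main theorem. -/

set_option linter.unusedSectionVars false
set_option linter.style.haveILetI false

namespace H66.OddA

open Subgroup

universe u v

/-- large `e`. -/
theorem num_large (e : ℕ) (he : 25 ≤ e) : e ^ 18 ≤ 64 * 4 ^ (2 * e - 6) := by
  induction e, he using Nat.le_induction with
  | base => norm_num
  | succ e he ih =>
    have h1 : 2 * (e + 1) - 6 = (2 * e - 6) + 2 := by omega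
    rw [h1, pow_add]
    have h2 : (e + 1) ^ 18 ≤ 16 * e ^ 18 := by
      -- (e+1)/e ≤ 26/25
      have h3 : 25 * (e + 1) ≤ 26 * e := by omega
      have h4 : (25 * (e + 1)) ^ 18 ≤ (26 * e) ^ 18 := Nat.pow_le_pow_left h3 18
      rw [mul_pow, mul_pow] at h4
      have h5 : (26 : ℕ) ^ 18 ≤ 16 * 25 ^ 18 := by norm_num
      have h6 : 25 ^ 18 * (e + 1) ^ 18 ≤ 25 ^ 18 * (16 * e ^ 18) := by
        calc 25 ^ 18 * (e + 1) ^ 18 ≤ 26 ^ 18 * e ^ 18 := h4
          _ ≤ (16 * 25 ^ 18) * e ^ 18 := Nat.mul_le_mul_right _ h5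
          _ = 25 ^ 18 * (16 * e ^ 18) := by ring
      exact Nat.le_of_mul_le_mul_left h6 (by positivity)
    calc (e + 1) ^ 18 ≤ 16 * e ^ 18 := h2
      _ ≤ 16 * (64 * 4 ^ (2 * e - 6)) := Nat.mul_le_mul_left _ ih
      _ = 64 * (4 ^ (2 * e - 6) * 4 ^ 2) := by ring

/-- crude bound: `4 a ≤ e ^ 6 * k ^ 2` and `e ^ 18 ≤ 64 * k ^ (2 e - 6)` give `a ^ 3 ≤ k ^ (2 e)`. -/
theorem num_crude (a e k : ℕ) (he : 3 ≤ e) (ha : 4 * a ≤ e ^ 6 * k ^ 2)
    (h : e ^ 18 ≤ 64 * k ^ (2 * e - 6)) : a ^ 3 ≤ k ^ (2 * e) := by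
  have h1 : (4 * a) ^ 3 ≤ (e ^ 6 * k ^ 2) ^ 3 := Nat.pow_le_pow_left ha 3
  have h2 : 64 * a ^ 3 ≤ 64 * k ^ (2 * e) := by
    calc 64 * a ^ 3 = (4 * a) ^ 3 := by ring
      _ ≤ (e ^ 6 * k ^ 2) ^ 3 := h1
      _ = e ^ 18 * k ^ 6 := by ring
      _ ≤ (64 * k ^ (2 * e - 6)) * k ^ 6 := Nat.mul_le_mul_right _ h
      _ = 64 * k ^ (2 * e - 6 + 6) := by rw [mul_assoc, ← pow_add]
      _ = 64 * k ^ (2 * e) := by congr 2; omega
  exact Nat.le_of_mul_le_mul_left h2 (by norm_num)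

/-- `2 ^ m ≤ k` gives `2 m ≤ k`. -/
theorem two_mul_le_of_pow {m k : ℕ} (hm : 1 ≤ m) (h : 2 ^ m ≤ k) : 2 * m ≤ k := by
  refine le_trans ?_ h
  induction m, hm using Nat.le_induction with
  | base => norm_num
  | succ m hm ih =>
    have h1 := ih (le_trans (Nat.pow_le_pow_right (by norm_num) (Nat.le_succ m)) h)
    rw [pow_succ]
    omega

/-- special values: `a ≤ m * s * e ^ 2 * z`. -/
theorem num_special (a e k m z s : ℕ) (hm : 1 ≤ m) (hmk : 2 ^ m ≤ k) (hz : z + 1 ≤ k)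
    (ha : a ≤ m * s * e ^ 2 * z)
    (hcase : (e = 5 ∧ s = 3 ∧ 11 ≤ k ∧ (k ≤ 11 ∨ 16 ≤ k)) ∨ (e = 7 ∧ s = 3 ∧ 8 ≤ k) ∨
      (e = 9 ∧ s = 5 ∧ 4 ≤ k)) : a ^ 3 ≤ k ^ (2 * e) := by
  have h2m := two_mul_le_of_pow hm hmk
  have hgen : 2 * a ≤ s * e ^ 2 * k ^ 2 := by
    calc 2 * a ≤ 2 * (m * s * e ^ 2 * z) := Nat.mul_le_mul_left _ ha
      _ = s * e ^ 2 * ((2 * m) * z) := by ring
      _ ≤ s * e ^ 2 * (k * k) := Nat.mul_le_mul_left _ (Nat.mul_le_mul h2m (by omega))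
      _ = _ := by ring
  have hgen3 : 8 * a ^ 3 ≤ (s * e ^ 2) ^ 3 * k ^ 6 := by
    calc 8 * a ^ 3 = (2 * a) ^ 3 := by ring
      _ ≤ (s * e ^ 2 * k ^ 2) ^ 3 := Nat.pow_le_pow_left hgen 3
      _ = _ := by ring
  rcases hcase with ⟨rfl, rfl, h11, h | h⟩ | ⟨rfl, rfl, h⟩ | ⟨rfl, rfl, h⟩
  · have hk : k = 11 := le_antisymm h h11
    subst hk
    have hm3 : m ≤ 3 := by
      by_contra hcon
      push Not at hcon
      have : 2 ^ 4 ≤ 2 ^ m := Nat.pow_le_pow_right (by norm_num) hcon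
      omega
    have hz10 : z ≤ 10 := by omega
    have ha' : a ≤ 2250 := by
      calc a ≤ m * 3 * 5 ^ 2 * z := ha
        _ ≤ 3 * 3 * 5 ^ 2 * 10 := by gcongr
        _ = 2250 := by norm_num
    calc a ^ 3 ≤ 2250 ^ 3 := Nat.pow_le_pow_left ha' 3
      _ ≤ 11 ^ (2 * 5) := by norm_num
  · have h4 : 8 * a ^ 3 ≤ 8 * k ^ (2 * 5) := by
      calc 8 * a ^ 3 ≤ (3 * 5 ^ 2) ^ 3 * k ^ 6 := hgen3
        _ ≤ (8 * k ^ 4) * k ^ 6 := by
            apply Nat.mul_le_mul_right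
            calc (3 * 5 ^ 2) ^ 3 ≤ 8 * 16 ^ 4 := by norm_num
              _ ≤ 8 * k ^ 4 := Nat.mul_le_mul_left _ (Nat.pow_le_pow_left h 4)
        _ = 8 * k ^ (2 * 5) := by ring
    exact Nat.le_of_mul_le_mul_left h4 (by norm_num)
  · have h4 : 8 * a ^ 3 ≤ 8 * k ^ (2 * 7) := by
      calc 8 * a ^ 3 ≤ (3 * 7 ^ 2) ^ 3 * k ^ 6 := hgen3
        _ ≤ (8 * k ^ 8) * k ^ 6 := by
            apply Nat.mul_le_mul_right
            calc (3 * 7 ^ 2) ^ 3 ≤ 8 * 8 ^ 8 := by norm_num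
              _ ≤ 8 * k ^ 8 := Nat.mul_le_mul_left _ (Nat.pow_le_pow_left h 8)
        _ = 8 * k ^ (2 * 7) := by ring
    exact Nat.le_of_mul_le_mul_left h4 (by norm_num)
  · have h4 : 8 * a ^ 3 ≤ 8 * k ^ (2 * 9) := by
      calc 8 * a ^ 3 ≤ (5 * 9 ^ 2) ^ 3 * k ^ 6 := hgen3
        _ ≤ (8 * k ^ 12) * k ^ 6 := by
            apply Nat.mul_le_mul_right
            calc (5 * 9 ^ 2) ^ 3 ≤ 8 * 4 ^ 12 := by norm_num
              _ ≤ 8 * k ^ 12 := Nat.mul_le_mul_left _ (Nat.pow_le_pow_left h 12)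
        _ = 8 * k ^ (2 * 9) := by ring
    exact Nat.le_of_mul_le_mul_left h4 (by norm_num)

/-- the middle range. -/
theorem num_mid (e k : ℕ) (he : (e = 11 ∧ 12 ≤ k) ∨ (e = 13 ∧ 14 ≤ k) ∨ (e = 15 ∧ 16 ≤ k) ∨
    (e = 17 ∧ 18 ≤ k) ∨ (e = 19 ∧ 20 ≤ k) ∨ (e = 21 ∧ 8 ≤ k) ∨ (e = 23 ∧ 24 ≤ k)) :
    e ^ 18 ≤ 64 * k ^ (2 * e - 6) := by
  rcases he with ⟨rfl, h⟩ | ⟨rfl, h⟩ | ⟨rfl, h⟩ | ⟨rfl, h⟩ | ⟨rfl, h⟩ | ⟨rfl, h⟩ | ⟨rfl, h⟩
  · calc 11 ^ 18 ≤ 64 * 12 ^ (2 * 11 - 6) := by norm_num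
      _ ≤ _ := Nat.mul_le_mul_left _ (Nat.pow_le_pow_left h _)
  · calc 13 ^ 18 ≤ 64 * 14 ^ (2 * 13 - 6) := by norm_num
      _ ≤ _ := Nat.mul_le_mul_left _ (Nat.pow_le_pow_left h _)
  · calc 15 ^ 18 ≤ 64 * 16 ^ (2 * 15 - 6) := by norm_num
      _ ≤ _ := Nat.mul_le_mul_left _ (Nat.pow_le_pow_left h _)
  · calc 17 ^ 18 ≤ 64 * 18 ^ (2 * 17 - 6) := by norm_num
      _ ≤ _ := Nat.mul_le_mul_left _ (Nat.pow_le_pow_left h _)
  · calc 19 ^ 18 ≤ 64 * 20 ^ (2 * 19 - 6) := by norm_num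
      _ ≤ _ := Nat.mul_le_mul_left _ (Nat.pow_le_pow_left h _)
  · calc 21 ^ 18 ≤ 64 * 8 ^ (2 * 21 - 6) := by norm_num
      _ ≤ _ := Nat.mul_le_mul_left _ (Nat.pow_le_pow_left h _)
  · calc 23 ^ 18 ≤ 64 * 24 ^ (2 * 23 - 6) := by norm_num
      _ ≤ _ := Nat.mul_le_mul_left _ (Nat.pow_le_pow_left h _)

section

variable {A : Type u} [Group A] [Finite A]
variable {V : Type u} [AddCommGroup V] [Finite V]
variable {φ : A →* AddMonoid.End V} {Z : Subgroup A} {K : Type u} [Field K] [Module K V]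

/-- counting, cube form. -/
theorem two_of_count' (hφ : Function.Injective φ) (hV : 3 ≤ Nat.card V)
    (hA : Nat.card A ^ 3 ≤ Nat.card V ^ 2)
    (hfix : ∀ g : A, g ≠ 1 → Nat.card (fixS φ g) ^ 3 ≤ Nat.card V ^ 2) : Two φ := by
  classical
  set N := Nat.card V with hN
  set y := Nat.findGreatest (fun y => y ^ 3 ≤ N ^ 2) (N ^ 2) with hy
  have hy3 : y ^ 3 ≤ N ^ 2 := by
    have : (fun y => y ^ 3 ≤ N ^ 2) y :=
      Nat.findGreatest_spec (P := fun y => y ^ 3 ≤ N ^ 2) (m := 0) (Nat.zero_le _) (by positivity)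
    exact this
  have hle : ∀ x, x ^ 3 ≤ N ^ 2 → x ≤ y := by
    intro x hx
    exact Nat.le_findGreatest (P := fun y => y ^ 3 ≤ N ^ 2) (m := x) (n := N ^ 2)
      (le_trans (Nat.le_self_pow (by norm_num) x) hx) hx
  refine two_of_count hφ y (hle 2 ?_) (hle _ hA) (fun g hg => hle _ (hfix g hg)) hy3
  calc 2 ^ 3 ≤ 3 ^ 2 := by norm_num
    _ ≤ N ^ 2 := Nat.pow_le_pow_left hV 2

/-- a prime dividing the index of `Z` in `D` divides the order of `Z`. -/
theorem prime_dvd_Z [Z.Normal] (D : Subgroup A) (hZD : Z ≤ D)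
    (hDC : ∀ x ∈ D, ∀ z ∈ Z, x * z = z * x)
    (hDD : ∀ x ∈ D, ∀ y ∈ D, x * y * x⁻¹ * y⁻¹ ∈ Z)
    (hCD : ∀ g : A, (∀ x ∈ D, g * x = x * g) → g ∈ Z)
    (q : ℕ) [Fact q.Prime] (hq : q ∣ Z.relIndex D) : q ∣ Nat.card Z := by
  classical
  have hqp : q.Prime := Fact.out
  set mk := QuotientGroup.mk' Z with hmk
  have hker : mk.ker = Z := QuotientGroup.ker_mk' Z
  rw [← card_map_mk hZD] at hq
  obtain ⟨t, ht⟩ := exists_prime_orderOf_dvd_card' q hq
  obtain ⟨x, hx, hxt⟩ := t.2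
  have htq : t ^ q = 1 := by rw [← ht, pow_orderOf_eq_one]
  have hxq : x ^ q ∈ Z := by
    rw [← hker, MonoidHom.mem_ker, map_pow]
    have h1 := congrArg Subtype.val htq
    change (t : A ⧸ Z) ^ q = 1 at h1
    rw [← hxt] at h1
    exact h1
  have hxZ : x ∉ Z := by
    intro h
    have h1 : t = 1 := by
      apply Subtype.ext
      rw [← hxt]
      change mk x = 1
      rw [← MonoidHom.mem_ker, hker]
      exact h
    rw [h1, orderOf_one] at ht
    exact hqp.one_lt.ne ht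
  have hex : ∃ y ∈ D, x * y ≠ y * x := by
    by_contra hcon
    push Not at hcon
    exact hxZ (hCD x hcon)
  obtain ⟨y, hy, hxy⟩ := hex
  set z := x * y * x⁻¹ * y⁻¹ with hz
  have hzZ : z ∈ Z := hDD x hx y hy
  have hz1 : z ≠ 1 := by
    intro h
    apply hxy
    rw [hz, mul_inv_eq_one, mul_inv_eq_iff_eq_mul] at h
    exact h
  -- x^k y = z^k y x^k
  have hpow : ∀ k : ℕ, x ^ k * y = z ^ k * (y * x ^ k) := by
    intro k
    induction k with
    | zero => simp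
    | succ k ih =>
      have h1 : x * y = z * (y * x) := by rw [hz]; group
      have h2 : ∀ w ∈ Z, x * w = w * x := fun w hw => hDC x hx w hw
      calc x ^ (k + 1) * y = x * (x ^ k * y) := by rw [pow_succ']; group
        _ = x * (z ^ k * (y * x ^ k)) := by rw [ih]
        _ = (x * z ^ k) * y * x ^ k := by group
        _ = z ^ k * (x * y) * x ^ k := by rw [h2 _ (Z.pow_mem hzZ k)]; group
        _ = z ^ k * (z * (y * x)) * x ^ k := by rw [h1]
        _ = z ^ (k + 1) * (y * x ^ (k + 1)) := by rw [pow_succ, pow_succ']; group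
  have hzq : z ^ q = 1 := by
    have h1 := hpow q
    have h2 : y * x ^ q = x ^ q * y := hDC y hy _ hxq
    rw [h2] at h1
    exact (mul_eq_right.mp h1.symm)
  have h3 : orderOf z = q := orderOf_eq_prime hzq hz1
  rw [← h3, ← Subgroup.orderOf_mk z hzZ]
  exact orderOf_dvd_natCard _

theorem main_count [Nontrivial V] [Finite K] [Z.Normal] (Pk : Pack φ Z K)
    (hφ : Function.Injective φ) (hodd : Odd (Nat.card A))
    (hab : ∀ x ∈ Z, ∀ y ∈ Z, x * y = y * x)
    (hZmax : ∀ Z' : Subgroup A, Z'.Normal → (∀ x ∈ Z', ∀ y ∈ Z', x * y = y * x) → Z ≤ Z' →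
      Z' ≤ Z)
    (D : Subgroup A) [D.Normal]
    (hZD : Z ≤ D) (hDC : ∀ x ∈ D, ∀ z ∈ Z, x * z = z * x)
    (hDD : ∀ x ∈ D, ∀ y ∈ D, x * y * x⁻¹ * y⁻¹ ∈ Z)
    (hCD : ∀ g : A, (∀ x ∈ D, g * x = x * g) → g ∈ Z)
    (hDi : 2 * (CW Z D).index ≤ (Z.relIndex D) ^ 2) (hDZ : D ≠ Z) : Two φ := by
  classical
  obtain ⟨L, hZL, hLD, -, hsq⟩ := index_square Pk hφ hab D hZD hDC hDD (fun x _ h => hCD x h)
  set e := Z.relIndex L with he
  set k := Nat.card K with hk
  set m := (Subgroup.centralizer (Z : Set A)).index with hm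
  haveI : FiniteDimensional K V := Module.Finite.of_finite
  have hcardV : Nat.card V = k ^ Module.finrank K V := Module.natCard_eq_pow_finrank
  set d := Module.finrank K V with hd
  have hw1 : e ^ 2 ≤ d ^ 2 := by
    rw [← hsq]
    exact relIndex_le_sq Pk hφ D hDC hDD (fun x _ h => hCD x h)
  have hed : e ≤ d := (Nat.pow_le_pow_iff_left (by norm_num)).mp hw1
  have hZk : Nat.card Z + 1 ≤ k := Pk.card_Z_le hφ
  have hmk : 2 ^ m ≤ k := Pk.index_le hφ
  have hm1 : 1 ≤ m := Nat.pos_of_ne_zero Subgroup.index_ne_zero_of_finite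
  have heodd : Odd e := by
    have h1 : e ∣ Nat.card A := (Subgroup.relIndex_dvd_card Z L).trans L.card_subgroup_dvd_card
    exact hodd.of_dvd_nat h1
  have he1 : e ≠ 1 := by
    intro h
    rw [h, one_pow, Subgroup.relIndex_eq_one] at hsq
    exact hDZ (le_antisymm hsq hZD)
  have he3 : e ≠ 3 := by
    intro h
    rw [h] at hsq
    exact not_nine hodd hZmax hab D hZD hDC (by rw [hsq]; norm_num)
  have he5 : 5 ≤ e := by
    obtain ⟨j, hj⟩ := heodd
    omega
  -- primes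
  have hprime : ∀ q : ℕ, q.Prime → q ∣ e → q ∣ Nat.card Z := by
    intro q hq hqe
    haveI : Fact q.Prime := ⟨hq⟩
    apply prime_dvd_Z D hZD hDC hDD hCD q
    rw [hsq]
    exact hqe.trans (dvd_pow_self e (by norm_num))
  have hZpos : 0 < Nat.card Z := Nat.card_pos
  -- order of A
  have hAm : Nat.card A = m * Nat.card (Subgroup.centralizer (Z : Set A)) := by
    rw [mul_comm, hm, Subgroup.card_mul_index]
  have hDcard : Nat.card D = e ^ 2 * Nat.card Z := by
    have h1 := Subgroup.relIndex_mul_relIndex ⊥ Z D bot_le hZD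
    rw [Subgroup.relIndex_bot_left, Subgroup.relIndex_bot_left, hsq] at h1
    rw [← h1, mul_comm]
  have hDCle : D ≤ Subgroup.centralizer (Z : Set A) := fun x hx =>
    Subgroup.mem_centralizer_iff.mpr (fun z hz => (hDC x hx z hz).symm)
  have hCcard : Nat.card (Subgroup.centralizer (Z : Set A)) =
      D.relIndex (Subgroup.centralizer (Z : Set A)) * Nat.card D := by
    have h1 := Subgroup.relIndex_mul_relIndex ⊥ D (Subgroup.centralizer (Z : Set A)) bot_le hDCle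
    rw [Subgroup.relIndex_bot_left, Subgroup.relIndex_bot_left] at h1
    rw [← h1, mul_comm]
  have hfix := fun (g : A) (hg : g ≠ 1) => fix_le Pk hφ hodd D hDC hCD
    (fun x hx y hy => hDD y hy x hx) g hg
  have hk4 : 4 ≤ k := by
    obtain ⟨q, hq, hqe⟩ := Nat.exists_prime_and_dvd he1
    have h1 := hprime q hq hqe
    have h2 : q ≠ 2 := by
      rintro rfl
      exact (Nat.not_even_iff_odd.mpr heodd) (even_iff_two_dvd.mpr hqe)
    have h3 : q ≤ Nat.card Z := Nat.le_of_dvd hZpos h1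
    have h4 := hq.two_le
    omega
  have hVk : k ^ e ≤ Nat.card V := by
    rw [hcardV]
    exact Nat.pow_le_pow_right (by omega) hed
  have hV3 : 3 ≤ Nat.card V := by
    calc 3 ≤ k ^ 1 := by rw [pow_one]; omega
      _ ≤ k ^ e := Nat.pow_le_pow_right (by omega) (by omega)
      _ ≤ _ := hVk
  apply two_of_count' hφ hV3 _ hfix
  have hfin : Nat.card A ^ 3 ≤ k ^ (2 * e) → Nat.card A ^ 3 ≤ Nat.card V ^ 2 := by
    intro h
    calc Nat.card A ^ 3 ≤ k ^ (2 * e) := h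
      _ = (k ^ e) ^ 2 := by rw [← pow_mul, mul_comm]
      _ ≤ _ := Nat.pow_le_pow_left hVk 2
  apply hfin
  -- special cases
  have hspecial : ∀ s q n : ℕ, q.Prime → e ^ 2 = q ^ n → (n = 2 ∨ (q = 3 ∧ n = 4)) →
      (∀ m, m ∣ q ^ n - 1 → Odd m → m ≤ s) →
      (∀ m, m ∣ q ^ n - 1 → Odd m → ∀ k, k ∣ m → k ≡ 1 [MOD q] → k = 1) →
      Nat.card A ≤ m * s * e ^ 2 * Nat.card Z := by
    intro s q n hq heq hn hs hsyl
    haveI : Fact q.Prime := ⟨hq⟩
    have h1 := small_card Pk hφ hodd hZmax D hZD hDC hDD hCD q n (by rw [hsq, heq]) hn hsyl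
    have h2 : Odd (D.relIndex (Subgroup.centralizer (Z : Set A))) :=
      hodd.of_dvd_nat ((Subgroup.relIndex_dvd_card D _).trans (Subgroup.card_subgroup_dvd_card _))
    have h3 := hs _ h1 h2
    rw [hAm, hCcard, hDcard]
    calc m * (D.relIndex (Subgroup.centralizer (Z : Set A)) * (e ^ 2 * Nat.card Z))
        ≤ m * (s * (e ^ 2 * Nat.card Z)) := by gcongr
      _ = _ := by ring
  -- crude bound
  have hcrude : 4 * Nat.card A ≤ e ^ 6 * k ^ 2 := by
    have h1 : Nat.card (CW Z D) ≤ m * Nat.card D := by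
      have hinf := inf_CW Pk hφ D hZD hDC hDD hCD
      have h2 := Subgroup.relIndex_mul_relIndex ⊥ (Subgroup.centralizer (Z : Set A) ⊓ CW Z D)
        (CW Z D) bot_le inf_le_right
      rw [Subgroup.relIndex_bot_left, Subgroup.relIndex_bot_left, Subgroup.inf_relIndex_right,
        hinf] at h2
      rw [← h2, mul_comm]
      apply Nat.mul_le_mul_right
      exact Nat.le_of_dvd hm1 (Subgroup.relIndex_dvd_index_of_normal _ _)
    have h2 : Nat.card A = (CW Z D).index * Nat.card (CW Z D) := by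
      rw [mul_comm, Subgroup.card_mul_index]
    rw [hsq] at hDi
    have h2m := two_mul_le_of_pow hm1 hmk
    calc 4 * Nat.card A = 2 * ((2 * (CW Z D).index) * Nat.card (CW Z D)) := by rw [h2]; ring
      _ ≤ 2 * ((e ^ 2) ^ 2 * (m * Nat.card D)) := by gcongr
      _ = e ^ 4 * e ^ 2 * ((2 * m) * Nat.card Z) := by rw [hDcard]; ring
      _ ≤ e ^ 4 * e ^ 2 * (k * k) := by
          apply Nat.mul_le_mul_left
          exact Nat.mul_le_mul h2m (by omega)
      _ = _ := by ring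
  have hkmod : ∀ q : ℕ, q.Prime → q ∣ e → q + 1 ≤ k := by
    intro q hq hqe
    have := Nat.le_of_dvd hZpos (hprime q hq hqe)
    omega
  by_cases h25 : 25 ≤ e
  · apply num_crude _ e k (by omega) hcrude
    calc e ^ 18 ≤ 64 * 4 ^ (2 * e - 6) := num_large e h25
      _ ≤ _ := Nat.mul_le_mul_left _ (Nat.pow_le_pow_left hk4 _)
  push Not at h25
  have hcases : e = 5 ∨ e = 7 ∨ e = 9 ∨ e = 11 ∨ e = 13 ∨ e = 15 ∨ e = 17 ∨ e = 19 ∨ e = 21 ∨
      e = 23 := by
    obtain ⟨j, hj⟩ := heodd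
    omega
  have hodd24 : ∀ m, m ∣ 24 → Odd m → m ∣ 3 := by
    intro m hm hm2
    have h1 : Nat.Coprime m 8 := by
      have : Nat.Coprime m 2 := Nat.coprime_two_right.mpr hm2
      exact this.pow_right 3
    exact h1.dvd_of_dvd_mul_left (show m ∣ 8 * 3 from hm)
  have hodd48 : ∀ m, m ∣ 48 → Odd m → m ∣ 3 := by
    intro m hm hm2
    have h1 : Nat.Coprime m 16 := by
      have : Nat.Coprime m 2 := Nat.coprime_two_right.mpr hm2
      exact this.pow_right 4
    exact h1.dvd_of_dvd_mul_left (show m ∣ 16 * 3 from hm)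
  have hodd80 : ∀ m, m ∣ 80 → Odd m → m ∣ 5 := by
    intro m hm hm2
    have h1 : Nat.Coprime m 16 := by
      have : Nat.Coprime m 2 := Nat.coprime_two_right.mpr hm2
      exact this.pow_right 4
    exact h1.dvd_of_dvd_mul_left (show m ∣ 16 * 5 from hm)
  rcases hcases with h | h | h | h | h | h | h | h | h | h
  · -- e = 5
    have hA := hspecial 3 5 2 (by norm_num) (by rw [h]) (Or.inl rfl)
      (fun m hm hm2 => Nat.le_of_dvd (by norm_num) (hodd24 m (by simpa using hm) hm2))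
      (fun m hm hm2 j hj hj1 => by
        have h1 := hj.trans (hodd24 m (by simpa using hm) hm2)
        rcases (Nat.dvd_prime Nat.prime_three).mp h1 with h2 | h2
        · exact h2
        · rw [h2] at hj1; exact absurd hj1 (by decide))
    have h5 := hkmod 5 (by norm_num) (by rw [h])
    -- k ≡ 1 mod 5
    have hk1 : 5 ∣ k - 1 := by
      have h6 : Nat.card Z ∣ Nat.card Kˣ := by
        apply Subgroup.card_dvd_of_injective (Pk.ζ.toHomUnits)
        intro a b hab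
        apply Pk.ζ_inj hφ
        exact congrArg Units.val hab
      rw [Nat.card_units] at h6
      exact (hprime 5 (by norm_num) (by rw [h])).trans h6
    have hk6 : k ≠ 6 := by
      intro h6
      letI := Fintype.ofFinite K
      have h7 := FiniteField.isPrimePow_card K
      rw [← Nat.card_eq_fintype_card, ← hk, h6] at h7
      have : ¬ IsPrimePow 6 := by
        intro h8
        obtain ⟨p, j, hp, hj, hpj⟩ := (isPrimePow_nat_iff 6).mp h8
        have h2 : 2 ∣ p ^ j := by rw [hpj]; norm_num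
        have h3 : 3 ∣ p ^ j := by rw [hpj]; norm_num
        have h2' := (Nat.prime_dvd_prime_iff_eq Nat.prime_two hp).mp
          (Nat.prime_two.dvd_of_dvd_pow h2)
        have h3' := (Nat.prime_dvd_prime_iff_eq Nat.prime_three hp).mp
          (Nat.prime_three.dvd_of_dvd_pow h3)
        omega
      exact this h7
    exact num_special _ e k m _ 3 hm1 hmk hZk hA (Or.inl ⟨h, rfl, by omega, by omega⟩)
  · -- e = 7
    have hA := hspecial 3 7 2 (by norm_num) (by rw [h]) (Or.inl rfl)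
      (fun m hm hm2 => Nat.le_of_dvd (by norm_num) (hodd48 m (by simpa using hm) hm2))
      (fun m hm hm2 j hj hj1 => by
        have h1 := hj.trans (hodd48 m (by simpa using hm) hm2)
        rcases (Nat.dvd_prime Nat.prime_three).mp h1 with h2 | h2
        · exact h2
        · rw [h2] at hj1; exact absurd hj1 (by decide))
    have h7 := hkmod 7 (by norm_num) (by rw [h])
    exact num_special _ e k m _ 3 hm1 hmk hZk hA (Or.inr (Or.inl ⟨h, rfl, h7⟩))
  · -- e = 9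
    have hA := hspecial 5 3 4 (by norm_num) (by rw [h]; norm_num) (Or.inr ⟨rfl, rfl⟩)
      (fun m hm hm2 => Nat.le_of_dvd (by norm_num) (hodd80 m (by simpa using hm) hm2))
      (fun m hm hm2 j hj hj1 => by
        have h1 := hj.trans (hodd80 m (by simpa using hm) hm2)
        rcases (Nat.dvd_prime Nat.prime_five).mp h1 with h2 | h2
        · exact h2
        · rw [h2] at hj1; exact absurd hj1 (by decide))
    exact num_special _ e k m _ 5 hm1 hmk hZk hA (Or.inr (Or.inr ⟨h, rfl, hk4⟩))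
  · apply num_crude _ e k (by omega) hcrude
    exact num_mid e k (Or.inl ⟨h, hkmod 11 (by norm_num) (by rw [h])⟩)
  · apply num_crude _ e k (by omega) hcrude
    exact num_mid e k (Or.inr (Or.inl ⟨h, hkmod 13 (by norm_num) (by rw [h])⟩))
  · apply num_crude _ e k (by omega) hcrude
    have h3 := hprime 3 (by norm_num) (by rw [h]; norm_num)
    have h5 := hprime 5 (by norm_num) (by rw [h]; norm_num)
    have h15 : 3 * 5 ∣ Nat.card Z := Nat.Coprime.mul_dvd_of_dvd_of_dvd (by norm_num) h3 h5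
    have h16 := Nat.le_of_dvd hZpos h15
    exact num_mid e k (Or.inr (Or.inr (Or.inl ⟨h, by omega⟩)))
  · apply num_crude _ e k (by omega) hcrude
    exact num_mid e k (Or.inr (Or.inr (Or.inr (Or.inl ⟨h, hkmod 17 (by norm_num) (by rw [h])⟩))))
  · apply num_crude _ e k (by omega) hcrude
    exact num_mid e k (Or.inr (Or.inr (Or.inr (Or.inr (Or.inl
      ⟨h, hkmod 19 (by norm_num) (by rw [h])⟩)))))
  · apply num_crude _ e k (by omega) hcrude
    exact num_mid e k (Or.inr (Or.inr (Or.inr (Or.inr (Or.inr (Or.inl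
      ⟨h, hkmod 7 (by norm_num) (by rw [h]; norm_num)⟩))))))
  · apply num_crude _ e k (by omega) hcrude
    exact num_mid e k (Or.inr (Or.inr (Or.inr (Or.inr (Or.inr (Or.inr
      ⟨h, hkmod 23 (by norm_num) (by rw [h])⟩))))))

/-- the faithful case. -/
theorem main_faithful (IH : IHyp.{u} (Nat.card V)) (hodd : Odd (Nat.card A))
    (hs : Group.IsSolvable A) (hirr : Irr φ) (hφ : Function.Injective φ) : Two φ := by
  haveI := hirr.1
  obtain ⟨Z, ⟨hZn, hab⟩, hmax⟩ := Set.Finite.exists_maximal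
    (s := {Z : Subgroup A | Z.Normal ∧ ∀ x ∈ Z, ∀ y ∈ Z, x * y = y * x}) (Set.toFinite _)
    ⟨⊥, inferInstance, by
      intro x hx y hy
      rw [Subgroup.mem_bot] at hx hy
      rw [hx, hy]⟩
  haveI := hZn
  have hZmax : ∀ Z' : Subgroup A, Z'.Normal → (∀ x ∈ Z', ∀ y ∈ Z', x * y = y * x) → Z ≤ Z' →
      Z' ≤ Z := fun Z' h1 h2 h3 => hmax ⟨h1, h2⟩ h3
  rcases domain_or_two IH hodd hs hirr Z hab with hR | h
  swap
  · exact h
  obtain ⟨K, _, _, _, ⟨Pk⟩⟩ := exists_pack hab hR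
  by_cases hCZ : ∀ a : A, (∀ z ∈ Z, a * z = z * a) → a ∈ Z
  · exact Pk.gammaL hφ hodd hCZ
  obtain ⟨D, hDn, hZD, hDC, hDD, hCD, hDi⟩ := exists_D IH hodd hs Pk hφ hab hZmax
  haveI := hDn
  have hDZ : D ≠ Z := by
    rintro rfl
    exact hCZ hCD
  exact main_count Pk hφ hodd hab hZmax D hZD hDC hDD hCD (hDi.resolve_left hDZ) hDZ

end

/-- the main theorem for irreducible modules. -/
theorem main_irr (hFT : ∀ (G : Type u) [Group G] [Finite G], Odd (Nat.card G) →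
    Group.IsSolvable G) (n : ℕ) : IHyp.{u} n := by
  induction n with
  | zero => intro B W _ _ _ _ ψ _ _ h; exact absurd h (Nat.not_lt_zero _)
  | succ n ih =>
    intro B W _ _ _ _ ψ hodd hirr hlt
    have IH : IHyp.{u} (Nat.card W) := by
      intro B' W' _ _ _ _ ψ' hodd' hirr' hlt'
      exact ih B' W' ψ' hodd' hirr' (by omega)
    set φ : B ⧸ ψ.ker →* AddMonoid.End W := QuotientGroup.lift ψ.ker ψ (fun x hx => hx) with hφ
    have hφa : ∀ b : B, φ (QuotientGroup.mk b) = ψ b := fun b => rfl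
    have hinj : Function.Injective φ := by
      intro x y hxy
      obtain ⟨x, rfl⟩ := QuotientGroup.mk_surjective x
      obtain ⟨y, rfl⟩ := QuotientGroup.mk_surjective y
      rw [hφa, hφa] at hxy
      rw [QuotientGroup.eq, MonoidHom.mem_ker, map_mul, ← hxy, ← map_mul, inv_mul_cancel, map_one]
    have hodd2 : Odd (Nat.card (B ⧸ ψ.ker)) := by
      have : Nat.card (B ⧸ ψ.ker) ∣ Nat.card B := by
        rw [← Subgroup.index]
        exact Subgroup.index_dvd_card _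
      exact hodd.of_dvd_nat this
    have hirr2 : Irr φ := by
      refine ⟨hirr.1, fun U hU => hirr.2 U (fun a u hu => ?_)⟩
      exact hU (QuotientGroup.mk a) u hu
    obtain ⟨x, y, hx, hy, hxy⟩ := main_faithful IH hodd2 (hFT _ hodd2) hirr2 hinj
    refine ⟨x, y, ?_, ?_, ?_⟩
    · intro a h1 h2
      exact hx (QuotientGroup.mk a) h1 h2
    · intro a h1 h2
      exact hy (QuotientGroup.mk a) h1 h2
    · intro a
      exact hxy (QuotientGroup.mk a)

/-- completely reducible modules. -/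
theorem main_cr (hFT : ∀ (G : Type u) [Group G] [Finite G], Odd (Nat.card G) →
    Group.IsSolvable G) (n : ℕ) : ∀ (B W : Type u) [Group B] [Finite B] [AddCommGroup W]
    [Finite W] (ψ : B →* AddMonoid.End W), Odd (Nat.card B) → Nat.card W < n →
    (∀ U : AddSubgroup W, (∀ b, ∀ u ∈ U, ψ b u ∈ U) →
      ∃ U' : AddSubgroup W, (∀ b, ∀ u ∈ U', ψ b u ∈ U') ∧ U ⊓ U' = ⊥ ∧ U ⊔ U' = ⊤) →
    ∃ x : W × W, Good ψ x := by
  induction n with
  | zero => intro B W _ _ _ _ ψ _ h; exact absurd h (Nat.not_lt_zero _)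
  | succ n ih =>
    intro B W _ _ _ _ ψ hodd hlt hcr
    by_cases hsub : Subsingleton W
    · refine ⟨(0, 0), fun a _ _ => ?_⟩
      apply end_ext
      intro v
      exact Subsingleton.elim _ _
    rw [not_subsingleton_iff_nontrivial] at hsub
    by_cases hirr : Irr ψ
    · obtain ⟨x, y, hx, -, -⟩ := main_irr hFT (Nat.card W + 1) B W ψ hodd hirr (Nat.lt_succ_self _)
      exact ⟨x, hx⟩
    rw [Irr] at hirr
    push Not at hirr
    obtain ⟨U, hU, hU0, hU1⟩ := hirr hsub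
    obtain ⟨U', hU', hinf, hsup⟩ := hcr U hU
    have hU'1 : U' ≠ ⊤ := by
      intro h
      rw [h, inf_top_eq] at hinf
      exact hU0 hinf
    have hcard : ∀ T : AddSubgroup W, T ≠ ⊤ → Nat.card T < n := by
      intro T hT
      have h1 : Nat.card T ∣ Nat.card W := T.card_addSubgroup_dvd_card
      have h2 : Nat.card T < Nat.card W := by
        refine lt_of_le_of_ne (Nat.le_of_dvd Nat.card_pos h1) ?_
        intro heq
        exact hT (AddSubgroup.eq_top_of_card_eq _ heq)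
      omega
    -- complete reducibility passes to invariant subgroups
    have hcrT : ∀ (T : AddSubgroup W) (hT : ∀ b, ∀ u ∈ T, ψ b u ∈ T), ∀ S : AddSubgroup T,
        (∀ b, ∀ u ∈ S, restr ψ T hT b u ∈ S) →
        ∃ S' : AddSubgroup T, (∀ b, ∀ u ∈ S', restr ψ T hT b u ∈ S') ∧ S ⊓ S' = ⊥ ∧
          S ⊔ S' = ⊤ := by
      intro T hT S hS
      obtain ⟨R, hR, hR1, hR2⟩ := hcr (S.map T.subtype) (by
        rintro b _ ⟨s, hs, rfl⟩
        exact ⟨restr ψ T hT b s, hS b s hs, rfl⟩)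
      refine ⟨R.comap T.subtype, ?_, ?_, ?_⟩
      · intro b u hu
        exact hR b _ hu
      · rw [eq_bot_iff]
        intro s hs
        have : (s : W) ∈ S.map T.subtype ⊓ R := ⟨⟨s, hs.1, rfl⟩, hs.2⟩
        rw [hR1, AddSubgroup.mem_bot] at this
        exact Subtype.ext this
      · rw [eq_top_iff]
        intro t _
        have h1 : (t : W) ∈ S.map T.subtype ⊔ R := by rw [hR2]; trivial
        obtain ⟨_, ⟨s, hs, rfl⟩, r, hr, hsr⟩ := AddSubgroup.mem_sup.mp h1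
        have hrT : r ∈ T := by
          have : r = (t : W) - (s : W) := by rw [← hsr]; simp
          rw [this]
          exact T.sub_mem t.2 s.2
        exact AddSubgroup.mem_sup.mpr ⟨s, hs, ⟨r, hrT⟩, hr, Subtype.ext hsr⟩
    obtain ⟨x1, hx1⟩ := ih B U (restr ψ U hU) hodd (hcard U hU1) (hcrT U hU)
    obtain ⟨x2, hx2⟩ := ih B U' (restr ψ U' hU') hodd (hcard U' hU'1) (hcrT U' hU')
    refine ⟨((x1.1 : W) + x2.1, (x1.2 : W) + x2.2), ?_⟩
    have hsplit : ∀ (b : B) (u : U) (u' : U'), ψ b ((u : W) + u') = (u : W) + u' →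
        restr ψ U hU b u = u ∧ restr ψ U' hU' b u' = u' := by
      intro b u u' h
      rw [map_add] at h
      have h1 : ψ b u - u = u' - ψ b u' := by
        rw [sub_eq_sub_iff_add_eq_add, h, add_comm]
      have h2 : ψ b u - u ∈ U ⊓ U' := by
        refine ⟨U.sub_mem (hU b u u.2) u.2, ?_⟩
        rw [h1]
        exact U'.sub_mem u'.2 (hU' b u' u'.2)
      rw [hinf, AddSubgroup.mem_bot] at h2
      refine ⟨Subtype.ext (sub_eq_zero.mp h2), Subtype.ext ?_⟩
      rw [h1] at h2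
      exact (sub_eq_zero.mp h2).symm
    intro b h1 h2
    obtain ⟨a1, b1⟩ := hsplit b x1.1 x2.1 h1
    obtain ⟨a2, b2⟩ := hsplit b x1.2 x2.2 h2
    have e1 := hx1 b a1 a2
    have e2 := hx2 b b1 b2
    apply end_ext
    intro v
    have hv : v ∈ U ⊔ U' := by rw [hsup]; trivial
    obtain ⟨u, hu, u', hu', rfl⟩ := AddSubgroup.mem_sup.mp hv
    have f1 := congrArg Subtype.val (DFunLike.congr_fun e1 (⟨u, hu⟩ : U))
    have f2 := congrArg Subtype.val (DFunLike.congr_fun e2 (⟨u', hu'⟩ : U'))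
    change ψ b u = u at f1
    change ψ b u' = u' at f2
    rw [map_add, f1, f2]
    rfl

end H66.OddA
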