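import Mathlib
import Cfsg.Agent.Lib.H66.OddI

set_option linter.unusedSectionVars false
set_option linter.style.haveILetI false

/-! Two-vector base theorem for groups of odd order (statement with actions). -/

namespace H66.OddA

universe u v

theorem final {A : Type u} {V : Type v} [Group A] [Finite A]
    [AddCommGroup V] [Finite V] [DistribMulAction A V] [FaithfulSMul A V]
    (hFT : ∀ (G : Type (max u v)) [Group G] [Finite G], Odd (Nat.card G) → Group.IsSolvable G)
    (hA : Odd (Nat.card A))
    (hcr : (∀ U : AddSubgroup V, (∀ a : A, ∀ v ∈ U, a • v ∈ U) → ∃ W : AddSubgroup V,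
      (∀ a : A, ∀ w ∈ W, a • w ∈ W) ∧ U ⊓ W = ⊥ ∧ U ⊔ W = ⊤)) :
    ∃ v w : V, ∀ a : A, a • v = v → a • w = w → a = 1 := by
  let ψ : ULift.{v, u} A →* AddMonoid.End (ULift.{u, v} V) :=
    { toFun := fun a =>
        { toFun := fun v => ⟨a.down • v.down⟩
          map_zero' := by
            apply ULift.ext
            exact smul_zero a.down
          map_add' := fun v w => by
            apply ULift.ext
            exact smul_add a.down v.down w.down }
      map_one' := by
        apply DFunLike.ext
        intro v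
        apply ULift.ext
        exact one_smul A v.down
      map_mul' := fun a b => by
        apply DFunLike.ext
        intro v
        apply ULift.ext
        exact mul_smul a.down b.down v.down }
  have hψ : ∀ (a : ULift.{v, u} A) (v : ULift.{u, v} V), (ψ a v).down = a.down • v.down :=
    fun _ _ => rfl
  have hodd : Odd (Nat.card (ULift.{v, u} A)) := by
    rw [Nat.card_congr Equiv.ulift]
    exact hA
  have h := main_cr hFT
    (Nat.card (ULift.{u, v} V) + 1) (ULift.{v, u} A) (ULift.{u, v} V) ψ hodd
    (Nat.lt_succ_self _) (by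
      intro U hU
      obtain ⟨W, hW, h1, h2⟩ := hcr (U.comap AddEquiv.ulift.symm.toAddMonoidHom) (by
        intro a v hv
        exact hU ⟨a⟩ _ hv)
      refine ⟨W.comap AddEquiv.ulift.toAddMonoidHom, ?_, ?_, ?_⟩
      · intro b u hu
        exact hW b.down _ hu
      · rw [eq_bot_iff]
        rintro u ⟨hu1, hu2⟩
        have h3 : u.down ∈ (U.comap AddEquiv.ulift.symm.toAddMonoidHom) ⊓ W := ⟨hu1, hu2⟩
        rw [h1, AddSubgroup.mem_bot] at h3
        exact ULift.ext _ _ h3
      · rw [eq_top_iff]
        intro u _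
        have h3 : u.down ∈ (U.comap AddEquiv.ulift.symm.toAddMonoidHom) ⊔ W := by
          rw [h2]; trivial
        obtain ⟨y, hy, z, hz, hyz⟩ := AddSubgroup.mem_sup.mp h3
        exact AddSubgroup.mem_sup.mpr ⟨⟨y⟩, hy, ⟨z⟩, hz, ULift.ext _ _ hyz⟩)
  obtain ⟨x, hx⟩ := h
  refine ⟨x.1.down, x.2.down, fun a h1 h2 => ?_⟩
  have h3 := hx ⟨a⟩ (ULift.ext _ _ h1) (ULift.ext _ _ h2)
  apply FaithfulSMul.eq_of_smul_eq_smul (α := V)
  intro v
  have h4 := congrArg ULift.down (DFunLike.congr_fun h3 (⟨v⟩ : ULift V))
  rw [hψ] at h4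
  rw [one_smul]
  exact h4

end H66.OddA
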