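import Mathlib

/-!
# S4100: common interface

`Star p n`: every nonzero finite module of exponent `p` for the alternating group of degree `n`
contains a nonzero vector whose stabilizer is non-solvable.
-/

set_option autoImplicit false

namespace H66.SA

universe u

def Star (p n : ℕ) : Prop :=
  ∀ (V : Type u) [AddCommGroup V] [Finite V] [Nontrivial V] (_ : ∀ v : V, p • v = 0)
    [DistribMulAction (alternatingGroup (Fin n)) V],
    ∃ v : V, v ≠ 0 ∧ ¬ Group.IsSolvable (MulAction.stabilizer (alternatingGroup (Fin n)) v)

end H66.SA
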