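import Cfsg.Agent.Lib.H66.SBCode

/-! # S4100, characteristic 2: verification of the tables -/

set_option autoImplicit false

namespace H66.SB

theorem chkX_all : all chkX 2835 = true := by decide +kernel
theorem chkY_all : all chkY 2835 = true := by decide +kernel
theorem chkP_all : all chkP 2835 = true := by decide +kernel
theorem chkU_all : all chkU 64 = true := by decide +kernel
theorem chkUC_all : all (fun j => all (chkUC j) 64) 3 = true := by decide +kernel
theorem chkU8_all : all chkU8 64 = true := by decide +kernel
theorem chkUCi_all : all (fun j => all (chkUCi j) 3) 3 = true := by decide +kernel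
theorem chkPN0 : all (chkPN 0) 945 = true := by decide +kernel
theorem chkPN1 : all (chkPN 1) 945 = true := by decide +kernel
theorem chkPN2 : all (chkPN 2) 945 = true := by decide +kernel
theorem chkKB0 : all (chkKB 0) 2835 = true := by decide +kernel
theorem chkKB1 : all (chkKB 1) 2835 = true := by decide +kernel
theorem chkKB2 : all (chkKB 2) 2835 = true := by decide +kernel
theorem chkCU : bnd (Nat.beq (codeW wC0) cC0) (bnd (Nat.beq (codeW wC1) cC1) (bnd (Nat.beq (codeW wC2) cC2)
    (bnd (Nat.beq (codeW wU0) cU0) (bnd (Nat.beq (codeW wU1) cU1) (Nat.beq (codeW wU2) cU2))))) = true := by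
  decide +kernel
theorem chkCD : all (fun i => bnd (Nat.beq (mulc (cC i) (cC i)) (cD i)) (Nat.beq (mulc (cC i) (cD i)) cId)) 3 = true := by
  decide +kernel

end H66.SB
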