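import Cfsg.Agent.Lib.H66.SBCode

/-! # S4100, characteristic 2: verification of the certificates -/

set_option autoImplicit false

namespace H66.SB
theorem k_c01 : chkK 3 0 c01_x0 c01_y0 7 c01_w0 c01_rx0 c01_ry0 = true := by decide +kernel
theorem f_c01 : chkF 3 0 c01_w0 c01_w0 c01_tr c01_rf = true := by decide +kernel
theorem k_c12 : chkK 6 0 c12_x0 c12_y0 7 c12_w0 c12_rx0 c12_ry0 = true := by decide +kernel
theorem f_c12 : chkF 6 0 c12_w0 c12_w0 c12_tr c12_rf = true := by decide +kernel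
theorem k_c : chkK 0 7 c_x0 c_y0 5 c_w0 c_rx0 c_ry0 = true := by decide +kernel
theorem f_c : chkF 0 7 c_w0 c_w0 c_tr c_rf = true := by decide +kernel
theorem k_c02 : chkK 5 2 c02_x0 c02_y0 5 c02_w0 c02_rx0 c02_ry0 = true := by decide +kernel
theorem f_c02 : chkF 5 2 c02_w0 c02_w0 c02_tr c02_rf = true := by decide +kernel
theorem k_c1 : chkK 2 5 c1_x0 c1_y0 5 c1_w0 c1_rx0 c1_ry0 = true := by decide +kernel
theorem f_c1 : chkF 2 5 c1_w0 c1_w0 c1_tr c1_rf = true := by decide +kernel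
theorem k_c0 : chkK 1 6 c0_x0 c0_y0 7 c0_w0 c0_rx0 c0_ry0 = true := by decide +kernel
theorem k_c0' : chkK 1 6 c0_x1 c0_y1 7 c0_w1 c0_rx1 c0_ry1 = true := by decide +kernel
theorem f_c0 : chkF 1 6 c0_w0 c0_w1 c0_tr c0_rf = true := by decide +kernel
theorem k_c2 : chkK 4 3 c2_x0 c2_y0 7 c2_w0 c2_rx0 c2_ry0 = true := by decide +kernel
theorem k_c2' : chkK 4 3 c2_x1 c2_y1 7 c2_w1 c2_rx1 c2_ry1 = true := by decide +kernel
theorem f_c2 : chkF 4 3 c2_w0 c2_w1 c2_tr c2_rf = true := by decide +kernel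
end H66.SB
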