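import Cfsg.Agent.Lib.H66.SBData
import Cfsg.Agent.Lib.H66.SBCertData

/-! # S4100, characteristic 2: codes of permutations of nine points, boolean checks -/

set_option autoImplicit false

namespace H66.SB

/-- digit extraction -/
def get (a i : ℕ) : ℕ := Nat.mod (Nat.shiftRight a (Nat.mul 4 i)) 16

/-- product of coded permutations -/
def mulc (a b : ℕ) : ℕ :=
  Nat.add (get a (get b 0)) (Nat.add (Nat.mul 0x10 (get a (get b 1)))
    (Nat.add (Nat.mul 0x100 (get a (get b 2))) (Nat.add (Nat.mul 0x1000 (get a (get b 3)))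
    (Nat.add (Nat.mul 0x10000 (get a (get b 4))) (Nat.add (Nat.mul 0x100000 (get a (get b 5)))
    (Nat.add (Nat.mul 0x1000000 (get a (get b 6))) (Nat.add (Nat.mul 0x10000000 (get a (get b 7)))
      (Nat.mul 0x100000000 (get a (get b 8))))))))))

def fld (T w p : ℕ) : ℕ := Nat.mod (Nat.shiftRight T (Nat.mul w p)) (Nat.pow 2 w)

def tbl (p : ℕ) : ℕ := fld dT 36 p
def xa (p : ℕ) : ℕ := fld dXA 12 p
def ya (p : ℕ) : ℕ := fld dYA 12 p
def ul (k : ℕ) : ℕ := fld dUL 36 k

/-- the code of the identity -/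
def cId : ℕ := 0x876543210

/-- bounded universal quantifier -/
def all (f : ℕ → Bool) : ℕ → Bool
  | 0 => true
  | n + 1 => match f n with
    | true => all f n
    | false => false

theorem all_spec {f : ℕ → Bool} : ∀ {n : ℕ}, all f n = true → ∀ k, k < n → f k = true
  | 0, _, k, hk => absurd hk (Nat.not_lt_zero k)
  | n + 1, h, k, hk => by
    rw [all] at h
    cases hf : f n with
    | false => rw [hf] at h; exact absurd h (fun hh => Bool.noConfusion hh)
    | true =>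
      rw [hf] at h
      rcases Nat.lt_succ_iff_lt_or_eq.mp hk with h1 | h1
      · exact all_spec h k h1
      · rw [h1]; exact hf

/-- `if a then b else false` -/
def bnd (a b : Bool) : Bool := match a with
  | true => b
  | false => false

theorem bnd_eq {a b : Bool} (h : bnd a b = true) : a = true ∧ b = true := by
  cases a with
  | true => exact ⟨rfl, h⟩
  | false => exact Bool.noConfusion h

def chkX (p : ℕ) : Bool := bnd (Nat.ble (Nat.succ (xa p)) 2835)
  (Nat.beq (mulc cGX (mulc (tbl p) (ul (fld dHX 6 p)))) (tbl (xa p)))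
def chkY (p : ℕ) : Bool := bnd (Nat.ble (Nat.succ (ya p)) 2835)
  (Nat.beq (mulc cGY (mulc (tbl p) (ul (fld dHY 6 p)))) (tbl (ya p)))

/-- parents -/
def par (p : ℕ) : ℕ := Nat.div (fld dPT 13 p) 2
def pg (p : ℕ) : ℕ := Nat.mod (fld dPT 13 p) 2
def chkP (p : ℕ) : Bool := match Nat.beq p 0 with
  | true => Nat.beq (tbl p) cId
  | false => bnd (Nat.ble (Nat.succ (par p)) p)
      (match Nat.beq (pg p) 0 with
        | true => Nat.beq (xa (par p)) p
        | false => Nat.beq (ya (par p)) p)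

/-- the three generators of the 2-group `U` -/
def cU (j : ℕ) : ℕ := match j with
  | 0 => cU0
  | 1 => cU1
  | _ => cU2
def dUC (j : ℕ) : ℕ := match j with
  | 0 => dUC0
  | 1 => dUC1
  | _ => dUC2
def upk (k : ℕ) : ℕ := Nat.div (fld dUP 8 k) 4
def upj (k : ℕ) : ℕ := Nat.mod (fld dUP 8 k) 4
def chkU (k : ℕ) : Bool := match Nat.beq k 0 with
  | true => Nat.beq (ul k) cId
  | false => bnd (Nat.ble (Nat.succ (upk k)) k) (Nat.beq (ul k) (mulc (cU (upj k)) (ul (upk k))))
def uc (j k : ℕ) : ℕ := fld (dUC j) 6 k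
def chkUC (j k : ℕ) : Bool := Nat.beq (ul (uc j k)) (mulc (cU j) (ul k))
def sq (a : ℕ) : ℕ := mulc a a
def chkU8 (k : ℕ) : Bool := Nat.beq (sq (sq (sq (ul k)))) cId

/-- panels -/
def dPN (i : ℕ) : ℕ := match i with
  | 0 => dPN0
  | 1 => dPN1
  | _ => dPN2
def dHP (i : ℕ) : ℕ := match i with
  | 0 => dHP0
  | 1 => dHP1
  | _ => dHP2
def dKB (i : ℕ) : ℕ := match i with
  | 0 => dKB0
  | 1 => dKB1
  | _ => dKB2
def cC (i : ℕ) : ℕ := match i with
  | 0 => cC0
  | 1 => cC1
  | _ => cC2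
def cD (i : ℕ) : ℕ := match i with
  | 0 => cD0
  | 1 => cD1
  | _ => cD2
def pa (i k : ℕ) : ℕ := Nat.mod (fld (dPN i) 36 k) 4096
def pb (i k : ℕ) : ℕ := Nat.mod (Nat.div (fld (dPN i) 36 k) 4096) 4096
def pc (i k : ℕ) : ℕ := Nat.div (fld (dPN i) 36 k) 16777216
def ha (i k : ℕ) : ℕ := Nat.mod (fld (dHP i) 12 k) 64
def hb (i k : ℕ) : ℕ := Nat.div (fld (dHP i) 12 k) 64
def chkPN (i k : ℕ) : Bool :=
  bnd (Nat.ble (Nat.succ (pa i k)) 2835) (bnd (Nat.ble (Nat.succ (pb i k)) 2835)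
    (bnd (Nat.ble (Nat.succ (pc i k)) 2835)
      (bnd (Nat.beq (mulc (mulc (tbl (pa i k)) (cC i)) (ul (ha i k))) (tbl (pb i k)))
        (Nat.beq (mulc (mulc (tbl (pa i k)) (cD i)) (ul (hb i k))) (tbl (pc i k))))))
def kb (i p : ℕ) : ℕ := fld (dKB i) 12 p
def chkKB (i p : ℕ) : Bool := bnd (Nat.ble (Nat.succ (kb i p)) 945)
  (match Nat.beq (pa i (kb i p)) p with
    | true => true
    | false => match Nat.beq (pb i (kb i p)) p with
      | true => true
      | false => Nat.beq (pc i (kb i p)) p)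

/-- the action of the generators of `U` on `c_i U`, `c_i^2 U` -/
def anyU (f : ℕ → Bool) : Bool := (List.range 64).any f
def chkUCi (j i : ℕ) : Bool :=
  (anyU (fun k => Nat.beq (mulc (mulc (cU j) (cC i)) (ul k)) (cC i)) &&
    anyU (fun k => Nat.beq (mulc (mulc (cU j) (cD i)) (ul k)) (cD i))) ||
  (anyU (fun k => Nat.beq (mulc (mulc (cU j) (cC i)) (ul k)) (cD i)) &&
    anyU (fun k => Nat.beq (mulc (mulc (cU j) (cD i)) (ul k)) (cC i)))

/-- xor of `2^x` over a list, with forced accumulator -/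
def toM : List ℕ → ℕ → ℕ
  | [], m => m
  | x :: l, m => match Nat.beq m m with
    | true => toM l (Nat.xor m (Nat.shiftLeft 1 x))
    | false => 0

/-- action of words on lists of flags -/
def mp (f : ℕ → ℕ) : List ℕ → List ℕ
  | [] => []
  | x :: l => f x :: mp f l
def act (g : ℕ) (l : List ℕ) : List ℕ := match g with
  | 0 => mp xa l
  | _ => mp ya l
def actW : List ℕ → List ℕ → List ℕ
  | [], l => l
  | g :: ws, l => act g (actW ws l)
def cG (g : ℕ) : ℕ := match g with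
  | 0 => cGX
  | _ => cGY
def codeW : List ℕ → ℕ
  | [] => cId
  | g :: ws => mulc (cG g) (codeW ws)
def powc (z : ℕ) : ℕ → ℕ
  | 0 => cId
  | n + 1 => mulc z (powc z n)

/-- relation entries `e = (k*3+i)*3+w` -/
def eW (e : ℕ) : ℕ := Nat.mod e 3
def eI (e : ℕ) : ℕ := Nat.mod (Nat.div e 3) 3
def eK (e : ℕ) : ℕ := Nat.div e 9
def relE (e : ℕ) : List ℕ := match eW e with
  | 0 => [pa (eI e) (eK e), pb (eI e) (eK e)]
  | 1 => [pa (eI e) (eK e), pc (eI e) (eK e)]
  | _ => [pa (eI e) (eK e), pb (eI e) (eK e), pc (eI e) (eK e)]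
def rels : List ℕ → List ℕ
  | [] => []
  | e :: l => relE e ++ rels l
/-- `Jt`, `Jf` : bit sets of the panel types on which the function is constant / sums to zero -/
def okE (Jt Jf e : ℕ) : Bool := bnd (Nat.ble (Nat.succ (eK e)) 945)
  (match eW e with
    | 0 => Jt.testBit (eI e)
    | 1 => Jt.testBit (eI e)
    | _ => Jf.testBit (eI e))
def okL (Jt Jf : ℕ) : List ℕ → Bool
  | [] => true
  | e :: l => bnd (okE Jt Jf e) (okL Jt Jf l)
def ltL : List ℕ → Bool
  | [] => true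
  | x :: l => bnd (Nat.ble (Nat.succ x) 2835) (ltL l)

/-- check of a fixed vector of a (2,3,n)-subgroup -/
def chkK (Jt Jf : ℕ) (x y : List ℕ) (n : ℕ) (w rx ry : List ℕ) : Bool :=
  bnd (Nat.beq (powc (codeW x) 2) cId) (bnd (Nat.beq (powc (codeW y) 3) cId)
    (bnd (Nat.beq (powc (mulc (codeW x) (codeW y)) n) cId)
    (bnd (not (Nat.beq (codeW x) cId)) (bnd (ltL w) (bnd (okL Jt Jf rx) (bnd (okL Jt Jf ry)
      (bnd (Nat.beq (toM (actW x w ++ (w ++ rels rx)) 0) 0)
        (Nat.beq (toM (actW y w ++ (w ++ rels ry)) 0) 0))))))))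

/-- translates of the fixed vectors -/
def trs (w0 w1 : List ℕ) : List (ℕ × List ℕ) → List ℕ
  | [] => []
  | (k, wd) :: l => actW wd (match k with
      | 0 => w0
      | _ => w1) ++ trs w0 w1 l
def chkF (Jt Jf : ℕ) (w0 w1 : List ℕ) (tr : List (ℕ × List ℕ)) (rf : List ℕ) : Bool :=
  bnd (okL Jt Jf rf) (Nat.beq (toM (trs w0 w1 tr ++ rels rf) 0) 1)

end H66.SB
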