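import Cfsg.Agent.Lib.H66.SBLin

/-! # S4100, characteristic 2: the 0-Hecke operators; common eigenvectors -/

set_option autoImplicit false

namespace H66.SB

open Equiv

/-- the two other members of the panel of type `i` through `p` -/
def oth (i p : ℕ) : List ℕ := match Nat.beq (pa i (kb i p)) p with
  | true => [pb i (kb i p), pc i (kb i p)]
  | false => match Nat.beq (pb i (kb i p)) p with
    | true => [pa i (kb i p), pc i (kb i p)]
    | false => [pa i (kb i p), pb i (kb i p)]
def rr (i : ℕ) : List ℕ → List ℕ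
  | [] => []
  | p :: l => oth i p ++ rr i l
def fl : List ℕ → List ℕ → List ℕ
  | [], l => l
  | i :: ws, l => fl ws (rr i l)
def msk (ws : List ℕ) : ℕ := toM (fl ws [0]) 0

def Wd (k : ℕ) : List ℕ := ([[0, 1, 2, 0, 1, 0], [1, 2, 0, 1, 0], [0, 1, 2, 1, 0], [0, 1, 2, 0, 1], [2, 0, 1, 0],
  [1, 2, 1, 0], [0, 1, 2, 0], [1, 2, 0, 1], [0, 1, 2, 1], [0, 1, 0], [2, 1, 0], [1, 2, 0], [2, 0, 1], [1, 2, 1],
  [0, 1, 2], [1, 0], [2, 0], [0, 1], [2, 1], [1, 2], [0], [1], [2], []] : List (List ℕ)).getD k []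

def chkW (k i : ℕ) : Bool := Nat.beq (msk (i :: Wd k)) (msk (Wd k)) ||
  (List.range k).any (fun j => Nat.beq (msk (i :: Wd k)) (msk (Wd j)))

theorem chkW_all : all (fun k => all (chkW k) 3) 24 = true := by decide +kernel

theorem letters : all (fun k => (Wd k).all (fun i => Nat.ble (Nat.succ i) 3)) 24 = true := by decide +kernel

section

variable {V : Type*} [AddCommGroup V] [DistribMulAction A9 V]

def Tt (i : ℕ) (w : V) : V := gc i • w + (gc i * gc i) • w

theorem anyU_spec {f : ℕ → Bool} (h : anyU f = true) : ∃ k, k < 64 ∧ f k = true := by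
  unfold anyU at h
  rw [List.any_eq_true] at h
  obtain ⟨k, hk, hf⟩ := h
  exact ⟨k, List.mem_range.mp hk, hf⟩

theorem fx_of_gens {z : V} (h : ∀ j, j < 3 → gu j • z = z) : Fx z := by
  intro u hu
  have : UU ≤ MulAction.stabilizer A9 z := by
    unfold UU
    rw [Subgroup.closure_le]
    rintro x (rfl | rfl | rfl)
    · exact h 0 (by norm_num)
    · exact h 1 (by norm_num)
    · exact h 2 (by norm_num)
  exact this hu

theorem gu_mem (j : ℕ) : gu j ∈ UU := by
  match j with
  | 0 => exact Subgroup.subset_closure (Or.inl rfl)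
  | 1 => exact Subgroup.subset_closure (Or.inr (Or.inl rfl))
  | n + 2 => exact Subgroup.subset_closure (Or.inr (Or.inr (show gu (n + 2) = gu 2 from rfl)))

theorem move {w : V} (hw : Fx w) {a b : A9} {j ca cb : ℕ} (ha : code a.1 = ca) (hb : code b.1 = cb)
    (h : anyU (fun k => Nat.beq (mulc (mulc (cU j) ca) (ul k)) cb) = true) : gu j • a • w = b • w := by
  obtain ⟨k, hk, hf⟩ := anyU_spec h
  obtain ⟨u, hu, hc⟩ := ul_code k hk
  have e : gu j * a * u = b := by
    apply A9_ext
    rw [hb, ← Nat.eq_of_beq_eq_true hf, ← ha, ← hc, ← code_gu, code_mul, code_mul]; rfl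
  rw [← e, mul_smul, mul_smul, hw u hu]

theorem fx_Tt {w : V} (hw : Fx w) (i : ℕ) (hi : i < 3) : Fx (Tt i w) := by
  apply fx_of_gens
  intro j hj
  have h := all_spec (all_spec chkUCi_all j hj) i hi
  unfold chkUCi at h
  rw [Bool.or_eq_true, Bool.and_eq_true, Bool.and_eq_true] at h
  unfold Tt
  rw [smul_add]
  rcases h with ⟨h1, h2⟩ | ⟨h1, h2⟩
  · rw [move hw (code_gc i) (code_gc i) h1, move hw (code_gc2 i hi) (code_gc2 i hi) h2]
  · rw [move hw (code_gc i) (code_gc2 i hi) h1, move hw (code_gc2 i hi) (code_gc i) h2, add_comm]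

theorem kb_lt (i p : ℕ) (hi : i < 3) (hp : p < 2835) : kb i p < 945 :=
  Nat.le_of_ble_eq_true (bnd_eq (all_spec (chkKB_all i hi) p hp)).1

theorem F_Tt {z : V} (hz : Fx z) (i : ℕ) (hi : i < 3) (p : ℕ) (hp : p < 2835) :
    F (Tt i z) p = SL z (oth i p) ∧ ∀ x ∈ oth i p, x < 2835 := by
  obtain ⟨-, hk⟩ := bnd_eq (all_spec (chkKB_all i hi) p hp)
  have hT := fx_Tt hz i hi
  obtain ⟨la, lb, lc, g, ha, ⟨u, hu, hb⟩, ⟨u', hu', hc⟩⟩ := panel i (kb i p) hi (kb_lt i p hi hp)
  have Fa : F z (pa i (kb i p)) = g • z := F_eq z ha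
  have Fb : F z (pb i (kb i p)) = g • gc i • z := by rw [F_of hz hu hb, mul_smul]
  have Fc : F z (pc i (kb i p)) = g • (gc i * gc i) • z := by rw [F_of hz hu' hc, mul_smul]
  unfold oth
  cases h1 : Nat.beq (pa i (kb i p)) p with
  | true =>
    have e : pa i (kb i p) = p := Nat.eq_of_beq_eq_true h1
    refine ⟨?_, ?_⟩
    · show F (Tt i z) p = SL z [pb i (kb i p), pc i (kb i p)]
      rw [SL_cons, SL_cons, SL_nil, add_zero, Fb, Fc]
      have : F (Tt i z) p = g • Tt i z := by rw [← e]; exact F_eq _ ha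
      rw [this]; unfold Tt; rw [smul_add]
    · intro x hx
      simp only [List.mem_cons, List.not_mem_nil, or_false] at hx
      rcases hx with rfl | rfl
      · exact lb
      · exact lc
  | false =>
    rw [h1] at hk
    cases h2 : Nat.beq (pb i (kb i p)) p with
    | true =>
      have e : pb i (kb i p) = p := Nat.eq_of_beq_eq_true h2
      refine ⟨?_, ?_⟩
      · show F (Tt i z) p = SL z [pa i (kb i p), pc i (kb i p)]
        rw [SL_cons, SL_cons, SL_nil, add_zero, Fa, Fc]
        have : F (Tt i z) p = (g * gc i) • Tt i z := by rw [← e]; exact F_of hT hu hb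
        rw [this]; unfold Tt
        rw [smul_add, mul_smul, mul_smul, ← mul_smul (gc i) (gc i) z, ← mul_smul (gc i) (gc i * gc i) z,
          gc_cube i hi, one_smul, add_comm]
      · intro x hx
        simp only [List.mem_cons, List.not_mem_nil, or_false] at hx
        rcases hx with rfl | rfl
        · exact la
        · exact lc
    | false =>
      rw [h2] at hk
      have e : pc i (kb i p) = p := Nat.eq_of_beq_eq_true hk
      refine ⟨?_, ?_⟩
      · show F (Tt i z) p = SL z [pa i (kb i p), pb i (kb i p)]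
        rw [SL_cons, SL_cons, SL_nil, add_zero, Fa, Fb]
        have : F (Tt i z) p = (g * (gc i * gc i)) • Tt i z := by rw [← e]; exact F_of hT hu' hc
        rw [this]; unfold Tt
        have e1 : (gc i * gc i) * gc i = 1 := by rw [mul_assoc]; exact gc_cube i hi
        have e2 : (gc i * gc i) * (gc i * gc i) = gc i := by
          rw [← mul_assoc, e1, one_mul]
        have f1 : (g * (gc i * gc i)) • (gc i • z) = g • z := by rw [← mul_smul, mul_assoc, e1, mul_one]
        have f2 : (g * (gc i * gc i)) • ((gc i * gc i) • z) = g • gc i • z := by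
          rw [← mul_smul, mul_assoc, e2, mul_smul]
        rw [smul_add, f1, f2]
      · intro x hx
        simp only [List.mem_cons, List.not_mem_nil, or_false] at hx
        rcases hx with rfl | rfl
        · exact la
        · exact lb

theorem SL_Tt {z : V} (hz : Fx z) (i : ℕ) (hi : i < 3) : ∀ l : List ℕ, (∀ x ∈ l, x < 2835) →
    SL (Tt i z) l = SL z (rr i l) ∧ ∀ x ∈ rr i l, x < 2835
  | [], h => ⟨rfl, h⟩
  | p :: l, h => by
    obtain ⟨h1, h2⟩ := F_Tt hz i hi p (h p List.mem_cons_self)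
    obtain ⟨h3, h4⟩ := SL_Tt hz i hi l (fun z hz => h z (List.mem_cons_of_mem _ hz))
    refine ⟨?_, ?_⟩
    · rw [SL_cons, rr, SL_append, h1, h3]
    · intro x hx
      rw [rr, List.mem_append] at hx
      rcases hx with hx | hx
      · exact h2 x hx
      · exact h4 x hx

def Tw : List ℕ → V → V
  | [], u => u
  | i :: l, u => Tt i (Tw l u)

theorem fx_Tw {u : V} (hu : Fx u) : ∀ l : List ℕ, (∀ i ∈ l, i < 3) → Fx (Tw l u)
  | [], _ => hu
  | i :: l, h => fx_Tt (fx_Tw hu l (fun j hj => h j (List.mem_cons_of_mem _ hj))) i (h i List.mem_cons_self)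

theorem SL_Tw {u : V} (hu : Fx u) : ∀ (l : List ℕ), (∀ i ∈ l, i < 3) → ∀ m : List ℕ, (∀ x ∈ m, x < 2835) →
    SL (Tw l u) m = SL u (fl l m)
  | [], _, m, _ => rfl
  | i :: l, h, m, hm => by
    have h' : ∀ j ∈ l, j < 3 := fun j hj => h j (List.mem_cons_of_mem _ hj)
    obtain ⟨h1, h2⟩ := SL_Tt (fx_Tw hu l h') i (h i List.mem_cons_self) m hm
    show SL (Tt i (Tw l u)) m = SL u (fl l (rr i m))
    rw [h1, SL_Tw hu l h' _ h2]

theorem Tw_eq {u : V} (hu : Fx u) (hV : ∀ v : V, v + v = 0) {l l' : List ℕ} (h : ∀ i ∈ l, i < 3)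
    (h' : ∀ i ∈ l', i < 3) (hm : msk l = msk l') : Tw l u = Tw l' u := by
  have e : ∀ l : List ℕ, (∀ i ∈ l, i < 3) → Tw l u = SL u (fl l [0]) := by
    intro l hl
    rw [← SL_Tw hu l hl [0] (by simp), SL_cons, SL_nil, add_zero, F_zero]
  rw [e l h, e l' h']
  exact sum_eq_of_toM hV (F u) _ _ hm

theorem eigen (hV : ∀ v : V, v + v = 0)
    (h : ∀ z : V, Fx z → (∀ i, i < 3 → Tt i z = z ∨ Tt i z = 0) → z = 0) (u : V) (hu : Fx u) : u = 0 := by
  have hl : ∀ k, k < 24 → ∀ i ∈ Wd k, i < 3 := by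
    intro k hk i hi
    have := all_spec letters k hk
    rw [List.all_eq_true] at this
    exact Nat.le_of_ble_eq_true (this i hi)
  have key : ∀ k, k < 24 → Tw (Wd k) u = 0 := by
    intro k
    induction k using Nat.strong_induction_on with
    | _ k ih =>
      intro hk
      apply h _ (fx_Tw hu _ (hl k hk))
      intro i hi
      have hc := all_spec (all_spec chkW_all k hk) i hi
      have hli : ∀ j ∈ i :: Wd k, j < 3 := by
        intro j hj
        rcases List.mem_cons.mp hj with rfl | hj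
        · exact hi
        · exact hl k hk j hj
      unfold chkW at hc
      rw [Bool.or_eq_true, List.any_eq_true] at hc
      rcases hc with hc | ⟨j, hj, hc⟩
      · left
        exact Tw_eq hu hV hli (hl k hk) (Nat.eq_of_beq_eq_true hc)
      · right
        have hj' := List.mem_range.mp hj
        rw [show Tt i (Tw (Wd k) u) = Tw (i :: Wd k) u from rfl,
          Tw_eq hu hV hli (hl j (lt_trans hj' hk)) (Nat.eq_of_beq_eq_true hc), ih j hj' (lt_trans hj' hk)]
  exact key 23 (by norm_num)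

theorem typ_f {z : V} (hz : Fx z) (hV : ∀ v : V, v + v = 0) (i : ℕ) (hi : i < 3) (h : Tt i z = z) (k : ℕ)
    (hk : k < 945) : F z (pa i k) + (F z (pb i k) + F z (pc i k)) = 0 := by
  obtain ⟨-, -, -, g, ha, ⟨u, hu, hb⟩, ⟨u', hu', hc⟩⟩ := panel i k hi hk
  rw [F_eq z ha, F_of hz hu hb, F_of hz hu' hc, mul_smul, mul_smul, ← smul_add, ← smul_add]
  show g • (z + Tt i z) = 0
  rw [h, hV, smul_zero]

theorem typ_t {z : V} (hz : Fx z) (hV : ∀ v : V, v + v = 0) (i : ℕ) (hi : i < 3) (h : Tt i z = 0) (k : ℕ)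
    (hk : k < 945) : F z (pa i k) = F z (pb i k) ∧ F z (pa i k) = F z (pc i k) := by
  obtain ⟨-, -, -, g, ha, ⟨u, hu, hb⟩, ⟨u', hu', hc⟩⟩ := panel i k hi hk
  have e1 : gc i • z = (gc i * gc i) • z := by
    have : gc i • z + ((gc i * gc i) • z + (gc i * gc i) • z) = (gc i * gc i) • z := by
      rw [← add_assoc]
      show Tt i z + (gc i * gc i) • z = (gc i * gc i) • z
      rw [h, zero_add]
    rw [hV, add_zero] at this
    exact this
  have e2 : gc i • z = z := by
    rw [mul_smul] at e1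
    exact (smul_left_cancel (gc i) e1).symm
  rw [F_eq z ha, F_of hz hu hb, F_of hz hu' hc, mul_smul, mul_smul, mul_smul, e2, e2]
  exact ⟨rfl, rfl⟩

end

end H66.SB
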