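import Cfsg.Agent.Lib.H66.SBMod

/-! # S4100, characteristic 2: the function on flags defined by a vector fixed by `U` -/

set_option autoImplicit false

namespace H66.SB

open Equiv

section sums

variable {V : Type*} [AddCommGroup V]

theorem toM_cons (x : ℕ) (l : List ℕ) (m : ℕ) : toM (x :: l) m = toM l (m ^^^ (1 <<< x)) := by
  rw [toM]
  have : Nat.beq m m = true := Nat.beq_refl m
  rw [this]; rfl

theorem sum_toM (hV : ∀ v : V, v + v = 0) (f : ℕ → V) (N : ℕ) : ∀ (l : List ℕ) (m : ℕ), (∀ x ∈ l, x < N) →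
    (∑ i ∈ Finset.range N, (if (toM l m).testBit i then f i else 0)) =
      (∑ i ∈ Finset.range N, (if m.testBit i then f i else 0)) + (l.map f).sum := by
  intro l
  induction l with
  | nil => intro m _; rw [List.map_nil, List.sum_nil, add_zero]; rfl
  | cons x l ih =>
    intro m hl
    rw [toM_cons, ih _ (fun y hy => hl y (List.mem_cons_of_mem _ hy)), List.map_cons, List.sum_cons, ← add_assoc]
    congr 1
    have hx : x ∈ Finset.range N := Finset.mem_range.mpr (hl x List.mem_cons_self)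
    have key : ∀ i, (if (m ^^^ (1 <<< x)).testBit i then f i else 0) =
        (if m.testBit i then f i else 0) + (if x = i then f i else 0) := by
      intro i
      rw [Nat.testBit_xor, Nat.one_shiftLeft, Nat.testBit_two_pow]
      by_cases h1 : m.testBit i = true <;> by_cases h2 : x = i
      · simp [h1, h2, hV]
      · simp [h1, h2]
      · simp [h1, h2]
      · simp [h1, h2]
    rw [Finset.sum_congr rfl (fun i _ => key i), Finset.sum_add_distrib, Finset.sum_ite_eq, if_pos hx]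

theorem sum_eq_of_toM (hV : ∀ v : V, v + v = 0) (f : ℕ → V) (l l' : List ℕ) (h : toM l 0 = toM l' 0) :
    (l.map f).sum = (l'.map f).sum := by
  have hb : ∀ (l : List ℕ) (x : ℕ), x ∈ l → x < l.sum + 1 := fun l x hx =>
    Nat.lt_succ_of_le (List.single_le_sum (fun _ _ => Nat.zero_le _) x hx)
  have h1 := sum_toM hV f (l.sum + 1 + (l'.sum + 1)) l 0 (fun x hx => lt_of_lt_of_le (hb l x hx) (Nat.le_add_right _ _))
  have h2 := sum_toM hV f (l.sum + 1 + (l'.sum + 1)) l' 0 (fun x hx => lt_of_lt_of_le (hb l' x hx) (Nat.le_add_left _ _))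
  rw [h] at h1
  rw [h1] at h2
  exact add_left_cancel h2

end sums

section flags

variable {V : Type*} [AddCommGroup V] [DistribMulAction A9 V]

/-- the 2-group `U` -/
def UU : Subgroup A9 := Subgroup.closure ({gu 0, gu 1, gu 2} : Set A9)

/-- `w` is fixed by `U` -/
def Fx (w : V) : Prop := ∀ u ∈ UU, u • w = w

open Classical in
noncomputable def F (w : V) (p : ℕ) : V :=
  if h : ∃ g : A9, code g.1 = tbl p then h.choose • w else 0

theorem F_eq (w : V) {g : A9} {p : ℕ} (hg : code g.1 = tbl p) : F w p = g • w := by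
  have h : ∃ g : A9, code g.1 = tbl p := ⟨g, hg⟩
  unfold F
  rw [dif_pos h]
  rw [A9_ext (h.choose_spec.trans hg.symm)]

theorem F_of {w : V} (hw : Fx w) {g u : A9} (hu : u ∈ UU) {p : ℕ} (hg : code (g * u).1 = tbl p) :
    F w p = g • w := by
  rw [F_eq w hg, mul_smul, hw u hu]

theorem F_zero (w : V) : F w 0 = w := by
  have h := Nat.eq_of_beq_eq_true (all_spec chkP_all 0 (by norm_num))
  rw [F_eq w (g := 1) (code_one.trans h.symm), one_smul]

theorem xa_lt (p : ℕ) (hp : p < 2835) : xa p < 2835 :=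
  Nat.le_of_ble_eq_true (bnd_eq (all_spec chkX_all p hp)).1

theorem ya_lt (p : ℕ) (hp : p < 2835) : ya p < 2835 :=
  Nat.le_of_ble_eq_true (bnd_eq (all_spec chkY_all p hp)).1

theorem F_X {w : V} (hw : Fx w) (p : ℕ) (hp : p < 2835) : gx • F w p = F w (xa p) := by
  obtain ⟨g, hg⟩ := valid p hp
  have h3 := Nat.eq_of_beq_eq_true (bnd_eq (all_spec chkX_all p hp)).2
  obtain ⟨u, hu, hc⟩ := ul_code (fld dHX 6 p) (fld6_lt _ _)
  rw [F_eq w hg, ← mul_smul]
  refine (F_of hw hu ?_).symm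
  rw [← h3, ← hg, ← hc, ← code_gx, code_mul, code_mul, mul_assoc]; rfl

theorem F_Y {w : V} (hw : Fx w) (p : ℕ) (hp : p < 2835) : gy • F w p = F w (ya p) := by
  obtain ⟨g, hg⟩ := valid p hp
  have h3 := Nat.eq_of_beq_eq_true (bnd_eq (all_spec chkY_all p hp)).2
  obtain ⟨u, hu, hc⟩ := ul_code (fld dHY 6 p) (fld6_lt _ _)
  rw [F_eq w hg, ← mul_smul]
  refine (F_of hw hu ?_).symm
  rw [← h3, ← hg, ← hc, ← code_gy, code_mul, code_mul, mul_assoc]; rfl

theorem chkPN_all (i : ℕ) (hi : i < 3) : all (chkPN i) 945 = true := by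
  match i with
  | 0 => exact chkPN0
  | 1 => exact chkPN1
  | 2 => exact chkPN2

theorem chkKB_all (i : ℕ) (hi : i < 3) : all (chkKB i) 2835 = true := by
  match i with
  | 0 => exact chkKB0
  | 1 => exact chkKB1
  | 2 => exact chkKB2

theorem ha_lt (i k : ℕ) : ha i k < 64 := Nat.mod_lt _ (by norm_num)

theorem hb_lt (i k : ℕ) : hb i k < 64 := by
  have h : fld (dHP i) 12 k < 2 ^ 12 := fld_lt _ _ _
  exact Nat.div_lt_of_lt_mul (lt_of_lt_of_eq h (by norm_num))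

theorem panel (i k : ℕ) (hi : i < 3) (hk : k < 945) : pa i k < 2835 ∧ pb i k < 2835 ∧ pc i k < 2835 ∧
    ∃ g : A9, code g.1 = tbl (pa i k) ∧ (∃ u ∈ UU, code (g * gc i * u).1 = tbl (pb i k)) ∧
      ∃ u ∈ UU, code (g * (gc i * gc i) * u).1 = tbl (pc i k) := by
  obtain ⟨h1, h⟩ := bnd_eq (all_spec (chkPN_all i hi) k hk)
  obtain ⟨h2, h⟩ := bnd_eq h
  obtain ⟨h3, h⟩ := bnd_eq h
  obtain ⟨h4, h5⟩ := bnd_eq h
  have h1 : pa i k < 2835 := Nat.le_of_ble_eq_true h1
  have h2 : pb i k < 2835 := Nat.le_of_ble_eq_true h2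
  have h3 : pc i k < 2835 := Nat.le_of_ble_eq_true h3
  refine ⟨h1, h2, h3, ?_⟩
  obtain ⟨g, hg⟩ := valid _ h1
  obtain ⟨u, hu, hc⟩ := ul_code (ha i k) (ha_lt i k)
  obtain ⟨u', hu', hc'⟩ := ul_code (hb i k) (hb_lt i k)
  refine ⟨g, hg, ⟨u, hu, ?_⟩, ⟨u', hu', ?_⟩⟩
  · rw [← Nat.eq_of_beq_eq_true h4, ← hg, ← hc, ← code_gc, code_mul, code_mul]; rfl
  · rw [← Nat.eq_of_beq_eq_true h5, ← hg, ← hc', ← code_gc2 i hi, code_mul, code_mul]; rfl

/-- sum of the function over a list of flags -/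
noncomputable def SL (w : V) (l : List ℕ) : V := (l.map (F w)).sum

theorem SL_nil (w : V) : SL w [] = 0 := rfl
theorem SL_cons (w : V) (x : ℕ) (l : List ℕ) : SL w (x :: l) = F w x + SL w l := by
  unfold SL; rw [List.map_cons, List.sum_cons]
theorem SL_append (w : V) (l l' : List ℕ) : SL w (l ++ l') = SL w l + SL w l' := by
  unfold SL; rw [List.map_append, List.sum_append]

theorem mp_lt {f : ℕ → ℕ} (hf : ∀ p, p < 2835 → f p < 2835) : ∀ l : List ℕ, (∀ x ∈ l, x < 2835) →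
    ∀ x ∈ mp f l, x < 2835
  | [], _, x, hx => absurd hx List.not_mem_nil
  | y :: l, hl, x, hx => by
    rw [mp, List.mem_cons] at hx
    rcases hx with rfl | hx
    · exact hf y (hl y List.mem_cons_self)
    · exact mp_lt hf l (fun z hz => hl z (List.mem_cons_of_mem _ hz)) x hx

theorem act_lt (g : ℕ) (l : List ℕ) (hl : ∀ x ∈ l, x < 2835) : ∀ x ∈ act g l, x < 2835 := by
  match g with
  | 0 => exact mp_lt xa_lt l hl
  | n + 1 => exact mp_lt ya_lt l hl

theorem smul_mp {w : V} {f : ℕ → ℕ} {g : A9} (hf : ∀ p, p < 2835 → g • F w p = F w (f p)) :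
    ∀ l : List ℕ, (∀ x ∈ l, x < 2835) → g • SL w l = SL w (mp f l)
  | [], _ => by rw [mp, SL_nil, smul_zero]
  | y :: l, hl => by
    rw [mp, SL_cons, SL_cons, smul_add, hf y (hl y List.mem_cons_self),
      smul_mp hf l (fun z hz => hl z (List.mem_cons_of_mem _ hz))]

theorem smul_act {w : V} (hw : Fx w) (g : ℕ) (l : List ℕ) (hl : ∀ x ∈ l, x < 2835) :
    gg g • SL w l = SL w (act g l) := by
  match g with
  | 0 => exact smul_mp (F_X hw) l hl
  | n + 1 => exact smul_mp (F_Y hw) l hl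

theorem smul_actW {w : V} (hw : Fx w) : ∀ (wd : List ℕ) (l : List ℕ), (∀ x ∈ l, x < 2835) →
    (ev wd • SL w l = SL w (actW wd l) ∧ ∀ x ∈ actW wd l, x < 2835)
  | [], l, hl => ⟨one_smul _ _, hl⟩
  | g :: ws, l, hl => by
    obtain ⟨h1, h2⟩ := smul_actW hw ws l hl
    refine ⟨?_, act_lt g _ h2⟩
    show (gg g * ev ws) • SL w l = SL w (act g (actW ws l))
    rw [mul_smul, h1, smul_act hw g _ h2]

/-- relations of a vector of a given type -/
structure Typ (w : V) (Jt Jf : ℕ) : Prop where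
  t : ∀ i, i < 3 → Jt.testBit i = true → ∀ k, k < 945 → F w (pa i k) = F w (pb i k) ∧ F w (pa i k) = F w (pc i k)
  f : ∀ i, i < 3 → Jf.testBit i = true → ∀ k, k < 945 → F w (pa i k) + (F w (pb i k) + F w (pc i k)) = 0

theorem SL_relE (hV : ∀ v : V, v + v = 0) {w : V} {Jt Jf : ℕ} (hT : Typ w Jt Jf) (e : ℕ)
    (he : okE Jt Jf e = true) : SL w (relE e) = 0 := by
  obtain ⟨h1, h2⟩ := bnd_eq he
  have h1 : eK e < 945 := Nat.le_of_ble_eq_true h1
  have hi : eI e < 3 := Nat.mod_lt _ (by norm_num)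
  unfold relE
  match hc : eW e with
  | 0 =>
    rw [hc] at h2
    show SL w [pa (eI e) (eK e), pb (eI e) (eK e)] = 0
    rw [SL_cons, SL_cons, SL_nil, add_zero, (hT.t _ hi h2 _ h1).1, hV]
  | 1 =>
    rw [hc] at h2
    show SL w [pa (eI e) (eK e), pc (eI e) (eK e)] = 0
    rw [SL_cons, SL_cons, SL_nil, add_zero, (hT.t _ hi h2 _ h1).2, hV]
  | n + 2 =>
    rw [hc] at h2
    show SL w [pa (eI e) (eK e), pb (eI e) (eK e), pc (eI e) (eK e)] = 0
    rw [SL_cons, SL_cons, SL_cons, SL_nil, add_zero]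
    exact hT.f _ hi h2 _ h1

theorem SL_rels (hV : ∀ v : V, v + v = 0) {w : V} {Jt Jf : ℕ} (hT : Typ w Jt Jf) : ∀ l : List ℕ,
    okL Jt Jf l = true → SL w (rels l) = 0
  | [], _ => rfl
  | e :: l, h => by
    obtain ⟨h1, h2⟩ := bnd_eq h
    rw [rels, SL_append, SL_relE hV hT e h1, SL_rels hV hT l h2, add_zero]

theorem ltL_spec : ∀ l : List ℕ, ltL l = true → ∀ x ∈ l, x < 2835
  | [], _, x, hx => absurd hx List.not_mem_nil
  | y :: l, h, x, hx => by
    obtain ⟨h1, h2⟩ := bnd_eq h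
    rcases List.mem_cons.mp hx with rfl | hx
    · exact Nat.le_of_ble_eq_true h1
    · exact ltL_spec l h2 x hx

/-- no fixed vectors for (2,3,5)- and (2,3,7)-subgroups -/
def NoFix (V : Type*) [AddCommGroup V] [DistribMulAction A9 V] : Prop :=
  ∀ (x y : A9) (n : ℕ), (n = 5 ∨ n = 7) → x ^ 2 = 1 → y ^ 3 = 1 → (x * y) ^ n = 1 → x ≠ 1 →
    ∀ v : V, x • v = v → y • v = v → v = 0

theorem K_zero (hV : ∀ v : V, v + v = 0) (hN : NoFix V) {z : V} (hz : Fx z) {Jt Jf : ℕ} (hT : Typ z Jt Jf)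
    {x y : List ℕ} {n : ℕ} {w rx ry : List ℕ} (hn : n = 5 ∨ n = 7) (h : chkK Jt Jf x y n w rx ry = true) :
    SL z w = 0 ∧ ∀ p ∈ w, p < 2835 := by
  obtain ⟨h1, h⟩ := bnd_eq h
  obtain ⟨h2, h⟩ := bnd_eq h
  obtain ⟨h3, h⟩ := bnd_eq h
  obtain ⟨h4, h⟩ := bnd_eq h
  obtain ⟨h5, h⟩ := bnd_eq h
  obtain ⟨h6, h⟩ := bnd_eq h
  obtain ⟨h7, h⟩ := bnd_eq h
  obtain ⟨h8, h9⟩ := bnd_eq h
  have hw := ltL_spec w h5
  refine ⟨?_, hw⟩
  have inv : ∀ (wd r : List ℕ), okL Jt Jf r = true → toM (actW wd w ++ (w ++ rels r)) 0 = 0 →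
      ev wd • SL z w = SL z w := by
    intro wd r hr hm
    have h0 : toM (actW wd w ++ (w ++ rels r)) 0 = toM [] 0 := hm
    have e := sum_eq_of_toM hV (F z) _ _ h0
    change SL z (actW wd w ++ (w ++ rels r)) = SL z [] at e
    rw [SL_append, SL_append, SL_rels hV hT r hr, add_zero, SL_nil, ← (smul_actW hz wd w hw).1] at e
    calc ev wd • SL z w = ev wd • SL z w + (SL z w + SL z w) := by rw [hV, add_zero]
      _ = (ev wd • SL z w + SL z w) + SL z w := by rw [add_assoc]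
      _ = SL z w := by rw [e, zero_add]
  refine hN (ev x) (ev y) n hn ?_ ?_ ?_ ?_ _ (inv x rx h6 (Nat.eq_of_beq_eq_true h8))
    (inv y ry h7 (Nat.eq_of_beq_eq_true h9))
  · exact one_of_code ((code_pow (ev x) _ (code_ev x) 2).trans (Nat.eq_of_beq_eq_true h1))
  · exact one_of_code ((code_pow (ev y) _ (code_ev y) 3).trans (Nat.eq_of_beq_eq_true h2))
  · refine one_of_code ((code_pow (ev x * ev y) _ ?_ n).trans (Nat.eq_of_beq_eq_true h3))
    rw [← code_ev, ← code_ev, code_mul]; rfl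
  · intro hx
    have : codeW x = cId := by rw [← code_ev, hx]; exact code_one
    rw [this] at h4
    exact absurd h4 (by decide)

theorem SL_trs {z : V} (hz : Fx z) {w0 w1 : List ℕ} (hw0 : ∀ p ∈ w0, p < 2835) (hw1 : ∀ p ∈ w1, p < 2835)
    (h0 : SL z w0 = 0) (h1 : SL z w1 = 0) : ∀ l : List (ℕ × List ℕ), SL z (trs w0 w1 l) = 0
  | [] => rfl
  | (0, wd) :: l => by
    show SL z (actW wd w0 ++ trs w0 w1 l) = 0
    rw [SL_append, ← (smul_actW hz wd w0 hw0).1, h0, smul_zero, zero_add, SL_trs hz hw0 hw1 h0 h1 l]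
  | (n + 1, wd) :: l => by
    show SL z (actW wd w1 ++ trs w0 w1 l) = 0
    rw [SL_append, ← (smul_actW hz wd w1 hw1).1, h1, smul_zero, zero_add, SL_trs hz hw0 hw1 h0 h1 l]

theorem F_final (hV : ∀ v : V, v + v = 0) {z : V} (hz : Fx z) {Jt Jf : ℕ} (hT : Typ z Jt Jf)
    {w0 w1 : List ℕ} {tr : List (ℕ × List ℕ)} {rf : List ℕ}
    (hw0 : SL z w0 = 0 ∧ ∀ p ∈ w0, p < 2835) (hw1 : SL z w1 = 0 ∧ ∀ p ∈ w1, p < 2835)
    (h : chkF Jt Jf w0 w1 tr rf = true) : z = 0 := by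
  obtain ⟨h1, h2⟩ := bnd_eq h
  have h0 : toM (trs w0 w1 tr ++ rels rf) 0 = toM [0] 0 := (Nat.eq_of_beq_eq_true h2).trans (by decide)
  have e := sum_eq_of_toM hV (F z) _ _ h0
  change SL z (trs w0 w1 tr ++ rels rf) = SL z [0] at e
  rw [SL_append, SL_trs hz hw0.2 hw1.2 hw0.1 hw1.1, SL_rels hV hT rf h1, SL_cons, SL_nil, F_zero, add_zero,
    add_zero] at e
  exact e.symm

end flags

end H66.SB
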