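import Cfsg.Agent.Lib.H66.SBHecke
import Cfsg.Agent.Lib.H66.SBChk2
import Cfsg.Agent.Lib.H66.SADef

/-! # S4100, characteristic 2: every module for the alternating group of degree nine contains a
nonzero vector with non-solvable stabilizer -/

set_option autoImplicit false

namespace H66.SB

open Equiv

theorem comm_case {A : Type*} [CommGroup A] (a b : A) (n : ℕ) (hn : n = 5 ∨ n = 7) (ha : a ^ 2 = 1)
    (hb : b ^ 3 = 1) (hab : (a * b) ^ n = 1) : a = 1 ∧ b = 1 := by
  rw [mul_pow] at hab
  rcases hn with rfl | rfl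
  · have e1 : a ^ 5 = a := by rw [show (5 : ℕ) = 2 * 2 + 1 from rfl, pow_succ, pow_mul, ha, one_pow, one_mul]
    have e2 : b ^ 5 = b ^ 2 := by rw [show (5 : ℕ) = 3 + 2 from rfl, pow_add, hb, one_mul]
    rw [e1, e2] at hab
    -- a * b^2 = 1, so a = b
    have e3 : a = b := by
      calc a = a * (b ^ 2 * b) := by rw [← pow_succ, hb, mul_one]
        _ = (a * b ^ 2) * b := by rw [mul_assoc]
        _ = b := by rw [hab, one_mul]
    rw [e3] at ha
    have e4 : b = 1 := by
      calc b = b ^ 3 * (b ^ 2)⁻¹ := by group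
        _ = 1 := by rw [hb, ha]; simp
    exact ⟨e3.trans e4, e4⟩
  · have e1 : a ^ 7 = a := by rw [show (7 : ℕ) = 2 * 3 + 1 from rfl, pow_succ, pow_mul, ha, one_pow, one_mul]
    have e2 : b ^ 7 = b := by rw [show (7 : ℕ) = 3 * 2 + 1 from rfl, pow_succ, pow_mul, hb, one_pow, one_mul]
    rw [e1, e2] at hab
    have e3 : a = b⁻¹ := eq_inv_of_mul_eq_one_left hab
    rw [e3, inv_pow, inv_eq_one] at ha
    have e4 : b = 1 := by
      calc b = b ^ 3 * (b ^ 2)⁻¹ := by group
        _ = 1 := by rw [hb, ha]; simp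
    exact ⟨by rw [e3, e4, inv_one], e4⟩

theorem not_solvable {G : Type*} [Group G] (x y : G) (n : ℕ) (hn : n = 5 ∨ n = 7) (hx : x ^ 2 = 1)
    (hy : y ^ 3 = 1) (hxy : (x * y) ^ n = 1) (hx1 : x ≠ 1) (K : Subgroup G) (hxK : x ∈ K) (hyK : y ∈ K) :
    ¬ Group.IsSolvable K := by
  intro hs
  have hle : Subgroup.closure ({x, y} : Set G) ≤ K := by
    rw [Subgroup.closure_le]
    rintro z (rfl | rfl)
    · exact hxK
    · exact hyK
  have hxS : x ∈ Subgroup.closure ({x, y} : Set G) := Subgroup.subset_closure (Or.inl rfl)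
  have hyS : y ∈ Subgroup.closure ({x, y} : Set G) := Subgroup.subset_closure (Or.inr rfl)
  have hS : Group.IsSolvable (Subgroup.closure ({x, y} : Set G)) :=
    Group.isSolvable_of_isSolvable_injective (f := Subgroup.inclusion hle) (Subgroup.inclusion_injective hle)
  haveI : Nontrivial (Subgroup.closure ({x, y} : Set G)) :=
    ⟨⟨⟨x, hxS⟩, 1, fun h => hx1 (congrArg Subtype.val h)⟩⟩
  have hlt := Group.IsSolvable.commutator_lt_top_of_nontrivial (Subgroup.closure ({x, y} : Set G))
  refine absurd hlt (not_lt_of_ge ?_)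
  intro s _
  have q := @Abelianization.of (Subgroup.closure ({x, y} : Set G)) _
  obtain ⟨ex, ey⟩ := comm_case (Abelianization.of (⟨x, hxS⟩ : Subgroup.closure ({x, y} : Set G)))
    (Abelianization.of (⟨y, hyS⟩ : Subgroup.closure ({x, y} : Set G))) n hn
    (by rw [← map_pow]; rw [show (⟨x, hxS⟩ : Subgroup.closure ({x, y} : Set G)) ^ 2 = 1 from Subtype.ext hx, map_one])
    (by rw [← map_pow]; rw [show (⟨y, hyS⟩ : Subgroup.closure ({x, y} : Set G)) ^ 3 = 1 from Subtype.ext hy, map_one])
    (by rw [← map_mul, ← map_pow]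
        rw [show ((⟨x, hxS⟩ : Subgroup.closure ({x, y} : Set G)) * ⟨y, hyS⟩) ^ n = 1 from Subtype.ext hxy, map_one])
  have key : ∀ (g : G) (hg : g ∈ Subgroup.closure ({x, y} : Set G)),
      Abelianization.of (⟨g, hg⟩ : Subgroup.closure ({x, y} : Set G)) = 1 := by
    intro g hg
    induction hg using Subgroup.closure_induction with
    | mem z hz =>
      rcases hz with rfl | rfl
      · exact ex
      · exact ey
    | one => exact map_one _
    | mul a b ha hb iha ihb =>
      have : (⟨a * b, Subgroup.mul_mem _ ha hb⟩ : Subgroup.closure ({x, y} : Set G)) = ⟨a, ha⟩ * ⟨b, hb⟩ := rfl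
      rw [this, map_mul, iha, ihb, one_mul]
    | inv a ha iha =>
      have : (⟨a⁻¹, Subgroup.inv_mem _ ha⟩ : Subgroup.closure ({x, y} : Set G)) = (⟨a, ha⟩)⁻¹ := rfl
      rw [this, map_inv, iha, inv_one]
  have h1 : s ∈ (Abelianization.of : Subgroup.closure ({x, y} : Set G) →* _).ker := key s.1 s.2
  rwa [Abelianization.ker_of] at h1

theorem UU_pGroup : IsPGroup 2 UU := by
  rintro ⟨u, hu⟩
  refine ⟨3, ?_⟩
  apply Subtype.ext
  show u ^ (2 ^ 3) = 1
  obtain ⟨k, hk, hc⟩ := closure_code u hu
  have h := Nat.eq_of_beq_eq_true (all_spec chkU8_all k hk)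
  have e : u ^ (2 ^ 3) = ((u * u) * (u * u)) * ((u * u) * (u * u)) := by
    rw [show (2 : ℕ) ^ 3 = 2 * 2 * 2 from rfl, pow_mul, pow_mul]; simp only [pow_two]
  rw [e]
  apply one_of_code
  rw [← h, ← hc]
  unfold sq
  rw [code_mul, code_mul, code_mul]; rfl

section

variable {V : Type*} [AddCommGroup V] [DistribMulAction A9 V]

theorem exists_fx [Finite V] [Nontrivial V] (hV : ∀ v : V, v + v = 0) : ∃ u : V, Fx u ∧ u ≠ 0 := by
  have h2 : 2 ∣ Nat.card V := by
    obtain ⟨v, hv⟩ := exists_ne (0 : V)
    have : addOrderOf v = 2 := addOrderOf_eq_prime (by rw [two_nsmul, hV]) hv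
    rw [← this]
    exact addOrderOf_dvd_natCard v
  obtain ⟨b, hb, hne⟩ := UU_pGroup.exists_fixed_point_of_prime_dvd_card_of_fixed_point V h2 (a := (0 : V))
    (fun g => smul_zero g)
  exact ⟨b, fun u hu => hb ⟨u, hu⟩, fun h => hne h.symm⟩

theorem zero_of_eigen (hV : ∀ v : V, v + v = 0) (hN : NoFix V) (z : V) (hz : Fx z)
    (h : ∀ i, i < 3 → Tt i z = z ∨ Tt i z = 0) : z = 0 := by
  have mk : ∀ Jt Jf : ℕ, (∀ i, i < 3 → Jt.testBit i = true → Tt i z = 0) →
      (∀ i, i < 3 → Jf.testBit i = true → Tt i z = z) → Typ z Jt Jf := fun Jt Jf h1 h2 =>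
    ⟨fun i hi hb => typ_t hz hV i hi (h1 i hi hb), fun i hi hb => typ_f hz hV i hi (h2 i hi hb)⟩
  have s5 : (5 : ℕ) = 5 ∨ (5 : ℕ) = 7 := Or.inl rfl
  have s7 : (7 : ℕ) = 5 ∨ (7 : ℕ) = 7 := Or.inr rfl
  rcases h 0 (by norm_num) with h0 | h0 <;> rcases h 1 (by norm_num) with h1 | h1 <;>
    rcases h 2 (by norm_num) with h2 | h2
  · -- J = {}
    have T := mk 0 7 (fun i _ hb => by simp at hb) (fun i hi _ => by
      match i with
      | 0 => exact h0
      | 1 => exact h1
      | 2 => exact h2)
    have K := K_zero hV hN hz T s5 k_c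
    exact F_final hV hz T K K f_c
  · -- J = {2}
    have T := mk 4 3 (fun i hi hb => by
      match i with
      | 0 => exact absurd hb (by decide)
      | 1 => exact absurd hb (by decide)
      | 2 => exact h2) (fun i hi hb => by
      match i with
      | 0 => exact h0
      | 1 => exact h1
      | 2 => exact absurd hb (by decide))
    exact F_final hV hz T (K_zero hV hN hz T s7 k_c2) (K_zero hV hN hz T s7 k_c2') f_c2
  · -- J = {1}
    have T := mk 2 5 (fun i hi hb => by
      match i with
      | 0 => exact absurd hb (by decide)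
      | 1 => exact h1
      | 2 => exact absurd hb (by decide)) (fun i hi hb => by
      match i with
      | 0 => exact h0
      | 1 => exact absurd hb (by decide)
      | 2 => exact h2)
    have K := K_zero hV hN hz T s5 k_c1
    exact F_final hV hz T K K f_c1
  · -- J = {1,2}
    have T := mk 6 0 (fun i hi hb => by
      match i with
      | 0 => exact absurd hb (by decide)
      | 1 => exact h1
      | 2 => exact h2) (fun i hi hb => by simp at hb)
    have K := K_zero hV hN hz T s7 k_c12
    exact F_final hV hz T K K f_c12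
  · -- J = {0}
    have T := mk 1 6 (fun i hi hb => by
      match i with
      | 0 => exact h0
      | 1 => exact absurd hb (by decide)
      | 2 => exact absurd hb (by decide)) (fun i hi hb => by
      match i with
      | 0 => exact absurd hb (by decide)
      | 1 => exact h1
      | 2 => exact h2)
    exact F_final hV hz T (K_zero hV hN hz T s7 k_c0) (K_zero hV hN hz T s7 k_c0') f_c0
  · -- J = {0,2}
    have T := mk 5 2 (fun i hi hb => by
      match i with
      | 0 => exact h0
      | 1 => exact absurd hb (by decide)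
      | 2 => exact h2) (fun i hi hb => by
      match i with
      | 0 => exact absurd hb (by decide)
      | 1 => exact h1
      | 2 => exact absurd hb (by decide))
    have K := K_zero hV hN hz T s5 k_c02
    exact F_final hV hz T K K f_c02
  · -- J = {0,1}
    have T := mk 3 0 (fun i hi hb => by
      match i with
      | 0 => exact h0
      | 1 => exact h1
      | 2 => exact absurd hb (by decide)) (fun i hi hb => by simp at hb)
    have K := K_zero hV hN hz T s7 k_c01
    exact F_final hV hz T K K f_c01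
  · -- J = {0,1,2}
    have T := mk 3 0 (fun i hi hb => by
      match i with
      | 0 => exact h0
      | 1 => exact h1
      | 2 => exact absurd hb (by decide)) (fun i hi hb => by simp at hb)
    have K := K_zero hV hN hz T s7 k_c01
    exact F_final hV hz T K K f_c01

end

universe u

theorem star2 : H66.SA.Star.{u} 2 9 := by
  intro V _ _ _ hV _
  by_contra hcon
  push Not at hcon
  have hV' : ∀ v : V, v + v = 0 := fun v => by rw [← two_nsmul]; exact hV v
  have hN : NoFix V := by
    intro x y n hn hx hy hxy hx1 v hxv hyv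
    by_contra hv
    exact not_solvable x y n hn hx hy hxy hx1 (MulAction.stabilizer A9 v) hxv hyv (hcon v hv)
  obtain ⟨u, hu, hne⟩ := exists_fx hV'
  exact hne (eigen hV' (zero_of_eigen hV' hN) u hu)

end H66.SB
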