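import Cfsg.Agent.Lib.H66.SBChk1

/-! # S4100, characteristic 2: codes and permutations -/

set_option autoImplicit false

namespace H66.SB

open Equiv

abbrev A9 := alternatingGroup (Fin 9)

/-- the code of a permutation of nine points -/
def code (g : Perm (Fin 9)) : ℕ :=
  Nat.add ((g 0 : Fin 9) : ℕ) (Nat.add (Nat.mul 0x10 ((g 1 : Fin 9) : ℕ))
    (Nat.add (Nat.mul 0x100 ((g 2 : Fin 9) : ℕ)) (Nat.add (Nat.mul 0x1000 ((g 3 : Fin 9) : ℕ))
    (Nat.add (Nat.mul 0x10000 ((g 4 : Fin 9) : ℕ)) (Nat.add (Nat.mul 0x100000 ((g 5 : Fin 9) : ℕ))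
    (Nat.add (Nat.mul 0x1000000 ((g 6 : Fin 9) : ℕ)) (Nat.add (Nat.mul 0x10000000 ((g 7 : Fin 9) : ℕ))
      (Nat.mul 0x100000000 ((g 8 : Fin 9) : ℕ)))))))))

theorem get_aux (a0 a1 a2 a3 a4 a5 a6 a7 a8 : ℕ) (h0 : a0 < 16) (h1 : a1 < 16) (h2 : a2 < 16)
    (h3 : a3 < 16) (h4 : a4 < 16) (h5 : a5 < 16) (h6 : a6 < 16) (h7 : a7 < 16) (h8 : a8 < 16)
    (N : ℕ) (hN : N = a0 + (0x10 * a1 + (0x100 * a2 + (0x1000 * a3 + (0x10000 * a4 + (0x100000 * a5 +
      (0x1000000 * a6 + (0x10000000 * a7 + 0x100000000 * a8)))))))) :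
    get N 0 = a0 ∧ get N 1 = a1 ∧ get N 2 = a2 ∧ get N 3 = a3 ∧ get N 4 = a4 ∧ get N 5 = a5 ∧
      get N 6 = a6 ∧ get N 7 = a7 ∧ get N 8 = a8 := by
  have key : ∀ k, get N k = N / 2 ^ (4 * k) % 16 := fun k => by
    show (N >>> (4 * k)) % 16 = _
    rw [Nat.shiftRight_eq_div_pow]
  refine ⟨?_, ?_, ?_, ?_, ?_, ?_, ?_, ?_, ?_⟩ <;> rw [key] <;> norm_num <;> omega

theorem get_code (g : Perm (Fin 9)) (i : Fin 9) : get (code g) (i : ℕ) = ((g i : Fin 9) : ℕ) := by
  have hb : ∀ j : Fin 9, ((g j : Fin 9) : ℕ) < 16 := fun j => lt_trans (g j).2 (by norm_num)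
  obtain ⟨e0, e1, e2, e3, e4, e5, e6, e7, e8⟩ := get_aux _ _ _ _ _ _ _ _ _ (hb 0) (hb 1) (hb 2) (hb 3)
    (hb 4) (hb 5) (hb 6) (hb 7) (hb 8) (code g) rfl
  fin_cases i
  · exact e0
  · exact e1
  · exact e2
  · exact e3
  · exact e4
  · exact e5
  · exact e6
  · exact e7
  · exact e8

theorem code_inj {g h : Perm (Fin 9)} (e : code g = code h) : g = h := by
  ext i
  rw [← get_code g i, e, get_code]

theorem code_mul (g h : Perm (Fin 9)) : mulc (code g) (code h) = code (g * h) := by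
  have e : ∀ i : Fin 9, get (code g) (get (code h) (i : ℕ)) = (((g * h) i : Fin 9) : ℕ) := fun i => by
    rw [get_code h i, get_code g (h i)]; rfl
  unfold mulc
  have e0 := e 0
  have e1 := e 1
  have e2 := e 2
  have e3 := e 3
  have e4 := e 4
  have e5 := e 5
  have e6 := e 6
  have e7 := e 7
  have e8 := e 8
  have z0 : ((0 : Fin 9) : ℕ) = 0 := rfl
  have z1 : ((1 : Fin 9) : ℕ) = 1 := rfl
  have z2 : ((2 : Fin 9) : ℕ) = 2 := rfl
  have z3 : ((3 : Fin 9) : ℕ) = 3 := rfl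
  have z4 : ((4 : Fin 9) : ℕ) = 4 := rfl
  have z5 : ((5 : Fin 9) : ℕ) = 5 := rfl
  have z6 : ((6 : Fin 9) : ℕ) = 6 := rfl
  have z7 : ((7 : Fin 9) : ℕ) = 7 := rfl
  have z8 : ((8 : Fin 9) : ℕ) = 8 := rfl
  rw [z0] at e0
  rw [z1] at e1
  rw [z2] at e2
  rw [z3] at e3
  rw [z4] at e4
  rw [z5] at e5
  rw [z6] at e6
  rw [z7] at e7
  rw [z8] at e8
  rw [e0, e1, e2, e3, e4, e5, e6, e7, e8]
  rfl

theorem code_one : code 1 = cId := by decide

theorem fld_lt (T w p : ℕ) : fld T w p < 2 ^ w := Nat.mod_lt _ (Nat.two_pow_pos w)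

theorem fld6_lt (T p : ℕ) : fld T 6 p < 64 := lt_of_lt_of_eq (fld_lt T 6 p) (by norm_num)

def gx : A9 := ⟨finRotate 9, by
  rw [Perm.mem_alternatingGroup, sign_finRotate]; rfl⟩

def gy : A9 := ⟨swap 6 7 * swap 7 8, by
  rw [Perm.mem_alternatingGroup, map_mul, Perm.sign_swap (by decide), Perm.sign_swap (by decide)]; rfl⟩

theorem code_gx : code gx.1 = cGX := by decide
theorem code_gy : code gy.1 = cGY := by decide

def gg (g : ℕ) : A9 := match g with
  | 0 => gx
  | _ => gy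

def ev : List ℕ → A9
  | [] => 1
  | g :: ws => gg g * ev ws

theorem code_gg (g : ℕ) : code (gg g).1 = cG g := by
  cases g with
  | zero => exact code_gx
  | succ n => exact code_gy

theorem code_ev : ∀ w : List ℕ, code (ev w).1 = codeW w
  | [] => code_one
  | g :: ws => by
    show code ((gg g).1 * (ev ws).1) = mulc (cG g) (codeW ws)
    rw [← code_mul, code_gg, code_ev ws]

theorem code_pow (z : A9) (c : ℕ) (hc : code z.1 = c) : ∀ n : ℕ, code (z ^ n).1 = powc c n
  | 0 => by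
    rw [pow_zero]; exact code_one
  | n + 1 => by
    rw [pow_succ']
    show code (z.1 * (z ^ n).1) = mulc c (powc c n)
    rw [← code_mul, hc, code_pow z c hc n]

theorem A9_ext {g h : A9} (e : code g.1 = code h.1) : g = h := Subtype.ext (code_inj e)

theorem one_of_code {g : A9} (e : code g.1 = cId) : g = 1 := A9_ext (e.trans code_one.symm)

/-! ### the 2-group `U` -/

def gu (j : ℕ) : A9 := match j with
  | 0 => ev wU0
  | 1 => ev wU1
  | _ => ev wU2

def gc (i : ℕ) : A9 := match i with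
  | 0 => ev wC0
  | 1 => ev wC1
  | _ => ev wC2

theorem code_gu (j : ℕ) : code (gu j).1 = cU j := by
  obtain ⟨-, h⟩ := bnd_eq chkCU
  obtain ⟨-, h⟩ := bnd_eq h
  obtain ⟨-, h⟩ := bnd_eq h
  obtain ⟨h0, h⟩ := bnd_eq h
  obtain ⟨h1, h2⟩ := bnd_eq h
  match j with
  | 0 => exact (code_ev _).trans (Nat.eq_of_beq_eq_true h0)
  | 1 => exact (code_ev _).trans (Nat.eq_of_beq_eq_true h1)
  | n + 2 => exact (code_ev _).trans (Nat.eq_of_beq_eq_true h2)

theorem code_gc (j : ℕ) : code (gc j).1 = cC j := by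
  obtain ⟨h0, h⟩ := bnd_eq chkCU
  obtain ⟨h1, h⟩ := bnd_eq h
  obtain ⟨h2, h⟩ := bnd_eq h
  match j with
  | 0 => exact (code_ev _).trans (Nat.eq_of_beq_eq_true h0)
  | 1 => exact (code_ev _).trans (Nat.eq_of_beq_eq_true h1)
  | n + 2 => exact (code_ev _).trans (Nat.eq_of_beq_eq_true h2)

theorem cCD (i : ℕ) (hi : i < 3) : mulc (cC i) (cC i) = cD i ∧ mulc (cC i) (cD i) = cId := by
  obtain ⟨h1, h2⟩ := bnd_eq (all_spec chkCD i hi)
  exact ⟨Nat.eq_of_beq_eq_true h1, Nat.eq_of_beq_eq_true h2⟩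

theorem code_gc2 (i : ℕ) (hi : i < 3) : code (gc i * gc i).1 = cD i := by
  rw [← (cCD i hi).1, ← code_gc, code_mul]; rfl

theorem gc_cube (i : ℕ) (hi : i < 3) : gc i * (gc i * gc i) = 1 := by
  apply one_of_code
  rw [← (cCD i hi).2, ← code_gc, ← code_gc2 i hi, code_mul]; rfl

/-- every `ul k` is the code of an element of the group generated by the `gu j` -/
theorem ul_code : ∀ k : ℕ, k < 64 → ∃ u ∈ Subgroup.closure ({gu 0, gu 1, gu 2} : Set A9), code u.1 = ul k := by
  intro k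
  induction k using Nat.strong_induction_on with
  | _ k ih =>
    intro hk
    have h := all_spec chkU_all k hk
    unfold chkU at h
    cases hb : Nat.beq k 0 with
    | true =>
      rw [hb] at h
      exact ⟨1, Subgroup.one_mem _, code_one.trans (Nat.eq_of_beq_eq_true h).symm⟩
    | false =>
      rw [hb] at h
      obtain ⟨h1, h2⟩ := bnd_eq h
      have h1' : upk k < k := Nat.le_of_ble_eq_true h1
      obtain ⟨u, hu, hc⟩ := ih (upk k) h1' (lt_trans h1' hk)
      refine ⟨gu (upj k) * u, Subgroup.mul_mem _ ?_ hu, ?_⟩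
      · match upj k with
        | 0 => exact Subgroup.subset_closure (Or.inl rfl)
        | 1 => exact Subgroup.subset_closure (Or.inr (Or.inl rfl))
        | n + 2 => exact Subgroup.subset_closure (Or.inr (Or.inr (show gu (n + 2) = gu 2 from rfl)))
      · rw [Nat.eq_of_beq_eq_true h2, ← hc, ← code_gu, code_mul]; rfl

theorem closure_code (u : A9) (hu : u ∈ Subgroup.closure ({gu 0, gu 1, gu 2} : Set A9)) :
    ∃ k, k < 64 ∧ code u.1 = ul k := by
  have hmul : ∀ j, j < 3 → ∀ u : A9, (∃ k, k < 64 ∧ code u.1 = ul k) → ∃ k, k < 64 ∧ code (gu j * u).1 = ul k := by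
    rintro j hj u ⟨k, hk, hc⟩
    have h := Nat.eq_of_beq_eq_true (all_spec (all_spec chkUC_all j hj) k hk)
    refine ⟨uc j k, fld6_lt _ _, ?_⟩
    rw [h, ← hc, ← code_gu, code_mul]; rfl
  -- work in the monoid: the group is finite
  have hfin : ∀ u ∈ Submonoid.closure ({gu 0, gu 1, gu 2} : Set A9), ∃ k, k < 64 ∧ code u.1 = ul k := by
    intro u hu
    induction hu using Submonoid.closure_induction_left with
    | one =>
      refine ⟨0, by norm_num, ?_⟩
      have h := all_spec chkU_all 0 (by norm_num)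
      exact code_one.trans (Nat.eq_of_beq_eq_true h).symm
    | mul_left x hx y hy ih =>
      rcases hx with rfl | rfl | rfl
      · exact hmul 0 (by norm_num) y ih
      · exact hmul 1 (by norm_num) y ih
      · exact hmul 2 (by norm_num) y ih
  apply hfin
  rw [← Subgroup.mem_toSubmonoid, Subgroup.closure_toSubmonoid_of_finite] at hu
  exact hu

/-! ### the table of coset representatives -/

theorem valid : ∀ p : ℕ, p < 2835 → ∃ g : A9, code g.1 = tbl p := by
  intro p
  induction p using Nat.strong_induction_on with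
  | _ p ih =>
    intro hp
    have h := all_spec chkP_all p hp
    unfold chkP at h
    cases hb : Nat.beq p 0 with
    | true =>
      rw [hb] at h
      exact ⟨1, code_one.trans (Nat.eq_of_beq_eq_true h).symm⟩
    | false =>
      rw [hb] at h
      obtain ⟨h1, h2⟩ := bnd_eq h
      have h1' : par p < p := Nat.le_of_ble_eq_true h1
      obtain ⟨g, hg⟩ := ih (par p) h1' (lt_trans h1' hp)
      cases hc : Nat.beq (pg p) 0 with
      | true =>
        rw [hc] at h2
        have e : xa (par p) = p := Nat.eq_of_beq_eq_true h2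
        obtain ⟨-, h3⟩ := bnd_eq (all_spec chkX_all (par p) (lt_trans h1' hp))
        have h3' := Nat.eq_of_beq_eq_true h3
        obtain ⟨u, -, hu⟩ := ul_code (fld dHX 6 (par p)) (fld6_lt _ _)
        refine ⟨gx * (g * u), ?_⟩
        rw [← e, ← h3', ← hg, ← hu, ← code_gx, code_mul, code_mul]; rfl
      | false =>
        rw [hc] at h2
        have e : ya (par p) = p := Nat.eq_of_beq_eq_true h2
        obtain ⟨-, h3⟩ := bnd_eq (all_spec chkY_all (par p) (lt_trans h1' hp))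
        have h3' := Nat.eq_of_beq_eq_true h3
        obtain ⟨u, -, hu⟩ := ul_code (fld dHY 6 (par p)) (fld6_lt _ _)
        refine ⟨gy * (g * u), ?_⟩
        rw [← e, ← h3', ← hg, ← hu, ← code_gy, code_mul, code_mul]; rfl

end H66.SB
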